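import Cfsg.Agent.H69.Basic
import Cfsg.Prelude.Def_Transfer

/-!
# Counting elements whose class size is prime to `p` (helper69)
-/

set_option autoImplicit false
set_option linter.style.haveILetI false
set_option linter.unusedSectionVars false

namespace Cfsg.Agent.H69

open Subgroup
open scoped Pointwise

variable {G : Type*} [Group G] [Finite G]

theorem exists_conj_mem_centralizer_sylow {p : ℕ} [Fact p.Prime] (P : Sylow p G) {g : G}
    (h : ¬ p ∣ (centralizer ({g} : Set G)).index) :
    ∃ x : G, x * g * x⁻¹ ∈ centralizer ((P : Subgroup G) : Set G) := by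
  obtain ⟨Q, hQ⟩ := exists_sylow_le_of_not_dvd_index h
  obtain ⟨x, hx⟩ := MulAction.exists_smul_eq G Q P
  refine ⟨x, ?_⟩
  rw [mem_centralizer_iff]
  intro y hy
  have hy2 : y ∈ (x • Q : Sylow p G) := by rw [hx]; exact hy
  rw [Sylow.smul_def] at hy2
  have hy3 : y ∈ MulAut.conj x • (Q : Subgroup G) := hy2
  obtain ⟨z, hz, rfl⟩ := Subgroup.mem_map.mp hy3
  have hz2 := mem_cent_singleton.mp (hQ hz)
  show x * z * x⁻¹ * (x * g * x⁻¹) = x * g * x⁻¹ * (x * z * x⁻¹)
  calc x * z * x⁻¹ * (x * g * x⁻¹) = x * (z * g) * x⁻¹ := by group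
    _ = x * (g * z) * x⁻¹ := by rw [hz2]
    _ = _ := by group

theorem normalizer_conj_centralizer (P : Subgroup G) :
    ∀ n ∈ normalizer (P : Set G), ∀ c ∈ centralizer (P : Set G), n * c * n⁻¹ ∈ centralizer (P : Set G) := by
  intro n hn c hc
  rw [mem_centralizer_iff] at hc ⊢
  intro y hy
  have h1 : n⁻¹ * y * n ∈ P := by
    have := (Subgroup.mem_normalizer_iff''.mp hn y).mp hy
    exact this
  have h2 := hc _ h1
  calc y * (n * c * n⁻¹) = n * ((n⁻¹ * y * n) * c) * n⁻¹ := by group
    _ = n * (c * (n⁻¹ * y * n)) * n⁻¹ := by rw [h2]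
    _ = _ := by group

/-- The number of elements with class size prime to `p`. -/
theorem card_not_dvd_le {p : ℕ} [Fact p.Prime] (P : Sylow p G) :
    Nat.card {g : G // ¬ p ∣ (centralizer ({g} : Set G)).index} ≤
      (normalizer ((P : Subgroup G) : Set G)).index *
        (Nat.card (centralizer ((P : Subgroup G) : Set G)) - 1) + 1 := by
  refine le_trans ?_ (card_conj_into_le _ _ (normalizer_conj_centralizer (P : Subgroup G)))
  refine Nat.card_le_card_of_injective
    (fun g => (⟨g.1, exists_conj_mem_centralizer_sylow P g.2⟩ :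
      {g : G // ∃ x : G, x * g * x⁻¹ ∈ centralizer ((P : Subgroup G) : Set G)})) ?_
  intro a b hab
  exact Subtype.ext (congrArg (fun t => t.1) hab)

/-- If `N_G(P) ≰ C_G(P)` then at most half of the elements have class size prime to `p`. -/
theorem two_mul_card_not_dvd_le {p : ℕ} [Fact p.Prime] (P : Sylow p G)
    (h : ¬ normalizer ((P : Subgroup G) : Set G) ≤ centralizer ((P : Subgroup G) : Set G)) :
    2 * Nat.card {g : G // ¬ p ∣ (centralizer ({g} : Set G)).index} ≤ Nat.card G := by
  have h1 := card_not_dvd_le P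
  set N := normalizer ((P : Subgroup G) : Set G) with hN
  set C := centralizer ((P : Subgroup G) : Set G) with hC
  have hCN : C ≤ N := centralizer_le_normalizer _
  have h2 : 2 * Nat.card C ≤ Nat.card N := by
    obtain ⟨k, hk⟩ := Subgroup.card_dvd_of_le hCN
    have hk0 : k ≠ 0 := by rintro rfl; simp at hk; exact Nat.card_pos.ne' hk
    have hk1 : k ≠ 1 := by
      rintro rfl
      rw [mul_one] at hk
      exact h (Subgroup.eq_of_le_of_card_ge hCN hk.le).ge
    have : 2 ≤ k := by omega
    rw [hk, mul_comm]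
    exact Nat.mul_le_mul_left _ this
  have h3 := N.card_mul_index
  have h4 : 0 < N.index := Nat.pos_of_ne_zero N.index_ne_zero_of_finite
  have h5 : 0 < Nat.card C := Nat.card_pos
  obtain ⟨c, hc⟩ : ∃ c, Nat.card C = c + 1 := ⟨Nat.card C - 1, by omega⟩
  rw [hc] at h1 h2
  simp only [Nat.add_sub_cancel] at h1
  have h6 : 2 * (c + 1) * N.index ≤ Nat.card G := by
    rw [← h3]; exact Nat.mul_le_mul_right _ h2
  nlinarith

/-- dichotomy. -/
theorem normalPComplement_or_card {p : ℕ} [Fact p.Prime] :
    Cfsg.HasNormalPComplement p G ∨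
      2 * Nat.card {g : G // ¬ p ∣ (centralizer ({g} : Set G)).index} ≤ Nat.card G := by
  obtain ⟨P⟩ : Nonempty (Sylow p G) := inferInstance
  by_cases h : normalizer ((P : Subgroup G) : Set G) ≤ centralizer ((P : Subgroup G) : Set G)
  · left
    exact ⟨P, (MonoidHom.transferSylow P h).ker, inferInstance,
      MonoidHom.ker_transferSylow_isComplement' P h⟩
  · right
    exact two_mul_card_not_dvd_le P h

end Cfsg.Agent.H69
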