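import Mathlib
import Cfsg.Agent.SigF.PC
import Cfsg.Agent.H36.PConstr
import Cfsg.Agent.Solv.Core

/-!
# Constrained groups with abelian Sylow subgroups (helper69)
-/

set_option autoImplicit false

namespace Cfsg.Agent.H69

open Subgroup Cfsg

/-- a `p`-constrained group with abelian Sylow `p`-subgroup `P` is `O_{p'}(X) N(P)`. -/
theorem core_sup_normalizer_of_constrained {X : Type*} [Group X] [Finite X] {p : ℕ} [Fact p.Prime]
    (hX : IsPConstrained p X) (P : Sylow p X) (hP : ∀ x ∈ (P : Subgroup X), ∀ y ∈ (P : Subgroup X), x * y = y * x) :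
    pPrimeCore p X ⊔ normalizer ((P : Subgroup X) : Set X) = ⊤ := by
  classical
  have h1 := Cfsg.Agent.H36.PConstr.isPConstrained_iff.1 hX
  set N := pPrimeCore p X with hN
  set f := QuotientGroup.mk' N with hf
  have hfs : Function.Surjective f := QuotientGroup.mk'_surjective N
  -- the image of `P` is the core
  have hle : pCore p (X ⧸ N) ≤ (P : Subgroup X).map f :=
    Solv.pCore_le_sylow (P.mapSurjective hfs)
  have hge : (P : Subgroup X).map f ≤ pCore p (X ⧸ N) := by
    refine le_trans ?_ h1
    rintro _ ⟨x, hx, rfl⟩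
    rw [mem_centralizer_iff]
    intro y hy
    obtain ⟨z, hz, rfl⟩ := hle hy
    rw [← map_mul, ← map_mul, hP x hx z hz]
  have heq : (P : Subgroup X).map f = pCore p (X ⧸ N) := le_antisymm hge hle
  haveI hcn : (pCore p (X ⧸ N)).Normal := by
    have : ∀ {Y : Type _} [Group Y], (pCore p Y).Normal := by
      intro Y _
      exact inferInstance
    exact this
  have hM : N ⊔ (P : Subgroup X) = (pCore p (X ⧸ N)).comap f := by
    rw [← heq, comap_map_eq, QuotientGroup.ker_mk', sup_comm]
  haveI : (N ⊔ (P : Subgroup X)).Normal := by rw [hM]; infer_instance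
  have h2 := Sylow.normalizer_sup_eq_top' P (N := N ⊔ (P : Subgroup X)) le_sup_right
  rw [eq_top_iff, ← h2]
  refine sup_le le_sup_right (sup_le le_sup_left (le_trans le_normalizer le_sup_right))

end Cfsg.Agent.H69
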