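import Mathlib.GroupTheory.Nilpotent
import Mathlib.GroupTheory.SchurZassenhaus
import Cfsg.Agent.H69.Orbit
import Cfsg.Agent.Transfer.Residual

/-!
# Counting conjugacy classes of π-elements (helper69)

`kk σ G` is the number of conjugacy classes of `σ`-elements, written as a sum over elements.
-/

set_option autoImplicit false
set_option linter.style.haveILetI false
set_option linter.unusedSectionVars false

namespace Cfsg.Agent.H69

open Subgroup

universe u

/-- `x` is a `σ`-element -/
def IsEl {X : Type*} [Group X] (σ : Finset ℕ) (x : X) : Prop :=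
  ∀ q : ℕ, q.Prime → q ∣ orderOf x → q ∈ σ

section El

variable {X : Type*} [Group X] {σ τ : Finset ℕ} {x y : X}

theorem IsEl.mono (h : IsEl σ x) (hst : σ ⊆ τ) : IsEl τ x := fun q hq hd => hst (h q hq hd)

theorem isEl_one : IsEl σ (1 : X) := by
  intro q hq hd
  rw [orderOf_one] at hd
  exact absurd (Nat.le_of_dvd one_pos hd) (by have := hq.two_le; omega)

theorem IsEl.of_dvd (h : IsEl σ x) (hd : orderOf y ∣ orderOf x) : IsEl σ y :=
  fun q hq hq' => h q hq (hq'.trans hd)

theorem IsEl.inv (h : IsEl σ x) : IsEl σ x⁻¹ := by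
  intro q hq hd; rw [orderOf_inv] at hd; exact h q hq hd

theorem IsEl.mul (hxy : Commute x y) (hx : IsEl σ x) (hy : IsEl σ y) : IsEl σ (x * y) := by
  intro q hq hd
  have h1 : q ∣ orderOf x * orderOf y := hd.trans hxy.orderOf_mul_dvd_mul_orderOf
  rcases (Nat.Prime.dvd_mul hq).mp h1 with h | h
  · exact hx q hq h
  · exact hy q hq h

theorem IsEl.conj (h : IsEl σ x) (g : X) : IsEl σ (g * x * g⁻¹) := by
  intro q hq hd
  have : orderOf (g * x * g⁻¹) = orderOf x := by
    have := orderOf_injective (MulAut.conj g).toMonoidHom (MulAut.conj g).injective x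
    simpa using this
  rw [this] at hd
  exact h q hq hd

theorem isEl_conj_iff (g : X) : IsEl σ (g * x * g⁻¹) ↔ IsEl σ x := by
  refine ⟨fun h => ?_, fun h => h.conj g⟩
  have := h.conj g⁻¹
  have e : g⁻¹ * (g * x * g⁻¹) * g⁻¹⁻¹ = x := by group
  rwa [e] at this

theorem IsEl.coprime (hx : IsEl σ x) (hy : IsEl τ y) (hd : Disjoint σ τ) :
    (orderOf x).Coprime (orderOf y) := by
  apply Nat.Coprime.symm
  apply Nat.coprime_of_dvd
  intro q hq h1 h2
  exact Finset.disjoint_left.mp hd (hx q hq h2) (hy q hq h1)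

theorem IsEl.eq_one (hx : IsEl σ x) (hy : IsEl τ x) (hd : Disjoint σ τ) : x = 1 := by
  have h := hx.coprime hy hd
  rw [Nat.coprime_self] at h
  exact orderOf_eq_one_iff.mp h

theorem isEl_coe {S : Subgroup X} {s : S} : IsEl σ (s : X) ↔ IsEl σ s := by
  unfold IsEl; rw [Subgroup.orderOf_coe]

/-- decomposition of an element -/
theorem exists_decomp [Finite X] {q : ℕ} [hq : Fact q.Prime] {z : X}
    (hz : IsEl (insert q σ) z) :
    ∃ y x : X, IsEl {q} y ∧ IsEl σ x ∧ y * x = x * y ∧ y * x = z := by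
  obtain ⟨a, b, hab, ⟨k, hk⟩, hb⟩ := Transfer.exists_pow_decomp q z (orderOf_pos z).ne'
  refine ⟨z ^ a, z ^ b, ?_, ?_, ?_, hab.symm⟩
  · intro r hr hd
    rw [hk] at hd
    rw [Finset.mem_singleton]
    exact (Nat.prime_dvd_prime_iff_eq hr hq.out).mp (hr.dvd_of_dvd_pow hd)
  · intro r hr hd
    have h1 := hz r hr (hd.trans (orderOf_pow_dvd b))
    rcases Finset.mem_insert.mp h1 with h | h
    · exfalso
      rw [h] at hd
      have := Nat.dvd_gcd hd (dvd_refl q)
      rw [hb] at this
      exact hq.out.one_lt.ne' (Nat.dvd_one.mp this)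
    · exact h
  · rw [← pow_add, ← pow_add, add_comm]

end El

/-- the reciprocal of the size of the conjugacy class of `x` -/
noncomputable def wt {X : Type*} [Group X] (x : X) : ℚ :=
  (Nat.card (centralizer ({x} : Set X)) : ℚ) / Nat.card X

open Classical in
/-- the set of `σ`-elements -/
noncomputable def elts (σ : Finset ℕ) (X : Type*) [Group X] [Finite X] : Finset X :=
  letI := Fintype.ofFinite X
  Finset.univ.filter (fun x : X => IsEl σ x)

/-- the number of classes of `σ`-elements -/
noncomputable def kk (σ : Finset ℕ) (X : Type*) [Group X] [Finite X] : ℚ :=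
  ∑ x ∈ elts σ X, wt x

section Counting

variable {X : Type*} [Group X] [Finite X] {σ τ : Finset ℕ}

theorem mem_elts {x : X} : x ∈ elts σ X ↔ IsEl σ x := by
  simp [elts]

theorem wt_pos (x : X) : 0 < wt x := by
  unfold wt
  have h1 : (0 : ℚ) < Nat.card (centralizer ({x} : Set X)) := by exact_mod_cast Nat.card_pos
  have h2 : (0 : ℚ) < Nat.card X := by exact_mod_cast Nat.card_pos
  positivity

theorem kk_nonneg : 0 ≤ kk σ X := Finset.sum_nonneg fun x _ => (wt_pos x).le

open Classical in
/-- the number of classes of σ-elements in a subgroup, as a sum over the group -/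
theorem kk_subgroup (S : Subgroup X) : kk σ S = ∑ x ∈ (elts σ X).filter (fun x => x ∈ S),
    (Nat.card (centralizer ({x} : Set X) ⊓ S : Subgroup X) : ℚ) / Nat.card S := by
  classical
  unfold kk
  refine Finset.sum_bij (fun (s : S) _ => (s : X)) ?_ ?_ ?_ ?_
  · intro s hs
    rw [Finset.mem_filter, mem_elts, isEl_coe]
    exact ⟨mem_elts.mp hs, s.2⟩
  · intro a _ b _ h; exact Subtype.ext h
  · intro x hx
    rw [Finset.mem_filter, mem_elts] at hx
    exact ⟨⟨x, hx.2⟩, mem_elts.mpr (isEl_coe.mp hx.1), rfl⟩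
  · intro s _
    unfold wt
    congr 2
    have : centralizer ({(s : X)} : Set X) ⊓ S = (centralizer ({s} : Set S)).map S.subtype := by
      ext g
      rw [mem_inf, mem_cent_singleton, mem_map]
      constructor
      · rintro ⟨h1, h2⟩
        exact ⟨⟨g, h2⟩, mem_cent_singleton.mpr (Subtype.ext h1), rfl⟩
      · rintro ⟨g, hg, rfl⟩
        exact ⟨congrArg Subtype.val (mem_cent_singleton.mp hg), g.2⟩
    rw [this, card_map_of_injective S.subtype_injective]

/-- the recursion formula -/
theorem kk_rec {σ₁ σ₂ : Finset ℕ} (h1 : σ₁ ⊆ σ) (h2 : σ₂ ⊆ σ) (hd : Disjoint σ₁ σ₂)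
    (hdec : ∀ z : X, IsEl σ z → ∃ y x : X, IsEl σ₁ y ∧ IsEl σ₂ x ∧ y * x = x * y ∧ y * x = z) :
    kk σ X = ∑ y ∈ elts σ₁ X, wt y * kk σ₂ (centralizer ({y} : Set X)) := by
  classical
  have hX : (Nat.card X : ℚ) ≠ 0 := by exact_mod_cast Nat.card_pos.ne'
  have hR : ∀ y : X, wt y * kk σ₂ (centralizer ({y} : Set X)) =
      ∑ x ∈ (elts σ₂ X).filter (fun x => x ∈ centralizer ({y} : Set X)),
        (Nat.card (centralizer ({x} : Set X) ⊓ centralizer ({y} : Set X) : Subgroup X) : ℚ) /
          Nat.card X := by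
    intro y
    rw [kk_subgroup, Finset.mul_sum]
    refine Finset.sum_congr rfl fun x _ => ?_
    unfold wt
    have : (Nat.card (centralizer ({y} : Set X)) : ℚ) ≠ 0 := by exact_mod_cast Nat.card_pos.ne'
    field_simp
  rw [Finset.sum_congr rfl fun y _ => hR y, Finset.sum_sigma']
  symm
  unfold kk
  refine Finset.sum_bij (fun (p : (_ : X) × X) _ => p.1 * p.2) ?_ ?_ ?_ ?_
  · rintro ⟨y, x⟩ hp
    rw [Finset.mem_sigma, Finset.mem_filter, mem_elts, mem_elts, mem_cent_singleton] at hp
    rw [mem_elts]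
    exact (IsEl.mono hp.1 h1).mul hp.2.2 (IsEl.mono hp.2.1 h2)
  · rintro ⟨y, x⟩ hp ⟨y', x'⟩ hp' heq
    rw [Finset.mem_sigma, Finset.mem_filter, mem_elts, mem_elts, mem_cent_singleton] at hp hp'
    obtain ⟨hy, hx, hyx⟩ := hp
    obtain ⟨hy', hx', hyx'⟩ := hp'
    simp only at hy hx hyx hy' hx' hyx' heq
    have c1 : Commute y x := hyx
    have c2 : Commute y' x' := hyx'
    obtain ⟨n, hn⟩ := exists_pow_mul_eq_left c1 (hy.coprime hx hd)
    obtain ⟨n', hn'⟩ := exists_pow_mul_eq_left c2 (hy'.coprime hx' hd)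
    obtain ⟨k, hk⟩ := exists_pow_mul_eq_left c1.symm (hy.coprime hx hd).symm
    obtain ⟨k', hk'⟩ := exists_pow_mul_eq_left c2.symm (hy'.coprime hx' hd).symm
    have c3 : Commute y⁻¹ y' := by
      apply Commute.inv_left
      rw [← hn, ← hn', heq]
      exact (Commute.refl _).pow_pow n n'
    have c4 : Commute x x'⁻¹ := by
      apply Commute.inv_right
      rw [← hk, ← hk', ← hyx, ← hyx', heq]
      exact (Commute.refl _).pow_pow k k'
    have c5 : Commute y x'⁻¹ := by
      apply Commute.inv_right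
      rw [← hn, ← hk', ← hyx', heq]
      exact (Commute.refl _).pow_pow n k'
    have h3 : y⁻¹ * y' = x * x'⁻¹ := by
      have e : y' = y * x * x'⁻¹ := by rw [heq]; group
      rw [e]; group
    have h4 : IsEl σ₁ (y⁻¹ * y') := IsEl.mul c3 hy.inv hy'
    have h5 : IsEl σ₂ (x * x'⁻¹) := IsEl.mul c4 hx hx'.inv
    rw [h3] at h4
    have h6 := IsEl.eq_one h4 h5 hd
    have h7 : x = x' := by
      calc x = x * x'⁻¹ * x' := by group
        _ = x' := by rw [h6, one_mul]
    rw [h6] at h3
    have h8 : y = y' := by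
      calc y = y * (y⁻¹ * y') := by rw [h3, mul_one]
        _ = y' := by group
    rw [h7, h8]
  · intro z hz
    obtain ⟨y, x, hy, hx, hc, he⟩ := hdec z (mem_elts.mp hz)
    refine ⟨⟨y, x⟩, ?_, he⟩
    rw [Finset.mem_sigma, Finset.mem_filter, mem_elts, mem_elts, mem_cent_singleton]
    exact ⟨hy, hx, hc⟩
  · rintro ⟨y, x⟩ hp
    rw [Finset.mem_sigma, Finset.mem_filter, mem_elts, mem_elts, mem_cent_singleton] at hp
    obtain ⟨hy, hx, hyx⟩ := hp
    unfold wt
    simp only at hy hx hyx ⊢
    rw [cent_mul_eq_inf (show Commute y x from hyx) (hy.coprime hx hd), inf_comm]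

theorem kk_rec_left {q : ℕ} [Fact q.Prime] (hqσ : q ∉ σ) :
    kk (insert q σ) X = ∑ y ∈ elts {q} X, wt y * kk σ (centralizer ({y} : Set X)) :=
  kk_rec (by simp) (by simp) (by simpa using hqσ) fun _ hz => exists_decomp hz

theorem kk_rec_right {q : ℕ} [Fact q.Prime] (hqσ : q ∉ σ) :
    kk (insert q σ) X = ∑ y ∈ elts σ X, wt y * kk {q} (centralizer ({y} : Set X)) :=
  kk_rec (by simp) (by simp) (by simpa using hqσ) fun z hz => by
    obtain ⟨y, x, hy, hx, hc, he⟩ := exists_decomp hz
    exact ⟨x, y, hx, hy, hc.symm, by rw [← hc, he]⟩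

/-- number of conjugates inside a subgroup -/
noncomputable def nc (R : Subgroup X) (r : X) : ℕ := Nat.card {r' : X // r' ∈ R ∧ ∃ g : X, r' = g * r * g⁻¹}

theorem nc_pos_of {R : Subgroup X} {r r' : X} (hr : r' ∈ R) (h : ∃ g : X, r' = g * r * g⁻¹) : 0 < nc R r := by
  unfold nc
  have : Nonempty {r' : X // r' ∈ R ∧ ∃ g : X, r' = g * r * g⁻¹} := ⟨⟨r', hr, h⟩⟩
  exact Nat.card_pos

theorem nc_conj {R : Subgroup X} {r r' : X} (h : ∃ g : X, r' = g * r * g⁻¹) : nc R r' = nc R r := by
  unfold nc
  apply Nat.card_congr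
  apply Equiv.subtypeEquivRight
  intro s
  obtain ⟨g, rfl⟩ := h
  refine and_congr_right fun _ => ?_
  constructor
  · rintro ⟨k, hk⟩; exact ⟨k * g, by rw [hk]; group⟩
  · rintro ⟨k, hk⟩; exact ⟨k * g⁻¹, by rw [hk]; group⟩

theorem wt_conj {r r' : X} (h : ∃ g : X, r' = g * r * g⁻¹) : wt r' = wt r := by
  obtain ⟨g, rfl⟩ := h
  unfold wt
  rw [cent_conj, card_map_of_injective (MulAut.conj g).injective]

theorem wt_mul_card_class (r : X) : wt r * Nat.card {y : X // ∃ g : X, y = g * r * g⁻¹} = 1 := by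
  rw [card_conj_class]
  unfold wt
  have h1 : (Nat.card (centralizer ({r} : Set X)) : ℚ) * (centralizer ({r} : Set X)).index = Nat.card X := by
    exact_mod_cast Subgroup.card_mul_index _
  have hX : (Nat.card X : ℚ) ≠ 0 := by exact_mod_cast Nat.card_pos.ne'
  rw [div_mul_eq_mul_div, h1, div_self hX]

/-- counting classes by representatives in a subgroup `R` -/
theorem sum_wt_le (A : Finset X) (R : Subgroup X) (hR : ∀ x ∈ A, ∃ g : X, g * x * g⁻¹ ∈ R)
    (RF : Finset X) (hRF : ∀ r, r ∈ RF ↔ r ∈ R) :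
    ∑ x ∈ A, wt x ≤ ∑ r ∈ RF, (1 : ℚ) / nc R r := by
  classical
  have h1 : ∀ x ∈ A, wt x = ∑ r ∈ RF.filter (fun r => ∃ g : X, r = g * x * g⁻¹),
      wt x * ((1 : ℚ) / nc R x) := by
    intro x hx
    rw [Finset.sum_const, nsmul_eq_mul]
    have hcard : (RF.filter (fun r => ∃ g : X, r = g * x * g⁻¹)).card = nc R x := by
      unfold nc
      rw [← Fintype.card_coe, ← Nat.card_eq_fintype_card]
      apply Nat.card_congr
      apply Equiv.subtypeEquivRight
      intro r
      rw [Finset.mem_filter, hRF]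
    rw [hcard]
    obtain ⟨g, hg⟩ := hR x hx
    have hpos : (nc R x : ℚ) ≠ 0 := by
      have := nc_pos_of hg ⟨g, rfl⟩
      exact_mod_cast this.ne'
    field_simp
  calc ∑ x ∈ A, wt x = ∑ x ∈ A, ∑ r ∈ RF.filter (fun r => ∃ g : X, r = g * x * g⁻¹),
        wt x * ((1 : ℚ) / nc R x) := Finset.sum_congr rfl h1
    _ = ∑ r ∈ RF, ∑ x ∈ A.filter (fun x => ∃ g : X, r = g * x * g⁻¹), wt x * ((1 : ℚ) / nc R x) := by
        apply Finset.sum_comm'
        intro x r
        simp only [Finset.mem_filter]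
        tauto
    _ ≤ ∑ r ∈ RF, (1 : ℚ) / nc R r := by
        apply Finset.sum_le_sum
        intro r hr
        have h2 : ∑ x ∈ A.filter (fun x => ∃ g : X, r = g * x * g⁻¹), wt x * ((1 : ℚ) / nc R x) =
            ∑ x ∈ A.filter (fun x => ∃ g : X, r = g * x * g⁻¹), wt r * ((1 : ℚ) / nc R r) := by
          refine Finset.sum_congr rfl fun x hx => ?_
          rw [Finset.mem_filter] at hx
          rw [wt_conj hx.2, nc_conj hx.2]
        rw [h2, Finset.sum_const, nsmul_eq_mul]
        have h3 : (A.filter (fun x => ∃ g : X, r = g * x * g⁻¹)).card ≤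
            Nat.card {y : X // ∃ g : X, y = g * r * g⁻¹} := by
          rw [← Fintype.card_coe, ← Nat.card_eq_fintype_card]
          refine Nat.card_le_card_of_injective (fun x => ⟨x.1, ?_⟩) ?_
          · have := x.2
            rw [Finset.mem_filter] at this
            obtain ⟨-, g, hg⟩ := this
            refine ⟨g⁻¹, ?_⟩
            calc (x : X) = g⁻¹ * (g * x * g⁻¹) * g⁻¹⁻¹ := by group
              _ = g⁻¹ * r * g⁻¹⁻¹ := by rw [← hg]
          · intro a b hab
            exact Subtype.ext (congrArg (fun t => t.1) hab)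
        have h4 : ((A.filter (fun x => ∃ g : X, r = g * x * g⁻¹)).card : ℚ) * wt r ≤ 1 := by
          rw [← wt_mul_card_class r, mul_comm]
          apply mul_le_mul_of_nonneg_left _ (wt_pos r).le
          exact_mod_cast h3
        have h5 : (0 : ℚ) ≤ 1 / nc R r := by positivity
        calc ((A.filter (fun x => ∃ g : X, r = g * x * g⁻¹)).card : ℚ) * (wt r * (1 / nc R r)) =
              (((A.filter (fun x => ∃ g : X, r = g * x * g⁻¹)).card : ℚ) * wt r) * (1 / nc R r) := by ring
          _ ≤ 1 * (1 / nc R r) := mul_le_mul_of_nonneg_right h4 h5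
          _ = 1 / nc R r := one_mul _

/-- crude version -/
theorem sum_wt_le_card (A : Finset X) (R : Subgroup X) (hR : ∀ x ∈ A, ∃ g : X, g * x * g⁻¹ ∈ R) :
    ∑ x ∈ A, wt x ≤ Nat.card R := by
  classical
  letI := Fintype.ofFinite X
  set RF : Finset X := Finset.univ.filter (fun r => r ∈ R) with hRF
  have hm : ∀ r, r ∈ RF ↔ r ∈ R := fun r => by simp [hRF]
  have hcard : RF.card = Nat.card R := by
    rw [← Fintype.card_coe, ← Nat.card_eq_fintype_card]
    exact Nat.card_congr (Equiv.subtypeEquivRight hm)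
  calc ∑ x ∈ A, wt x ≤ ∑ r ∈ RF, (1 : ℚ) / nc R r := sum_wt_le A R hR RF hm
    _ ≤ ∑ r ∈ RF, (1 : ℚ) := by
        apply Finset.sum_le_sum
        intro r hr
        have : 0 < nc R r := nc_pos_of ((hm r).mp hr) ⟨1, by group⟩
        rw [div_le_one (by exact_mod_cast this)]
        exact_mod_cast this
    _ = Nat.card R := by rw [Finset.sum_const, nsmul_eq_mul, mul_one, hcard]

/-- **the refined bound**: a subgroup `U` normalizing `R` with few fixed points -/
theorem sum_wt_le_of_acts (A : Finset X) (R : Subgroup X)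
    (hR : ∀ x ∈ A, ∃ g : X, g * x * g⁻¹ ∈ R) (U : Subgroup X)
    (hU : U ≤ normalizer (R : Set X)) {a b : ℕ} (ha : 0 < a) (hb : 0 < b)
    (hbU : ∀ s : ℕ, s.Prime → s ∣ Nat.card U → b ≤ s)
    (haU : a * Nat.card (R ⊓ centralizer (U : Set X) : Subgroup X) ≤ Nat.card R) :
    (∑ x ∈ A, wt x) * (a * b) ≤ Nat.card R * (a + b - 1) := by
  classical
  letI := Fintype.ofFinite X
  set RF : Finset X := Finset.univ.filter (fun r => r ∈ R) with hRF
  have hm : ∀ r, r ∈ RF ↔ r ∈ R := fun r => by simp [hRF]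
  have hcard : RF.card = Nat.card R := by
    rw [← Fintype.card_coe, ← Nat.card_eq_fintype_card]
    exact Nat.card_congr (Equiv.subtypeEquivRight hm)
  set D := R ⊓ centralizer (U : Set X) with hD
  have hDcard : (RF.filter (fun r => r ∈ D)).card = Nat.card D := by
    rw [← Fintype.card_coe, ← Nat.card_eq_fintype_card]
    refine Nat.card_congr (Equiv.subtypeEquivRight fun r => ?_)
    rw [Finset.mem_filter, hm]
    exact ⟨fun h => h.2, fun h => ⟨h.1, h⟩⟩
  have hbq : (0 : ℚ) < b := by exact_mod_cast hb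
  have haq : (0 : ℚ) < a := by exact_mod_cast ha
  have h1 : ∑ x ∈ A, wt x ≤ Nat.card D + (Nat.card R - Nat.card D) * ((1 : ℚ) / b) := by
    calc ∑ x ∈ A, wt x ≤ ∑ r ∈ RF, (1 : ℚ) / nc R r := sum_wt_le A R hR RF hm
      _ ≤ ∑ r ∈ RF, (if r ∈ D then (1 : ℚ) else 1 / b) := by
          apply Finset.sum_le_sum
          intro r hr
          have hrR := (hm r).mp hr
          split_ifs with hrD
          · have : 0 < nc R r := nc_pos_of hrR ⟨1, by group⟩
            rw [div_le_one (by exact_mod_cast this)]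
            exact_mod_cast this
          · have hle : b ≤ nc R r := by
              have h2 : (centralizer ({r} : Set X)).relIndex U ≤ nc R r := by
                unfold nc
                refine relIndex_cent_le U r {r' : X | r' ∈ R ∧ ∃ g : X, r' = g * r * g⁻¹} ?_
                intro g hg
                exact ⟨(mem_normalizer_iff.mp (hU hg) r).mp hrR, g, rfl⟩
              refine le_trans ?_ h2
              have h3 : (centralizer ({r} : Set X)).relIndex U ≠ 1 := by
                intro h4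
                rw [relIndex_eq_one] at h4
                apply hrD
                refine ⟨hrR, mem_centralizer_iff.mpr fun g hg => ?_⟩
                exact (mem_cent_singleton.mp (h4 hg)).symm
              obtain ⟨s, hs, hsd⟩ := Nat.exists_prime_and_dvd h3
              have h5 := hbU s hs (hsd.trans ((centralizer ({r} : Set X)).relIndex_dvd_card U))
              refine h5.trans (Nat.le_of_dvd ?_ hsd)
              exact Nat.pos_of_dvd_of_pos ((centralizer ({r} : Set X)).relIndex_dvd_card U)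
                Nat.card_pos
            apply one_div_le_one_div_of_le hbq
            exact_mod_cast hle
      _ = Nat.card D + (Nat.card R - Nat.card D) * ((1 : ℚ) / b) := by
          rw [Finset.sum_ite, Finset.sum_const, Finset.sum_const, nsmul_eq_mul, nsmul_eq_mul,
            hDcard, mul_one, Finset.filter_not, Finset.card_sdiff_of_subset (Finset.filter_subset _ _),
            hDcard, hcard, Nat.cast_sub]
          rw [← hDcard, ← hcard]
          exact Finset.card_filter_le _ _
  have h2 : (a : ℚ) * Nat.card D ≤ Nat.card R := by exact_mod_cast haU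
  have hb1 : (1 : ℚ) ≤ b := by exact_mod_cast hb
  calc (∑ x ∈ A, wt x) * (a * b) ≤ (Nat.card D + (Nat.card R - Nat.card D) * ((1 : ℚ) / b)) * (a * b) :=
        mul_le_mul_of_nonneg_right h1 (by positivity)
    _ = a * Nat.card D * (b - 1) + a * Nat.card R := by field_simp; ring
    _ ≤ Nat.card R * (b - 1) + a * Nat.card R := by
        have := mul_le_mul_of_nonneg_right h2 (sub_nonneg.mpr hb1)
        linarith
    _ = Nat.card R * (a + b - 1) := by ring

end Counting

/-- the `σ`-part of `n` -/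
def pp (σ : Finset ℕ) (n : ℕ) : ℕ := ∏ s ∈ σ, s ^ n.factorization s

section PP

variable {σ : Finset ℕ} (hσ : ∀ s ∈ σ, s.Prime)

include hσ in
theorem pp_pos (n : ℕ) : 0 < pp σ n :=
  Finset.prod_pos fun s hs => pow_pos (hσ s hs).pos _

include hσ in
theorem factorization_pp (n : ℕ) (r : ℕ) : (pp σ n).factorization r = if r ∈ σ then n.factorization r else 0 := by
  classical
  unfold pp
  rw [Nat.factorization_prod (fun s hs => pow_ne_zero _ (hσ s hs).ne_zero)]
  rw [Finsupp.finset_sum_apply]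
  have h1 : ∀ s ∈ σ, (s ^ n.factorization s).factorization r = if s = r then n.factorization r else 0 := by
    intro s hs
    rw [(hσ s hs).factorization_pow, Finsupp.single_apply]
    split_ifs with h
    · rw [h]
    · rfl
  rw [Finset.sum_congr rfl h1, Finset.sum_ite_eq']

include hσ in
theorem pp_dvd {n m : ℕ} (hn : n ≠ 0) (hm : m ≠ 0) (h : n ∣ m) : pp σ n ∣ pp σ m := by
  rw [← Nat.factorization_le_iff_dvd (pp_pos hσ n).ne' (pp_pos hσ m).ne']
  intro r
  rw [factorization_pp hσ, factorization_pp hσ]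
  split_ifs
  · exact (Nat.factorization_le_iff_dvd hn hm).mpr h r
  · exact le_rfl

include hσ in
theorem pp_dvd_self {n : ℕ} (hn : n ≠ 0) : pp σ n ∣ n := by
  rw [← Nat.factorization_le_iff_dvd (pp_pos hσ n).ne' hn]
  intro r
  rw [factorization_pp hσ]
  split_ifs
  · exact le_rfl
  · exact Nat.zero_le _

theorem pp_insert {q : ℕ} (hq : q ∉ σ) (n : ℕ) : pp (insert q σ) n = q ^ n.factorization q * pp σ n := by
  unfold pp
  rw [Finset.prod_insert hq]

include hσ in
theorem dvd_pp_mem {n r : ℕ} (hr : r.Prime) (h : r ∣ pp σ n) : r ∈ σ := by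
  by_contra hr'
  have h1 := factorization_pp hσ n r
  rw [if_neg hr'] at h1
  have := (Nat.factorization_eq_zero_iff _ _).mp h1
  rcases this with h2 | h2 | h2
  · exact h2 hr
  · exact h2 h
  · exact (pp_pos hσ n).ne' h2

include hσ in
/-- a divisor of a `σ`-number which is not everything is at most the `1/p`-th part -/
theorem pp_eq_or_le {p : ℕ} (hp : ∀ s ∈ σ, p ≤ s) {n m : ℕ} (hn : n ≠ 0) (hm : m ≠ 0)
    (h : n ∣ m) : pp σ n = pp σ m ∨ p * pp σ n ≤ pp σ m := by
  obtain ⟨c, hc⟩ := pp_dvd hσ hn hm h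
  by_cases hc1 : c = 1
  · left; rw [hc, hc1, mul_one]
  right
  obtain ⟨r, hr, hrc⟩ := Nat.exists_prime_and_dvd hc1
  have h1 : r ∈ σ := dvd_pp_mem hσ hr (n := m) (by rw [hc]; exact hrc.mul_left _)
  have hc0 : 0 < c := by
    rcases Nat.eq_zero_or_pos c with h | h
    · rw [h, mul_zero] at hc
      exact absurd hc (pp_pos hσ m).ne'
    · exact h
  calc p * pp σ n ≤ c * pp σ n := Nat.mul_le_mul_right _ ((hp r h1).trans (Nat.le_of_dvd hc0 hrc))
    _ = pp σ m := by rw [hc, mul_comm]

end PP

section Bound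

variable {X : Type u} [Group X] [Finite X] {σ : Finset ℕ}

theorem kk_empty : kk ∅ X = 1 := by
  have : elts ∅ X = {1} := by
    ext x
    rw [mem_elts, Finset.mem_singleton]
    constructor
    · intro h; exact h.eq_one h (by simp)
    · rintro rfl; exact isEl_one
  unfold kk
  rw [this, Finset.sum_singleton]
  unfold wt
  rw [cent_one, card_top]
  exact div_self (by exact_mod_cast Nat.card_pos.ne')

theorem exists_conj_mem_sylow {q : ℕ} [hq : Fact q.Prime] (Q : Sylow q X) {x : X} (hx : IsEl {q} x) :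
    ∃ g : X, g * x * g⁻¹ ∈ (Q : Subgroup X) := by
  have h1 : IsPGroup q (zpowers x) := by
    have hne : Nat.card (zpowers x) ≠ 0 := Nat.card_pos.ne'
    rw [IsPGroup.iff_card]
    refine ⟨(Nat.card (zpowers x)).primeFactorsList.length, ?_⟩
    apply Nat.eq_prime_pow_of_unique_prime_dvd hne
    intro r hr hd
    rw [Nat.card_zpowers] at hd
    exact Finset.mem_singleton.mp (hx r hr hd)
  obtain ⟨P, hP⟩ := h1.exists_le_sylow
  obtain ⟨g, hg⟩ := MulAction.exists_smul_eq X P Q
  refine ⟨g, ?_⟩
  rw [← hg]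
  exact Set.smul_mem_smul_set (a := MulAut.conj g) (hP (mem_zpowers x))

theorem kk_singleton_le {q : ℕ} [hq : Fact q.Prime] (Q : Sylow q X) : kk {q} X ≤ Nat.card Q :=
  sum_wt_le_card _ (Q : Subgroup X) fun x hx => exists_conj_mem_sylow Q (mem_elts.mp hx)

theorem kk_le (hσ : ∀ s ∈ σ, s.Prime) : kk σ X ≤ pp σ (Nat.card X) := by
  induction σ using Finset.induction_on generalizing X with
  | empty => rw [kk_empty]; simp [pp]
  | insert q σ hq ih =>
    have hqp : q.Prime := hσ q (Finset.mem_insert_self _ _)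
    have hσ' : ∀ s ∈ σ, s.Prime := fun s hs => hσ s (Finset.mem_insert_of_mem hs)
    haveI : Fact q.Prime := ⟨hqp⟩
    rw [kk_rec_left hq, pp_insert hq]
    obtain ⟨Q⟩ : Nonempty (Sylow q X) := inferInstance
    have hQ : Nat.card Q = q ^ (Nat.card X).factorization q := Q.card_eq_multiplicity
    have h1 : ∀ y ∈ elts {q} X, wt y * kk σ (centralizer ({y} : Set X)) ≤
        wt y * pp σ (Nat.card X) := by
      intro y _
      apply mul_le_mul_of_nonneg_left _ (wt_pos y).le
      refine (ih (X := centralizer ({y} : Set X)) hσ').trans ?_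
      have := Nat.le_of_dvd (pp_pos hσ' _) (pp_dvd hσ' Nat.card_pos.ne' Nat.card_pos.ne'
        (Subgroup.card_subgroup_dvd_card (centralizer ({y} : Set X))))
      exact_mod_cast this
    refine (Finset.sum_le_sum h1).trans ?_
    rw [← Finset.sum_mul]
    have h2 : ∑ y ∈ elts {q} X, wt y ≤ (q ^ (Nat.card X).factorization q : ℕ) := by
      rw [← hQ]; exact kk_singleton_le Q
    push_cast at h2 ⊢
    exact mul_le_mul_of_nonneg_right h2 (by positivity)

end Bound

end Cfsg.Agent.H69
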