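import Cfsg.Agent.H69.KPi
import Cfsg.Agent.S0581
import Cfsg.Agent.S0079
import Cfsg.Agent.Cop.Basic

/-!
# Nilpotent Hall subgroups and numbers of classes of π-elements (helper69)
-/

set_option autoImplicit false
set_option linter.style.haveILetI false
set_option linter.unusedSectionVars false

namespace Cfsg.Agent.H69

open Subgroup Pointwise

universe u

variable {X : Type u} [Group X] [Finite X] {σ : Finset ℕ}

/-- fixed points of a p-group -/
theorem card_modEq_fixed {q : ℕ} [Fact q.Prime] {P N : Subgroup X} (hP : IsPGroup q P)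
    (hPN : ∀ x ∈ P, ∀ n ∈ N, x * n * x⁻¹ ∈ N) :
    Nat.card N ≡ Nat.card (N ⊓ centralizer (P : Set X) : Subgroup X) [MOD q] := by
  letI act : MulAction P N :=
    { smul := fun x n => ⟨(x : X) * n * (x : X)⁻¹, hPN x x.2 n n.2⟩
      one_smul := fun n => Subtype.ext (by
        show ((1 : P) : X) * n * ((1 : P) : X)⁻¹ = n
        simp)
      mul_smul := fun x y n => Subtype.ext (by
        show ((x * y : P) : X) * n * ((x * y : P) : X)⁻¹ = (x : X) * ((y : X) * n * (y : X)⁻¹) * (x : X)⁻¹
        push_cast; group) }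
  have hdef : ∀ (x : P) (n : N), ((x • n : N) : X) = (x : X) * n * (x : X)⁻¹ := fun _ _ => rfl
  have h1 := hP.card_modEq_card_fixedPoints N
  have h2 : Nat.card (MulAction.fixedPoints P N) =
      Nat.card (N ⊓ centralizer (P : Set X) : Subgroup X) := by
    refine Nat.card_congr ⟨fun n => ⟨(n : N), mem_inf.mpr ⟨n.1.2, ?_⟩⟩, fun n => ⟨⟨n, (mem_inf.mp n.2).1⟩, ?_⟩, ?_, ?_⟩
    · rw [mem_centralizer_iff]
      intro x hx
      have h3 := congrArg Subtype.val (n.2 ⟨x, hx⟩)
      rw [hdef] at h3
      have h4 : x * ((n : N) : X) * x⁻¹ = (n : N) := h3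
      calc x * ((n : N) : X) = (x * ((n : N) : X) * x⁻¹) * x := by group
        _ = _ := by rw [h4]
    · intro x
      apply Subtype.ext
      rw [hdef]
      have h3 := mem_centralizer_iff.mp n.2.2 x x.2
      show (x : X) * (n : X) * (x : X)⁻¹ = n
      rw [h3]; group
    · intro n; rfl
    · intro n; rfl
  rwa [h2] at h1

theorem hall_coprime (hσ : ∀ s ∈ σ, s.Prime) {H : Subgroup X}
    (hH : Nat.card H = pp σ (Nat.card X)) : (Nat.card H).Coprime H.index := by
  apply Nat.Coprime.symm
  apply Nat.coprime_of_dvd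
  intro r hr h1 h2
  have hrσ : r ∈ σ := by rw [hH] at h2; exact dvd_pp_mem hσ hr h2
  have h3 := index_factorization_add H r
  rw [hH, factorization_pp hσ, if_pos hrσ] at h3
  have h4 : H.index.factorization r = 0 := by omega
  have := (Nat.factorization_eq_zero_iff _ _).mp h4
  rcases this with h5 | h5 | h5
  · exact h5 hr
  · exact h5 h1
  · exact H.index_ne_zero_of_finite h5

theorem mem_of_dvd_card (hσ : ∀ s ∈ σ, s.Prime) {K : Subgroup X} {r : ℕ} (hr : r.Prime)
    (hrσ : r ∈ σ) (h : r ∣ Nat.card K) : r ∣ pp σ (Nat.card X) := by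
  have h1 : r ∣ Nat.card X := h.trans (card_subgroup_dvd_card K)
  have h2 : (pp σ (Nat.card X)).factorization r ≠ 0 := by
    rw [factorization_pp hσ, if_pos hrσ]
    exact (hr.factorization_pos_of_dvd Nat.card_pos.ne' h1).ne'
  exact Nat.dvd_of_factorization_pos h2

/-- Wielandt's theorem for `σ`-subgroups -/
theorem wielandt (hσ : ∀ s ∈ σ, s.Prime) {H K : Subgroup X}
    (hH : Nat.card H = pp σ (Nat.card X)) (hn : Group.IsNilpotent H)
    (hK : ∀ r : ℕ, r.Prime → r ∣ Nat.card K → r ∈ σ) : ∃ x : X, K ≤ MulAut.conj x • H :=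
  Cfsg.Agent.S0581.result H K hn (hall_coprime hσ hH) fun r hr hd => by
    rw [hH]; exact mem_of_dvd_card hσ hr (hK r hr hd) hd

theorem wielandt_elt (hσ : ∀ s ∈ σ, s.Prime) {H : Subgroup X}
    (hH : Nat.card H = pp σ (Nat.card X)) (hn : Group.IsNilpotent H) {x : X} (hx : IsEl σ x) :
    ∃ g : X, g * x * g⁻¹ ∈ H := by
  obtain ⟨g, hg⟩ := wielandt hσ hH hn (K := zpowers x) (fun r hr hd => by
    rw [Nat.card_zpowers] at hd; exact hx r hr hd)
  refine ⟨g⁻¹, ?_⟩
  have h1 := hg (mem_zpowers x)
  rw [Hall.mem_conj_smul] at h1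
  have : g⁻¹ * x * g⁻¹⁻¹ = g⁻¹ * x * g := by group
  rw [this]; exact h1

theorem card_conj_smul (g : X) (H : Subgroup X) : Nat.card (MulAut.conj g • H : Subgroup X) = Nat.card H :=
  card_map_of_injective (MulAut.conj g).injective

theorem isNilpotent_conj_smul (g : X) (H : Subgroup X) (hn : Group.IsNilpotent H) :
    Group.IsNilpotent (MulAut.conj g • H : Subgroup X) :=
  Group.nilpotent_of_mulEquiv (H.equivMapOfInjective (MulAut.conj g).toMonoidHom (MulAut.conj g).injective)

/-- a subgroup of the right order is conjugate to the nilpotent Hall subgroup -/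
theorem conj_of_card (hσ : ∀ s ∈ σ, s.Prime) {H K : Subgroup X}
    (hH : Nat.card H = pp σ (Nat.card X)) (hn : Group.IsNilpotent H)
    (hK : Nat.card K = pp σ (Nat.card X)) : ∃ x : X, K = MulAut.conj x • H := by
  obtain ⟨x, hx⟩ := wielandt hσ hH hn (K := K) (fun r hr hd => dvd_pp_mem hσ hr (hK ▸ hd))
  exact ⟨x, Subgroup.eq_of_le_of_card_ge hx (by rw [card_conj_smul, hH, hK])⟩

/-- nilpotency of a subgroup of Hall order -/
theorem isNilpotent_of_card (hσ : ∀ s ∈ σ, s.Prime) {H K : Subgroup X}
    (hH : Nat.card H = pp σ (Nat.card X)) (hn : Group.IsNilpotent H)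
    (hK : Nat.card K = pp σ (Nat.card X)) : Group.IsNilpotent K := by
  obtain ⟨x, rfl⟩ := conj_of_card hσ hH hn hK
  exact isNilpotent_conj_smul x H hn

/-- Burnside fusion in an abelian Hall subgroup -/
theorem burnside_fusion {H : Subgroup X} (hH : (Nat.card H).Coprime H.index)
    (hab : IsMulCommutative H) {r g : X} (hr : r ∈ H) (hg : g * r * g⁻¹ ∈ H) :
    ∃ w ∈ normalizer (H : Set X), w * r * w⁻¹ = g * r * g⁻¹ := by
  set r' := g * r * g⁻¹ with hr'
  set C := centralizer ({r'} : Set X) with hC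
  have hcomm : ∀ a ∈ H, ∀ b ∈ H, a * b = b * a := fun a ha b hb =>
    congrArg Subtype.val (hab.is_comm.comm ⟨a, ha⟩ ⟨b, hb⟩)
  have hHC : H ≤ C := fun a ha => mem_cent_singleton.mpr (hcomm _ hg a ha)
  have hgHC : MulAut.conj g • H ≤ C := by
    intro a ha
    rw [Hall.mem_conj_smul] at ha
    rw [hC, mem_cent_singleton, hr']
    have h1 := hcomm _ hr _ ha
    calc g * r * g⁻¹ * a = g * (r * (g⁻¹ * a * g)) * g⁻¹ := by group
      _ = g * ((g⁻¹ * a * g) * r) * g⁻¹ := by rw [h1]
      _ = a * (g * r * g⁻¹) := by group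
  have hcard1 : Nat.card (H.subgroupOf C) = Nat.card H := by
    rw [← card_map_of_injective C.subtype_injective, subgroupOf_map_subtype, inf_eq_left.mpr hHC]
  have hcard2 : Nat.card ((MulAut.conj g • H).subgroupOf C) = Nat.card H := by
    rw [← card_map_of_injective C.subtype_injective, subgroupOf_map_subtype,
      inf_eq_left.mpr hgHC, card_conj_smul]
  have hnil : Group.IsNilpotent (H.subgroupOf C) := by
    have : IsMulCommutative (H.subgroupOf C) := ⟨⟨fun a b => Subtype.ext (Subtype.ext
      (hcomm _ a.2 _ b.2))⟩⟩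
    letI : CommGroup (H.subgroupOf C) := { mul_comm := this.is_comm.comm }
    infer_instance
  obtain ⟨c, hc⟩ := Cfsg.Agent.S0581.result (H.subgroupOf C) ((MulAut.conj g • H).subgroupOf C) hnil
    (by
      rw [hcard1]
      exact Nat.Coprime.coprime_dvd_right ⟨_, (relIndex_mul_index hHC).symm⟩ hH)
    (fun p _ hd => by rw [hcard1]; rwa [hcard2] at hd)
  have hle : MulAut.conj g • H ≤ MulAut.conj (c : X) • H := by
    intro a ha
    have h1 := hc (show (⟨a, hgHC ha⟩ : C) ∈ (MulAut.conj g • H).subgroupOf C from ha)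
    rw [Hall.mem_conj_smul] at h1
    rw [Hall.mem_conj_smul]
    exact h1
  have heq : MulAut.conj g • H = MulAut.conj (c : X) • H :=
    Subgroup.eq_of_le_of_card_ge hle (by rw [card_conj_smul, card_conj_smul])
  refine ⟨(c : X)⁻¹ * g, ?_, ?_⟩
  · rw [mem_normalizer_iff]
    intro h
    have h1 : h ∈ H ↔ g * h * g⁻¹ ∈ MulAut.conj g • H := by
      rw [Hall.mem_conj_smul]
      have : g⁻¹ * (g * h * g⁻¹) * g = h := by group
      rw [this]
    rw [h1, heq, Hall.mem_conj_smul]
    have : (c : X)⁻¹ * (g * h * g⁻¹) * c = (c : X)⁻¹ * g * h * ((c : X)⁻¹ * g)⁻¹ := by group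
    rw [this]
  · have h1 := mem_cent_singleton.mp c.2
    calc (c : X)⁻¹ * g * r * ((c : X)⁻¹ * g)⁻¹ = (c : X)⁻¹ * (r' * c) := by rw [hr']; group
      _ = (c : X)⁻¹ * (c * r') := by rw [h1]
      _ = r' := by group

/-- a proper fixed point subgroup has index at least the least prime -/
theorem le_of_fixed_ne {R D : Subgroup X} (hD : D ≤ R) (hne : D ≠ R) {a : ℕ}
    (ha : ∀ s : ℕ, s.Prime → s ∣ Nat.card R → a ≤ s) : a * Nat.card D ≤ Nat.card R := by
  have h1 : Nat.card R = Nat.card D * D.relIndex R := by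
    rw [← relIndex_bot_left, ← relIndex_bot_left, relIndex_mul_relIndex _ _ _ bot_le hD]
  have h2 : D.relIndex R ≠ 1 := by
    intro h; rw [relIndex_eq_one] at h; exact hne (le_antisymm hD h)
  obtain ⟨s, hs, hsd⟩ := Nat.exists_prime_and_dvd h2
  have h3 := ha s hs (hsd.trans (D.relIndex_dvd_card R))
  have h4 : s ≤ D.relIndex R := Nat.le_of_dvd (Nat.pos_of_dvd_of_pos (D.relIndex_dvd_card R)
    Nat.card_pos) hsd
  rw [h1, mul_comm]
  exact Nat.mul_le_mul_left _ (h3.trans h4)

/-- a number with all prime factors at least `p` is `1`, a prime or at least `p²` -/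
theorem one_or_prime_or_sq_le {p j : ℕ} (hj : j ≠ 0) (h : ∀ s : ℕ, s.Prime → s ∣ j → p ≤ s) :
    j = 1 ∨ j.Prime ∨ p ^ 2 ≤ j := by
  by_cases h1 : j = 1
  · exact Or.inl h1
  right
  obtain ⟨s, hs, c, hc⟩ := Nat.exists_prime_and_dvd h1
  by_cases hc1 : c = 1
  · left; rw [hc, hc1, mul_one]; exact hs
  right
  obtain ⟨r, hr, hrc⟩ := Nat.exists_prime_and_dvd hc1
  have hc0 : 0 < c := by
    rcases Nat.eq_zero_or_pos c with h | h
    · rw [h, mul_zero] at hc; exact absurd hc hj
    · exact h
  have h2 : p ≤ s := h s hs ⟨c, hc⟩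
  have h3 : p ≤ r := h r hr (hrc.trans ⟨s, by rw [hc, mul_comm]⟩)
  have h4 : r ≤ c := Nat.le_of_dvd hc0 hrc
  rw [hc, sq]
  exact Nat.mul_le_mul h2 (h3.trans h4)

/-- the centre of a non-abelian group has index at least `p²` -/
theorem sq_mul_center_le {R : Subgroup X} (hR : ¬ IsMulCommutative R) {p : ℕ}
    (hp : ∀ s : ℕ, s.Prime → s ∣ Nat.card R → p ≤ s) :
    p ^ 2 * Nat.card (R ⊓ centralizer (R : Set X) : Subgroup X) ≤ Nat.card R := by
  have hmap : (R ⊓ centralizer (R : Set X) : Subgroup X) = (center R).map R.subtype := by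
    ext g
    rw [mem_inf, mem_map]
    constructor
    · rintro ⟨h1, h2⟩
      refine ⟨⟨g, h1⟩, mem_center_iff.mpr fun r => Subtype.ext ?_, rfl⟩
      exact mem_centralizer_iff.mp h2 r r.2
    · rintro ⟨z, hz, rfl⟩
      refine ⟨z.2, mem_centralizer_iff.mpr fun r hr => ?_⟩
      exact congrArg Subtype.val (mem_center_iff.mp hz ⟨r, hr⟩)
  rw [hmap, card_map_of_injective R.subtype_injective]
  have h1 := Subgroup.card_mul_index (center R)
  have hdvd : (center R).index ∣ Nat.card R := Subgroup.index_dvd_card _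
  rcases one_or_prime_or_sq_le (j := (center R).index) (p := p)
    (Subgroup.index_ne_zero_of_finite) (fun s hs hd => hp s hs (hd.trans hdvd)) with h | h | h
  · exfalso
    apply hR
    have : center R = ⊤ := Subgroup.index_eq_one.mp h
    exact ⟨⟨fun a b => (mem_center_iff.mp (this ▸ mem_top b : b ∈ center R) a)⟩⟩
  · exfalso
    apply hR
    haveI : Fact (center R).index.Prime := ⟨h⟩
    have hcyc : IsCyclic (R ⧸ center R) := isCyclic_of_prime_card (p := (center R).index) rfl
    exact ⟨⟨fun a b => commutative_of_cyclic_center_quotient (QuotientGroup.mk' (center R))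
      (by rw [QuotientGroup.ker_mk']) a b⟩⟩
  · rw [← h1, mul_comm]
    exact Nat.mul_le_mul_left _ h

/-- The number of classes of σ-elements is bounded through a nilpotent Hall subgroup acted on. -/
theorem kk_le_of_acts (hσ : ∀ s ∈ σ, s.Prime) {H : Subgroup X}
    (hH : Nat.card H = pp σ (Nat.card X)) (hn : Group.IsNilpotent H) (U : Subgroup X)
    (hU : U ≤ normalizer (H : Set X)) {a b : ℕ} (ha : 0 < a) (hb : 0 < b)
    (hbU : ∀ s : ℕ, s.Prime → s ∣ Nat.card U → b ≤ s)
    (haU : a * Nat.card (H ⊓ centralizer (U : Set X) : Subgroup X) ≤ Nat.card H) :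
    kk σ X * (a * b) ≤ Nat.card H * (a + b - 1) :=
  sum_wt_le_of_acts (elts σ X) H (fun x hx => wielandt_elt hσ hH hn (mem_elts.mp hx)) U hU ha hb hbU haU

/-- an abelian subgroup is nilpotent -/
theorem isNilpotent_of_comm {H : Subgroup X} (h : IsMulCommutative H) : Group.IsNilpotent H := by
  letI : CommGroup H := { mul_comm := h.is_comm.comm }
  infer_instance

/-- no fusion gives a normal complement -/
theorem exists_complement_of_no_fusion {H : Subgroup X} (hn : Group.IsNilpotent H)
    (hH : (Nat.card H).Coprime H.index)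
    (hfus : ∀ r ∈ H, ∀ g : X, g * r * g⁻¹ ∈ H → g * r * g⁻¹ = r) :
    ∃ N : Subgroup X, N.Normal ∧ N.index = Nat.card H ∧ (Nat.card N).Coprime (Nat.card H) := by
  obtain ⟨N, hN, hc⟩ := (Cfsg.Agent.S0079.result H hn hH).mpr (by
    rintro x hx y hy ⟨g, rfl⟩
    exact ⟨1, one_mem _, by rw [hfus x hx g hy]; group⟩)
  refine ⟨N, hN, hc.symm.index_eq_card, ?_⟩
  have h1 : Nat.card N = H.index := hc.index_eq_card.symm
  rw [h1]; exact hH.symm

/-- a subgroup of order coprime to the index of a normal subgroup lies in it -/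
theorem le_of_coprime_index {H N : Subgroup X} [N.Normal] (h : (Nat.card H).Coprime N.index) :
    H ≤ N := by
  intro x hx
  have h1 : x ^ Nat.card H ∈ N := by
    have : x ^ Nat.card H = 1 := by
      have := pow_card_eq_one' (x := (⟨x, hx⟩ : H))
      exact congrArg Subtype.val this
    rw [this]; exact one_mem _
  have h2 : x ^ N.index ∈ N := N.pow_index_mem x
  have h5 : (1 : ℤ) = (Nat.card H : ℕ) * Nat.gcdA (Nat.card H) N.index +
      N.index * Nat.gcdB (Nat.card H) N.index := by
    rw [← Nat.gcd_eq_gcd_ab, h]; rfl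
  have h6 : x = (x ^ (Nat.card H)) ^ Nat.gcdA (Nat.card H) N.index *
      (x ^ N.index) ^ Nat.gcdB (Nat.card H) N.index := by
    rw [← zpow_natCast, ← zpow_natCast, ← zpow_mul, ← zpow_mul, ← zpow_add, ← h5, zpow_one]
  rw [h6]
  exact mul_mem (zpow_mem h1 _) (zpow_mem h2 _)

theorem card_subgroupOf_of_le {H K : Subgroup X} (h : H ≤ K) :
    Nat.card (H.subgroupOf K) = Nat.card H := by
  rw [← card_map_of_injective K.subtype_injective, subgroupOf_map_subtype, inf_eq_left.mpr h]

theorem isNilpotent_subgroupOf {H K : Subgroup X} (h : H ≤ K) (hn : Group.IsNilpotent H) :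
    Group.IsNilpotent (H.subgroupOf K) :=
  Group.nilpotent_of_mulEquiv (Subgroup.subgroupOfEquivOfLe h).symm

/-- Frattini: a Sylow subgroup normalizing a nilpotent Hall subgroup of a normal subgroup -/
theorem exists_sylow_normalizing {q : ℕ} [Fact q.Prime] {K H : Subgroup X} (hK : K.Normal)
    (hHK : H ≤ K) (hn : Group.IsNilpotent H) (hH : (Nat.card H).Coprime H.index)
    (hq : (Nat.card X).factorization q = K.index.factorization q) :
    ∃ Q : Sylow q X, (Q : Subgroup X) ≤ normalizer (H : Set X) := by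
  apply exists_sylow_le_of_not_dvd_index
  have htop : normalizer (H : Set X) ⊔ K = ⊤ := by
    rw [eq_top_iff]
    intro g _
    have hgH : MulAut.conj g • H ≤ K := by
      intro a ha
      rw [Hall.mem_conj_smul] at ha
      have := hK.conj_mem _ (hHK ha) g
      have e : g * (g⁻¹ * a * g) * g⁻¹ = a := by group
      rwa [e] at this
    obtain ⟨c, hc⟩ := Cfsg.Agent.S0581.result (H.subgroupOf K) ((MulAut.conj g • H).subgroupOf K)
      (isNilpotent_subgroupOf hHK hn)
      (by
        rw [card_subgroupOf_of_le hHK]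
        exact Nat.Coprime.coprime_dvd_right ⟨_, (relIndex_mul_index hHK).symm⟩ hH)
      (fun p _ hd => by
        rw [card_subgroupOf_of_le hHK]
        rwa [card_subgroupOf_of_le hgH, card_conj_smul] at hd)
    have hle : MulAut.conj g • H ≤ MulAut.conj (c : X) • H := by
      intro a ha
      have h1 := hc (show (⟨a, hgH ha⟩ : K) ∈ (MulAut.conj g • H).subgroupOf K from ha)
      rw [Hall.mem_conj_smul] at h1
      rw [Hall.mem_conj_smul]
      exact h1
    have heq : MulAut.conj g • H = MulAut.conj (c : X) • H :=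
      Subgroup.eq_of_le_of_card_ge hle (by rw [card_conj_smul, card_conj_smul])
    have hN : (c : X)⁻¹ * g ∈ normalizer (H : Set X) := by
      rw [mem_normalizer_iff]
      intro h
      have h1 : h ∈ H ↔ g * h * g⁻¹ ∈ MulAut.conj g • H := by
        rw [Hall.mem_conj_smul]
        have : g⁻¹ * (g * h * g⁻¹) * g = h := by group
        rw [this]
      rw [h1, heq, Hall.mem_conj_smul]
      have : (c : X)⁻¹ * (g * h * g⁻¹) * c = (c : X)⁻¹ * g * h * ((c : X)⁻¹ * g)⁻¹ := by group
      rw [this]
    have e : g = c * ((c : X)⁻¹ * g) := by group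
    rw [e]
    exact mul_mem (mem_sup_right c.2) (mem_sup_left hN)
  have h1 : K.relIndex (normalizer (H : Set X)) = K.index := by
    rw [← Cop.relIndex_sup_eq (H := normalizer (H : Set X)) (K := K)
      (by rw [normalizer_eq_top (H := K)]; exact le_top), htop, relIndex_top_right]
  have h2 : K.index ∣ Nat.card (normalizer (H : Set X)) := by
    rw [← h1]; exact K.relIndex_dvd_card _
  intro hd
  have h3 := index_factorization_add (normalizer (H : Set X)) q
  have h4 : K.index.factorization q ≤ (Nat.card (normalizer (H : Set X))).factorization q :=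
    (Nat.factorization_le_iff_dvd K.index_ne_zero_of_finite Nat.card_pos.ne').mpr h2 q
  have h5 : 0 < (normalizer (H : Set X)).index.factorization q :=
    (Fact.out : q.Prime).factorization_pos_of_dvd (Subgroup.index_ne_zero_of_finite) hd
  omega

/-- If a nilpotent Hall subgroup `H` has a normal complement `L`, some subgroup of the same order
normalizes a Sylow `q`-subgroup, `q` prime to `|H|`. -/
theorem exists_normalizing_sylow {q : ℕ} [Fact q.Prime] {L : Subgroup X} [hL : L.Normal]
    (hco : (Nat.card L).Coprime L.index) (hq : ¬ q ∣ L.index) :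
    ∃ (Q : Sylow q X) (H : Subgroup X), Nat.card H = L.index ∧
      H ≤ normalizer ((Q : Subgroup X) : Set X) := by
  obtain ⟨Q, hQ⟩ := exists_sylow_le_of_not_dvd_index hq
  have hfr := Sylow.normalizer_sup_eq_top (Q.subtype hQ)
  have hmap : ((Q.subtype hQ : Sylow q L) : Subgroup L).map L.subtype = (Q : Subgroup X) := by
    rw [Sylow.coe_subtype, subgroupOf_map_subtype, inf_eq_left.mpr hQ]
  rw [hmap] at hfr
  set M := normalizer ((Q : Subgroup X) : Set X) with hM
  have h1 : L.relIndex M = L.index := by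
    rw [← Cop.relIndex_sup_eq (H := M) (K := L) (by rw [normalizer_eq_top (H := L)]; exact le_top),
      hfr, relIndex_top_right]
  have hLM : (Nat.card (L.subgroupOf M)) ∣ Nat.card L := by
    rw [← card_map_of_injective M.subtype_injective, subgroupOf_map_subtype]
    exact Subgroup.card_dvd_of_le inf_le_left
  obtain ⟨H, hH⟩ := Subgroup.exists_right_complement'_of_coprime (N := L.subgroupOf M) (by
    change (Nat.card (L.subgroupOf M)).Coprime (L.relIndex M)
    rw [h1]
    exact Nat.Coprime.coprime_dvd_left hLM hco)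
  refine ⟨Q, H.map M.subtype, ?_, map_subtype_le _⟩
  rw [card_map_of_injective M.subtype_injective, ← h1]
  exact hH.symm.index_eq_card.symm

/-- join of commuting subgroups of coprime orders -/
theorem nilpotent_join {H Q : Subgroup X} (hH : Group.IsNilpotent H) (hQ : Group.IsNilpotent Q)
    (hHQ : H ≤ centralizer (Q : Set X)) (hco : (Nat.card H).Coprime (Nat.card Q)) :
    ∃ K : Subgroup X, Group.IsNilpotent K ∧ Nat.card K = Nat.card H * Nat.card Q := by
  have hcomm : ∀ (h : H) (k : Q), Commute (H.subtype h) (Q.subtype k) := fun h k =>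
    (mem_centralizer_iff.mp (hHQ h.2) k k.2).symm
  set f := MonoidHom.noncommCoprod H.subtype Q.subtype hcomm with hf
  have hinj : Function.Injective f := by
    rw [injective_iff_map_eq_one]
    rintro ⟨h, k⟩ he
    have he' : (h : X) * (k : X) = 1 := he
    have h1 : (h : X) = (k : X)⁻¹ := eq_inv_of_mul_eq_one_left he'
    have h2 : (h : X) ∈ H ⊓ Q := mem_inf.mpr ⟨h.2, by rw [h1]; exact inv_mem k.2⟩
    have h3 : H ⊓ Q = ⊥ := Cop.inf_eq_bot_of_coprime hco
    rw [h3, mem_bot] at h2
    have h4 : (k : X) = 1 := by rw [h2, one_mul] at he'; exact he'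
    exact Prod.ext (Subtype.ext h2) (Subtype.ext h4)
  refine ⟨f.range, ?_, ?_⟩
  · exact Group.nilpotent_of_mulEquiv (MonoidHom.ofInjective hinj)
  · rw [← Nat.card_prod]
    exact (Nat.card_congr (MonoidHom.ofInjective hinj).toEquiv).symm

end Cfsg.Agent.H69
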