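import Cfsg.Agent.H69.KPi2

/-!
# Nilpotent Hall subgroups from many classes of π-elements (helper69)
-/

set_option autoImplicit false
set_option linter.style.haveILetI false
set_option linter.unusedSectionVars false

namespace Cfsg.Agent.H69

open Subgroup Pointwise

universe u

/-- existence of a nilpotent Hall subgroup -/
def HasNH (σ : Finset ℕ) (X : Type*) [Group X] : Prop :=
  ∃ H : Subgroup X, Group.IsNilpotent H ∧ Nat.card H = pp σ (Nat.card X)

section

variable {X : Type u} [Group X] [Finite X] {σ : Finset ℕ}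

theorem pp_singleton (q n : ℕ) : pp {q} n = q ^ n.factorization q := by
  simp [pp]

theorem pp_eq_of_dvd (hσ : ∀ s ∈ σ, s.Prime) {n m : ℕ} (hn : n ≠ 0) (hm : m ≠ 0) (h : n ∣ m)
    (h' : pp σ m ∣ n) : pp σ n = pp σ m := by
  apply Nat.dvd_antisymm (pp_dvd hσ hn hm h)
  rw [← Nat.factorization_le_iff_dvd (pp_pos hσ m).ne' (pp_pos hσ n).ne']
  intro r
  rw [factorization_pp hσ, factorization_pp hσ]
  split_ifs with hr
  · have h1 := (Nat.factorization_le_iff_dvd (pp_pos hσ m).ne' hn).mpr h' r
    rwa [factorization_pp hσ, if_pos hr] at h1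
  · exact le_rfl

theorem kk_insert_le₂ (hσ : ∀ s ∈ σ, s.Prime) {q : ℕ} (hq : q.Prime) (hqσ : q ∉ σ) :
    kk (insert q σ) X ≤ pp σ (Nat.card X) * kk {q} X := by
  haveI : Fact q.Prime := ⟨hq⟩
  rw [kk_rec_left hqσ]
  have h1 : ∀ y ∈ elts {q} X, wt y * kk σ (centralizer ({y} : Set X)) ≤
      wt y * pp σ (Nat.card X) := by
    intro y _
    apply mul_le_mul_of_nonneg_left _ (wt_pos y).le
    refine (kk_le hσ).trans ?_
    have := Nat.le_of_dvd (pp_pos hσ _) (pp_dvd hσ Nat.card_pos.ne' Nat.card_pos.ne'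
      (Subgroup.card_subgroup_dvd_card (centralizer ({y} : Set X))))
    exact_mod_cast this
  refine (Finset.sum_le_sum h1).trans ?_
  rw [← Finset.sum_mul, mul_comm]
  rfl

theorem kk_insert_le₁ (hσ : ∀ s ∈ σ, s.Prime) {q : ℕ} (hq : q.Prime) (hqσ : q ∉ σ) :
    kk (insert q σ) X ≤ pp {q} (Nat.card X) * kk σ X := by
  haveI : Fact q.Prime := ⟨hq⟩
  have hq' : ∀ s ∈ ({q} : Finset ℕ), s.Prime := fun s hs => by
    rw [Finset.mem_singleton] at hs; rw [hs]; exact hq
  rw [kk_rec_right hqσ]
  have h1 : ∀ y ∈ elts σ X, wt y * kk {q} (centralizer ({y} : Set X)) ≤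
      wt y * pp {q} (Nat.card X) := by
    intro y _
    apply mul_le_mul_of_nonneg_left _ (wt_pos y).le
    refine (kk_le hq').trans ?_
    have := Nat.le_of_dvd (pp_pos hq' _) (pp_dvd hq' Nat.card_pos.ne' Nat.card_pos.ne'
      (Subgroup.card_subgroup_dvd_card (centralizer ({y} : Set X))))
    exact_mod_cast this
  refine (Finset.sum_le_sum h1).trans ?_
  rw [← Finset.sum_mul, mul_comm]
  rfl

/-- primes dividing the order of a Hall subgroup -/
theorem prime_dvd_hall (hσ : ∀ s ∈ σ, s.Prime) {H : Subgroup X}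
    (hH : Nat.card H = pp σ (Nat.card X)) {r : ℕ} (hr : r.Prime) (hd : r ∣ Nat.card H) : r ∈ σ := by
  rw [hH] at hd; exact dvd_pp_mem hσ hr hd

end

section Step

variable {τ : Finset ℕ} {q p : ℕ} (hτ : ∀ s ∈ τ, s.Prime) (hq : q.Prime)
  (hτq : ∀ s ∈ τ, s < q) (hpq : p + 1 ≤ q) (hp2 : 2 ≤ p) (hpτ : ∀ s ∈ τ, p ≤ s)

section Local

variable {Y : Type u} [Group Y] [Finite Y] {H : Subgroup Y}

include hτ hp2 hpτ in
/-- a nilpotent Hall subgroup `H` of `Y`: either few classes or a normal complement -/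
theorem few_or_complement (hn : Group.IsNilpotent H) (hH : Nat.card H = pp τ (Nat.card Y)) :
    kk τ Y * (2 * p) ≤ Nat.card H * (p + 1) ∨
    ∃ L : Subgroup Y, L.Normal ∧ L.index = Nat.card H ∧ (Nat.card L).Coprime (Nat.card H) := by
  have hprime : ∀ s : ℕ, s.Prime → s ∣ Nat.card H → p ≤ s := fun s hs hd =>
    hpτ s (prime_dvd_hall hτ hH hs hd)
  have hpos : (0 : ℚ) < p := by exact_mod_cast (by omega : 0 < p)
  have hp2' : (2 : ℚ) ≤ p := by exact_mod_cast hp2
  have hHpos : (0 : ℚ) < Nat.card H := by exact_mod_cast Nat.card_pos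
  by_cases hab : IsMulCommutative H
  · by_cases hfus : ∀ r ∈ H, ∀ g : Y, g * r * g⁻¹ ∈ H → g * r * g⁻¹ = r
    · exact Or.inr (exists_complement_of_no_fusion hn (hall_coprime hτ hH) hfus)
    · left
      push Not at hfus
      obtain ⟨r, hr, g, hg, hne⟩ := hfus
      obtain ⟨w, hw, hwr⟩ := burnside_fusion (hall_coprime hτ hH) hab hr hg
      have h1 := kk_le_of_acts hτ hH hn (zpowers w) (by rwa [zpowers_le]) (a := p) (b := 2)
        (by omega) (by omega) (fun s hs _ => hs.two_le) (by
          apply le_of_fixed_ne inf_le_left _ hprime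
          intro heq
          have h2 : r ∈ H ⊓ centralizer (zpowers w : Set Y) := by rw [heq]; exact hr
          have h3 := mem_centralizer_iff.mp (mem_inf.mp h2).2 w (mem_zpowers w)
          apply hne
          rw [← hwr, h3]; group)
      push_cast at h1
      nlinarith [h1]
  · left
    have h1 := kk_le_of_acts hτ hH hn H le_normalizer (a := p ^ 2) (b := p)
      (by positivity) (by omega) hprime (sq_mul_center_le hab hprime)
    push_cast at h1
    -- kk * p^3 ≤ |H| (p²+p-1)
    have h2 : kk τ Y * (2 * p) * (p ^ 2) ≤ Nat.card H * (p + 1) * p ^ 2 := by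
      have h3 : kk τ Y * (2 * p) * (p ^ 2) = 2 * (kk τ Y * ((p : ℚ) ^ 2 * p)) := by ring
      rw [h3]
      have h4 : (0 : ℚ) ≤ (p - 1) * (p ^ 2 - 2) := by
        apply mul_nonneg
        · linarith
        · nlinarith
      nlinarith [h1, mul_nonneg hHpos.le h4]
    exact le_of_mul_le_mul_right h2 (by positivity)

end Local

include hτ hq hτq hpq hp2 hpτ in
theorem nh_step
    (ih : ∀ (X : Type u) [Group X] [Finite X], (pp τ (Nat.card X) : ℚ) < p * kk τ X → HasNH τ X)
    (G : Type u) [Group G] [Finite G]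
    (hk : (pp (insert q τ) (Nat.card G) : ℚ) < p * kk (insert q τ) G) : HasNH (insert q τ) G := by
  classical
  haveI : Fact q.Prime := ⟨hq⟩
  have hqτ : q ∉ τ := fun h => lt_irrefl q (hτq q h)
  have hq' : ∀ s ∈ ({q} : Finset ℕ), s.Prime := fun s hs => by
    rw [Finset.mem_singleton] at hs; rw [hs]; exact hq
  obtain ⟨Q⟩ : Nonempty (Sylow q G) := inferInstance
  have hQcard : ∀ Q : Sylow q G, Nat.card (Q : Subgroup G) = pp {q} (Nat.card G) := fun Q => by
    rw [pp_singleton]; exact Q.card_eq_multiplicity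
  have hQn : ∀ Q : Sylow q G, Group.IsNilpotent (Q : Subgroup G) := fun Q => Q.2.isNilpotent
  set n' := pp τ (Nat.card G) with hn'
  set NQ := pp {q} (Nat.card G) with hNQ
  have hppins : pp (insert q τ) (Nat.card G) = NQ * n' := by
    rw [pp_insert hqτ, hNQ, pp_singleton]
  have hNQpos : 0 < NQ := pp_pos hq' _
  have hn'pos : 0 < n' := pp_pos hτ _
  have hNQq : (0 : ℚ) < NQ := by exact_mod_cast hNQpos
  have hn'q : (0 : ℚ) < n' := by exact_mod_cast hn'pos
  have hpq' : (p : ℚ) + 1 ≤ q := by exact_mod_cast hpq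
  have hp2' : (2 : ℚ) ≤ p := by exact_mod_cast hp2
  have hqpos : (0 : ℚ) < q := by linarith
  rw [hppins] at hk
  push_cast at hk
  set κ := kk {q} G with hκ
  -- step (i)
  have h1 : (n' : ℚ) < p * kk τ G := by
    have h2 := kk_insert_le₁ (X := G) hτ hq hqτ
    have h3 : (NQ : ℚ) * n' < NQ * (p * kk τ G) := by
      calc (NQ : ℚ) * n' < p * kk (insert q τ) G := hk
        _ ≤ p * (NQ * kk τ G) := mul_le_mul_of_nonneg_left h2 (by linarith)
        _ = NQ * (p * kk τ G) := by ring
    exact lt_of_mul_lt_mul_left h3 hNQq.le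
  obtain ⟨H₀, hH₀n, hH₀⟩ := ih G h1
  have h2 : (NQ : ℚ) < p * κ := by
    have h2 := kk_insert_le₂ (X := G) hτ hq hqτ
    have h3 : (n' : ℚ) * NQ < n' * (p * κ) := by
      calc (n' : ℚ) * NQ = NQ * n' := mul_comm _ _
        _ < p * kk (insert q τ) G := hk
        _ ≤ p * (n' * κ) := mul_le_mul_of_nonneg_left h2 (by linarith)
        _ = n' * (p * κ) := by ring
    exact lt_of_mul_lt_mul_left h3 hn'q.le
  have hQprime : ∀ Q : Sylow q G, ∀ s : ℕ, s.Prime → s ∣ Nat.card (Q : Subgroup G) → q ≤ s :=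
    fun Q s hs hd => by
      have := prime_dvd_hall hq' (hQcard Q) hs hd
      rw [Finset.mem_singleton] at this
      exact this.ge
  -- Sylow subgroups for q are abelian
  have hQab : ∀ Q : Sylow q G, IsMulCommutative (Q : Subgroup G) := by
    intro Q
    by_contra hab
    have h3 := kk_le_of_acts hq' (hQcard Q) (hQn Q) (Q : Subgroup G) le_normalizer
      (a := q ^ 2) (b := q) (pow_pos hq.pos 2) hq.pos (hQprime Q) (sq_mul_center_le hab (hQprime Q))
    rw [hQcard Q, ← hκ] at h3
    push_cast at h3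
    have h4 : (NQ : ℚ) * q ^ 3 < NQ * (p * (q ^ 2 + q - 1)) := by
      calc (NQ : ℚ) * q ^ 3 < (p * κ) * q ^ 3 := mul_lt_mul_of_pos_right h2 (by positivity)
        _ = p * (κ * (q ^ 2 * q)) := by ring
        _ ≤ p * (NQ * (q ^ 2 + q - 1)) := mul_le_mul_of_nonneg_left h3 (by linarith)
        _ = _ := by ring
    have h5 := lt_of_mul_lt_mul_left h4 hNQq.le
    have h6 : (p : ℚ) * (q ^ 2 + q - 1) ≤ (q - 1) * (q ^ 2 + q - 1) := by
      apply mul_le_mul_of_nonneg_right
      · linarith
      · nlinarith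
    nlinarith
  by_contra hcon
  -- no nilpotent Hall τ-subgroup centralizes a Sylow q-subgroup
  have hN : ∀ H : Subgroup G, Group.IsNilpotent H → Nat.card H = n' → ∀ Q : Sylow q G,
      ¬ H ≤ centralizer ((Q : Subgroup G) : Set G) := by
    intro H hHn hH Q hHQ
    obtain ⟨K, hK, hKc⟩ := nilpotent_join hHn (hQn Q) hHQ (by
      rw [hH, hQcard Q]
      apply Nat.coprime_of_dvd
      intro r hr h3 h4
      have h5 := dvd_pp_mem hτ hr h3
      have h6 := dvd_pp_mem hq' hr h4
      rw [Finset.mem_singleton] at h6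
      rw [h6] at h5; exact hqτ h5)
    exact hcon ⟨K, hK, by rw [hKc, hH, hQcard Q, hppins, mul_comm]⟩
  -- the set A
  set A : Finset G := (elts {q} G).filter (fun y => ∃ g : G, MulAut.conj g • H₀ ≤
    centralizer ({y} : Set G)) with hA
  have hout : ∀ y ∈ (elts {q} G).filter (fun y => ¬ ∃ g : G, MulAut.conj g • H₀ ≤
      centralizer ({y} : Set G)), p * kk τ (centralizer ({y} : Set G)) ≤ n' := by
    intro y hy
    rw [Finset.mem_filter] at hy
    rcases pp_eq_or_le hτ hpτ (n := Nat.card (centralizer ({y} : Set G))) (m := Nat.card G)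
      Nat.card_pos.ne' Nat.card_pos.ne' (card_subgroup_dvd_card _) with h3 | h3
    · by_contra hlt
      push Not at hlt
      obtain ⟨H', hH'n, hH'⟩ := ih (centralizer ({y} : Set G)) (by rw [h3]; exact hlt)
      obtain ⟨x, hx⟩ := conj_of_card hτ hH₀ hH₀n (K := H'.map (centralizer ({y} : Set G)).subtype)
        (by rw [card_map_of_injective (subtype_injective _), hH', h3])
      exact hy.2 ⟨x, by rw [← hx]; exact map_subtype_le _⟩
    · have h4 : ((p * pp τ (Nat.card (centralizer ({y} : Set G))) : ℕ) : ℚ) ≤ n' := by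
        exact_mod_cast h3
      push_cast at h4
      refine le_trans (mul_le_mul_of_nonneg_left (kk_le hτ) (by linarith)) h4
  set α := ∑ y ∈ A, wt y with hα
  have hα0 : 0 ≤ α := Finset.sum_nonneg fun y _ => (wt_pos y).le
  have hακ : α ≤ κ := Finset.sum_le_sum_of_subset_of_nonneg (Finset.filter_subset _ _)
    (fun y _ _ => (wt_pos y).le)
  have hαq : α * q ≤ NQ := by
    set C₀ := centralizer (H₀ : Set G) with hC₀
    obtain ⟨R₀⟩ : Nonempty (Sylow q C₀) := inferInstance
    set R := (R₀ : Subgroup C₀).map C₀.subtype with hR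
    have hle : α ≤ Nat.card R := by
      apply sum_wt_le_card
      intro y hy
      rw [hA, Finset.mem_filter] at hy
      obtain ⟨hy1, g, hg⟩ := hy
      have hyC : g⁻¹ * y * g ∈ C₀ := by
        rw [hC₀, mem_centralizer_iff]
        intro h hh
        have h3 : g * h * g⁻¹ ∈ MulAut.conj g • H₀ := by
          rw [Hall.mem_conj_smul]
          have : g⁻¹ * (g * h * g⁻¹) * g = h := by group
          rw [this]; exact hh
        have h4 := mem_cent_singleton.mp (hg h3)
        calc h * (g⁻¹ * y * g) = g⁻¹ * (g * h * g⁻¹ * y) * g := by group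
          _ = g⁻¹ * (y * (g * h * g⁻¹)) * g := by rw [h4]
          _ = g⁻¹ * y * g * h := by group
      have hyE : IsEl {q} (⟨g⁻¹ * y * g, hyC⟩ : C₀) := by
        rw [← isEl_coe]
        have := (mem_elts.mp hy1).conj g⁻¹
        have e : g⁻¹ * y * g⁻¹⁻¹ = g⁻¹ * y * g := by group
        rwa [e] at this
      obtain ⟨c, hc⟩ := exists_conj_mem_sylow R₀ hyE
      refine ⟨(c : G) * g⁻¹, ?_⟩
      refine ⟨c * ⟨g⁻¹ * y * g, hyC⟩ * c⁻¹, hc, ?_⟩
      show (c : G) * (g⁻¹ * y * g) * (c : G)⁻¹ = (c : G) * g⁻¹ * y * ((c : G) * g⁻¹)⁻¹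
      group
    have hRp : IsPGroup q R := R₀.2.map _
    obtain ⟨j, hj⟩ := IsPGroup.iff_card.mp hRp
    obtain ⟨Q', hQ'⟩ := hRp.exists_le_sylow
    have hjle : j ≤ (Nat.card G).factorization q := by
      have h3 : Nat.card R ∣ Nat.card (Q' : Subgroup G) := card_dvd_of_le hQ'
      rw [hj, hQcard Q', hNQ, pp_singleton] at h3
      exact (Nat.pow_dvd_pow_iff_le_right hq.one_lt).mp h3
    have hjlt : j < (Nat.card G).factorization q := by
      refine lt_of_le_of_ne hjle ?_
      intro heq
      have h3 : R = (Q' : Subgroup G) := Subgroup.eq_of_le_of_card_ge hQ' (by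
        rw [hj, hQcard Q', hNQ, pp_singleton, heq])
      refine hN H₀ hH₀n hH₀ Q' ?_
      rw [← h3, le_centralizer_iff]
      exact map_subtype_le _
    have h3 : Nat.card R * q ≤ NQ := by
      rw [hj, ← pow_succ, hNQ, pp_singleton]
      exact Nat.pow_le_pow_right hq.pos hjlt
    calc α * q ≤ Nat.card R * q := mul_le_mul_of_nonneg_right hle hqpos.le
      _ ≤ NQ := by exact_mod_cast h3
  -- the main inequality
  have hmain : ∀ δ : ℚ, (n' : ℚ) ≤ p * δ → (∀ y ∈ A, kk τ (centralizer ({y} : Set G)) ≤ δ) →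
      p * kk (insert q τ) G ≤ p * δ * α + (κ - α) * n' := by
    intro δ hδ hδA
    rw [kk_rec_left hqτ, ← Finset.sum_filter_add_sum_filter_not (elts {q} G)
      (fun y => ∃ g : G, MulAut.conj g • H₀ ≤ centralizer ({y} : Set G)), mul_add]
    have h3 : (p : ℚ) * ∑ y ∈ A, wt y * kk τ (centralizer ({y} : Set G)) ≤ p * δ * α := by
      rw [hα, Finset.mul_sum, Finset.mul_sum]
      apply Finset.sum_le_sum
      intro y hy
      have := mul_le_mul_of_nonneg_left (hδA y hy) (wt_pos y).le
      nlinarith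
    have hκα : κ - α = ∑ y ∈ (elts {q} G).filter (fun y => ¬ ∃ g : G, MulAut.conj g • H₀ ≤
      centralizer ({y} : Set G)), wt y := by
      rw [hκ, hα, kk, ← Finset.sum_filter_add_sum_filter_not (elts {q} G)
        (fun y => ∃ g : G, MulAut.conj g • H₀ ≤ centralizer ({y} : Set G))]
      ring
    have h4 : (p : ℚ) * ∑ y ∈ (elts {q} G).filter (fun y => ¬ ∃ g : G, MulAut.conj g • H₀ ≤
        centralizer ({y} : Set G)), wt y * kk τ (centralizer ({y} : Set G)) ≤ (κ - α) * n' := by
      rw [hκα, Finset.mul_sum, Finset.sum_mul]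
      apply Finset.sum_le_sum
      intro y hy
      have := mul_le_mul_of_nonneg_left (hout y hy) (wt_pos y).le
      calc (p : ℚ) * (wt y * kk τ (centralizer ({y} : Set G))) =
            wt y * (p * kk τ (centralizer ({y} : Set G))) := by ring
        _ ≤ wt y * n' := this
    exact add_le_add h3 h4
  -- case distinction: fusion in Q
  by_cases hfus : ∀ r ∈ (Q : Subgroup G), ∀ g : G, g * r * g⁻¹ ∈ (Q : Subgroup G) →
      g * r * g⁻¹ = r
  · -- case 1: no fusion
    obtain ⟨K, hK, hKi, hKc⟩ := exists_complement_of_no_fusion (hQn Q)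
      (hall_coprime hq' (hQcard Q)) hfus
    have hcop : (Nat.card H₀).Coprime K.index := by
      rw [hKi, hH₀, hQcard Q]
      apply Nat.coprime_of_dvd
      intro r hr h3 h4
      have h5 := dvd_pp_mem hτ hr h3
      have h6 := dvd_pp_mem hq' hr h4
      rw [Finset.mem_singleton] at h6
      rw [h6] at h5; exact hqτ h5
    have hH₀K : H₀ ≤ K := le_of_coprime_index hcop
    obtain ⟨Q', hQ'⟩ := exists_sylow_normalizing (q := q) hK hH₀K hH₀n (hall_coprime hτ hH₀) (by
      rw [hKi, hQcard Q, hNQ, factorization_pp hq', if_pos (Finset.mem_singleton_self q)])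
    set D := H₀ ⊓ centralizer ((Q' : Subgroup G) : Set G) with hD
    have hmod := card_modEq_fixed Q'.2 (N := H₀) (fun x hx n hn =>
      (mem_normalizer_iff.mp (hQ' hx) n).mp hn)
    rw [← hD] at hmod
    have hDr : Nat.card H₀ = Nat.card D * D.relIndex H₀ := by
      rw [← relIndex_bot_left, ← relIndex_bot_left, relIndex_mul_relIndex _ _ _ bot_le inf_le_left]
    set j := D.relIndex H₀ with hj
    have hj0 : j ≠ 0 := by
      intro h; rw [h, mul_zero] at hDr
      exact absurd hDr Nat.card_pos.ne'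
    have hjdvd : j ∣ Nat.card H₀ := ⟨Nat.card D, by rw [hDr, mul_comm]⟩
    have hjq : q ∣ j - 1 := by
      have h3 : Nat.card D * j ≡ Nat.card D * 1 [MOD q] := by rw [mul_one, ← hDr]; exact hmod
      have hDq : Nat.gcd q (Nat.card D) = 1 := by
        rw [← Nat.coprime_iff_gcd_eq_one]
        rw [Nat.Prime.coprime_iff_not_dvd hq]
        intro hd
        have : q ∣ Nat.card H₀ := hd.trans ⟨j, hDr⟩
        rw [hH₀] at this
        exact hqτ (dvd_pp_mem hτ hq this)
      have h4 := Nat.ModEq.cancel_left_of_coprime hDq h3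
      exact (Nat.modEq_iff_dvd' (by omega)).mp h4.symm
    have hpj : p ^ 2 ≤ j := by
      rcases one_or_prime_or_sq_le (p := p) hj0 (fun s hs hd => hpτ s
        (prime_dvd_hall hτ hH₀ hs (hd.trans hjdvd))) with h3 | h3 | h3
      · exfalso
        rw [hj, relIndex_eq_one] at h3
        exact hN H₀ hH₀n hH₀ Q' (h3.trans inf_le_right)
      · exfalso
        have h4 : j ∈ τ := prime_dvd_hall hτ hH₀ h3 hjdvd
        have h5 := hτq j h4
        have h6 : q ≤ j - 1 := Nat.le_of_dvd (by have := h3.two_le; omega) hjq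
        omega
      · exact h3
    have h3 := kk_le_of_acts hτ hH₀ hH₀n (Q' : Subgroup G) hQ' (a := p ^ 2) (b := q)
      (by positivity) hq.pos (hQprime Q') (by
        rw [hDr, mul_comm]; exact Nat.mul_le_mul_left _ hpj)
    rw [hH₀] at h3
    push_cast at h3
    have h4 : (n' : ℚ) * (p * q) < n' * (p ^ 2 + q - 1) := by
      calc (n' : ℚ) * (p * q) < (p * kk τ G) * (p * q) :=
            mul_lt_mul_of_pos_right h1 (by positivity)
        _ = kk τ G * (p ^ 2 * q) := by ring
        _ ≤ _ := h3
    have h5 := lt_of_mul_lt_mul_left h4 hn'q.le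
    have h6 : (0 : ℚ) ≤ (p - 1) * (q - p - 1) := mul_nonneg (by linarith) (by linarith)
    nlinarith
  · -- case 2
    push Not at hfus
    obtain ⟨r, hr, g, hg, hne⟩ := hfus
    obtain ⟨w, hw, hwr⟩ := burnside_fusion (hall_coprime hq' (hQcard Q)) (hQab Q) hr hg
    have hκ1 := kk_le_of_acts hq' (hQcard Q) (hQn Q) (zpowers w) (by rwa [zpowers_le]) (a := q)
      (b := 2) hq.pos (by omega) (fun s hs _ => hs.two_le) (by
        apply le_of_fixed_ne inf_le_left _ (hQprime Q)
        intro heq
        have h2 : r ∈ (Q : Subgroup G) ⊓ centralizer (zpowers w : Set G) := by rw [heq]; exact hr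
        have h3 := mem_centralizer_iff.mp (mem_inf.mp h2).2 w (mem_zpowers w)
        apply hne
        rw [← hwr, h3]; group)
    rw [hQcard Q, ← hκ] at hκ1
    push_cast at hκ1
    by_cases h2a : ∃ (H₁ : Subgroup G) (Q' : Sylow q G), Nat.card H₁ = n' ∧
        H₁ ≤ normalizer ((Q' : Subgroup G) : Set G)
    · -- case 2a
      obtain ⟨H₁, Q', hH₁, hH₁Q⟩ := h2a
      have hH₁n : Group.IsNilpotent H₁ := isNilpotent_of_card hτ hH₀ hH₀n hH₁
      have hκ2 := kk_le_of_acts hq' (hQcard Q') (hQn Q') H₁ hH₁Q (a := q) (b := p) hq.pos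
        (by omega) (fun s hs hd => hpτ s (prime_dvd_hall hτ hH₁ hs hd)) (by
          apply le_of_fixed_ne inf_le_left _ (hQprime Q')
          intro heq
          apply hN H₁ hH₁n hH₁ Q'
          rw [le_centralizer_iff]
          rw [← heq]; exact inf_le_right)
      rw [hQcard Q', ← hκ] at hκ2
      have h3 := hmain n' (by nlinarith) (fun y hy => by
        refine (kk_le hτ).trans ?_
        have := Nat.le_of_dvd hn'pos (pp_dvd hτ Nat.card_pos.ne' Nat.card_pos.ne'
          (card_subgroup_dvd_card (centralizer ({y} : Set G))))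
        exact_mod_cast this)
      have h4 : (p : ℚ) * n' * α + (κ - α) * n' = n' * ((p - 1) * α + κ) := by ring
      rw [h4] at h3
      have h5 : (p - 1 : ℚ) * α + κ ≤ NQ := by
        have h6 : ((p - 1 : ℚ) * α + κ) * (q * p) ≤ NQ * (q * p) := by
          have h7 : (p * (p - 1) : ℚ) * (α * q) ≤ p * (p - 1) * NQ :=
            mul_le_mul_of_nonneg_left hαq (mul_nonneg (by linarith) (by linarith))
          have h8 : (0 : ℚ) ≤ NQ * ((p - 1) * (q - p - 1)) :=
            mul_nonneg hNQq.le (mul_nonneg (by linarith) (by linarith))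
          nlinarith
        exact le_of_mul_le_mul_right h6 (by positivity)
      have h6 := mul_le_mul_of_nonneg_left h5 hn'q.le
      linarith
    · -- case 2b
      have hδ : ∀ y ∈ A, kk τ (centralizer ({y} : Set G)) ≤ n' * (p + 1) / (2 * p) := by
        intro y hy
        rw [hA, Finset.mem_filter] at hy
        obtain ⟨hy1, g, hg⟩ := hy
        set Y := centralizer ({y} : Set G) with hY
        set H₁ := (MulAut.conj g • H₀ : Subgroup G).subgroupOf Y with hH₁
        have hH₁c : Nat.card H₁ = n' := by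
          rw [hH₁, card_subgroupOf_of_le hg, card_conj_smul, hH₀]
        have hH₁n : Group.IsNilpotent H₁ :=
          isNilpotent_subgroupOf hg (isNilpotent_conj_smul g H₀ hH₀n)
        have hppY : pp τ (Nat.card Y) = n' := by
          apply pp_eq_of_dvd hτ Nat.card_pos.ne' Nat.card_pos.ne' (card_subgroup_dvd_card Y)
          rw [← hn', ← hH₁c]; exact card_subgroup_dvd_card H₁
        rcases few_or_complement hτ hp2 hpτ hH₁n (by rw [hH₁c, hppY]) with h3 | ⟨L, hL, hLi, hLc⟩
        · rw [le_div_iff₀ (by positivity)]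
          rw [hH₁c] at h3
          exact h3
        · exfalso
          apply h2a
          obtain ⟨Q'', H₂, hH₂, hH₂Q⟩ := exists_normalizing_sylow (q := q) (L := L)
            (by rw [hLi]; exact hLc) (by
              rw [hLi, hH₁c]; intro hd; exact hqτ (dvd_pp_mem hτ hq hd))
          -- Q'' is a Sylow subgroup of G
          have hYq : (Nat.card Y).factorization q = (Nat.card G).factorization q := by
            obtain ⟨k, hk⟩ := exists_conj_mem_sylow Q (mem_elts.mp hy1)
            have h3 : ((k⁻¹ • Q : Sylow q G) : Subgroup G) ≤ Y := by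
              intro a ha
              rw [Sylow.coe_subgroup_smul, Hall.mem_conj_smul] at ha
              rw [hY, mem_cent_singleton]
              have h4 := congrArg Subtype.val ((hQab Q).is_comm.comm ⟨_, hk⟩ ⟨_, ha⟩)
              have h5 : k * y * k⁻¹ * (k⁻¹⁻¹ * a * k⁻¹) = k⁻¹⁻¹ * a * k⁻¹ * (k * y * k⁻¹) := h4
              calc y * a = k⁻¹ * (k * y * k⁻¹ * (k⁻¹⁻¹ * a * k⁻¹)) * k := by group
                _ = k⁻¹ * (k⁻¹⁻¹ * a * k⁻¹ * (k * y * k⁻¹)) * k := by rw [h5]
                _ = a * y := by group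
            have h4 := factorization_index_eq_zero_of_sylow_le _ h3
            have h5 := index_factorization_add Y q
            omega
          have hQ''c : Nat.card ((Q'' : Subgroup Y).map Y.subtype) =
              q ^ (Nat.card G).factorization q := by
            rw [card_map_of_injective Y.subtype_injective, ← hYq]
            exact Q''.card_eq_multiplicity
          refine ⟨H₂.map Y.subtype, Sylow.ofCard _ hQ''c, ?_, ?_⟩
          · rw [card_map_of_injective Y.subtype_injective, hH₂, hLi, hH₁c]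
          · rintro _ ⟨h, hh, rfl⟩
            rw [Sylow.coe_ofCard]
            rw [mem_normalizer_iff]
            have h6 := mem_normalizer_iff.mp (hH₂Q hh)
            intro x
            constructor
            · rintro ⟨x', hx', rfl⟩
              exact ⟨h * x' * h⁻¹, (h6 x').mp hx', rfl⟩
            · rintro ⟨x', hx', hxx⟩
              have h7 : x = ((h⁻¹ * x' * h : Y) : G) := by
                have h8 : (x' : G) = (h : G) * x * (h : G)⁻¹ := hxx
                push_cast
                rw [h8]; group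
              rw [h7]
              refine ⟨h⁻¹ * x' * h, ?_, rfl⟩
              rw [SetLike.mem_coe, h6]
              have e : h * (h⁻¹ * x' * h) * h⁻¹ = x' := by group
              rw [e]; exact hx'
      have h3 := hmain (n' * (p + 1) / (2 * p)) (by
        rw [mul_div_assoc', le_div_iff₀ (by positivity)]
        have h9 := mul_nonneg (mul_nonneg hn'q.le (by linarith : (0 : ℚ) ≤ p))
          (by linarith : (0 : ℚ) ≤ p - 1)
        nlinarith) hδ
      have h4 : (p : ℚ) * (n' * (p + 1) / (2 * p)) * α + (κ - α) * n' =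
          n' * ((p - 1) / 2 * α + κ) := by
        field_simp
        ring
      rw [h4] at h3
      have h5 : ((p - 1) / 2 * α + κ : ℚ) ≤ NQ := by
        have h6 : ((p - 1) / 2 * α + κ : ℚ) * (q * 2) ≤ NQ * (q * 2) := by
          have h7 : ((p - 1) : ℚ) * (α * q) ≤ (p - 1) * NQ :=
            mul_le_mul_of_nonneg_left hαq (by linarith)
          nlinarith
        exact le_of_mul_le_mul_right h6 (by positivity)
      have h6 := mul_le_mul_of_nonneg_left h5 hn'q.le
      linarith

end Step

/-- **Many classes of π-elements force a nilpotent Hall π-subgroup.** -/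
theorem hasNH_of_many {p : ℕ} (hp2 : 2 ≤ p) (σ : Finset ℕ) : (∀ s ∈ σ, s.Prime ∧ p ≤ s) →
    ∀ (X : Type u) [Group X] [Finite X], (pp σ (Nat.card X) : ℚ) < p * kk σ X → HasNH σ X := by
  induction σ using Finset.induction_on_max with
  | empty =>
    intro _ X _ _ _
    exact ⟨⊥, inferInstance, by simp [pp]⟩
  | insert q τ hτq ih =>
    intro hσ X _ _ hk
    have hq : q.Prime := (hσ q (Finset.mem_insert_self _ _)).1
    have hτ : ∀ s ∈ τ, s.Prime ∧ p ≤ s := fun s hs => hσ s (Finset.mem_insert_of_mem hs)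
    rcases τ.eq_empty_or_nonempty with hτe | ⟨t, ht⟩
    · subst hτe
      haveI : Fact q.Prime := ⟨hq⟩
      obtain ⟨Q⟩ : Nonempty (Sylow q X) := inferInstance
      refine ⟨(Q : Subgroup X), Q.2.isNilpotent, ?_⟩
      rw [insert_empty_eq, pp_singleton]
      exact Q.card_eq_multiplicity
    · exact nh_step (fun s hs => (hτ s hs).1) hq hτq
        (by have h1 := (hτ t ht).2; have h2 := hτq t ht; omega) hp2 (fun s hs => (hτ s hs).2)
        (ih hτ) X hk

end Cfsg.Agent.H69
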