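import Cfsg.Agent.H69.KPi3
import Cfsg.Agent.Char.Linear
import Cfsg.Agent.CharBase.Column
import Cfsg.Agent.CharBase.Central

/-!
# Classes of π-elements: conversion to conjugacy classes, and the derived subgroup (helper69)
-/

set_option autoImplicit false
set_option linter.style.haveILetI false
set_option linter.unusedSectionVars false

namespace Cfsg.Agent.H69

open Subgroup Pointwise Cfsg Cfsg.Agent.CharBase

universe u

variable {X : Type u} [Group X] [Finite X]

/-- the number of classes satisfying a class property as a weighted sum -/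
theorem card_classes_eq_sum_wt (A : Finset X) (P : ConjClasses X → Prop)
    (hA : ∀ x : X, x ∈ A ↔ P (ConjClasses.mk x)) :
    (Nat.card {C : ConjClasses X // P C} : ℚ) = ∑ x ∈ A, wt x := by
  classical
  haveI : Finite (ConjClasses X) := Quotient.finite _
  letI := Fintype.ofFinite (ConjClasses X)
  set S : Finset (ConjClasses X) := Finset.univ.filter P with hS
  have h1 : Nat.card {C : ConjClasses X // P C} = S.card := by
    rw [Nat.card_eq_fintype_card, Fintype.card_subtype]
  have h2 : ∑ C ∈ S, ∑ x ∈ A.filter (fun x => ConjClasses.mk x = C), wt x = ∑ x ∈ A, wt x := by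
    apply Finset.sum_fiberwise_of_maps_to
    intro x hx
    rw [hS, Finset.mem_filter]
    exact ⟨Finset.mem_univ _, (hA x).mp hx⟩
  rw [← h2, h1]
  have h3 : ∀ C ∈ S, ∑ x ∈ A.filter (fun x => ConjClasses.mk x = C), wt x = 1 := by
    intro C hC
    rw [hS, Finset.mem_filter] at hC
    obtain ⟨c, rfl⟩ := ConjClasses.mk_surjective C
    have hmem : ∀ x, x ∈ A.filter (fun x => ConjClasses.mk x = ConjClasses.mk c) ↔
        ∃ g : X, x = g * c * g⁻¹ := by
      intro x
      rw [Finset.mem_filter, hA]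
      constructor
      · rintro ⟨-, h⟩
        rw [ConjClasses.mk_eq_mk_iff_isConj, isConj_comm, isConj_iff] at h
        obtain ⟨g, hg⟩ := h
        exact ⟨g, hg.symm⟩
      · rintro ⟨g, rfl⟩
        have : ConjClasses.mk (g * c * g⁻¹) = ConjClasses.mk c := by
          rw [ConjClasses.mk_eq_mk_iff_isConj, isConj_comm, isConj_iff]
          exact ⟨g, rfl⟩
        rw [this]
        exact ⟨hC.2, rfl⟩
    have h4 : ∑ x ∈ A.filter (fun x => ConjClasses.mk x = ConjClasses.mk c), wt x =
        ∑ x ∈ A.filter (fun x => ConjClasses.mk x = ConjClasses.mk c), wt c :=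
      Finset.sum_congr rfl fun x hx => wt_conj ((hmem x).mp hx)
    rw [h4, Finset.sum_const, nsmul_eq_mul, mul_comm, ← wt_mul_card_class c]
    congr 2
    rw [← Fintype.card_coe, ← Nat.card_eq_fintype_card]
    exact Nat.card_congr (Equiv.subtypeEquivRight hmem)
  rw [Finset.sum_congr rfl h3, Finset.sum_const, nsmul_eq_mul, mul_one]

/-- the number of classes of σ-elements is at most the class number of a nilpotent Hall subgroup -/
theorem kk_le_card_conjClasses {σ : Finset ℕ} (hσ : ∀ s ∈ σ, s.Prime) {H : Subgroup X}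
    (hH : Nat.card H = pp σ (Nat.card X)) (hn : Group.IsNilpotent H) :
    kk σ X ≤ Nat.card (ConjClasses H) := by
  classical
  letI := Fintype.ofFinite X
  letI := Fintype.ofFinite H
  set RF : Finset X := Finset.univ.filter (fun r => r ∈ H) with hRF
  have hm : ∀ r, r ∈ RF ↔ r ∈ H := fun r => by simp [hRF]
  have h1 := sum_wt_le (elts σ X) H (fun x hx => wielandt_elt hσ hH hn (mem_elts.mp hx)) RF hm
  have h2 : (Nat.card (ConjClasses H) : ℚ) = ∑ x : H, wt x := by
    rw [← card_classes_eq_sum_wt (Finset.univ : Finset H) (fun _ => True) (by simp)]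
    congr 1
    exact (Nat.card_congr (Equiv.subtypeUnivEquiv (fun _ => trivial))).symm
  rw [h2]
  refine h1.trans ?_
  have h3 : ∑ r ∈ RF, (1 : ℚ) / nc H r = ∑ x : H, (1 : ℚ) / nc H (x : X) := by
    refine (Finset.sum_bij (fun (x : H) _ => (x : X)) ?_ ?_ ?_ ?_).symm
    · intro x _; rw [hm]; exact x.2
    · intro a _ b _ h; exact Subtype.ext h
    · intro b hb; exact ⟨⟨b, (hm b).mp hb⟩, Finset.mem_univ _, rfl⟩
    · intro x _; rfl
  rw [h3]
  apply Finset.sum_le_sum
  intro x _
  have h4 := wt_mul_card_class x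
  have h5 : Nat.card {y : H // ∃ g : H, y = g * x * g⁻¹} ≤ nc H (x : X) := by
    unfold nc
    refine Nat.card_le_card_of_injective (fun y => ⟨((y : H) : X), y.1.2, ?_⟩) ?_
    · obtain ⟨g, hg⟩ := y.2
      exact ⟨g, by rw [hg]; rfl⟩
    · intro a b hab
      exact Subtype.ext (Subtype.ext (congrArg (fun t => t.1) hab))
  have h6 : 0 < Nat.card {y : H // ∃ g : H, y = g * x * g⁻¹} := by
    haveI : Nonempty {y : H // ∃ g : H, y = g * x * g⁻¹} := ⟨⟨x, 1, by group⟩⟩
    exact Nat.card_pos
  have h7 : (0 : ℚ) < Nat.card {y : H // ∃ g : H, y = g * x * g⁻¹} := by exact_mod_cast h6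
  have h8 : wt x = 1 / Nat.card {y : H // ∃ g : H, y = g * x * g⁻¹} := by
    rw [eq_div_iff h7.ne']; exact h4
  rw [h8]
  apply one_div_le_one_div_of_le h7
  exact_mod_cast h5

/-- number of linear characters -/
theorem card_linear_le : Nat.card {χ : IrrCharacter X // (χ : X → ℂ) 1 = 1} ≤
    (commutator X).index := by
  classical
  have hex : Monoid.exponent (Abelianization X) ≠ 0 := Monoid.exponent_ne_zero_of_finite
  haveI : NeZero (Monoid.exponent (Abelianization X) : ℂ) := ⟨by exact_mod_cast hex⟩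
  have h1 : Nat.card (Abelianization X →* ℂˣ) = Nat.card (Abelianization X) :=
    CommGroup.card_monoidHom_of_hasEnoughRootsOfUnity (Abelianization X) ℂ
  haveI : Finite (Abelianization X →* ℂˣ) := by
    apply Nat.finite_of_card_ne_zero
    rw [h1]; exact Nat.card_pos.ne'
  have h2 : Nat.card (Abelianization X) = (commutator X).index := rfl
  rw [← h2, ← h1]
  refine Nat.card_le_card_of_injective (fun χ => Abelianization.lift
    (Char.linHom (isCharacter_of_isIrr χ.1.2) χ.2).toHomUnits) ?_
  intro a b hab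
  apply Subtype.ext
  apply Subtype.ext
  funext g
  have h3 := congrArg (fun f => ((f (Abelianization.of g) : ℂˣ) : ℂ)) hab
  simpa using h3

/-- few conjugacy classes if the derived subgroup is large -/
theorem mul_card_conjClasses_le {p : ℕ} (hp2 : 2 ≤ p)
    (hp : ∀ s : ℕ, s.Prime → s ∣ Nat.card X → p ≤ s) (hD : p < Nat.card (commutator X)) :
    p * Nat.card (ConjClasses X) ≤ Nat.card X := by
  classical
  haveI := Fintype.ofFinite (IrrCharacter X)
  rw [← card_irr_eq_card_conjClasses]
  set a := Nat.card {χ : IrrCharacter X // (χ : X → ℂ) 1 = 1} with ha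
  set k := Nat.card (IrrCharacter X) with hk
  have h1 : a * (p + 1) ≤ Nat.card X := by
    calc a * (p + 1) ≤ (commutator X).index * Nat.card (commutator X) :=
          Nat.mul_le_mul card_linear_le hD
      _ = Nat.card X := by rw [mul_comm]; exact Subgroup.card_mul_index _
  -- degrees
  have hdeg : ∀ χ : IrrCharacter X, ∃ d : ℕ, (χ : X → ℂ) 1 = d ∧ 0 < d ∧ (d ≠ 1 → p ≤ d) := by
    intro χ
    haveI := Fintype.ofFinite X
    obtain ⟨d, hd, -⟩ := norm_le_of_isCharacter (isCharacter_of_isIrr χ.2) 1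
    have hd0 : d ≠ 0 := by
      rintro rfl
      exact irr_one_ne_zero χ.2 (by rw [hd]; simp)
    refine ⟨d, hd, Nat.pos_of_ne_zero hd0, fun hd1 => ?_⟩
    obtain ⟨s, hs, hsd⟩ := Nat.exists_prime_and_dvd hd1
    exact (hp s hs (hsd.trans (degree_dvd_card χ.2 hd))).trans
      (Nat.le_of_dvd (Nat.pos_of_ne_zero hd0) hsd)
  choose d hd1 hd2 hd3 using hdeg
  have hsum : ∑ χ : IrrCharacter X, d χ ^ 2 = Nat.card X := by
    have := sum_sq_degree (G := X)
    have h2 : ((∑ χ : IrrCharacter X, d χ ^ 2 : ℕ) : ℂ) = (Nat.card X : ℂ) := by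
      rw [← this]; push_cast
      exact Finset.sum_congr rfl fun χ _ => by rw [hd1 χ]
    exact_mod_cast h2
  have hlin : (Finset.univ.filter (fun χ : IrrCharacter X => d χ = 1)).card = a := by
    rw [ha, ← Fintype.card_coe, ← Nat.card_eq_fintype_card]
    refine Nat.card_congr (Equiv.subtypeEquivRight fun χ => ?_)
    rw [Finset.mem_filter]
    constructor
    · rintro ⟨-, h⟩; rw [hd1, h]; simp
    · intro h
      refine ⟨Finset.mem_univ _, ?_⟩
      rw [hd1] at h; exact_mod_cast h
  have hkc : k = Fintype.card (IrrCharacter X) := Nat.card_eq_fintype_card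
  have h2 : a * 1 + (k - a) * p ^ 2 ≤ Nat.card X := by
    rw [← hsum, ← Finset.sum_filter_add_sum_filter_not Finset.univ (fun χ => d χ = 1)]
    apply Nat.add_le_add
    · rw [← hlin, ← smul_eq_mul, ← Finset.sum_const]
      apply Finset.sum_le_sum
      intro χ _
      exact Nat.one_le_pow _ _ (hd2 χ)
    · have h3 : (Finset.univ.filter (fun χ : IrrCharacter X => ¬ d χ = 1)).card = k - a := by
        rw [Finset.filter_not, Finset.card_sdiff_of_subset (Finset.filter_subset _ _), hlin,
          Finset.card_univ, hkc]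
      rw [← h3, ← smul_eq_mul, ← Finset.sum_const]
      apply Finset.sum_le_sum
      intro χ hχ
      rw [Finset.mem_filter] at hχ
      exact Nat.pow_le_pow_left (hd3 χ hχ.2) 2
  have hak : a ≤ k := by
    rw [← hlin, hkc]
    exact Finset.card_filter_le _ _
  obtain ⟨b, hb⟩ := Nat.exists_eq_add_of_le hak
  rw [hb, Nat.add_sub_cancel_left] at h2
  rw [hb]
  -- p² (a + b) ≤ p |X|
  have h4 : p * (p * (a + b)) ≤ p * Nat.card X := by
    obtain ⟨e, rfl⟩ : ∃ e, p = e + 1 := ⟨p - 1, by omega⟩
    nlinarith [Nat.mul_le_mul_left e h1]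
  exact Nat.le_of_mul_le_mul_left h4 (by omega)

/-- conversion of the hypotheses of the class counting theorems -/
theorem convert (π : Set ℕ) (m : ℕ) (hm : m ∣ Nat.card X)
    (hmπ : ∀ q : ℕ, q.Prime → q ∣ m → q ∈ π) (hm' : ∀ q ∈ π, ¬ q ∣ Nat.card X / m) (k : ℕ)
    (hk : k = Nat.card {C : ConjClasses X // ∀ q : ℕ, q.Prime →
      (∃ g : X, ConjClasses.mk g = C ∧ q ∣ orderOf g) → q ∈ π}) :
    ∃ σ : Finset ℕ, (∀ s ∈ σ, s.Prime ∧ s ∈ π) ∧ pp σ (Nat.card X) = m ∧ kk σ X = k := by
  classical
  set σ := (Nat.card X).primeFactors.filter (fun s => s ∈ π) with hσ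
  have hσp : ∀ s ∈ σ, s.Prime ∧ s ∈ π := by
    intro s hs
    rw [hσ, Finset.mem_filter, Nat.mem_primeFactors] at hs
    exact ⟨hs.1.1, hs.2⟩
  have hmem : ∀ s : ℕ, s.Prime → s ∣ Nat.card X → (s ∈ σ ↔ s ∈ π) := by
    intro s hs hd
    rw [hσ, Finset.mem_filter, Nat.mem_primeFactors]
    exact ⟨fun h => h.2, fun h => ⟨⟨hs, hd, Nat.card_pos.ne'⟩, h⟩⟩
  have hm0 : m ≠ 0 := by
    rintro rfl
    exact Nat.card_pos.ne' (Nat.eq_zero_of_zero_dvd hm)
  refine ⟨σ, hσp, ?_, ?_⟩
  · apply Nat.eq_of_factorization_eq (pp_pos (fun s hs => (hσp s hs).1) _).ne' hm0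
    intro r
    rw [factorization_pp (fun s hs => (hσp s hs).1)]
    by_cases hr : r.Prime
    · obtain ⟨c, hc⟩ := hm
      have hc0 : c ≠ 0 := by
        rintro rfl; rw [mul_zero] at hc; exact Nat.card_pos.ne' hc
      have h1 : (Nat.card X).factorization r = m.factorization r + c.factorization r := by
        rw [hc, Nat.factorization_mul hm0 hc0]; rfl
      have hdiv : Nat.card X / m = c := by
        rw [hc, Nat.mul_div_cancel_left _ (Nat.pos_of_ne_zero hm0)]
      split_ifs with hrσ
      · have h2 := hm' r (hσp r hrσ).2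
        rw [hdiv] at h2
        have h3 : c.factorization r = 0 := Nat.factorization_eq_zero_of_not_dvd h2
        omega
      · symm
        apply Nat.factorization_eq_zero_of_not_dvd
        intro hd
        exact hrσ ((hmem r hr (hd.trans ⟨c, hc⟩)).mpr (hmπ r hr hd))
    · rw [Nat.factorization_eq_zero_of_not_prime _ hr, Nat.factorization_eq_zero_of_not_prime _ hr]
      simp
  · rw [hk, card_classes_eq_sum_wt (elts σ X)]
    · rfl
    · intro x
      rw [mem_elts]
      constructor
      · intro h q hq ⟨g, hg, hd⟩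
        rw [ConjClasses.mk_eq_mk_iff_isConj, isConj_iff] at hg
        obtain ⟨c, hc⟩ := hg
        have h1 : IsEl σ g := (isEl_conj_iff c).mp (hc ▸ h)
        exact (hσp q (h1 q hq hd)).2
      · intro h q hq hd
        rw [hmem q hq (hd.trans (orderOf_dvd_natCard x))]
        exact h q hq ⟨x, rfl, hd⟩

end Cfsg.Agent.H69
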