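import Mathlib
import Cfsg.Agent.H69.Orbit
import Cfsg.Agent.H69.Basic

/-!
# A 2-transitive group of degree 9 whose point stabilizer is `2^3 : D` (helper69)
-/

set_option autoImplicit false
set_option linter.unusedSectionVars false

namespace Cfsg.Agent.H69.L28

open Subgroup MulAction

structure H8 (G Ω : Type*) [Group G] [MulAction G Ω] (a b : Ω) (S D : Subgroup G) (t : G) : Prop where
  ab : a ≠ b
  S8 : Nat.card S = 8
  sq : ∀ x ∈ S, x * x = 1
  Sa : ∀ x ∈ S, x • a = a
  reg : ∀ x ∈ S, x • b = b → x = 1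
  tr : ∀ c : Ω, c ≠ a → ∃ s ∈ S, s • b = c
  mD : ∀ g : G, g ∈ D ↔ g • a = a ∧ g • b = b
  nS : ∀ g : G, g • a = a → ∀ x ∈ S, g * x * g⁻¹ ∈ S
  faith : ∀ g ∈ D, (∀ x ∈ S, g * x = x * g) → g = 1
  oddD : Odd (Nat.card D)
  trS : ∀ x ∈ S, ∀ y ∈ S, x ≠ 1 → y ≠ 1 → ∃ d ∈ D, d * x * d⁻¹ = y
  tt : t * t = 1
  t1 : t ≠ 1
  tab : t • a = b
  trU : ∀ w : G, w * w = 1 → w ≠ 1 → w • a = b → ∃ d ∈ D, d * t * d⁻¹ = w
  cU : Nat.card {w : G // w * w = 1 ∧ w ≠ 1 ∧ w • a = b} = 7

variable {G Ω : Type*} [Group G] [Finite G] [MulAction G Ω] {a b : Ω} {S D : Subgroup G} {t : G}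

theorem card_inf_mul_relIndex (C D : Subgroup G) : Nat.card (D ⊓ C : Subgroup G) * C.relIndex D = Nat.card D := by
  have h1 := relIndex_mul_relIndex ⊥ (D ⊓ C) D bot_le inf_le_left
  rw [relIndex_bot_left, relIndex_bot_left, inf_comm, inf_relIndex_right] at h1
  rw [inf_comm]; exact h1

theorem eq_one_of_odd {D : Subgroup G} (hD : Odd (Nat.card D)) {x : G} (hx : x ∈ D) (h2 : x * x = 1) : x = 1 := by
  have h1 : orderOf x ∣ Nat.card D := Subgroup.orderOf_dvd_natCard D hx
  have h3 : orderOf x ∣ 2 := orderOf_dvd_of_pow_eq_one (by rw [pow_two, h2])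
  have h4 : Nat.Coprime 2 (Nat.card D) := Nat.coprime_two_left.2 hD
  have h5 := Nat.eq_one_of_dvd_coprimes h4 h3 h1
  rwa [orderOf_eq_one_iff] at h5

namespace H8

variable (h : H8 G Ω a b S D t)
include h

theorem inv {x : G} (hx : x ∈ S) : x⁻¹ = x := inv_eq_of_mul_eq_one_left (h.sq x hx)

theorem comm {x y : G} (hx : x ∈ S) (hy : y ∈ S) : x * y = y * x := by
  have h1 := h.inv (S.mul_mem hx hy)
  rw [mul_inv_rev, h.inv hx, h.inv hy] at h1
  exact h1.symm

theorem tinv : t⁻¹ = t := inv_eq_of_mul_eq_one_left h.tt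

theorem tb : t • b = a := by rw [← h.tab, ← mul_smul, h.tt, one_smul]

theorem ncS : ((S : Set G) \ {1}).ncard = 7 := by
  rw [Set.ncard_sdiff_singleton_of_mem S.one_mem]
  have h1 : (S : Set G).ncard = Nat.card S := rfl
  rw [h1, h.S8]

theorem ne_a {x : G} (hx : x ∈ S) : x • b ≠ a := by
  intro h1
  have h2 : b = x⁻¹ • a := by rw [← h1, inv_smul_smul]
  rw [h.inv hx, h.Sa x hx] at h2
  exact h.ab h2.symm

theorem D_a {g : G} (hg : g ∈ D) : g • a = a := ((h.mD g).1 hg).1
theorem D_b {g : G} (hg : g ∈ D) : g • b = b := ((h.mD g).1 hg).2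

theorem DS {g x : G} (hg : g ∈ D) (hx : x ∈ S) : g * x * g⁻¹ ∈ S := h.nS g (h.D_a hg) x hx

theorem DS' {g x : G} (hg : g ∈ D) (hx : x ∈ S) : g⁻¹ * x * g ∈ S := by
  have := h.DS (D.inv_mem hg) hx
  rwa [inv_inv] at this

theorem inf {x : G} (hx : x ∈ S) (hxD : x ∈ D) : x = 1 := h.reg x hx (h.D_b hxD)

theorem tD {d : G} (hd : d ∈ D) : t * d * t ∈ D := by
  rw [h.mD]
  refine ⟨?_, ?_⟩
  · rw [mul_smul, mul_smul, h.tab, h.D_b hd, h.tb]
  · rw [mul_smul, mul_smul, h.tb, h.D_a hd, h.tab]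

/-- `|D : C_D(x)| = 7` for `x ∈ S#` -/
theorem ri {x : G} (hx : x ∈ S) (hx1 : x ≠ 1) : (centralizer ({x} : Set G)).relIndex D = 7 := by
  rw [← card_conj_orbit, ← h.ncS]
  have h1 : {y : G | ∃ g ∈ D, y = g * x * g⁻¹} = (S : Set G) \ {1} := by
    ext y
    constructor
    · rintro ⟨g, hg, rfl⟩
      refine ⟨h.DS hg hx, fun h2 => hx1 ?_⟩
      have h3 : g * x * g⁻¹ = 1 := h2
      calc x = g⁻¹ * (g * x * g⁻¹) * g := by group
        _ = 1 := by rw [h3]; group
    · rintro ⟨hy, hy1⟩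
      obtain ⟨d, hd, hdy⟩ := h.trS x hx y hy hx1 hy1
      exact ⟨d, hd, hdy.symm⟩
  rw [← h1]
  rfl

theorem rit : (centralizer ({t} : Set G)).relIndex D = 7 := by
  rw [← card_conj_orbit, ← h.cU]
  refine Nat.card_congr (Equiv.subtypeEquivRight fun y => ⟨?_, ?_⟩)
  · rintro ⟨g, hg, rfl⟩
    refine ⟨?_, ?_, ?_⟩
    · calc g * t * g⁻¹ * (g * t * g⁻¹) = g * (t * t) * g⁻¹ := by group
        _ = 1 := by rw [h.tt]; group
    · intro h3
      apply h.t1
      calc t = g⁻¹ * (g * t * g⁻¹) * g := by group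
        _ = 1 := by rw [h3]; group
    · rw [mul_smul, mul_smul, h.D_a (D.inv_mem hg), h.tab, h.D_b hg]
  · rintro ⟨h1, h2, h3⟩
    obtain ⟨d, hd, hdy⟩ := h.trU y h1 h2 h3
    exact ⟨d, hd, hdy.symm⟩

theorem card_cent_eq {x : G} (hx : x ∈ S) (hx1 : x ≠ 1) : Nat.card (D ⊓ centralizer ({x} : Set G) : Subgroup G) =
    Nat.card (D ⊓ centralizer ({t} : Set G) : Subgroup G) := by
  have h1 := card_inf_mul_relIndex (centralizer ({x} : Set G)) D
  have h2 := card_inf_mul_relIndex (centralizer ({t} : Set G)) D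
  rw [h.ri hx hx1] at h1
  rw [h.rit] at h2
  omega

/-- an element of `D` centralising two involutions of `S` is trivial -/
theorem cent_two {u x y : G} (hu : u ∈ D) (hx : x ∈ S) (hy : y ∈ S) (hx1 : x ≠ 1) (hy1 : y ≠ 1) (hxy : x ≠ y)
    (hux : u * x = x * u) (huy : u * y = y * u) : u = 1 := by
  classical
  -- `u ^ 2 = 1`
  apply eq_one_of_odd h.oddD hu
  apply h.faith _ (D.mul_mem hu hu)
  -- `Q = {1, x, y, x y}` is centralised by `u`
  set Q : Finset G := {1, x, y, x * y} with hQ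
  have hxy1 : x * y ≠ 1 := by
    intro h1
    apply hxy
    have := eq_inv_of_mul_eq_one_left h1
    rw [this, h.inv hy]
  have hQc : Q.card = 4 := by
    rw [hQ]
    have e1 : x ≠ x * y := fun h1 => hy1 (by
      have := congrArg (fun z => x⁻¹ * z) h1
      simpa using this.symm)
    have e2 : y ≠ x * y := fun h1 => hx1 (by
      have := congrArg (fun z => z * y⁻¹) h1
      simpa using this.symm)
    rw [Finset.card_insert_of_notMem, Finset.card_insert_of_notMem, Finset.card_insert_of_notMem, Finset.card_singleton]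
    · simpa using e2
    · simp only [Finset.mem_insert, Finset.mem_singleton, not_or]; exact ⟨hxy, e1⟩
    · simp only [Finset.mem_insert, Finset.mem_singleton, not_or]
      exact ⟨Ne.symm hx1, Ne.symm hy1, Ne.symm hxy1⟩
  have hQS : ∀ q ∈ Q, q ∈ S := by
    intro q hq
    simp only [hQ, Finset.mem_insert, Finset.mem_singleton] at hq
    rcases hq with rfl | rfl | rfl | rfl
    · exact S.one_mem
    · exact hx
    · exact hy
    · exact S.mul_mem hx hy
  have hQu : ∀ q ∈ Q, u * q = q * u := by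
    intro q hq
    simp only [hQ, Finset.mem_insert, Finset.mem_singleton] at hq
    rcases hq with rfl | rfl | rfl | rfl
    · rw [mul_one, one_mul]
    · exact hux
    · exact huy
    · rw [← mul_assoc, hux, mul_assoc, huy, mul_assoc]
  have hQm : ∀ q ∈ Q, ∀ q' ∈ Q, q * q' ∈ Q := by
    intro q hq q' hq'
    have exx := h.sq x hx
    have eyy := h.sq y hy
    have exy := h.comm hx hy
    simp only [hQ, Finset.mem_insert, Finset.mem_singleton] at hq hq' ⊢
    rcases hq with rfl | rfl | rfl | rfl <;> rcases hq' with rfl | rfl | rfl | rfl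
    · left; rw [mul_one]
    · right; left; rw [one_mul]
    · right; right; left; rw [one_mul]
    · right; right; right; rw [one_mul]
    · right; left; rw [mul_one]
    · left; exact exx
    · right; right; right; rfl
    · right; right; left; rw [← mul_assoc, exx, one_mul]
    · right; right; left; rw [mul_one]
    · right; right; right; exact exy.symm
    · left; exact eyy
    · right; left; rw [← mul_assoc, ← exy, mul_assoc, eyy, mul_one]
    · right; right; right; rw [mul_one]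
    · right; right; left; rw [mul_assoc, ← exy, ← mul_assoc, exx, one_mul]
    · right; left; rw [mul_assoc, eyy, mul_one]
    · left; exact h.sq _ (S.mul_mem hx hy)
  intro z hz
  by_cases hzQ : z ∈ Q
  · have := hQu z hzQ
    calc u * u * z = u * (u * z) := by group
      _ = z * (u * u) := by rw [this, ← mul_assoc, this, mul_assoc]
  · -- `u z u⁻¹ = z q`
    have hw : u * z * u⁻¹ ∈ S := h.DS hu hz
    have hwQ : u * z * u⁻¹ ∉ Q := by
      intro h1
      apply hzQ
      have h2 := hQu _ h1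
      have h3 : u * z = z * u := by
        have : u * (u * z * u⁻¹) = u * z * u⁻¹ * u := h2
        have h4 : u * (u * z * u⁻¹) = u * z := by rw [this]; group
        have h5 := mul_left_cancel h4
        calc u * z = (u * z * u⁻¹) * u := by group
          _ = z * u := by rw [h5]
      rw [h3] at h1
      simpa using h1
    -- counting: `z Q` is the complement of `Q` in `S`
    have hSf : (S : Set G).Finite := Set.toFinite _
    have hcard : hSf.toFinset.card = 8 := by
      rw [← Set.ncard_eq_toFinset_card _ hSf]; exact h.S8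
    have hsub : Q ∪ Q.image (fun q => z * q) = hSf.toFinset := by
      apply Finset.eq_of_subset_of_card_le
      · intro w hw'
        rw [Set.Finite.mem_toFinset]
        rcases Finset.mem_union.1 hw' with h1 | h1
        · exact hQS w h1
        · obtain ⟨q, hq, rfl⟩ := Finset.mem_image.1 h1
          exact S.mul_mem hz (hQS q hq)
      · rw [hcard, Finset.card_union_of_disjoint, Finset.card_image_of_injective _ (mul_right_injective z), hQc]
        rw [Finset.disjoint_left]
        intro w hw1 hw2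
        obtain ⟨q, hq, rfl⟩ := Finset.mem_image.1 hw2
        apply hzQ
        have h1 := hQm _ hw1 q hq
        have h2 : z * q * q = z := by rw [mul_assoc, h.sq q (hQS q hq), mul_one]
        rw [h2] at h1
        exact h1
    have hwU : u * z * u⁻¹ ∈ Q ∪ Q.image (fun q => z * q) := by
      rw [hsub, Set.Finite.mem_toFinset]; exact hw
    rcases Finset.mem_union.1 hwU with h1 | h1
    · exact absurd h1 hwQ
    · obtain ⟨q, hq, hqz⟩ := Finset.mem_image.1 h1
      have e1 : u * z * u⁻¹ = z * q := hqz.symm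
      have e2 : u * u * z * (u * u)⁻¹ = z := by
        have e3 : u * q * u⁻¹ = q := by rw [hQu q hq]; group
        calc u * u * z * (u * u)⁻¹ = u * (u * z * u⁻¹) * u⁻¹ := by group
          _ = u * (z * q) * u⁻¹ := by rw [e1]
          _ = (u * z * u⁻¹) * (u * q * u⁻¹) := by group
          _ = z * q * q := by rw [e1, e3]
          _ = z := by rw [mul_assoc, h.sq q (hQS q hq), mul_one]
      calc u * u * z = (u * u * z * (u * u)⁻¹) * (u * u) := by group
        _ = z * (u * u) := by rw [e2]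

/-- `|C_D(x)|` is 1 or 3 -/
theorem card_cent {x : G} (hx : x ∈ S) (hx1 : x ≠ 1) :
    Nat.card (D ⊓ centralizer ({x} : Set G) : Subgroup G) = 1 ∨
    Nat.card (D ⊓ centralizer ({x} : Set G) : Subgroup G) = 3 := by
  classical
  set K : Subgroup G := D ⊓ centralizer ({x} : Set G) with hK
  have hKodd : Odd (Nat.card K) := by
    have h1 := card_inf_mul_relIndex (centralizer ({x} : Set G)) D
    have h2 := h.oddD
    rw [← h1] at h2
    exact (Nat.odd_mul.1 h2).1
  -- another involution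
  obtain ⟨y, hy, hyx⟩ : ∃ y ∈ (S : Set G) \ {1}, y ≠ x := by
    apply Set.exists_ne_of_one_lt_ncard
    rw [h.ncS]; norm_num
  have hyS : y ∈ S := hy.1
  have hy1 : y ≠ 1 := hy.2
  have hcx : ∀ u ∈ K, u * x = x * u := fun u hu => (mem_cent_singleton.1 hu.2).symm
  have key : ∀ u ∈ K, ∀ v ∈ K, u * y * u⁻¹ = v * y * v⁻¹ → u = v := by
    intro u hu v hv huv
    have h1 : (v⁻¹ * u) * y = y * (v⁻¹ * u) := by
      calc (v⁻¹ * u) * y = v⁻¹ * (u * y * u⁻¹) * u := by group
        _ = v⁻¹ * (v * y * v⁻¹) * u := by rw [huv]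
        _ = y * (v⁻¹ * u) := by group
    have h2 := h.cent_two (D.mul_mem (D.inv_mem hv.1) hu.1) hx hyS hx1 hy1 hyx.symm
      (hcx _ (K.mul_mem (K.inv_mem hv) hu)) h1
    calc u = v * (v⁻¹ * u) := by group
      _ = v := by rw [h2, mul_one]
  have key2 : ∀ u ∈ K, ∀ v ∈ K, u * y * u⁻¹ ≠ x * (v * y * v⁻¹) := by
    intro u hu v hv huv
    obtain ⟨w, hw⟩ : ∃ w, w = v⁻¹ * u := ⟨_, rfl⟩
    have hwK : w ∈ K := by rw [hw]; exact K.mul_mem (K.inv_mem hv) hu
    have h1 : w * y * w⁻¹ = x * y := by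
      have hvx : v⁻¹ * x = x * v⁻¹ := hcx _ (K.inv_mem hv)
      calc w * y * w⁻¹ = v⁻¹ * (u * y * u⁻¹) * v := by rw [hw]; group
        _ = (v⁻¹ * x) * (v * y * v⁻¹) * v := by rw [huv]; group
        _ = x * y := by rw [hvx]; group
    have h2 : (w * w) * y = y * (w * w) := by
      have h3 : w * x * w⁻¹ = x := by rw [hcx w hwK]; group
      have h4 : w * w * y * (w * w)⁻¹ = y := by
        calc w * w * y * (w * w)⁻¹ = w * (w * y * w⁻¹) * w⁻¹ := by group
          _ = w * (x * y) * w⁻¹ := by rw [h1]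
          _ = (w * x * w⁻¹) * (w * y * w⁻¹) := by group
          _ = x * (x * y) := by rw [h1, h3]
          _ = y := by rw [← mul_assoc, h.sq x hx, one_mul]
      calc (w * w) * y = (w * w * y * (w * w)⁻¹) * (w * w) := by group
        _ = y * (w * w) := by rw [h4]
    have h5 := h.cent_two (D.mul_mem hwK.1 hwK.1) hx hyS hx1 hy1 hyx.symm
      (hcx _ (K.mul_mem hwK hwK)) h2
    have h6 := eq_one_of_odd h.oddD hwK.1 h5
    rw [h6] at h1
    apply hx1
    have h7 : y = x * y := by simpa using h1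
    have h8 := congrArg (fun z => z * y⁻¹) h7
    simpa using h8.symm
  -- injection of two copies of `K`
  have hinj : Nat.card (K × Bool) ≤ ((S : Set G) \ {1, x}).ncard := by
    have hmem : ∀ p : K × Bool, (if p.2 then (p.1 : G) * y * (p.1 : G)⁻¹ else x * ((p.1 : G) * y * (p.1 : G)⁻¹)) ∈
        (S : Set G) \ {1, x} := by
      rintro ⟨u, c⟩
      have e1 : (u : G) * y * (u : G)⁻¹ ∈ S := h.DS u.2.1 hyS
      have e2 : (u : G) * y * (u : G)⁻¹ ≠ 1 := by
        intro h3
        apply hy1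
        calc y = (u : G)⁻¹ * ((u : G) * y * (u : G)⁻¹) * u := by group
          _ = 1 := by rw [h3]; group
      have e3 : (u : G) * y * (u : G)⁻¹ ≠ x := by
        intro h3
        apply hyx
        have h4 : (u : G)⁻¹ * x * u = x := by
          have := hcx _ (K.inv_mem u.2)
          rw [this]; group
        calc y = (u : G)⁻¹ * ((u : G) * y * (u : G)⁻¹) * u := by group
          _ = x := by rw [h3, h4]
      cases c
      · simp only [Bool.false_eq_true, if_false]
        refine ⟨S.mul_mem hx e1, ?_⟩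
        rintro (h3 | h3)
        · apply e3
          have := eq_inv_of_mul_eq_one_right h3
          rw [this, h.inv hx]
        · apply e2
          have h4 : x * ((u : G) * y * (u : G)⁻¹) = x := h3
          have := congrArg (fun z => x⁻¹ * z) h4
          simpa using this
      · simp only [if_true]
        refine ⟨e1, ?_⟩
        rintro (h3 | h3)
        · exact e2 h3
        · exact e3 h3
    have : ((S : Set G) \ {1, x}).ncard = Nat.card ((S : Set G) \ {1, x} : Set G) := rfl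
    rw [this]
    refine Nat.card_le_card_of_injective (fun p => ⟨_, hmem p⟩) ?_
    rintro ⟨u, c⟩ ⟨v, d⟩ huv
    have h3 := congrArg Subtype.val huv
    cases c <;> cases d <;> simp only [Bool.false_eq_true, if_false, if_true] at h3
    · have h4 := key u u.2 v v.2 (mul_left_cancel h3)
      rw [Subtype.ext h4]
    · exact absurd h3.symm (key2 v v.2 u u.2)
    · exact absurd h3 (key2 u u.2 v v.2)
    · have h4 := key u u.2 v v.2 h3
      rw [Subtype.ext h4]
  have hc : ((S : Set G) \ {1, x}).ncard = 6 := by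
    have h1 : (S : Set G) \ {1, x} = ((S : Set G) \ {1}) \ {x} := by
      ext z; simp only [Set.mem_sdiff, Set.mem_insert_iff, Set.mem_singleton_iff, not_or]; tauto
    rw [h1, Set.ncard_sdiff_singleton_of_mem (show x ∈ (S : Set G) \ {1} from ⟨hx, hx1⟩), h.ncS]
  rw [hc, Nat.card_prod] at hinj
  have h2 : Nat.card Bool = 2 := by rw [Nat.card_eq_fintype_card]; rfl
  rw [h2] at hinj
  obtain ⟨k, hk⟩ := hKodd
  omega

theorem card_D : Nat.card D = 7 ∨ Nat.card D = 21 := by
  obtain ⟨y, hy, hyx⟩ : ∃ y ∈ (S : Set G) \ {1}, y ≠ 1 := by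
    apply Set.exists_ne_of_one_lt_ncard
    rw [h.ncS]; norm_num
  have h1 := card_inf_mul_relIndex (centralizer ({y} : Set G)) D
  rw [h.ri hy.1 hy.2] at h1
  rcases h.card_cent hy.1 hy.2 with h2 | h2
  · left; omega
  · right; omega

/-- the normal subgroup of order 7 of `D` -/
theorem exists_P (h21 : Nat.card D = 21) : ∃ P : Subgroup G, P ≤ D ∧ Nat.card P = 7 ∧
    (∀ d ∈ D, d ^ 7 = 1 → d ∈ P) ∧ (∀ c ∈ P, c ^ 7 = 1) ∧ ∀ d ∈ D, ∀ c ∈ P, d * c * d⁻¹ ∈ P := by
  classical
  haveI : Fact (Nat.Prime 7) := ⟨by norm_num⟩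
  obtain ⟨Q⟩ : Nonempty (Sylow 7 D) := inferInstance
  have hQ : Nat.card (Q : Subgroup D) = 7 := by
    rw [Sylow.card_eq_multiplicity, h21]
    have : Nat.factorization 21 7 = 1 := by
      rw [show (21 : ℕ) = 7 * 3 by norm_num, Nat.factorization_mul (by norm_num) (by norm_num)]
      rw [Finsupp.add_apply, Nat.Prime.factorization_self (by norm_num),
        Nat.factorization_eq_zero_of_not_dvd (by norm_num)]
    rw [this]; norm_num
  have hidx : (Q : Subgroup D).index = 3 := by
    have := (Q : Subgroup D).card_mul_index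
    rw [hQ, h21] at this
    omega
  have h1 : Nat.card (Sylow 7 D) ∣ 3 := by rw [← hidx]; exact Q.card_dvd_index
  have h2 := card_sylow_modEq_one 7 D
  have h3 : Nat.card (Sylow 7 D) = 1 := by
    rcases (Nat.dvd_prime Nat.prime_three).1 h1 with h3 | h3
    · exact h3
    · rw [h3] at h2
      exact absurd h2 (by decide)
  haveI : Subsingleton (Sylow 7 D) := (Nat.card_eq_one_iff_unique.1 h3).1
  have hn : (Q : Subgroup D).Normal := Sylow.normal_of_subsingleton Q
  have hle : (Q : Subgroup D).map D.subtype ≤ D := map_subtype_le _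
  have hcard : Nat.card ((Q : Subgroup D).map D.subtype) = 7 := by
    rw [Subgroup.card_map_of_injective D.subtype_injective, hQ]
  refine ⟨(Q : Subgroup D).map D.subtype, hle, hcard, ?_, ?_, ?_⟩
  · intro d hd hd7
    have h4 : IsPGroup 7 (zpowers (⟨d, hd⟩ : D)) := by
      refine IsPGroup.of_card_dvd_pow (n := 1) ?_
      rw [Nat.card_zpowers, pow_one]
      exact orderOf_dvd_of_pow_eq_one (Subtype.ext (by push_cast; exact hd7))
    obtain ⟨R, hR⟩ := h4.exists_le_sylow
    rw [Subsingleton.elim R Q] at hR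
    exact ⟨⟨d, hd⟩, hR (mem_zpowers _), rfl⟩
  · intro c hc
    rw [← orderOf_dvd_iff_pow_eq_one, ← hcard]
    exact Subgroup.orderOf_dvd_natCard _ hc
  · rintro d hd _ ⟨c, hc, rfl⟩
    exact ⟨⟨d, hd⟩ * c * ⟨d, hd⟩⁻¹, hn.conj_mem c hc ⟨d, hd⟩, rfl⟩

/-- the involutions `t c` -/
theorem fin21 (h21 : Nat.card D = 21) (hsimp : ∀ N : Subgroup G, N.Normal → N = ⊥ ∨ N = ⊤) : False := by
  classical
  obtain ⟨P, hPD, hP7, hmem, hpow, hPn⟩ := h.exists_P h21
  have hPn' : ∀ d ∈ D, ∀ c ∈ P, d⁻¹ * c * d ∈ P := by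
    intro d hd c hc
    have := hPn _ (D.inv_mem hd) c hc
    rwa [inv_inv] at this
  have hPc : ∀ x ∈ P, ∀ y ∈ P, x * y = y * x := by
    haveI : Fact (Nat.Prime 7) := ⟨by norm_num⟩
    haveI : IsCyclic P := isCyclic_of_prime_card hP7
    intro x hx y hy
    have h0 : IsMulCommutative P := inferInstance
    have := h0.is_comm.comm ⟨x, hx⟩ ⟨y, hy⟩
    exact congrArg Subtype.val this
  -- an element of `P` which centralises `t` or an involution of `S` is trivial
  have hCt : Nat.card (D ⊓ centralizer ({t} : Set G) : Subgroup G) = 3 := by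
    have h1 := card_inf_mul_relIndex (centralizer ({t} : Set G)) D
    rw [h.rit] at h1; omega
  have hco : ∀ c ∈ P, ∀ K : Subgroup G, c ∈ K → Nat.card K = 3 → c = 1 := by
    intro c hc K hcK hK
    have h1 : orderOf c ∣ 7 := orderOf_dvd_of_pow_eq_one (hpow c hc)
    have h2 : orderOf c ∣ 3 := by rw [← hK]; exact Subgroup.orderOf_dvd_natCard K hcK
    have h3 := Nat.eq_one_of_dvd_coprimes (by norm_num : Nat.Coprime 7 3) h1 h2
    rwa [orderOf_eq_one_iff] at h3
  have hPt : ∀ c ∈ P, c * t = t * c → c = 1 := fun c hc hct =>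
    hco c hc (D ⊓ centralizer ({t} : Set G)) ⟨hPD hc, mem_cent_singleton.2 hct.symm⟩ hCt
  have hCS : ∀ x ∈ S, x ≠ 1 → Nat.card (D ⊓ centralizer ({x} : Set G) : Subgroup G) = 3 := by
    intro x hx hx1
    rw [h.card_cent_eq hx hx1, hCt]
  have hPS : ∀ c ∈ P, ∀ x ∈ S, x ≠ 1 → c * x = x * c → c = 1 := fun c hc x hx hx1 hcx =>
    hco c hc (D ⊓ centralizer ({x} : Set G)) ⟨hPD hc, mem_cent_singleton.2 hcx.symm⟩ (hCS x hx hx1)
  -- `t` inverts `P`
  have hinv : ∀ c ∈ P, t * c * t = c⁻¹ := by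
    intro c hc
    have h1 : t * c * t ∈ P := by
      apply hmem _ (h.tD (hPD hc))
      have h2 : (t * c * t) ^ 7 = t * c ^ 7 * t := by
        have := conj_pow (i := 7) (a := t) (b := c)
        rw [h.tinv] at this
        exact this
      rw [h2, hpow c hc, mul_one, h.tt]
    have h2 : c * (t * c * t) = 1 := by
      apply hPt _ (P.mul_mem hc h1)
      have h3 := hPc c hc _ h1
      calc c * (t * c * t) * t = c * t * c * (t * t) := by group
        _ = (t * t) * c * t * c := by rw [h.tt]; group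
        _ = t * ((t * c * t) * c) := by group
        _ = t * (c * (t * c * t)) := by rw [h3]
    exact eq_inv_of_mul_eq_one_right h2
  have hct : ∀ c ∈ P, c * t = t * c⁻¹ := by
    intro c hc
    rw [← hinv c hc]
    calc c * t = (t * t) * c * t := by rw [h.tt, one_mul]
      _ = t * (t * c * t) := by group
  have htc : ∀ c ∈ P, t * c = c⁻¹ * t := by
    intro c hc
    rw [← hinv c hc]
    calc t * c = t * c * (t * t) := by rw [h.tt, mul_one]
      _ = t * c * t * t := by group
  -- an element of order 3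
  obtain ⟨u, hu1, huK⟩ : ∃ u : G, u ≠ 1 ∧ u ∈ D ⊓ centralizer ({t} : Set G) := by
    have h1 : Nontrivial (D ⊓ centralizer ({t} : Set G) : Subgroup G) := by
      rw [← Finite.one_lt_card_iff_nontrivial, hCt]; norm_num
    obtain ⟨u, hu⟩ := exists_ne (1 : (D ⊓ centralizer ({t} : Set G) : Subgroup G))
    exact ⟨u, fun h2 => hu (Subtype.ext h2), u.2⟩
  have huD : u ∈ D := huK.1
  have hut : u * t = t * u := (mem_cent_singleton.1 huK.2).symm
  have hu3 : u ^ 3 = 1 := by
    rw [← orderOf_dvd_iff_pow_eq_one, ← hCt]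
    exact Subgroup.orderOf_dvd_natCard _ huK
  -- an involution of `S` centralised by `u`
  obtain ⟨s, hs, hs1, hus⟩ : ∃ s ∈ S, s ≠ 1 ∧ u * s = s * u := by
    haveI : Fact (Nat.Prime 3) := ⟨by norm_num⟩
    have hPu : IsPGroup 3 (zpowers u) := by
      refine IsPGroup.of_card_dvd_pow (n := 1) ?_
      rw [Nat.card_zpowers, pow_one]
      exact orderOf_dvd_of_pow_eq_one hu3
    have hzD : zpowers u ≤ D := by rw [zpowers_le]; exact huD
    letI act : MulAction (zpowers u) S :=
      { smul := fun x n => ⟨(x : G) * n * (x : G)⁻¹, h.DS (hzD x.2) n.2⟩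
        one_smul := fun n => Subtype.ext (by
          show ((1 : zpowers u) : G) * n * ((1 : zpowers u) : G)⁻¹ = n
          simp)
        mul_smul := fun x y n => Subtype.ext (by
          show ((x * y : zpowers u) : G) * n * ((x * y : zpowers u) : G)⁻¹ =
            (x : G) * ((y : G) * n * (y : G)⁻¹) * (x : G)⁻¹
          push_cast; group) }
    have hdef : ∀ (x : zpowers u) (n : S), ((x • n : S) : G) = (x : G) * n * (x : G)⁻¹ := fun _ _ => rfl
    have h1 := hPu.card_modEq_card_fixedPoints (α := S)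
    rw [h.S8] at h1
    have h2 : 1 < Nat.card (fixedPoints (zpowers u) S) := by
      by_contra hlt
      have h3 : Nat.card (fixedPoints (zpowers u) S) = 0 ∨ Nat.card (fixedPoints (zpowers u) S) = 1 := by omega
      rcases h3 with h3 | h3
      · rw [h3] at h1; exact absurd h1 (by decide)
      · rw [h3] at h1; exact absurd h1 (by decide)
    rw [Finite.one_lt_card_iff_nontrivial] at h2
    have hfix1 : (1 : S) ∈ fixedPoints (zpowers u) S := by
      intro x
      apply Subtype.ext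
      rw [hdef]; simp
    obtain ⟨z, hz⟩ := exists_ne (⟨1, hfix1⟩ : fixedPoints (zpowers u) S)
    refine ⟨z.1, z.1.2, fun h4 => hz (Subtype.ext (Subtype.ext h4)), ?_⟩
    have h5 := congrArg Subtype.val (z.2 ⟨u, mem_zpowers u⟩)
    rw [hdef] at h5
    have h6 : u * (z.1 : G) * u⁻¹ = z.1 := h5
    calc u * (z.1 : G) = (u * z.1 * u⁻¹) * u := by group
      _ = z.1 * u := by rw [h6]
  -- `t` fixes `s b`
  have htsb : t • s • b = s • b := by
    have h1 : t • s • b ≠ a := by
      intro h2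
      have h3 : s • b = b := by
        calc s • b = (t * t) • s • b := by rw [h.tt, one_smul]
          _ = t • (t • s • b) := mul_smul _ _ _
          _ = b := by rw [h2, h.tab]
      exact hs1 (h.reg s hs h3)
    obtain ⟨s', hs', hs'b⟩ := h.tr _ h1
    have h2 : u * s' = s' * u := by
      have h3 : u • s' • b = s' • b := by
        rw [hs'b, ← mul_smul, hut, mul_smul, ← mul_smul u s b, hus, mul_smul, h.D_b huD]
      have h4 : s'⁻¹ * (u * s' * u⁻¹) = 1 := by
        apply h.reg _ (S.mul_mem (S.inv_mem hs') (h.DS huD hs'))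
        have h5 : u⁻¹ • b = b := h.D_b (D.inv_mem huD)
        rw [mul_smul, mul_smul, mul_smul, h5, h3, inv_smul_smul]
      have h5 := eq_of_inv_mul_eq_one h4
      calc u * s' = (u * s' * u⁻¹) * u := by group
        _ = s' * u := by rw [← h5]
    by_cases h3 : s' = 1
    · exfalso
      rw [h3, one_smul] at hs'b
      have h4 : t • b = s • b := by
        calc t • b = t • (t • s • b) := congrArg (t • ·) hs'b
          _ = (t * t) • s • b := (mul_smul _ _ _).symm
          _ = s • b := by rw [h.tt, one_smul]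
      rw [h.tb] at h4
      exact h.ne_a hs h4.symm
    · by_cases h4 : s' = s
      · rw [← hs'b, h4]
      · exact absurd (h.cent_two huD hs hs' hs1 h3 (Ne.symm h4) hus h2) hu1
  -- `(t s)^3 = 1`
  have hrel : t * s * t = s * t * s := by
    have hr3 : t * s * (t * s) * (t * s) = 1 := by
      have heD : t * s * (t * s) * (t * s) ∈ D := by
        rw [h.mD]
        have e1 : (t * s) • a = b := by rw [mul_smul, h.Sa s hs, h.tab]
        have e2 : (t * s) • b = s • b := by rw [mul_smul, htsb]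
        have e3 : (t * s) • (s • b) = a := by
          rw [mul_smul, ← mul_smul s s b, h.sq s hs, one_smul, h.tb]
        refine ⟨?_, ?_⟩
        · rw [mul_smul, mul_smul, e1, e2, e3]
        · rw [mul_smul, mul_smul, e2, e3, e1]
      have h2 : s * (t * s * (t * s) * (t * s)) * s = (t * s * (t * s) * (t * s))⁻¹ := by
        simp only [mul_inv_rev, h.inv hs, h.tinv]
        calc s * (t * s * (t * s) * (t * s)) * s = s * t * s * t * s * t * (s * s) := by group
          _ = s * t * (s * t) * (s * t) := by rw [h.sq s hs]; group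
          _ = s * t * (s * t * (s * t)) := by group
      obtain ⟨e, he⟩ : ∃ e, e = t * s * (t * s) * (t * s) := ⟨_, rfl⟩
      rw [← he] at h2 heD ⊢
      have h3 : s * (e * s * e⁻¹) = (e * e)⁻¹ := by
        calc s * (e * s * e⁻¹) = (s * e * s) * e⁻¹ := by group
          _ = (e * e)⁻¹ := by rw [h2]; group
      have h4 : (e * e)⁻¹ = 1 := by
        apply h.inf _ (D.inv_mem (D.mul_mem heD heD))
        rw [← h3]
        exact S.mul_mem hs (h.DS heD hs)
      exact eq_one_of_odd h.oddD heD (inv_eq_one.1 h4)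
    calc t * s * t = (t * s * (t * s) * (t * s)) * (s⁻¹ * t⁻¹ * s⁻¹) := by group
      _ = s * t * s := by rw [hr3, one_mul, h.inv hs, h.tinv]
  -- `P` is transitive on the involutions of `S`
  have hPtr : ∀ x ∈ S, x ≠ 1 → ∃ c ∈ P, x = c * s * c⁻¹ := by
    intro x hx hx1
    have h1 : {y : G | ∃ c ∈ P, y = c * s * c⁻¹} ⊆ (S : Set G) \ {1} := by
      rintro _ ⟨c, hc, rfl⟩
      refine ⟨h.DS (hPD hc) hs, fun h2 => hs1 ?_⟩
      have h3 : c * s * c⁻¹ = 1 := h2
      calc s = c⁻¹ * (c * s * c⁻¹) * c := by group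
        _ = 1 := by rw [h3]; group
    have h2 : {y : G | ∃ c ∈ P, y = c * s * c⁻¹}.ncard = 7 := by
      have h3 := card_conj_orbit P s
      have h4 := card_inf_mul_relIndex (centralizer ({s} : Set G)) P
      have h5 : Nat.card (P ⊓ centralizer ({s} : Set G) : Subgroup G) = 1 := by
        rw [Subgroup.card_eq_one, eq_bot_iff]
        rintro c ⟨hc, hcs⟩
        exact hPS c hc s hs hs1 (mem_cent_singleton.1 hcs).symm
      rw [h5, one_mul, hP7] at h4
      rw [← h4, ← h3]
      rfl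
    have h3 : {y : G | ∃ c ∈ P, y = c * s * c⁻¹} = (S : Set G) \ {1} :=
      Set.eq_of_subset_of_ncard_le h1 (by rw [h.ncS, h2]) (Set.toFinite _)
    have h4 : x ∈ {y : G | ∃ c ∈ P, y = c * s * c⁻¹} := by rw [h3]; exact ⟨hx, hx1⟩
    exact h4
  -- `t x t` for `x ∈ S#`
  have hbn : ∀ x ∈ S, x ≠ 1 → ∃ x1 ∈ S, ∃ c ∈ P, t * x * t = x1 * c * t * x1 := by
    intro x hx hx1
    obtain ⟨c, hc, rfl⟩ := hPtr x hx hx1
    refine ⟨c⁻¹ * s * c, h.DS' (hPD hc) hs, c⁻¹ * c⁻¹, P.mul_mem (P.inv_mem hc) (P.inv_mem hc), ?_⟩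
    have e1 := htc c hc
    have e2 : c⁻¹ * t = t * c := (htc c hc).symm
    calc t * (c * s * c⁻¹) * t = (t * c) * s * (c⁻¹ * t) := by group
      _ = c⁻¹ * t * s * (t * c) := by rw [e1, e2]
      _ = c⁻¹ * (t * s * t) * c := by group
      _ = c⁻¹ * (s * t * s) * c := by rw [hrel]
      _ = (c⁻¹ * s * c) * (c⁻¹ * (t * c)) * (c⁻¹ * s * c) := by group
      _ = (c⁻¹ * s * c) * (c⁻¹ * (c⁻¹ * t)) * (c⁻¹ * s * c) := by rw [e1]
      _ = c⁻¹ * s * c * (c⁻¹ * c⁻¹) * t * (c⁻¹ * s * c) := by group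
  -- `P` is transitive on the involutions moving `a` to `b`
  have hdt : ∀ d ∈ D, ∃ c ∈ P, d * t * d⁻¹ = c * t := by
    intro d hd
    have hUiff : ∀ d ∈ D, d * t * d⁻¹ ∈ {w : G | w * w = 1 ∧ w ≠ 1 ∧ w • a = b} := by
      intro d hd
      refine ⟨?_, ?_, ?_⟩
      · calc d * t * d⁻¹ * (d * t * d⁻¹) = d * (t * t) * d⁻¹ := by group
          _ = 1 := by rw [h.tt]; group
      · intro h3
        apply h.t1
        calc t = d⁻¹ * (d * t * d⁻¹) * d := by group
          _ = 1 := by rw [h3]; group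
      · rw [mul_smul, mul_smul, h.D_a (D.inv_mem hd), h.tab, h.D_b hd]
    have h1 : {y : G | ∃ c ∈ P, y = c * t * c⁻¹} ⊆ {w : G | w * w = 1 ∧ w ≠ 1 ∧ w • a = b} := by
      rintro _ ⟨c, hc, rfl⟩
      exact hUiff c (hPD hc)
    have h0 : {w : G | w * w = 1 ∧ w ≠ 1 ∧ w • a = b}.ncard = 7 := h.cU
    have h2 : {y : G | ∃ c ∈ P, y = c * t * c⁻¹}.ncard = 7 := by
      have h3 := card_conj_orbit P t
      have h4 := card_inf_mul_relIndex (centralizer ({t} : Set G)) P
      have h5 : Nat.card (P ⊓ centralizer ({t} : Set G) : Subgroup G) = 1 := by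
        rw [Subgroup.card_eq_one, eq_bot_iff]
        rintro c ⟨hc, hcs⟩
        exact hPt c hc (mem_cent_singleton.1 hcs).symm
      rw [h5, one_mul, hP7] at h4
      rw [← h4, ← h3]
      rfl
    have h3 : {y : G | ∃ c ∈ P, y = c * t * c⁻¹} = {w : G | w * w = 1 ∧ w ≠ 1 ∧ w • a = b} :=
      Set.eq_of_subset_of_ncard_le h1 (by rw [h0, h2]) (Set.toFinite _)
    have h4 : d * t * d⁻¹ ∈ {y : G | ∃ c ∈ P, y = c * t * c⁻¹} := by rw [h3]; exact hUiff d hd
    obtain ⟨c, hc, hcd⟩ := h4
    refine ⟨c * c, P.mul_mem hc hc, ?_⟩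
    have e2 : t * c⁻¹ = c * t := (hct c hc).symm
    calc d * t * d⁻¹ = c * (t * c⁻¹) := by rw [hcd]; group
      _ = c * c * t := by rw [e2]; group
  -- the subgroup `L`
  have hPx : ∀ c ∈ P, ∀ x ∈ S, c * x * c⁻¹ ∈ S := fun c hc x hx => h.DS (hPD hc) hx
  have hPx' : ∀ c ∈ P, ∀ x ∈ S, c⁻¹ * x * c ∈ S := fun c hc x hx => h.DS' (hPD hc) hx
  let L : Subgroup G :=
    { carrier := {g | (∃ x ∈ S, ∃ c ∈ P, g = x * c) ∨ (∃ x ∈ S, ∃ c ∈ P, ∃ y ∈ S, g = x * c * t * y)}
      one_mem' := Or.inl ⟨1, S.one_mem, 1, P.one_mem, by rw [mul_one]⟩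
      inv_mem' := by
        rintro _ (⟨x, hx, c, hc, rfl⟩ | ⟨x, hx, c, hc, y, hy, rfl⟩)
        · refine Or.inl ⟨c⁻¹ * x * c, hPx' c hc x hx, c⁻¹, P.inv_mem hc, ?_⟩
          rw [mul_inv_rev, h.inv hx]; group
        · refine Or.inr ⟨y, hy, c, hc, x, hx, ?_⟩
          have e2 : t * c⁻¹ = c * t := (hct c hc).symm
          calc (x * c * t * y)⁻¹ = y⁻¹ * (t⁻¹ * c⁻¹) * x⁻¹ := by group
            _ = y * (c * t) * x := by rw [h.inv hx, h.inv hy, h.tinv, e2]
            _ = y * c * t * x := by group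
      mul_mem' := by
        rintro _ _ (⟨x, hx, c, hc, rfl⟩ | ⟨x, hx, c, hc, y, hy, rfl⟩)
          (⟨x', hx', c', hc', rfl⟩ | ⟨x', hx', c', hc', y', hy', rfl⟩)
        · refine Or.inl ⟨x * (c * x' * c⁻¹), S.mul_mem hx (hPx c hc x' hx'), c * c', P.mul_mem hc hc', ?_⟩
          group
        · refine Or.inr ⟨x * (c * x' * c⁻¹), S.mul_mem hx (hPx c hc x' hx'), c * c', P.mul_mem hc hc', y', hy', ?_⟩
          group
        · refine Or.inr ⟨x, hx, c * c'⁻¹, P.mul_mem hc (P.inv_mem hc'), c'⁻¹ * (y * x') * c',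
            hPx' c' hc' _ (S.mul_mem hy hx'), ?_⟩
          have e1 := htc c' hc'
          calc x * c * t * y * (x' * c') = x * c * (t * c') * (c'⁻¹ * (y * x') * c') := by group
            _ = x * c * (c'⁻¹ * t) * (c'⁻¹ * (y * x') * c') := by rw [e1]
            _ = x * (c * c'⁻¹) * t * (c'⁻¹ * (y * x') * c') := by group
        · by_cases hz : y * x' = 1
          · refine Or.inl ⟨x * ((c * c'⁻¹) * y' * (c * c'⁻¹)⁻¹), S.mul_mem hx
              (hPx _ (P.mul_mem hc (P.inv_mem hc')) y' hy'), c * c'⁻¹, P.mul_mem hc (P.inv_mem hc'), ?_⟩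
            calc x * c * t * y * (x' * c' * t * y') = x * c * t * (y * x') * (c' * t) * y' := by group
              _ = x * c * (t * t) * c'⁻¹ * y' := by rw [hz, hct c' hc']; group
              _ = _ := by rw [h.tt]; group
          · obtain ⟨x1, hx1, c1, hc1, e1⟩ := hbn _ (S.mul_mem hy hx') hz
            refine Or.inr ⟨x * (c * x1 * c⁻¹), S.mul_mem hx (hPx c hc x1 hx1), c * c1 * c',
              P.mul_mem (P.mul_mem hc hc1) hc', (c' * x1 * c'⁻¹) * y', S.mul_mem (hPx c' hc' x1 hx1) hy', ?_⟩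
            have e2 : t * c'⁻¹ = c' * t := (hct c' hc').symm
            calc x * c * t * y * (x' * c' * t * y') = x * c * (t * (y * x') * (c' * t)) * y' := by group
              _ = x * c * (t * (y * x') * t) * c'⁻¹ * y' := by rw [hct c' hc']; group
              _ = x * c * (x1 * c1 * t * x1) * c'⁻¹ * y' := by rw [e1]
              _ = x * (c * x1 * c⁻¹) * (c * c1) * (t * c'⁻¹) * ((c' * x1 * c'⁻¹) * y') := by group
              _ = x * (c * x1 * c⁻¹) * (c * c1) * (c' * t) * ((c' * x1 * c'⁻¹) * y') := by rw [e2]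
              _ = _ := by group }
  have hmL : ∀ g : G, g ∈ L ↔ (∃ x ∈ S, ∃ c ∈ P, g = x * c) ∨ (∃ x ∈ S, ∃ c ∈ P, ∃ y ∈ S, g = x * c * t * y) :=
    fun g => Iff.rfl
  have hSL : S ≤ L := fun x hx => (hmL x).2 (Or.inl ⟨x, hx, 1, P.one_mem, by rw [mul_one]⟩)
  have htL : t ∈ L := (hmL t).2 (Or.inr ⟨1, S.one_mem, 1, P.one_mem, 1, S.one_mem, by group⟩)
  have hDL : ∀ d ∈ D, ∀ g ∈ L, d * g * d⁻¹ ∈ L := by
    intro d hd g hg
    rcases (hmL g).1 hg with ⟨x, hx, c, hc, rfl⟩ | ⟨x, hx, c, hc, y, hy, rfl⟩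
    · refine (hmL _).2 (Or.inl ⟨d * x * d⁻¹, h.DS hd hx, d * c * d⁻¹, hPn d hd c hc, by group⟩)
    · obtain ⟨c2, hc2, e1⟩ := hdt d hd
      refine (hmL _).2 (Or.inr ⟨d * x * d⁻¹, h.DS hd hx, d * c * d⁻¹ * c2, P.mul_mem (hPn d hd c hc) hc2,
        d * y * d⁻¹, h.DS hd hy, ?_⟩)
      calc d * (x * c * t * y) * d⁻¹ = (d * x * d⁻¹) * (d * c * d⁻¹) * (d * t * d⁻¹) * (d * y * d⁻¹) := by group
        _ = (d * x * d⁻¹) * (d * c * d⁻¹) * (c2 * t) * (d * y * d⁻¹) := by rw [e1]
        _ = _ := by group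
  have hDN : D ≤ normalizer (L : Set G) := by
    intro d hd
    rw [Subgroup.mem_normalizer_iff]
    intro g
    refine ⟨hDL d hd g, fun hg => ?_⟩
    have := hDL _ (D.inv_mem hd) _ hg
    have e : d⁻¹ * (d * g * d⁻¹) * d⁻¹⁻¹ = g := by group
    rwa [e] at this
  have hLN : L ≤ normalizer (L : Set G) := le_normalizer
  have hfa : ∀ g : G, g • a = a → g ∈ normalizer (L : Set G) := by
    intro g hga
    have h1 : g • b ≠ a := by
      intro h2
      rw [← hga] at h2
      exact h.ab (MulAction.injective g h2).symm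
    obtain ⟨x, hx, hxb⟩ := h.tr _ h1
    have h3 : x⁻¹ * g ∈ D := by
      rw [h.mD]
      refine ⟨?_, ?_⟩
      · rw [mul_smul, hga, h.Sa _ (S.inv_mem hx)]
      · rw [mul_smul, ← hxb, inv_smul_smul]
    have h4 : g = x * (x⁻¹ * g) := by group
    rw [h4]
    exact mul_mem (hLN (hSL hx)) (hDN h3)
  have hLnorm : L.Normal := by
    rw [← Subgroup.normalizer_eq_top_iff, eq_top_iff]
    intro g _
    by_cases hga : g • a = a
    · exact hfa g hga
    · obtain ⟨x, hx, hxb⟩ := h.tr _ hga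
      have h3 : (t * x⁻¹ * g) • a = a := by
        rw [mul_smul, mul_smul, ← hxb, inv_smul_smul, h.tb]
      have h4 : g = x * t * (t * x⁻¹ * g) := by
        calc g = x * (t * t) * x⁻¹ * g := by rw [h.tt]; group
          _ = x * t * (t * x⁻¹ * g) := by group
      rw [h4]
      exact mul_mem (mul_mem (hLN (hSL hx)) (hLN htL)) (hfa _ h3)
  rcases hsimp L hLnorm with h1 | h1
  · rw [h1, Subgroup.mem_bot] at htL
    exact h.t1 htL
  · have h2 : u ∈ L := by rw [h1]; exact Subgroup.mem_top u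
    rcases (hmL u).1 h2 with ⟨x, hx, c, hc, e⟩ | ⟨x, hx, c, hc, y, hy, e⟩
    · have h3 : x = u * c⁻¹ := by rw [e]; group
      have h4 : x = 1 := h.inf hx (by rw [h3]; exact D.mul_mem huD (D.inv_mem (hPD hc)))
      rw [h4, one_mul] at e
      exact hu1 (hPt u (by rw [e]; exact hc) hut)
    · have h3 := h.D_a huD
      rw [e, mul_smul, mul_smul, mul_smul, h.Sa y hy, h.tab, h.D_b (hPD hc)] at h3
      exact h.ne_a hx h3

theorem card_eq_seven (hsimp : ∀ N : Subgroup G, N.Normal → N = ⊥ ∨ N = ⊤) : Nat.card D = 7 := by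
  rcases h.card_D with h1 | h1
  · exact h1
  · exact (h.fin21 h1 hsimp).elim

end H8

end Cfsg.Agent.H69.L28
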