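import Mathlib

/-!
O'Nan's theorem on abelian normal subgroups of a one-point stabilizer, part 1: counting lemmas, the family,
trivial intersection.
-/

set_option autoImplicit false

namespace Cfsg.Agent.H69.ON

open MulAction

theorem cnt_sum {α β : Type*} [Finite α] [Finite β] (L : Set α) (T : α → Set β)
    (h3 : ∀ f ∈ L, ∀ f' ∈ L, f ≠ f' → Disjoint (T f) (T f')) :
    (⋃ f ∈ L, T f).ncard = ∑ f ∈ L.toFinite.toFinset, (T f).ncard := by
  classical
  have h : (⋃ f ∈ L, T f) = ((L.toFinite.toFinset.biUnion (fun f => (T f).toFinite.toFinset) : Finset β) : Set β) := by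
    ext x; simp
  rw [h, Set.ncard_coe_finset, Finset.card_biUnion]
  · apply Finset.sum_congr rfl
    intro f _
    rw [Set.ncard_eq_toFinset_card]
  · intro f hf f' hf' hne
    have h4 := h3 f (by simpa using hf) f' (by simpa using hf') hne
    change Disjoint _ _
    rw [Finset.disjoint_left]
    intro x hx hx'
    exact Set.disjoint_left.mp h4 (by simpa using hx) (by simpa using hx')

theorem cnt_le {α β : Type*} [Finite α] [Finite β] (L : Set α) (T : α → Set β) (U : Set β) (k : ℕ)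
    (h1 : ∀ f ∈ L, T f ⊆ U) (h2 : ∀ f ∈ L, k ≤ (T f).ncard)
    (h3 : ∀ f ∈ L, ∀ f' ∈ L, f ≠ f' → ∀ x ∈ T f, x ∉ T f') : L.ncard * k ≤ U.ncard := by
  classical
  have h4 := cnt_sum L T (fun f hf f' hf' hne => Set.disjoint_left.mpr (fun x hx hx' => h3 f hf f' hf' hne x hx hx'))
  have h5 : (⋃ f ∈ L, T f).ncard ≤ U.ncard := by
    apply Set.ncard_le_ncard _ (Set.toFinite _)
    intro x hx
    simp only [Set.mem_iUnion] at hx
    obtain ⟨f, hf, hx⟩ := hx
    exact h1 f hf hx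
  have h6 : L.ncard * k ≤ ∑ f ∈ L.toFinite.toFinset, (T f).ncard := by
    rw [Set.ncard_eq_toFinset_card L, ← smul_eq_mul]
    apply Finset.card_nsmul_le_sum
    intro f hf
    exact h2 f (by simpa using hf)
  omega

theorem cnt_eq {α β : Type*} [Finite α] [Finite β] (L : Set α) (T : α → Set β) (U : Set β) (k : ℕ)
    (h1 : ∀ f ∈ L, T f ⊆ U) (h1' : ∀ x ∈ U, ∃ f ∈ L, x ∈ T f) (h2 : ∀ f ∈ L, (T f).ncard = k)
    (h3 : ∀ f ∈ L, ∀ f' ∈ L, f ≠ f' → ∀ x ∈ T f, x ∉ T f') : L.ncard * k = U.ncard := by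
  classical
  have h4 := cnt_sum L T (fun f hf f' hf' hne => Set.disjoint_left.mpr (fun x hx hx' => h3 f hf f' hf' hne x hx hx'))
  have h5 : (⋃ f ∈ L, T f) = U := by
    ext x
    simp only [Set.mem_iUnion]
    constructor
    · rintro ⟨f, hf, hx⟩
      exact h1 f hf hx
    · intro hx
      obtain ⟨f, hf, hx⟩ := h1' x hx
      exact ⟨f, hf, hx⟩
  have h6 : L.ncard * k = ∑ f ∈ L.toFinite.toFinset, (T f).ncard := by
    rw [Set.ncard_eq_toFinset_card L, ← smul_eq_mul, Finset.sum_const_nat (m := k), smul_eq_mul]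
    intro f hf
    exact h2 f (by simpa using hf)
  rw [h6, ← h4, h5]

variable {G Ω : Type*} [Group G] [MulAction G Ω]

theorem orb_card (H : Subgroup G) (a : Ω) :
    (orbit H a).ncard * Nat.card (H ⊓ stabilizer G a : Subgroup G) = Nat.card H := by
  have h1 : (stabilizer H a).index = (orbit H a).ncard := MulAction.index_stabilizer _ _
  have h2 : Nat.card (H ⊓ stabilizer G a : Subgroup G) = Nat.card (stabilizer H a) := by
    have h3 : stabilizer H a = (stabilizer G a).subgroupOf H := by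
      ext x
      simp [Subgroup.mem_subgroupOf, mem_stabilizer_iff, Subgroup.smul_def]
    rw [h3, ← Subgroup.inf_subgroupOf_left]
    exact (Nat.card_congr (Subgroup.subgroupOfEquivOfLe (inf_le_left)).toEquiv).symm
  rw [h2, ← h1, mul_comm]
  exact Subgroup.card_mul_index _

/-- An elementary abelian family. -/
structure Fm (A : Ω → Subgroup G) (p : ℕ) : Prop where
  pr : p.Prime
  fx : ∀ a, ∀ x ∈ A a, x • a = a
  cj : ∀ (g : G) (a : Ω) (x : G), x ∈ A a → g * x * g⁻¹ ∈ A (g • a)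
  ab : ∀ a, ∀ x ∈ A a, ∀ y ∈ A a, x * y = y * x
  pw : ∀ a, ∀ x ∈ A a, x ^ p = 1
  nt : ∀ a b, a ≠ b → ∃ x ∈ A a, x ≠ 1 ∧ x • b = b
  tr : ∀ x y x' y' : Ω, x ≠ y → x' ≠ y' → ∃ g : G, g • x = x' ∧ g • y = y'

/-- two-point part -/
def S (A : Ω → Subgroup G) (a b : Ω) : Subgroup G := A a ⊓ stabilizer G b

theorem mem_S {A : Ω → Subgroup G} {a b : Ω} {x : G} : x ∈ S A a b ↔ x ∈ A a ∧ x • b = b := by
  rw [S, Subgroup.mem_inf, mem_stabilizer_iff]

/-- the product of the two parts -/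
def E (A : Ω → Subgroup G) (a b : Ω) : Subgroup G := S A a b ⊔ S A b a

namespace Fm

variable {A : Ω → Subgroup G} {p : ℕ}

section
variable (F : Fm A p)
include F

theorem cj' {g : G} {a : Ω} {x : G} (h : x ∈ A a) (hg : g • a = a) : g * x * g⁻¹ ∈ A a := by
  have := F.cj g a x h
  rwa [hg] at this

theorem cj_inv {g : G} {a : Ω} {x : G} (h : x ∈ A (g • a)) : g⁻¹ * x * g ∈ A a := by
  have := F.cj g⁻¹ _ x h
  rwa [inv_smul_smul, inv_inv] at this

theorem cj_inv' {g : G} {a : Ω} {x : G} (h : x ∈ A a) (hg : g • a = a) : g⁻¹ * x * g ∈ A a := by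
  apply F.cj_inv
  rwa [hg]

theorem card_le [Finite G] (X : Ω → Ω → Subgroup G)
    (hX : ∀ (g : G) a b x, x ∈ X a b → g * x * g⁻¹ ∈ X (g • a) (g • b)) {a b a' b' : Ω}
    (hab : a ≠ b) (hab' : a' ≠ b') : Nat.card (X a b) ≤ Nat.card (X a' b') := by
  obtain ⟨g, h1, h2⟩ := F.tr a b a' b' hab hab'
  have h3 : ∀ x ∈ X a b, g * x * g⁻¹ ∈ X a' b' := by
    intro x hx
    have := hX g a b x hx
    rwa [h1, h2] at this
  apply Nat.card_le_card_of_injective (fun x : X a b => (⟨g * x * g⁻¹, h3 x x.2⟩ : X a' b'))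
  intro x y hxy
  have := congrArg Subtype.val hxy
  simp only at this
  apply Subtype.ext
  exact mul_left_cancel (mul_right_cancel this)

theorem card_eq [Finite G] (X : Ω → Ω → Subgroup G)
    (hX : ∀ (g : G) a b x, x ∈ X a b → g * x * g⁻¹ ∈ X (g • a) (g • b)) {a b a' b' : Ω}
    (hab : a ≠ b) (hab' : a' ≠ b') : Nat.card (X a b) = Nat.card (X a' b') :=
  le_antisymm (F.card_le X hX hab hab') (F.card_le X hX hab' hab)

theorem eq_of_le [Finite G] (X : Ω → Ω → Subgroup G)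
    (hX : ∀ (g : G) a b x, x ∈ X a b → g * x * g⁻¹ ∈ X (g • a) (g • b)) {a b a' b' : Ω}
    (hab : a ≠ b) (hab' : a' ≠ b') (hle : X a b ≤ X a' b') : X a b = X a' b' :=
  Subgroup.eq_of_le_of_card_ge hle (F.card_le X hX hab' hab)

theorem moves [FaithfulSMul G Ω] {a b : Ω} (hab : a ≠ b) : ∃ x ∈ A a, x • b ≠ b := by
  by_contra hcon
  push Not at hcon
  obtain ⟨z, hz, hz1, -⟩ := F.nt a b hab
  apply hz1
  apply FaithfulSMul.eq_of_smul_eq_smul (α := Ω)
  intro c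
  rw [one_smul]
  by_cases hc : c = a
  · rw [hc]; exact F.fx a z hz
  · obtain ⟨g, h1, h2⟩ := F.tr a b a c hab (Ne.symm hc)
    have h3 := hcon _ (F.cj_inv' (g := g) hz h1)
    rw [mul_smul, mul_smul, h2, inv_smul_eq_iff, h2] at h3
    exact h3

/-- trivial intersection -/
theorem ti [Finite G] [FaithfulSMul G Ω] {a b : Ω} (hab : a ≠ b) {z : G} (ha : z ∈ A a) (hb : z ∈ A b) :
    z = 1 := by
  have hX : ∀ (g : G) a b x, x ∈ A a ⊓ A b → g * x * g⁻¹ ∈ A (g • a) ⊓ A (g • b) := by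
    intro g a b x hx
    exact ⟨F.cj g a x hx.1, F.cj g b x hx.2⟩
  have heq : ∀ {a b a' b' : Ω}, a ≠ b → a' ≠ b' → A a ⊓ A b ≤ A a' ⊓ A b' → A a ⊓ A b = A a' ⊓ A b' := by
    intro a b a' b' h h' hle
    exact F.eq_of_le (fun a b => A a ⊓ A b) hX h h' hle
  -- invariance of the blocks
  have hinv : ∀ {a b c : Ω} {g : G}, g ∈ A a → A a ⊓ A b ≤ A c → A a ⊓ A b ≤ A (g • c) := by
    intro a b c g hg hle x hx
    have h1 := F.cj g c x (hle hx)
    have h2 : g * x * g⁻¹ = x := by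
      rw [F.ab a g hg x hx.1, mul_inv_cancel_right]
    rwa [h2] at h1
  apply FaithfulSMul.eq_of_smul_eq_smul (α := Ω)
  intro c
  rw [one_smul]
  by_cases hc : A a ⊓ A b ≤ A c
  · exact F.fx c z (hc ⟨ha, hb⟩)
  · by_contra hzc
    apply hc
    have hca : c ≠ a := fun h => hc (h ▸ inf_le_left)
    have hcb : c ≠ b := fun h => hc (h ▸ inf_le_right)
    have h1 : A a ⊓ A c ≤ A (z • c) := hinv ha inf_le_right
    have h2 : A b ⊓ A c ≤ A (z • c) := hinv hb inf_le_right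
    have h3 : A a ⊓ A c = A c ⊓ A (z • c) := heq hca.symm (Ne.symm hzc) (le_inf inf_le_right h1)
    have h4 : A b ⊓ A c = A c ⊓ A (z • c) := heq hcb.symm (Ne.symm hzc) (le_inf inf_le_right h2)
    have h5 : A a ⊓ A c ≤ A a ⊓ A b := le_inf inf_le_left (by rw [h3, ← h4]; exact inf_le_left)
    have h6 := heq hca.symm hab h5
    rw [← h6]
    exact inf_le_right

variable [Finite G] [FaithfulSMul G Ω]

/-- an element commuting with a nontrivial element of `A a` fixes `a` -/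
theorem fix_of_comm {a : Ω} {x g : G} (hx : x ∈ A a) (h1 : x ≠ 1) (hg : g * x = x * g) : g • a = a := by
  by_contra hne
  apply h1
  refine F.ti hne (z := x) ?_ hx
  have := F.cj g a x hx
  rwa [hg, mul_inv_cancel_right] at this

omit [Finite G] [FaithfulSMul G Ω] in
theorem S_cj (g : G) (a b : Ω) (x : G) (h : x ∈ S A a b) : g * x * g⁻¹ ∈ S A (g • a) (g • b) := by
  rw [mem_S] at h ⊢
  refine ⟨F.cj g a x h.1, ?_⟩
  rw [mul_smul, mul_smul, inv_smul_smul, h.2]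

omit [Finite G] [FaithfulSMul G Ω] in
theorem S_cj' {g : G} {a b : Ω} {x : G} (h : x ∈ S A a b) (ha : g • a = a) (hb : g • b = b) :
    g * x * g⁻¹ ∈ S A a b := by
  have := F.S_cj g a b x h
  rwa [ha, hb] at this

omit [FaithfulSMul G Ω] in
theorem S_eq {a b a' b' : Ω} (hab : a ≠ b) (hab' : a' ≠ b') (hle : S A a b ≤ S A a' b') :
    S A a b = S A a' b' := F.eq_of_le (S A) F.S_cj hab hab' hle

omit [FaithfulSMul G Ω] in
theorem S_card {a b a' b' : Ω} (hab : a ≠ b) (hab' : a' ≠ b') :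
    Nat.card (S A a b) = Nat.card (S A a' b') := F.card_eq (S A) F.S_cj hab hab'

omit [Finite G] [FaithfulSMul G Ω] in
theorem S_fix1 {a b : Ω} {x : G} (h : x ∈ S A a b) : x • a = a := F.fx a x (mem_S.mp h).1

theorem S_comm {a b : Ω} (hab : a ≠ b) {x y : G} (hx : x ∈ S A a b) (hy : y ∈ S A b a) :
    x * y = y * x := by
  rw [mem_S] at hx hy
  have h1 : x * y * x⁻¹ * y⁻¹ ∈ A a := by
    have h2 : y * x⁻¹ * y⁻¹ ∈ A a := F.cj' (inv_mem hx.1) hy.2
    have h3 := mul_mem hx.1 h2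
    have e : x * (y * x⁻¹ * y⁻¹) = x * y * x⁻¹ * y⁻¹ := by group
    rwa [e] at h3
  have h2 : x * y * x⁻¹ * y⁻¹ ∈ A b := mul_mem (F.cj' hy.1 hx.2) (inv_mem hy.1)
  have h3 := F.ti hab h1 h2
  rw [mul_inv_eq_one, mul_inv_eq_iff_eq_mul] at h3
  exact h3

theorem mem_E {a b : Ω} (hab : a ≠ b) {g : G} :
    g ∈ E A a b ↔ ∃ x ∈ S A a b, ∃ y ∈ S A b a, g = x * y := by
  constructor
  · intro hg
    rw [E, Subgroup.sup_eq_closure] at hg
    refine Subgroup.closure_induction (p := fun g _ => ∃ x ∈ S A a b, ∃ y ∈ S A b a, g = x * y)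
      ?_ ?_ ?_ ?_ hg
    · rintro x (hx | hx)
      · exact ⟨x, hx, 1, one_mem _, by simp⟩
      · exact ⟨1, one_mem _, x, hx, by simp⟩
    · exact ⟨1, one_mem _, 1, one_mem _, by simp⟩
    · rintro x y _ _ ⟨x1, hx1, x2, hx2, rfl⟩ ⟨y1, hy1, y2, hy2, rfl⟩
      refine ⟨x1 * y1, mul_mem hx1 hy1, x2 * y2, mul_mem hx2 hy2, ?_⟩
      rw [mul_assoc, ← mul_assoc x2 y1, ← F.S_comm hab hy1 hx2]
      group
    · rintro x _ ⟨x1, hx1, x2, hx2, rfl⟩
      refine ⟨x1⁻¹, inv_mem hx1, x2⁻¹, inv_mem hx2, ?_⟩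
      rw [mul_inv_rev, F.S_comm hab (inv_mem hx1) (inv_mem hx2)]
  · rintro ⟨x, hx, y, hy, rfl⟩
    exact mul_mem (Subgroup.mem_sup_left hx) (Subgroup.mem_sup_right hy)

omit F [Finite G] [FaithfulSMul G Ω] in
theorem E_comm (a b : Ω) : E A a b = E A b a := sup_comm _ _

omit [Finite G] [FaithfulSMul G Ω] in
theorem E_fix {a b : Ω} {g : G} (hg : g ∈ E A a b) : g • a = a := by
  have h : E A a b ≤ stabilizer G a := sup_le
    (fun x hx => F.S_fix1 hx) (fun x hx => (mem_S.mp hx).2)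
  exact h hg

omit [Finite G] [FaithfulSMul G Ω] in
theorem E_fix' {a b : Ω} {g : G} (hg : g ∈ E A a b) : g • b = b := by
  rw [E_comm] at hg
  exact F.E_fix hg

omit [Finite G] [FaithfulSMul G Ω] in
theorem E_inf (a b : Ω) : E A a b ⊓ A a = S A a b := by
  apply le_antisymm
  · intro x hx
    exact mem_S.mpr ⟨hx.2, F.E_fix' hx.1⟩
  · intro x hx
    exact ⟨Subgroup.mem_sup_left hx, (mem_S.mp hx).1⟩

omit [Finite G] [FaithfulSMul G Ω] in
theorem E_cj (g : G) (a b : Ω) (x : G) (h : x ∈ E A a b) : g * x * g⁻¹ ∈ E A (g • a) (g • b) := by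
  have h1 : E A a b ≤ (E A (g • a) (g • b)).comap (MulAut.conj g).toMonoidHom := by
    apply sup_le
    · intro x hx
      exact Subgroup.mem_sup_left (F.S_cj g a b x hx)
    · intro x hx
      exact Subgroup.mem_sup_right (F.S_cj g b a x hx)
  exact h1 h

omit [FaithfulSMul G Ω] in
theorem E_eq {a b a' b' : Ω} (hab : a ≠ b) (hab' : a' ≠ b') (hle : E A a b ≤ E A a' b') :
    E A a b = E A a' b' := F.eq_of_le (E A) F.E_cj hab hab' hle

omit [FaithfulSMul G Ω] in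
theorem E_card {a b a' b' : Ω} (hab : a ≠ b) (hab' : a' ≠ b') :
    Nat.card (E A a b) = Nat.card (E A a' b') := F.card_eq (E A) F.E_cj hab hab'

theorem E_card_le {a b : Ω} (hab : a ≠ b) :
    Nat.card (E A a b) ≤ Nat.card (S A a b) * Nat.card (S A a b) := by
  have h1 : Nat.card (S A a b × S A b a) = Nat.card (S A a b) * Nat.card (S A a b) := by
    rw [Nat.card_prod, F.S_card hab hab.symm]
  rw [← h1]
  apply Nat.card_le_card_of_surjective
    (fun z : S A a b × S A b a => (⟨z.1 * z.2, (F.mem_E hab).mpr ⟨_, z.1.2, _, z.2.2, rfl⟩⟩ : E A a b))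
  rintro ⟨g, hg⟩
  obtain ⟨x, hx, y, hy, rfl⟩ := (F.mem_E hab).mp hg
  exact ⟨(⟨x, hx⟩, ⟨y, hy⟩), rfl⟩

theorem E_ab {a b : Ω} (hab : a ≠ b) {g h : G} (hg : g ∈ E A a b) (hh : h ∈ E A a b) : g * h = h * g := by
  obtain ⟨x, hx, y, hy, rfl⟩ := (F.mem_E hab).mp hg
  obtain ⟨x', hx', y', hy', rfl⟩ := (F.mem_E hab).mp hh
  have e1 := F.S_comm hab hx' hy
  have e2 := F.S_comm hab hx hy'
  have e3 := F.ab a x (mem_S.mp hx).1 x' (mem_S.mp hx').1
  have e4 := F.ab b y (mem_S.mp hy).1 y' (mem_S.mp hy').1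
  calc x * y * (x' * y') = x * (y * x') * y' := by group
    _ = x * x' * (y * y') := by rw [← e1]; group
    _ = x' * (x * y') * y := by rw [e3, e4]; group
    _ = x' * y' * (x * y) := by rw [e2]; group

end

end Fm

/-- lines -/
def Ln (A : Ω → Subgroup G) (a b : Ω) : Set Ω := {c | ∃ d, d ≠ c ∧ E A c d = E A a b}

namespace Fm

variable {A : Ω → Subgroup G} {p : ℕ} (F : Fm A p)
include F

omit F in
theorem left_mem {a b : Ω} (hab : a ≠ b) : a ∈ Ln A a b := ⟨b, hab.symm, rfl⟩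

omit F in
theorem right_mem {a b : Ω} (hab : a ≠ b) : b ∈ Ln A a b := ⟨a, hab, E_comm _ _⟩

omit F in
theorem Ln_comm (a b : Ω) : Ln A a b = Ln A b a := by
  rw [Ln, Ln, E_comm]

theorem E_fixL {a b c : Ω} (hc : c ∈ Ln A a b) {g : G} (hg : g ∈ E A a b) : g • c = c := by
  obtain ⟨d, -, h⟩ := hc
  rw [← h] at hg
  exact F.E_fix hg

theorem Ln_cj {g : G} {a b c : Ω} [Finite G] (hab : a ≠ b) (hc : c ∈ Ln A a b) :
    g • c ∈ Ln A (g • a) (g • b) := by
  obtain ⟨d, hdc, h⟩ := hc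
  refine ⟨g • d, fun e => hdc (MulAction.injective g e), ?_⟩
  apply F.E_eq (fun e => hdc (MulAction.injective g e).symm) (fun e => hab (MulAction.injective g e))
  intro x hx
  have h1 := F.E_cj g⁻¹ _ _ x hx
  rw [inv_smul_smul, inv_smul_smul, h] at h1
  have h2 := F.E_cj g _ _ _ h1
  have e : g * (g⁻¹ * x * g⁻¹⁻¹) * g⁻¹ = x := by group
  rwa [e] at h2

theorem inf_L [Finite G] {a b c : Ω} (hc : c ∈ Ln A a b) : ∃ d, d ≠ c ∧ E A a b ⊓ A c = S A c d := by
  obtain ⟨d, hdc, h⟩ := hc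
  exact ⟨d, hdc, by rw [← h, F.E_inf]⟩

theorem L_eq [Finite G] {a b c c' : Ω} (hab : a ≠ b) (hc : c ∈ Ln A a b) (hc' : c' ∈ Ln A a b)
    (hne : c ≠ c') : E A c c' = E A a b := by
  apply F.E_eq hne hab
  apply sup_le
  · obtain ⟨d, hdc, h⟩ := F.inf_L hc
    have h1 : S A c d ≤ S A c c' := by
      rw [← h]
      intro x hx
      exact mem_S.mpr ⟨hx.2, F.E_fixL hc' hx.1⟩
    rw [← F.S_eq hdc.symm hne h1, ← h]
    exact inf_le_left
  · obtain ⟨d, hdc, h⟩ := F.inf_L hc'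
    have h1 : S A c' d ≤ S A c' c := by
      rw [← h]
      intro x hx
      exact mem_S.mpr ⟨hx.2, F.E_fixL hc hx.1⟩
    rw [← F.S_eq hdc.symm hne.symm h1, ← h]
    exact inf_le_left

theorem L_eq' [Finite G] {a b c c' : Ω} (hab : a ≠ b) (hc : c ∈ Ln A a b) (hc' : c' ∈ Ln A a b)
    (hne : c ≠ c') : Ln A c c' = Ln A a b := by
  rw [Ln, Ln, F.L_eq hab hc hc' hne]

/-- an element fixing two points of a line preserves it -/
theorem L_smul [Finite G] {a b c c' d : Ω} {x : G} (hab : a ≠ b) (hc : c ∈ Ln A a b) (hc' : c' ∈ Ln A a b)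
    (hne : c ≠ c') (h1 : x • c = c) (h2 : x • c' = c') (hd : d ∈ Ln A a b) : x • d ∈ Ln A a b := by
  have h3 := F.L_eq' hab hc hc' hne
  rw [← h3] at hd ⊢
  have h4 := F.Ln_cj (g := x) hne hd
  rwa [h1, h2] at h4

variable [Finite G] [FaithfulSMul G Ω]

/-- the spread bound -/
theorem spread [Finite Ω] {a b : Ω} (hab : a ≠ b) : (Ln A a b).ncard ≤ Nat.card (S A a b) + 1 := by
  obtain ⟨x0, hx0, hx1, hx2⟩ := F.nt a b hab
  have hb2 : 2 ≤ Nat.card (S A a b) := by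
    by_contra hcon
    have h1 : Nat.card (S A a b) ≤ 1 := by omega
    rw [Subgroup.card_le_one_iff_eq_bot] at h1
    have h2 : x0 ∈ S A a b := mem_S.mpr ⟨hx0, hx2⟩
    rw [h1, Subgroup.mem_bot] at h2
    exact hx1 h2
  have h1 := cnt_le (Ln A a b) (fun c => ((E A a b ⊓ A c : Subgroup G) : Set G) \ {1})
    ((E A a b : Set G) \ {1}) (Nat.card (S A a b) - 1) ?_ ?_ ?_
  · rw [Set.ncard_sdiff_singleton_of_mem (one_mem _)] at h1
    have h2 : ((E A a b : Subgroup G) : Set G).ncard = Nat.card (E A a b) := rfl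
    rw [h2] at h1
    have h3 := F.E_card_le hab
    obtain ⟨k, hk⟩ : ∃ k, Nat.card (S A a b) = k + 2 := ⟨Nat.card (S A a b) - 2, by omega⟩
    rw [hk] at h1 h3 ⊢
    have h4 : (Ln A a b).ncard * (k + 1) ≤ (k + 2) * (k + 2) - 1 := by
      have : k + 2 - 1 = k + 1 := by omega
      rw [this] at h1
      omega
    have h5 : (k + 2) * (k + 2) - 1 = (k + 3) * (k + 1) := by
      have : (k + 2) * (k + 2) = (k + 3) * (k + 1) + 1 := by ring
      omega
    rw [h5] at h4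
    have := Nat.le_of_mul_le_mul_right h4 (by omega)
    omega
  · intro c _ x hx
    exact ⟨hx.1.1, hx.2⟩
  · intro c hc
    obtain ⟨d, hdc, h⟩ := F.inf_L hc
    rw [h, Set.ncard_sdiff_singleton_of_mem (one_mem _)]
    have h2 : ((S A c d : Subgroup G) : Set G).ncard = Nat.card (S A c d) := rfl
    rw [h2, F.S_card hdc.symm hab]
  · intro c _ c' _ hne x hx hx'
    exact hx.2 (F.ti hne hx.1.2 hx'.1.2)

omit [FaithfulSMul G Ω] in
theorem two_le {a b : Ω} (hab : a ≠ b) : 2 ≤ Nat.card (S A a b) := by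
  obtain ⟨x0, hx0, hx1, hx2⟩ := F.nt a b hab
  by_contra hcon
  have h1 : Nat.card (S A a b) ≤ 1 := by omega
  rw [Subgroup.card_le_one_iff_eq_bot] at h1
  have h2 : x0 ∈ S A a b := mem_S.mpr ⟨hx0, hx2⟩
  rw [h1, Subgroup.mem_bot] at h2
  exact hx1 h2

end Fm

end Cfsg.Agent.H69.ON
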