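import Cfsg.Agent.H69.ON1

/-!
O'Nan's theorem, part 2: `A a` normalizes `E a b`.
-/

set_option autoImplicit false

namespace Cfsg.Agent.H69.ON

open MulAction

variable {G Ω : Type*} [Group G] [MulAction G Ω]

theorem exists_norm {G : Type*} [Group G] [Finite G] {p : ℕ} [Fact p.Prime] {P H : Subgroup G}
    (hP : IsPGroup p P) (hlt : H < P) : ∃ g ∈ P, g ∉ H ∧ ∀ h ∈ H, g * h * g⁻¹ ∈ H := by
  have : Group.IsNilpotent P := hP.isNilpotent
  have h1 : H.subgroupOf P < ⊤ := by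
    rw [lt_top_iff_ne_top]
    intro h
    rw [Subgroup.subgroupOf_eq_top] at h
    exact absurd (lt_of_lt_of_le hlt h) (lt_irrefl _)
  have h2 := Group.normalizerCondition_of_isNilpotent (G := P) _ h1
  obtain ⟨g, hg, hg'⟩ := SetLike.exists_of_lt h2
  refine ⟨g, g.2, fun h => hg' (Subgroup.mem_subgroupOf.mpr h), ?_⟩
  intro h hh
  rw [Subgroup.mem_normalizer_iff] at hg
  have := (hg ⟨h, hlt.le hh⟩).mp (Subgroup.mem_subgroupOf.mpr hh)
  exact Subgroup.mem_subgroupOf.mp this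

theorem mem_sup_norm {G : Type*} [Group G] {W T : Subgroup G} (h : ∀ t ∈ T, ∀ w ∈ W, t * w * t⁻¹ ∈ W)
    {g : G} : g ∈ W ⊔ T ↔ ∃ w ∈ W, ∃ t ∈ T, g = w * t := by
  constructor
  · intro hg
    rw [Subgroup.sup_eq_closure] at hg
    refine Subgroup.closure_induction (p := fun g _ => ∃ w ∈ W, ∃ t ∈ T, g = w * t) ?_ ?_ ?_ ?_ hg
    · rintro x (hx | hx)
      · exact ⟨x, hx, 1, one_mem _, by simp⟩
      · exact ⟨1, one_mem _, x, hx, by simp⟩
    · exact ⟨1, one_mem _, 1, one_mem _, by simp⟩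
    · rintro x y _ _ ⟨x1, hx1, x2, hx2, rfl⟩ ⟨y1, hy1, y2, hy2, rfl⟩
      refine ⟨x1 * (x2 * y1 * x2⁻¹), mul_mem hx1 (h _ hx2 _ hy1), x2 * y2, mul_mem hx2 hy2, ?_⟩
      group
    · rintro x _ ⟨x1, hx1, x2, hx2, rfl⟩
      refine ⟨x2⁻¹ * x1⁻¹ * x2, ?_, x2⁻¹, inv_mem hx2, by group⟩
      have := h _ (inv_mem hx2) _ (inv_mem hx1)
      rwa [inv_inv] at this
  · rintro ⟨x, hx, y, hy, rfl⟩
    exact mul_mem (Subgroup.mem_sup_left hx) (Subgroup.mem_sup_right hy)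

namespace Fm

variable {A : Ω → Subgroup G} {p : ℕ} (F : Fm A p)
include F

theorem pgrp (a : Ω) : IsPGroup p (A a) := by
  intro g
  refine ⟨1, ?_⟩
  apply Subtype.ext
  rw [pow_one, Subgroup.coe_pow]
  exact F.pw a g g.2

variable [Finite G] [FaithfulSMul G Ω]

theorem exists_v {a b : Ω} (hab : a ≠ b) {W : Subgroup G} (hWA : W < A a)
    (hW : ∀ t ∈ S A b a, ∀ w ∈ W, t * w * t⁻¹ ∈ W) :
    ∃ v ∈ A a, v ∉ W ∧ ∀ y ∈ S A b a, v * y * v⁻¹ * y⁻¹ ∈ W := by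
  have : Fact p.Prime := ⟨F.pr⟩
  have hn : ∀ t ∈ S A b a, ∀ w ∈ A a, t * w * t⁻¹ ∈ A a := fun t ht w hw => F.cj' hw (mem_S.mp ht).2
  have hPp : IsPGroup p (A a ⊔ S A b a : Subgroup G) := by
    apply IsPGroup.to_sup_of_normal_left' (F.pgrp a) ((F.pgrp b).to_le inf_le_left)
    intro t ht
    exact Subgroup.mem_normalizer_fintype (fun n hn' => hn t ht n hn')
  -- H ∩ A a = W
  have hHA : ∀ g ∈ W ⊔ S A b a, g ∈ A a → g ∈ W := by
    intro g hg hgA
    obtain ⟨w, hw, t, ht, rfl⟩ := (mem_sup_norm hW).mp hg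
    have h1 : t ∈ A a := by
      have := mul_mem (inv_mem (hWA.le hw)) hgA
      rwa [inv_mul_cancel_left] at this
    rw [F.ti hab h1 (mem_S.mp ht).1, mul_one]
    exact hw
  have hlt : W ⊔ S A b a < A a ⊔ S A b a := by
    refine lt_of_le_of_ne (sup_le_sup_right hWA.le _) ?_
    intro h
    obtain ⟨g, hg, hgW⟩ := SetLike.exists_of_lt hWA
    exact hgW (hHA g (by rw [h]; exact Subgroup.mem_sup_left hg) hg)
  obtain ⟨g, hgP, hgH, hgn⟩ := exists_norm hPp hlt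
  obtain ⟨v, hv, t, ht, rfl⟩ := (mem_sup_norm hn).mp hgP
  refine ⟨v, hv, fun h => hgH (mul_mem (Subgroup.mem_sup_left h) (Subgroup.mem_sup_right ht)), ?_⟩
  intro y hy
  apply hHA
  · have h1 : t⁻¹ * y * t ∈ S A b a := mul_mem (mul_mem (inv_mem ht) hy) ht
    have h2 := hgn _ (Subgroup.mem_sup_right h1)
    have e : v * t * (t⁻¹ * y * t) * (v * t)⁻¹ = v * y * v⁻¹ := by group
    rw [e] at h2
    exact mul_mem h2 (inv_mem (Subgroup.mem_sup_right hy))
  · have h1 : y * v⁻¹ * y⁻¹ ∈ A a := hn _ hy _ (inv_mem hv)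
    have e : v * y * v⁻¹ * y⁻¹ = v * (y * v⁻¹ * y⁻¹) := by group
    rw [e]
    exact mul_mem hv h1

omit [FaithfulSMul G Ω] in
theorem norm_E {a b : Ω} (hab : a ≠ b) {u : G} (hu : ∀ e ∈ E A a b, u⁻¹ * e * u ∈ E A a b) :
    E A (u • a) (u • b) = E A a b := by
  symm
  apply F.E_eq hab (fun e => hab (MulAction.injective u e))
  intro x hx
  have h1 := F.E_cj u a b _ (hu x hx)
  have e : u * (u⁻¹ * x * u) * u⁻¹ = x := by group
  rwa [e] at h1

theorem star_aux [Finite Ω] {a b : Ω} (hab : a ≠ b) {v : G} (hvA : v ∈ A a)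
    (hvU : ¬ ∀ e ∈ E A a b, v * e * v⁻¹ ∈ E A a b)
    (hv : ∀ y ∈ S A b a, ∀ e ∈ E A a b,
      (v * y * v⁻¹ * y⁻¹)⁻¹ * e * (v * y * v⁻¹ * y⁻¹) ∈ E A a b) : False := by
  have hva : v • a = a := F.fx a v hvA
  have hcA : ∀ y ∈ S A b a, v * y * v⁻¹ * y⁻¹ ∈ A a := by
    intro y hy
    have h1 : y * v⁻¹ * y⁻¹ ∈ A a := F.cj' (inv_mem hvA) (mem_S.mp hy).2
    have e : v * y * v⁻¹ * y⁻¹ = v * (y * v⁻¹ * y⁻¹) := by group
    rw [e]
    exact mul_mem hvA h1
  have hcb : ∀ y ∈ S A b a, (v * y * v⁻¹ * y⁻¹) • b = (v * y * v⁻¹) • b := by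
    intro y hy
    have h1 : y⁻¹ • b = b := by
      rw [inv_smul_eq_iff]; exact (F.S_fix1 hy).symm
    rw [mul_smul _ y⁻¹, h1]
  -- first claim
  have f1 : ∀ y ∈ S A b a, (v * y * v⁻¹) • b = b → y = 1 := by
    intro y hy hyb
    by_contra hy1
    apply hvU
    have h1 : v * y * v⁻¹ * y⁻¹ ∈ S A a b := mem_S.mpr ⟨hcA y hy, by rw [hcb y hy, hyb]⟩
    have h2 : v * y * v⁻¹ ∈ E A a b := by
      have := mul_mem (Subgroup.mem_sup_left (T := S A b a) h1) (Subgroup.mem_sup_right hy)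
      rwa [inv_mul_cancel_right] at this
    have h3 : v * y * v⁻¹ ∈ A (v • b) := F.cj v b y (mem_S.mp hy).1
    have h4 : v * y * v⁻¹ ≠ 1 := by
      intro h
      apply hy1
      have : v * y = v := by
        rw [mul_inv_eq_one] at h; exact h
      simpa using this
    have h5 : ∀ e ∈ E A a b, e • (v • b) = v • b := by
      intro e he
      exact F.fix_of_comm h3 h4 (F.E_ab hab he h2)
    -- v⁻¹ normalizes E
    have h6 : ∀ e ∈ E A a b, v⁻¹ * e * v ∈ E A a b := by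
      intro e he
      obtain ⟨x, hx, y', hy', rfl⟩ := (F.mem_E hab).mp he
      have h7 : v⁻¹ * y' * v * y'⁻¹ ∈ S A a b := by
        refine mem_S.mpr ⟨?_, ?_⟩
        · have h8 : y' * v * y'⁻¹ ∈ A a := F.cj' hvA (mem_S.mp hy').2
          have e : v⁻¹ * y' * v * y'⁻¹ = v⁻¹ * (y' * v * y'⁻¹) := by group
          rw [e]
          exact mul_mem (inv_mem hvA) h8
        · have h9 : y'⁻¹ • b = b := by
            rw [inv_smul_eq_iff]; exact (F.S_fix1 hy').symm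
          rw [mul_smul _ y'⁻¹, h9, mul_smul, mul_smul, h5 y' (Subgroup.mem_sup_right hy'), inv_smul_smul]
      have e1 : v⁻¹ * x * v = x := by
        rw [F.ab a v⁻¹ (inv_mem hvA) x (mem_S.mp hx).1, inv_mul_cancel_right]
      have e2 : v⁻¹ * (x * y') * v = x * (v⁻¹ * y' * v * y'⁻¹ * y') := by
        calc v⁻¹ * (x * y') * v = (v⁻¹ * x * v) * (v⁻¹ * y' * v) := by group
          _ = x * (v⁻¹ * y' * v) := by rw [e1]
          _ = _ := by rw [inv_mul_cancel_right]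
      rw [e2]
      exact mul_mem (Subgroup.mem_sup_left hx)
        (mul_mem (Subgroup.mem_sup_left h7) (Subgroup.mem_sup_right hy'))
    have h7 : v⁻¹ ∈ Subgroup.normalizer (E A a b : Set G) :=
      Subgroup.mem_normalizer_fintype (fun n hn => by rw [inv_inv]; exact h6 n hn)
    have h8 := inv_mem h7
    rw [inv_inv, Subgroup.mem_normalizer_iff] at h8
    exact fun e he => (h8 e).mp he
  -- the map into the line
  have f2 : ∀ y ∈ S A b a, (v * y * v⁻¹) • b ∈ Ln A a b ∧ (v * y * v⁻¹) • b ≠ a := by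
    intro y hy
    rw [← hcb y hy]
    have h1 := F.norm_E hab (u := v * y * v⁻¹ * y⁻¹) (hv y hy)
    have h2 := F.fx a _ (hcA y hy)
    have h3 : (v * y * v⁻¹ * y⁻¹) • b ≠ a := by
      intro h
      have h4 : (v * y * v⁻¹ * y⁻¹) • b = (v * y * v⁻¹ * y⁻¹) • a := by rw [h, h2]
      exact hab (MulAction.injective _ h4).symm
    refine ⟨⟨a, h3.symm, ?_⟩, h3⟩
    rw [h2] at h1
    rw [E_comm]; exact h1
  have f2' : ∀ y ∈ S A b a, ∀ y' ∈ S A b a, (v * y * v⁻¹) • b = (v * y' * v⁻¹) • b → y = y' := by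
    intro y hy y' hy' h
    have h1 := f1 (y'⁻¹ * y) (mul_mem (inv_mem hy') hy) (by
      have e : v * (y'⁻¹ * y) * v⁻¹ = (v * y' * v⁻¹)⁻¹ * (v * y * v⁻¹) := by group
      rw [e, mul_smul, h, inv_smul_smul])
    exact (inv_mul_eq_one.mp h1).symm
  -- surjectivity
  have f3 : (fun y : G => (v * y * v⁻¹) • b) '' (S A b a : Set G) = Ln A a b \ {a} := by
    apply Set.eq_of_subset_of_ncard_le
    · rintro _ ⟨y, hy, rfl⟩
      exact ⟨(f2 y hy).1, (f2 y hy).2⟩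
    · rw [Set.InjOn.ncard_image (fun y hy y' hy' h => f2' y hy y' hy' h),
        Set.ncard_sdiff_singleton_of_mem (left_mem hab)]
      have h1 := F.spread hab
      have h2 : ((S A b a : Subgroup G) : Set G).ncard = Nat.card (S A b a) := rfl
      rw [h2, F.S_card hab.symm hab]
      omega
    · exact Set.toFinite _
  have f4 : ∀ c ∈ Ln A a b, c ≠ a → ∃ y ∈ S A b a, (v * y * v⁻¹) • b = c := by
    intro c hc hca
    have h1 : c ∈ Ln A a b \ {a} := ⟨hc, hca⟩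
    rw [← f3] at h1
    exact h1
  have hS' : ∀ y ∈ S A b a, v * y * v⁻¹ ∈ S A (v • b) a := by
    intro y hy
    have := F.S_cj v b a y hy
    rwa [hva] at this
  have f5 : ∀ x ∈ S A (v • b) b, ∀ c ∈ Ln A a b, c ≠ a → x • c = c := by
    intro x hx c hc hca
    obtain ⟨y, hy, rfl⟩ := f4 c hc hca
    have h1 := F.ab _ x (mem_S.mp hx).1 _ (mem_S.mp (hS' y hy)).1
    rw [← mul_smul, h1, mul_smul, (mem_S.mp hx).2]
  have hbv : v • b ≠ b := by
    intro h
    apply hvU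
    have h1 : v ∈ E A a b := Subgroup.mem_sup_left (mem_S.mpr ⟨hvA, h⟩)
    intro e he
    exact mul_mem (mul_mem h1 he) (inv_mem h1)
  obtain ⟨x, hxA, hx1, hxb⟩ := F.nt (v • b) b hbv
  have hxS : x ∈ S A (v • b) b := mem_S.mpr ⟨hxA, hxb⟩
  obtain ⟨y0, hy0A, hy01, hy0a⟩ := F.nt b a hab.symm
  have hy0 : y0 ∈ S A b a := mem_S.mpr ⟨hy0A, hy0a⟩
  have hc := f2 y0 hy0
  have hcb' : (v * y0 * v⁻¹) • b ≠ b := fun h => hy01 (f1 y0 hy0 h)
  have hxa : x • a = a := by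
    by_contra hne
    have h1 : x • a ∈ Ln A a b := F.L_smul hab (right_mem hab) hc.1 hcb'.symm hxb
      (f5 x hxS _ hc.1 hc.2) (left_mem hab)
    have h2 := f5 x hxS _ h1 hne
    exact hne (MulAction.injective x h2)
  have hy : v⁻¹ * x * v ∈ S A b a := by
    refine mem_S.mpr ⟨F.cj_inv hxA, ?_⟩
    rw [mul_smul, mul_smul, hva, hxa, inv_smul_eq_iff, hva]
  have h1 := f1 _ hy (by
    have e : v * (v⁻¹ * x * v) * v⁻¹ = x := by group
    rw [e]; exact hxb)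
  apply hx1
  have h2 : x = v * (v⁻¹ * x * v) * v⁻¹ := by group
  rw [h2, h1, mul_one, mul_inv_cancel]

/-- `A a` normalizes `E a b` -/
theorem star [Finite Ω] {a b : Ω} (hab : a ≠ b) {u : G} (hu : u ∈ A a) :
    ∀ e ∈ E A a b, u * e * u⁻¹ ∈ E A a b := by
  by_contra hcon
  obtain ⟨W, hW⟩ : ∃ W : Subgroup G, W = A a ⊓ Subgroup.normalizer (E A a b : Set G) := ⟨_, rfl⟩
  have hmW : ∀ w, w ∈ W ↔ w ∈ A a ∧ ∀ e, e ∈ E A a b ↔ w * e * w⁻¹ ∈ E A a b := by
    intro w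
    rw [hW, Subgroup.mem_inf, Subgroup.mem_normalizer_iff]
  have h1 : W < A a := by
    refine lt_of_le_of_ne (by rw [hW]; exact inf_le_left) ?_
    intro h
    apply hcon
    have h2 : u ∈ W := by rw [h]; exact hu
    exact fun e he => (((hmW u).mp h2).2 e).mp he
  obtain ⟨v, hvA, hvW, hv⟩ := F.exists_v hab h1 (by
    intro t ht w hw
    rw [hW] at hw ⊢
    refine ⟨F.cj' hw.1 (mem_S.mp ht).2, ?_⟩
    have h2 : t ∈ Subgroup.normalizer (E A a b : Set G) :=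
      Subgroup.le_normalizer (Subgroup.mem_sup_right (S := S A a b) ht)
    exact mul_mem (mul_mem h2 hw.2) ((Subgroup.normalizer (E A a b : Set G)).inv_mem h2))
  refine F.star_aux hab hvA ?_ ?_
  · intro h
    apply hvW
    rw [hW]
    exact ⟨hvA, Subgroup.mem_normalizer_fintype h⟩
  · intro y hy e he
    have h2 := inv_mem (hv y hy)
    have h3 := (((hmW _).mp h2).2 e).mp he
    rwa [inv_inv] at h3

end Fm

end Cfsg.Agent.H69.ON
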