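import Cfsg.Agent.H69.ON2

/-!
O'Nan's theorem, part 3: the lines form a projective geometry.
-/

set_option autoImplicit false
set_option linter.unusedSectionVars false

namespace Cfsg.Agent.H69.ON

open MulAction

variable {G Ω : Type*} [Group G] [MulAction G Ω]

/-- lines, second version -/
def M (A : Ω → Subgroup G) (a b : Ω) : Set Ω := {c | c = a ∨ S A a c = S A a b}

/-- three-point part -/
def T3 (A : Ω → Subgroup G) (a b c : Ω) : Subgroup G := A a ⊓ (stabilizer G b ⊓ stabilizer G c)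

theorem mem_T3 {A : Ω → Subgroup G} {a b c : Ω} {x : G} : x ∈ T3 A a b c ↔ x ∈ A a ∧ x • b = b ∧ x • c = c := by
  rw [T3, Subgroup.mem_inf, Subgroup.mem_inf, mem_stabilizer_iff, mem_stabilizer_iff]

theorem T3_comm (A : Ω → Subgroup G) (a b c : Ω) : T3 A a b c = T3 A a c b := by
  rw [T3, T3, inf_comm (stabilizer G b)]

theorem T3_eq (A : Ω → Subgroup G) (a b c : Ω) : T3 A a b c = S A a b ⊓ stabilizer G c := by
  rw [T3, S, inf_assoc]

theorem two_mul_card {G : Type*} [Group G] [Finite G] {H K : Subgroup G} (h : H < K) :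
    2 * Nat.card H ≤ Nat.card K := by
  obtain ⟨m, hm⟩ := Subgroup.card_dvd_of_le h.le
  have h1 : 0 < Nat.card K := Nat.card_pos
  rcases m with _ | _ | m
  · rw [mul_zero] at hm
    omega
  · exfalso
    have := Subgroup.eq_of_le_of_card_ge h.le (by rw [hm]; simp)
    exact h.ne this
  · rw [hm]
    nlinarith [Nat.zero_le (Nat.card H * m)]

namespace Fm

variable {A : Ω → Subgroup G} {p : ℕ} (F : Fm A p)

omit F in
theorem M_left (a b : Ω) : a ∈ M A a b := Or.inl rfl

omit F in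
theorem M_right (a b : Ω) : b ∈ M A a b := Or.inr rfl

include F

theorem S_smul {a : Ω} (c : Ω) {x : G} (hx : x ∈ A a) : S A a (x • c) = S A a c := by
  ext z
  rw [mem_S, mem_S]
  constructor
  · rintro ⟨h1, h2⟩
    refine ⟨h1, ?_⟩
    rw [← mul_smul, F.ab a z h1 x hx, mul_smul] at h2
    exact MulAction.injective x h2
  · rintro ⟨h1, h2⟩
    refine ⟨h1, ?_⟩
    rw [← mul_smul, F.ab a z h1 x hx, mul_smul, h2]

theorem M_smul {a b c : Ω} {x : G} (hx : x ∈ A a) (hc : c ∈ M A a b) : x • c ∈ M A a b := by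
  rcases hc with rfl | hc
  · exact Or.inl (F.fx c x hx)
  · exact Or.inr (by rw [F.S_smul c hx, hc])

omit F in
theorem M_eq_of_mem {a b c : Ω} (hc : c ∈ M A a b) (hne : c ≠ a) : M A a c = M A a b := by
  rcases hc with rfl | hc
  · exact absurd rfl hne
  · ext d
    simp only [M, Set.mem_ofPred_eq, hc]

theorem M_cj {a b c : Ω} (g : G) (hc : c ∈ M A a b) : g • c ∈ M A (g • a) (g • b) := by
  have key : ∀ b c : Ω, S A a b ≤ S A a c → S A (g • a) (g • b) ≤ S A (g • a) (g • c) := by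
    intro b c hle x hx
    have h1 := F.S_cj g⁻¹ _ _ x hx
    rw [inv_smul_smul, inv_smul_smul] at h1
    have h2 := F.S_cj g _ _ _ (hle h1)
    have e : g * (g⁻¹ * x * g⁻¹⁻¹) * g⁻¹ = x := by group
    rwa [e] at h2
  rcases hc with rfl | hc
  · exact Or.inl rfl
  · exact Or.inr (le_antisymm (key _ _ hc.le) (key _ _ hc.ge))

variable [Finite G] [FaithfulSMul G Ω] [Finite Ω]

omit [Finite Ω] in
theorem star' [Finite Ω] {a b : Ω} (hab : a ≠ b) {u : G} (hu : u ∈ A a) : E A a (u • b) = E A a b := by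
  have h1 := F.norm_E hab (u := u) (fun e he => by
    have := F.star hab (inv_mem hu) e he
    rwa [inv_inv] at this)
  rwa [F.fx a u hu] at h1

theorem phi {a b c : Ω} (hab : a ≠ b) {y : G} (hy : y ∈ A b) (hyc : y • c = c) (hya : y • a ≠ a) :
    Nat.card (T3 A a b c) ≤ Nat.card (T3 A b a c) := by
  have h1 : ∀ x ∈ T3 A a b c, x * y * x⁻¹ * y⁻¹ ∈ T3 A b a c := by
    intro x hx
    rw [mem_T3] at hx
    have hxS : x ∈ S A a b := mem_S.mpr ⟨hx.1, hx.2.1⟩
    have h2 : x * y * x⁻¹ * y⁻¹ ∈ S A b a := by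
      rw [← F.E_inf b a, Subgroup.mem_inf]
      refine ⟨?_, ?_⟩
      · have h3 : x⁻¹ ∈ E A b a := Subgroup.mem_sup_right ((S A a b).inv_mem hxS)
        have h4 := F.star hab.symm hy _ h3
        have e : x * y * x⁻¹ * y⁻¹ = x * (y * x⁻¹ * y⁻¹) := by group
        rw [e]
        exact mul_mem (Subgroup.mem_sup_right hxS) h4
      · exact mul_mem (F.cj' hy hx.2.1) (inv_mem hy)
    rw [mem_S] at h2
    refine mem_T3.mpr ⟨h2.1, h2.2, ?_⟩
    have h5 : y⁻¹ • c = c := by rw [inv_smul_eq_iff, hyc]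
    have h6 : x⁻¹ • c = c := by rw [inv_smul_eq_iff, hx.2.2]
    rw [mul_smul, mul_smul, mul_smul, h5, h6, hyc, hx.2.2]
  apply Nat.card_le_card_of_injective
    (fun x : T3 A a b c => (⟨x * y * (x : G)⁻¹ * y⁻¹, h1 x x.2⟩ : T3 A b a c))
  rintro ⟨x, hx⟩ ⟨x', hx'⟩ hxx
  have h2 : x * y * x⁻¹ * y⁻¹ = x' * y * x'⁻¹ * y⁻¹ := congrArg Subtype.val hxx
  have h3 : x * y * x⁻¹ = x' * y * x'⁻¹ := mul_right_cancel h2
  apply Subtype.ext
  change x = x'
  by_contra hne
  apply hya
  apply F.fix_of_comm (x := x'⁻¹ * x) (mul_mem (inv_mem (mem_T3.mp hx').1) (mem_T3.mp hx).1)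
  · intro h
    exact hne (inv_mul_eq_one.mp h).symm
  · have h4 : x'⁻¹ * (x * y * x⁻¹) * x = x'⁻¹ * (x' * y * x'⁻¹) * x := by rw [h3]
    have e1 : x'⁻¹ * (x * y * x⁻¹) * x = x'⁻¹ * x * y := by group
    have e2 : x'⁻¹ * (x' * y * x'⁻¹) * x = y * (x'⁻¹ * x) := by group
    rw [e1, e2] at h4
    exact h4.symm

omit [FaithfulSMul G Ω] [Finite Ω] in
theorem exists_y {a b c : Ω} (hca : b ≠ c) (hba : b ≠ a) (h : S A b c ≠ S A b a) :
    ∃ y ∈ A b, y • c = c ∧ y • a ≠ a := by
  by_contra hcon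
  push Not at hcon
  apply h
  apply F.S_eq hca hba
  intro x hx
  rw [mem_S] at hx ⊢
  exact ⟨hx.1, hcon x hx.1 hx.2⟩

theorem sym {a b c : Ω} (hab : a ≠ b) (hcb : c ≠ b) (h : S A a c = S A a b) :
    S A b a = S A b c := by
  by_contra hne
  obtain ⟨y, hy, hyc, hya⟩ := F.exists_y hcb.symm hab.symm (Ne.symm hne)
  have h1 := F.phi hab hy hyc hya
  have h2 : T3 A a b c = S A a b := by
    rw [T3_eq, inf_eq_left, ← h]
    exact inf_le_right
  rw [h2, T3_eq, F.S_card hab hab.symm] at h1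
  have h3 : S A b a ⊓ stabilizer G c = S A b a := Subgroup.eq_of_le_of_card_ge inf_le_left h1
  apply hne
  apply F.S_eq hab.symm hcb.symm
  intro x hx
  rw [← h3] at hx
  exact mem_S.mpr ⟨(mem_S.mp hx.1).1, hx.2⟩

theorem M_comm_le {a b : Ω} (hab : a ≠ b) : M A a b ⊆ M A b a := by
  rintro c (rfl | hc)
  · exact Or.inr rfl
  · by_cases hcb : c = b
    · exact Or.inl hcb
    · exact Or.inr (F.sym hab hcb hc).symm

theorem M_comm {a b : Ω} (hab : a ≠ b) : M A a b = M A b a :=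
  Set.Subset.antisymm (F.M_comm_le hab) (F.M_comm_le hab.symm)

theorem M_eq {a b c c' : Ω} (hab : a ≠ b) (hc : c ∈ M A a b) (hc' : c' ∈ M A a b) (hne : c ≠ c') :
    M A c c' = M A a b := by
  by_cases hca : c = a
  · subst hca
    exact M_eq_of_mem hc' hne.symm
  · have h1 : M A a c = M A a b := M_eq_of_mem hc hca
    rw [← h1, F.M_comm (Ne.symm hca)] at hc' ⊢
    exact M_eq_of_mem hc' hne.symm

/-- fixed points of `x ∈ A a` form a subspace -/
theorem sub {a c c' d : Ω} {x : G} (hx : x ∈ A a) (hne : c ≠ c') (h1 : x • c = c) (h2 : x • c' = c')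
    (hd : d ∈ M A c c') : x • d = d := by
  by_cases ha : a ∈ M A c c'
  · by_cases hda : d = a
    · rw [hda]; exact F.fx a x hx
    · obtain ⟨e, he, hea, hxe⟩ : ∃ e ∈ M A c c', e ≠ a ∧ x • e = e := by
        by_cases hca : c = a
        · exact ⟨c', M_right _ _, fun h => hne (hca.trans h.symm), h2⟩
        · exact ⟨c, M_left _ _, hca, h1⟩
      rw [← F.M_eq hne ha he hea.symm] at hd
      rcases hd with rfl | hd
      · exact absurd rfl hda
      · have h3 : x ∈ S A a e := mem_S.mpr ⟨hx, hxe⟩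
        rw [← hd] at h3
        exact (mem_S.mp h3).2
  · by_contra hxd
    apply ha
    have h3 : x • d ∈ M A c c' := by
      have := F.M_cj x hd
      rwa [h1, h2] at this
    have had : a ≠ d := fun h => ha (h ▸ hd)
    have h4 : x • d ∈ M A a d := F.M_smul hx (M_right a d)
    rw [← F.M_eq hne hd h3 (Ne.symm hxd), F.M_eq had (M_right _ _) h4 (Ne.symm hxd)]
    exact M_left _ _

omit [Finite Ω] in
theorem exists_off {b c : Ω} (hbc : b ≠ c) : ∃ a, a ∉ M A b c := by
  obtain ⟨x, hx, hx1, hxc⟩ := F.nt b c hbc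
  by_contra hcon
  push Not at hcon
  apply hx1
  apply FaithfulSMul.eq_of_smul_eq_smul (α := Ω)
  intro d
  rw [one_smul]
  rcases hcon d with h | h
  · rw [h]; exact F.fx b x hx
  · have h3 : x ∈ S A b c := mem_S.mpr ⟨hx, hxc⟩
    rw [← h] at h3
    exact (mem_S.mp h3).2

omit [FaithfulSMul G Ω] [Finite Ω] in
theorem cardA_le (a b : Ω) : Nat.card (A a) ≤ Nat.card (A b) := by
  by_cases hab : a = b
  · rw [hab]
  · obtain ⟨g, h1, -⟩ := F.tr a b b a hab (Ne.symm hab)
    have h3 : ∀ x ∈ A a, g * x * g⁻¹ ∈ A b := by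
      intro x hx
      have := F.cj g a x hx
      rwa [h1] at this
    apply Nat.card_le_card_of_injective (fun x : A a => (⟨g * x * g⁻¹, h3 x x.2⟩ : A b))
    intro x y hxy
    have := congrArg Subtype.val hxy
    simp only at this
    apply Subtype.ext
    exact mul_left_cancel (mul_right_cancel this)

omit [FaithfulSMul G Ω] [Finite Ω] in
theorem cardA (a b : Ω) : Nat.card (A a) = Nat.card (A b) := le_antisymm (F.cardA_le a b) (F.cardA_le b a)

omit [FaithfulSMul G Ω] [Finite Ω] F in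
theorem orbS (a b : Ω) : (orbit (A a) b).ncard * Nat.card (S A a b) = Nat.card (A a) := orb_card (A a) b

omit [FaithfulSMul G Ω] [Finite Ω] in
theorem orb_eq {a b a' b' : Ω} (hab : a ≠ b) (hab' : a' ≠ b') :
    (orbit (A a) b).ncard = (orbit (A a') b').ncard := by
  have h1 := orbS (A := A) a b
  have h2 := orbS (A := A) a' b'
  rw [F.S_card hab' hab, F.cardA a' a, ← h1] at h2
  exact (Nat.eq_of_mul_eq_mul_right Nat.card_pos h2).symm

/-- the counting data for a line and a point off it -/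
theorem off_data {a b c : Ω} (hbc : b ≠ c) (ha : a ∉ M A b c) :
    T3 A a b c < S A a b ∧ (∀ d ∈ M A b c, T3 A a b c ≤ S A a d) ∧
    (∀ d ∈ M A b c, ∀ d' ∈ M A b c, d ≠ d' → ∀ x, x ∈ S A a d → x ∈ S A a d' → x ∈ T3 A a b c) := by
  have hab : a ≠ b := fun h => ha (h ▸ M_left _ _)
  have hac : a ≠ c := fun h => ha (h ▸ M_right _ _)
  refine ⟨?_, ?_, ?_⟩
  · refine lt_of_le_of_ne (by rw [T3_eq]; exact inf_le_left) ?_
    intro h
    apply ha
    have h1 : S A a b = S A a c := by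
      apply F.S_eq hab hac
      rw [← h, T3_comm, T3_eq]
      exact inf_le_left
    have h2 : c ∈ M A a b := Or.inr h1.symm
    have h3 : M A b c = M A a b := F.M_eq hab (M_right _ _) h2 hbc
    rw [h3]
    exact M_left _ _
  · intro d hd x hx
    rw [mem_T3] at hx
    exact mem_S.mpr ⟨hx.1, F.sub hx.1 hbc hx.2.1 hx.2.2 hd⟩
  · intro d hd d' hd' hne x hx hx'
    rw [mem_S] at hx hx'
    have h1 := F.M_eq hbc hd hd' hne
    refine mem_T3.mpr ⟨hx.1, F.sub hx.1 hne hx.2 hx'.2 ?_, F.sub hx.1 hne hx.2 hx'.2 ?_⟩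
    · rw [h1]; exact M_left _ _
    · rw [h1]; exact M_right _ _

theorem off_count {a b c : Ω} (hbc : b ≠ c) (ha : a ∉ M A b c) (R : Set G)
    (hR : ∀ x ∈ R, ∀ d ∈ M A b c, x ∉ S A a d) (hRA : R ⊆ A a) :
    (M A b c).ncard * (Nat.card (S A a b) - Nat.card (T3 A a b c)) + Nat.card (T3 A a b c) + R.ncard
      ≤ Nat.card (A a) := by
  have hab : a ≠ b := fun h => ha (h ▸ M_left _ _)
  obtain ⟨h1, h2, h3⟩ := F.off_data hbc ha
  have h4 := cnt_le (M A b c) (fun d => ((S A a d : Subgroup G) : Set G) \ (T3 A a b c : Set G))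
    (((A a : Set G) \ (T3 A a b c : Set G)) \ R) (Nat.card (S A a b) - Nat.card (T3 A a b c)) ?_ ?_ ?_
  · have hT : (T3 A a b c : Set G) ⊆ (A a : Set G) := fun x hx => (mem_T3.mp hx).1
    have hRT : R ⊆ (A a : Set G) \ (T3 A a b c : Set G) := by
      intro x hx
      exact ⟨hRA hx, fun h => hR x hx b (M_left _ _) (mem_S.mpr ⟨(mem_T3.mp h).1, (mem_T3.mp h).2.1⟩)⟩
    rw [Set.ncard_sdiff hRT (Set.toFinite _), Set.ncard_sdiff hT (Set.toFinite _)] at h4
    have e1 : (A a : Set G).ncard = Nat.card (A a) := rfl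
    have e2 : (T3 A a b c : Set G).ncard = Nat.card (T3 A a b c) := rfl
    rw [e1, e2] at h4
    have h5 := Set.ncard_le_ncard hRT (Set.toFinite _)
    rw [Set.ncard_sdiff hT (Set.toFinite _), e1, e2] at h5
    have h6 : Nat.card (T3 A a b c) ≤ Nat.card (A a) := by
      rw [← e1, ← e2]
      exact Set.ncard_le_ncard hT (Set.toFinite _)
    omega
  · intro d hd x hx
    refine ⟨⟨(mem_S.mp hx.1).1, hx.2⟩, fun h => hR x h d hd hx.1⟩
  · intro d hd
    have had : a ≠ d := fun h => ha (h ▸ hd)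
    rw [Set.ncard_sdiff (fun x hx => h2 d hd hx) (Set.toFinite _)]
    have e1 : ((S A a d : Subgroup G) : Set G).ncard = Nat.card (S A a d) := rfl
    have e2 : (T3 A a b c : Set G).ncard = Nat.card (T3 A a b c) := rfl
    rw [e1, e2, F.S_card had hab]
  · intro d hd d' hd' hne x hx hx'
    exact hx.2 (h3 d hd d' hd' hne x hx.1 hx'.1)

/-- `A b` is transitive on `M b c - b` -/
theorem M_trans {b c f : Ω} (hbc : b ≠ c) (hf : f ∈ M A b c) (hfb : f ≠ b) : f ∈ orbit (A b) c := by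
  by_contra hcon
  obtain ⟨a, ha⟩ := F.exists_off hbc
  have hab : a ≠ b := fun h => ha (h ▸ M_left _ _)
  have h1 := F.off_count hbc ha ∅ (by simp) (by simp)
  have h2 := two_mul_card (F.off_data hbc ha).1
  have hsub : ∀ e, e ∈ M A b c → orbit (A b) e ⊆ M A b c := by
    rintro e he _ ⟨g, rfl⟩
    exact F.M_smul g.2 he
  have hb : ∀ e, e ≠ b → b ∉ orbit (A b) e := by
    rintro e he ⟨g, hg⟩
    apply he
    have h3 : (g : G) • e = (g : G) • b := by
      have h4 : (g : G) • e = b := hg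
      rw [h4, F.fx b g g.2]
    exact MulAction.injective _ h3
  have h3 : 1 + 2 * (orbit (A b) c).ncard ≤ (M A b c).ncard := by
    have h4 : insert b (orbit (A b) c ∪ orbit (A b) f) ⊆ M A b c := by
      intro e he
      rcases he with rfl | he | he
      · exact M_left _ _
      · exact hsub c (M_right _ _) he
      · exact hsub f hf he
    have h5 := Set.ncard_le_ncard h4 (Set.toFinite _)
    rw [Set.ncard_insert_of_notMem, Set.ncard_union_eq] at h5
    · rw [F.orb_eq hfb.symm hbc] at h5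
      omega
    · rw [Set.disjoint_left]
      intro e he he'
      apply hcon
      rw [← orbit_eq_iff] at he he' ⊢
      rw [← he', he]
    · rintro (h | h)
      · exact hb c hbc.symm h
      · exact hb f hfb h
  have h4 := orbS (A := A) a b
  rw [F.orb_eq hab hbc] at h4
  rw [← h4, Set.ncard_empty] at h1
  obtain ⟨q, hq⟩ : ∃ q, q = (orbit (A b) c).ncard := ⟨_, rfl⟩
  obtain ⟨β, hβ⟩ : ∃ β, β = Nat.card (S A a b) := ⟨_, rfl⟩
  obtain ⟨σ, hσ⟩ : ∃ σ, σ = Nat.card (T3 A a b c) := ⟨_, rfl⟩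
  have hσ0 : 0 < Nat.card (T3 A a b c) := Nat.card_pos
  rw [← hβ, ← hσ] at h2
  rw [← hβ, ← hσ, ← hq] at h1
  rw [← hq] at h3
  rw [← hσ] at hσ0
  obtain ⟨t, ht⟩ : ∃ t, β = σ + t := ⟨β - σ, by omega⟩
  have h5 : β - σ = t := by omega
  rw [h5] at h1
  have h6 : (1 + 2 * q) * t ≤ (M A b c).ncard * t := Nat.mul_le_mul_right _ h3
  have h7 : σ ≤ t := by omega
  have h8 : q * β = q * σ + q * t := by rw [ht]; ring
  have h9 : q * σ ≤ q * t := Nat.mul_le_mul_left _ h7
  nlinarith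

theorem M_orb {b c : Ω} (hbc : b ≠ c) : M A b c = insert b (orbit (A b) c) := by
  ext f
  constructor
  · intro hf
    by_cases hfb : f = b
    · exact Or.inl hfb
    · exact Or.inr (F.M_trans hbc hf hfb)
  · rintro (rfl | ⟨g, rfl⟩)
    · exact M_left _ _
    · exact F.M_smul g.2 (M_right _ _)

theorem M_card {b c : Ω} (hbc : b ≠ c) : (M A b c).ncard = (orbit (A b) c).ncard + 1 := by
  rw [F.M_orb hbc, Set.ncard_insert_of_notMem]
  rintro ⟨g, hg⟩
  apply hbc
  have h3 : (g : G) • c = (g : G) • b := by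
    have h4 : (g : G) • c = b := hg
    rw [h4, F.fx b g g.2]
  exact (MulAction.injective _ h3).symm

theorem M_sub_L {b c : Ω} (hbc : b ≠ c) : M A b c ⊆ Ln A b c := by
  rw [F.M_orb hbc]
  rintro f (rfl | ⟨g, rfl⟩)
  · exact left_mem hbc
  · have h1 : E A b ((g : G) • c) = E A b c := F.star' hbc g.2
    refine ⟨b, ?_, ?_⟩
    · intro h
      have h3 : (g : G) • c = (g : G) • b := by
        have h4 : (g : G) • c = b := h.symm
        rw [h4, F.fx b g g.2]
      exact hbc (MulAction.injective _ h3).symm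
    · change E A ((g : G) • c) b = _
      rw [E_comm]; exact h1

end Fm

end Cfsg.Agent.H69.ON
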