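import Cfsg.Agent.H69.ON3

/-!
O'Nan's theorem, part 4: every element of `A a` fixes a point on every line.
-/

set_option autoImplicit false
set_option linter.unusedSectionVars false

namespace Cfsg.Agent.H69.ON

open MulAction

variable {G Ω : Type*} [Group G] [MulAction G Ω]

namespace Fm

variable {A : Ω → Subgroup G} {p : ℕ} (F : Fm A p)
include F
variable [Finite G] [FaithfulSMul G Ω] [Finite Ω]

theorem not_mem_of {a b c : Ω} (_hbc : b ≠ c) (ha : a ∉ M A b c) : S A b c ≠ S A b a :=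
  fun h => ha (Or.inr h.symm)

theorem E_stab {a b c : Ω} (hbc : b ≠ c) : Nat.card (T3 A b a c) * Nat.card (T3 A c a b) ≤
    Nat.card (E A b c ⊓ stabilizer G a : Subgroup G) := by
  rw [← Nat.card_prod]
  have key : ∀ x ∈ T3 A b a c, ∀ y ∈ T3 A c a b, x * y ∈ E A b c ⊓ stabilizer G a := by
    intro x hx y hy
    rw [mem_T3] at hx hy
    rw [Subgroup.mem_inf, mem_stabilizer_iff, mul_smul, hy.2.1, hx.2.1]
    exact ⟨mul_mem (Subgroup.mem_sup_left (mem_S.mpr ⟨hx.1, hx.2.2⟩))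
      (Subgroup.mem_sup_right (mem_S.mpr ⟨hy.1, hy.2.2⟩)), rfl⟩
  apply Nat.card_le_card_of_injective
    (fun z : T3 A b a c × T3 A c a b => (⟨z.1 * z.2, key _ z.1.2 _ z.2.2⟩ :
      (E A b c ⊓ stabilizer G a : Subgroup G)))
  rintro ⟨⟨x, hx⟩, ⟨y, hy⟩⟩ ⟨⟨x', hx'⟩, ⟨y', hy'⟩⟩ h
  have h1 : x * y = x' * y' := congrArg Subtype.val h
  have h2 : x'⁻¹ * x = y' * y⁻¹ := by
    rw [inv_mul_eq_iff_eq_mul, ← mul_assoc, ← h1, mul_inv_cancel_right]
  have h3 : x'⁻¹ * x ∈ A b := mul_mem (inv_mem (mem_T3.mp hx').1) (mem_T3.mp hx).1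
  have h4 : x'⁻¹ * x ∈ A c := by
    rw [h2]; exact mul_mem (mem_T3.mp hy').1 (inv_mem (mem_T3.mp hy).1)
  have h5 := F.ti hbc h3 h4
  have h6 : x = x' := (inv_mul_eq_one.mp h5).symm
  have h7 : y = y' := by
    rw [h6] at h1
    exact mul_left_cancel h1
  subst h6 h7
  rfl

theorem full_data {a b c : Ω} (hbc : b ≠ c) (ha : a ∉ M A b c) {f : Ω} (hf : f ∈ M A b c) :
    Nat.card (S A a b) ≤ (orbit (E A b c ⊓ A f : Subgroup G) a).ncard * Nat.card (T3 A a b c) := by
  have hab : a ≠ b := fun h => ha (h ▸ M_left _ _)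
  obtain ⟨f', hf', hne⟩ : ∃ f' ∈ M A b c, f ≠ f' := by
    by_cases h : f = b
    · exact ⟨c, M_right _ _, fun h' => hbc (h.symm.trans h')⟩
    · exact ⟨b, M_left _ _, h⟩
  have h1 : E A b c ⊓ A f = S A f f' := by
    rw [← F.L_eq hbc (F.M_sub_L hbc hf) (F.M_sub_L hbc hf') hne, F.E_inf]
  have hM := F.M_eq hbc hf hf' hne
  have hfa : f ≠ a := fun h => ha (h ▸ hf)
  have hf'a : f' ≠ a := fun h => ha (h ▸ hf')
  have h2 := orb_card (S A f f') a
  rw [← T3_eq, T3_comm, F.S_card hne hab] at h2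
  have h3 : Nat.card (T3 A f a f') ≤ Nat.card (T3 A a f f') := by
    obtain ⟨y, hy, hyc, hya⟩ := F.exists_y (a := f) (b := a) (c := f') hf'a.symm hfa.symm (by
      intro h
      have h4 : f' ∈ M A a f := Or.inr h
      have h5 := F.M_eq hfa.symm (M_right _ _) h4 hne
      rw [hM] at h5
      exact ha (h5 ▸ M_left _ _))
    exact F.phi hfa hy hyc hya
  have h4 : Nat.card (T3 A a f f') ≤ Nat.card (T3 A a b c) := by
    apply Subgroup.card_le_of_le
    intro x hx
    rw [mem_T3] at hx ⊢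
    refine ⟨hx.1, F.sub hx.1 hne hx.2.1 hx.2.2 ?_, F.sub hx.1 hne hx.2.1 hx.2.2 ?_⟩
    · rw [hM]; exact M_left _ _
    · rw [hM]; exact M_right _ _
  rw [h1, ← h2]
  exact Nat.mul_le_mul_left _ (h3.trans h4)

theorem full {a b c : Ω} (hbc : b ≠ c) (ha : a ∉ M A b c) :
    Nat.card (S A a b) = (orbit (A b) c).ncard * Nat.card (T3 A a b c) := by
  have hab : a ≠ b := fun h => ha (h ▸ M_left _ _)
  have hac : a ≠ c := fun h => ha (h ▸ M_right _ _)
  have e1 := orb_card (S A a c) b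
  rw [← T3_eq, T3_comm, F.S_card hac hab] at e1
  have e2 : (orbit (S A a c) b).ncard ≤ (orbit (A b) c).ncard := by
    rw [← F.orb_eq hab hbc]
    apply Set.ncard_le_ncard _ (Set.toFinite _)
    rintro _ ⟨g, rfl⟩
    exact ⟨⟨g, (mem_S.mp g.2).1⟩, rfl⟩
  have e3 := two_mul_card (F.off_data hbc ha).1
  have e4 : Nat.card (T3 A a b c) ≤ Nat.card (T3 A b a c) := by
    obtain ⟨y, hy, hyc, hya⟩ := F.exists_y (a := a) hbc hab.symm (F.not_mem_of hbc ha)
    exact F.phi hab hy hyc hya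
  have e5 : Nat.card (T3 A a b c) ≤ Nat.card (T3 A c a b) := by
    rw [F.M_comm hbc] at ha
    obtain ⟨y, hy, hyc, hya⟩ := F.exists_y (a := a) hbc.symm hac.symm (F.not_mem_of hbc.symm ha)
    rw [T3_comm]
    exact F.phi hac hy hyc hya
  have e6 := F.E_stab (a := a) hbc
  have e7 := orb_card (E A b c) a
  have e8 := F.E_card_le hbc
  rw [← e7, F.S_card hbc hab] at e8
  obtain ⟨σ, hσ⟩ : ∃ σ, σ = Nat.card (T3 A a b c) := ⟨_, rfl⟩
  obtain ⟨s, hs⟩ : ∃ s, s = (orbit (S A a c) b).ncard := ⟨_, rfl⟩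
  obtain ⟨q, hq⟩ : ∃ q, q = (orbit (A b) c).ncard := ⟨_, rfl⟩
  have hσ0 : 0 < Nat.card (T3 A a b c) := Nat.card_pos
  have e9 := cnt_le (M A b c) (fun f => orbit (E A b c ⊓ A f : Subgroup G) a \ {a})
    (orbit (E A b c) a \ {a}) (s - 1) ?_ ?_ ?_
  · rw [Set.ncard_sdiff_singleton_of_mem (mem_orbit_self a), F.M_card hbc, ← hq] at e9
    have e10 : (orbit (E A b c) a).ncard ≤ s * s := by
      have h1 : (orbit (E A b c) a).ncard * (σ * σ) ≤ (s * s) * (σ * σ) := by
        calc (orbit (E A b c) a).ncard * (σ * σ)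
            ≤ (orbit (E A b c) a).ncard * Nat.card (E A b c ⊓ stabilizer G a : Subgroup G) := by
              apply Nat.mul_le_mul_left
              refine le_trans ?_ e6
              rw [hσ]
              exact Nat.mul_le_mul e4 e5
          _ ≤ Nat.card (S A a b) * Nat.card (S A a b) := e8
          _ = (s * s) * (σ * σ) := by rw [← e1, ← hs, ← hσ]; ring
      rw [← hσ] at hσ0
      exact Nat.le_of_mul_le_mul_right h1 (Nat.mul_pos hσ0 hσ0)
    rw [← hq, ← hσ]
    rw [← hs, ← hσ] at e1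
    rw [← hs, ← hq] at e2
    rw [← e1, ← hσ] at e3
    rw [← hσ] at hσ0
    have hs2 : 2 ≤ s := Nat.le_of_mul_le_mul_right e3 hσ0
    have e11 : s = q := by
      apply le_antisymm e2
      by_contra hcon
      push Not at hcon
      obtain ⟨t, ht⟩ : ∃ t, s = t + 2 := ⟨s - 2, by omega⟩
      have h2 : s - 1 = t + 1 := by omega
      rw [h2] at e9
      have h3 : (q + 1) * (t + 1) ≤ s * s - 1 := by omega
      have h4 : s * s - 1 = (t + 3) * (t + 1) := by
        rw [ht]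
        have : (t + 2) * (t + 2) = (t + 3) * (t + 1) + 1 := by ring
        omega
      rw [h4] at h3
      have h5 := Nat.le_of_mul_le_mul_right h3 (by omega)
      omega
    rw [← e1, e11]
  · rintro f hf x ⟨⟨g, rfl⟩, hx⟩
    exact ⟨⟨⟨g, g.2.1⟩, rfl⟩, hx⟩
  · intro f hf
    have h1 := F.full_data hbc ha hf
    rw [← e1, ← hs, ← hσ] at h1
    rw [← hσ] at hσ0
    have h2 := Nat.le_of_mul_le_mul_right h1 hσ0
    rw [Set.ncard_sdiff_singleton_of_mem (mem_orbit_self a)]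
    omega
  · rintro f hf f' hf' hne x ⟨⟨g, hg⟩, hx⟩ ⟨⟨g', hg'⟩, hx'⟩
    have hfa : f ≠ a := fun h => ha (h ▸ hf)
    have hf'a : f' ≠ a := fun h => ha (h ▸ hf')
    have h1 : x ∈ M A f a := by
      have : (g : G) • a = x := hg
      rw [← this]
      exact F.M_smul g.2.2 (M_right _ _)
    have h2 : x ∈ M A f' a := by
      have : (g' : G) • a = x := hg'
      rw [← this]
      exact F.M_smul g'.2.2 (M_right _ _)
    have hxa : x ≠ a := hx
    have h3 := F.M_eq hfa (M_right _ _) h1 hxa.symm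
    have h4 := F.M_eq hf'a (M_right _ _) h2 hxa.symm
    have h5 : f' ∈ M A f a := by rw [← h3, h4]; exact M_left _ _
    have h6 := F.M_eq hfa (M_left _ _) h5 hne
    rw [F.M_eq hbc hf hf' hne] at h6
    exact ha (h6 ▸ M_right _ _)

/-- every element of `A a` fixes a point of every line -/
theorem meets {a b c : Ω} (hbc : b ≠ c) {x : G} (hx : x ∈ A a) : ∃ f ∈ M A b c, x • f = f := by
  by_cases ha : a ∈ M A b c
  · exact ⟨a, ha, F.fx a x hx⟩
  · by_contra hcon
    push Not at hcon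
    have hab : a ≠ b := fun h => ha (h ▸ M_left _ _)
    have h1 := F.off_count hbc ha {x} (by
      rintro z rfl d hd h
      exact hcon d hd (mem_S.mp h).2) (by
      rintro z rfl
      exact hx)
    have h2 := F.full hbc ha
    have h3 := orbS (A := A) a b
    rw [F.orb_eq hab hbc] at h3
    rw [F.M_card hbc, ← h3, Set.ncard_singleton] at h1
    have hσ0 : 0 < Nat.card (T3 A a b c) := Nat.card_pos
    obtain ⟨σ, hσ⟩ : ∃ σ, σ = Nat.card (T3 A a b c) := ⟨_, rfl⟩
    obtain ⟨q, hq⟩ : ∃ q, q = (orbit (A b) c).ncard := ⟨_, rfl⟩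
    have h4 := two_mul_card (F.off_data hbc ha).1
    rw [h2, ← hσ, ← hq] at h1
    rw [h2, ← hσ, ← hq] at h4
    rw [← hσ] at hσ0
    obtain ⟨t, ht⟩ : ∃ t, q = t + 1 := ⟨q - 1, by
      have : 0 < q := by
        rcases Nat.eq_zero_or_pos q with h | h
        · rw [h, zero_mul] at h4
          omega
        · exact h
      omega⟩
    have h5 : q * σ - σ = t * σ := by rw [ht, add_mul, one_mul, Nat.add_sub_cancel]
    rw [h5, ht] at h1
    nlinarith

end Fm

end Cfsg.Agent.H69.ON
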