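import Cfsg.Agent.H69.ON4
import Cfsg.Agent.Ito.Main

/-!
O'Nan's theorem, part 5: the symmetric design of hyperplanes, conclusion.
-/

set_option autoImplicit false
set_option linter.unusedSectionVars false

namespace Cfsg.Agent.H69.ON

open MulAction
open scoped Pointwise

theorem dbl {α β : Type*} [Finite α] [Finite β] (X : Set α) (Y : Set β) (R : α → β → Prop) (k l : ℕ)
    (h1 : ∀ x ∈ X, {y | y ∈ Y ∧ R x y}.ncard = k) (h2 : ∀ y ∈ Y, {x | x ∈ X ∧ R x y}.ncard = l) :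
    X.ncard * k = Y.ncard * l := by
  rw [cnt_eq X (fun x => (fun y => (x, y)) '' {y | y ∈ Y ∧ R x y})
      {z : α × β | z.1 ∈ X ∧ z.2 ∈ Y ∧ R z.1 z.2} k ?_ ?_ ?_ ?_,
    cnt_eq Y (fun y => (fun x => (x, y)) '' {x | x ∈ X ∧ R x y})
      {z : α × β | z.1 ∈ X ∧ z.2 ∈ Y ∧ R z.1 z.2} l ?_ ?_ ?_ ?_]
  · rintro y hy _ ⟨x, ⟨hx, hr⟩, rfl⟩
    exact ⟨hx, hy, hr⟩
  · rintro ⟨x, y⟩ ⟨hx, hy, hr⟩
    exact ⟨y, hy, x, ⟨hx, hr⟩, rfl⟩
  · intro y hy
    rw [Set.ncard_image_of_injective _ (fun a b h => by simpa using h)]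
    exact h2 y hy
  · rintro y hy y' hy' hne _ ⟨x, hx, rfl⟩ ⟨x', hx', h⟩
    simp only [Prod.mk.injEq] at h
    exact hne h.2.symm
  · rintro x hx _ ⟨y, ⟨hy, hr⟩, rfl⟩
    exact ⟨hx, hy, hr⟩
  · rintro ⟨x, y⟩ ⟨hx, hy, hr⟩
    exact ⟨x, hx, y, ⟨hy, hr⟩, rfl⟩
  · intro x hx
    rw [Set.ncard_image_of_injective _ (fun a b h => by simpa using h)]
    exact h1 x hx
  · rintro x hx x' hx' hne _ ⟨y, hy, rfl⟩ ⟨y', hy', h⟩
    simp only [Prod.mk.injEq] at h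
    exact hne h.1.symm

variable {G Ω : Type*} [Group G] [MulAction G Ω]

/-- hyperplanes -/
def HH (A : Ω → Subgroup G) : Set (Set Ω) := {H | ∃ a, ∃ x ∈ A a, x ≠ 1 ∧ H = {c | x • c = c}}

/-- subspaces -/
def IsSub (A : Ω → Subgroup G) (U : Set Ω) : Prop := ∀ c ∈ U, ∀ c' ∈ U, c ≠ c' → M A c c' ⊆ U

namespace Fm

variable {A : Ω → Subgroup G} {p : ℕ} (F : Fm A p)
include F
variable [Finite G] [FaithfulSMul G Ω] [Finite Ω]

theorem HH_sub {H : Set Ω} (hH : H ∈ HH A) : IsSub A H := by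
  obtain ⟨a, x, hx, hx1, rfl⟩ := hH
  intro c hc c' hc' hne d hd
  exact F.sub hx hne hc hc' hd

theorem HH_meet {H : Set Ω} (hH : H ∈ HH A) {b c : Ω} (hbc : b ≠ c) : ∃ f ∈ M A b c, f ∈ H := by
  obtain ⟨a, x, hx, hx1, rfl⟩ := hH
  exact F.meets hbc hx

theorem HH_off {H : Set Ω} (hH : H ∈ HH A) : ∃ b, b ∉ H := by
  obtain ⟨a, x, hx, hx1, rfl⟩ := hH
  by_contra hcon
  push Not at hcon
  apply hx1
  apply FaithfulSMul.eq_of_smul_eq_smul (α := Ω)
  intro d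
  rw [one_smul]
  exact hcon d

theorem cone {q : ℕ} (hq : ∀ b c : Ω, b ≠ c → (orbit (A b) c).ncard = q) {H : Set Ω} (hH : H ∈ HH A)
    {U : Set Ω} (hU : IsSub A U) {b : Ω} (hb : b ∉ H) (hbU : b ∈ U) :
    (U ∩ H).ncard * q = (U \ {b}).ncard := by
  apply cnt_eq (U ∩ H) (fun h => M A b h \ {b}) (U \ {b}) q
  · rintro h ⟨hhU, hhH⟩ x ⟨hx, hxb⟩
    have hbh : b ≠ h := fun e => hb (e ▸ hhH)
    exact ⟨hU b hbU h hhU hbh hx, hxb⟩
  · rintro d ⟨hd, hdb⟩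
    have hbd : b ≠ d := fun e => hdb e.symm
    obtain ⟨h, hh, hhH⟩ := F.HH_meet hH hbd
    have hbh : b ≠ h := fun e => hb (e ▸ hhH)
    refine ⟨h, ⟨hU b hbU d hd hbd hh, hhH⟩, ?_, hdb⟩
    rw [F.M_eq hbd (M_left _ _) hh hbh]
    exact M_right _ _
  · rintro h ⟨hhU, hhH⟩
    have hbh : b ≠ h := fun e => hb (e ▸ hhH)
    rw [Set.ncard_sdiff_singleton_of_mem (M_left _ _), F.M_card hbh, hq b h hbh]
    omega
  · rintro h ⟨hhU, hhH⟩ h' ⟨hhU', hhH'⟩ hne x ⟨hx, hxb⟩ ⟨hx', -⟩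
    have hbh : b ≠ h := fun e => hb (e ▸ hhH)
    have hbh' : b ≠ h' := fun e => hb (e ▸ hhH')
    have hxb' : b ≠ x := fun e => hxb e.symm
    have h1 := F.M_eq hbh (M_left _ _) hx hxb'
    have h2 := F.M_eq hbh' (M_left _ _) hx' hxb'
    have h3 : h' ∈ M A b h := by rw [← h1, h2]; exact M_right _ _
    have h4 := F.M_eq hbh (M_right _ _) h3 hne
    apply hb
    apply F.HH_sub hH h hhH h' hhH' hne
    rw [h4]
    exact M_left _ _

theorem HH_smul (g : G) {H : Set Ω} (hH : H ∈ HH A) : g • H ∈ HH A := by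
  obtain ⟨a, x, hx, hx1, rfl⟩ := hH
  refine ⟨g • a, g * x * g⁻¹, F.cj g a x hx, ?_, ?_⟩
  · intro h
    apply hx1
    have h1 : g * x = g := by rwa [mul_inv_eq_one] at h
    simpa using h1
  · ext c
    rw [Set.mem_smul_set_iff_inv_smul_mem]
    change x • g⁻¹ • c = g⁻¹ • c ↔ (g * x * g⁻¹) • c = c
    rw [mul_smul, mul_smul, eq_inv_smul_iff]

/-- O'Nan's theorem for families -/
theorem final {a0 b0 : Ω} (h0 : a0 ≠ b0) :
    ∃ (m : ℕ) (K : Type) (_ : Field K) (_ : Fintype K), 2 ≤ m ∧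
      Nat.card Ω = (Fintype.card K ^ (m + 1) - 1) / (Fintype.card K - 1) ∧
      ∃ N : Subgroup G, N.Normal ∧
        Nonempty (N ≃* Matrix.ProjectiveSpecialLinearGroup (Fin (m + 1)) K) ∧
        Subgroup.centralizer (N : Set G) = ⊥ := by
  classical
  obtain ⟨q, hq0⟩ : ∃ q, q = (orbit (A a0) b0).ncard := ⟨_, rfl⟩
  have hq : ∀ b c : Ω, b ≠ c → (orbit (A b) c).ncard = q := by
    intro b c hbc
    rw [hq0]
    exact F.orb_eq hbc h0
  have hq2 : 2 ≤ q := by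
    obtain ⟨x, hx, hxb⟩ := F.moves h0
    rw [hq0]
    have : 1 < (orbit (A a0) b0).ncard := by
      rw [Set.one_lt_ncard (Set.toFinite _)]
      exact ⟨_, mem_orbit_self b0, _, ⟨⟨x, hx⟩, rfl⟩, Ne.symm hxb⟩
    omega
  obtain ⟨x0, hx0, hx01, hx0b⟩ := F.nt a0 b0 h0
  obtain ⟨H0, hH0⟩ : ∃ H0 : Set Ω, H0 = {c | x0 • c = c} := ⟨_, rfl⟩
  have hH0H : H0 ∈ HH A := ⟨a0, x0, hx0, hx01, hH0⟩
  obtain ⟨r, hr⟩ : ∃ r, r = H0.ncard := ⟨_, rfl⟩
  have hr2 : 2 ≤ r := by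
    have : 1 < H0.ncard := by
      rw [Set.one_lt_ncard (Set.toFinite _)]
      exact ⟨a0, by rw [hH0]; exact F.fx a0 x0 hx0, b0, by rw [hH0]; exact hx0b, h0⟩
    omega
  have hn : ∀ H ∈ HH A, H.ncard * q = Nat.card Ω - 1 := by
    intro H hH
    obtain ⟨b, hb⟩ := F.HH_off hH
    have h1 := F.cone hq hH (U := Set.univ) (fun _ _ _ _ _ => Set.subset_univ _) hb (Set.mem_univ b)
    rw [Set.univ_inter, Set.ncard_sdiff_singleton_of_mem (Set.mem_univ b), Set.ncard_univ] at h1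
    exact h1
  have hrH : ∀ H ∈ HH A, H.ncard = r := by
    intro H hH
    have h1 := hn H hH
    have h2 := hn H0 hH0H
    rw [hr]
    exact Nat.eq_of_mul_eq_mul_right (by omega) (h1.trans h2.symm)
  have hΩ0 : 0 < Nat.card Ω := by
    have : Nonempty Ω := ⟨a0⟩
    exact Nat.card_pos
  have hnr : Nat.card Ω = 1 + q * r := by
    have h1 := hn H0 hH0H
    rw [hrH H0 hH0H] at h1
    rw [mul_comm q r]
    omega
  have hphi : ∀ H ∈ HH A, ∀ H' ∈ HH A, H ≠ H' → (H ∩ H').ncard * q = r - 1 := by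
    intro H hH H' hH' hne
    obtain ⟨b, hbH, hbH'⟩ : ∃ b ∈ H, b ∉ H' := by
      by_contra hcon
      push Not at hcon
      apply hne
      exact Set.eq_of_subset_of_ncard_le hcon (by rw [hrH H hH, hrH H' hH']) (Set.toFinite _)
    have h1 := F.cone hq hH' (F.HH_sub hH) hbH' hbH
    rwa [Set.ncard_sdiff_singleton_of_mem hbH, hrH H hH] at h1
  -- constants
  have htr : ∀ c c' : Ω, ∃ g : G, g • c = c' := by
    intro c c'
    by_cases h : c = c'
    · exact ⟨1, by rw [one_smul, h]⟩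
    · obtain ⟨g, h1, -⟩ := F.tr c c' c' c h (Ne.symm h)
      exact ⟨g, h1⟩
  obtain ⟨ρ, hρ⟩ : ∃ ρ, ρ = {H | H ∈ HH A ∧ a0 ∈ H}.ncard := ⟨_, rfl⟩
  have hρc : ∀ c : Ω, {H | H ∈ HH A ∧ c ∈ H}.ncard = ρ := by
    intro c
    obtain ⟨g, hg⟩ := htr a0 c
    rw [hρ, ← Set.ncard_image_of_injective {H | H ∈ HH A ∧ a0 ∈ H} (MulAction.injective g)]
    congr 1
    ext H
    constructor
    · rintro ⟨h1, h2⟩
      refine ⟨g⁻¹ • H, ⟨F.HH_smul _ h1, ?_⟩, smul_inv_smul g H⟩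
      rw [Set.mem_smul_set_iff_inv_smul_mem, inv_inv, hg]
      exact h2
    · rintro ⟨H', ⟨h1, h2⟩, rfl⟩
      refine ⟨F.HH_smul _ h1, ?_⟩
      rw [← hg]
      exact Set.smul_mem_smul_set h2
  obtain ⟨N, hN⟩ : ∃ N, N = (HH A).ncard := ⟨_, rfl⟩
  have e1 : Nat.card Ω * ρ = N * r := by
    have h1 := dbl (Set.univ : Set Ω) (HH A) (fun c H => c ∈ H) ρ r (fun c _ => hρc c) (by
      intro H hH
      rw [← hrH H hH]
      congr 1
      ext c; simp)
    rwa [Set.ncard_univ, ← hN] at h1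
  have hNpos : 0 < N := by
    rw [hN, Set.ncard_pos (Set.toFinite _)]
    exact ⟨H0, hH0H⟩
  have hρpos : 0 < ρ := by
    rw [hρ, Set.ncard_pos (Set.toFinite _)]
    exact ⟨H0, hH0H, by rw [hH0]; exact F.fx a0 x0 hx0⟩
  have hNn : N = Nat.card Ω := by
    have hex : ∃ φ, φ * q = r - 1 := by
      by_cases h : ∃ H ∈ HH A, H ≠ H0
      · obtain ⟨H, hH, hne⟩ := h
        exact ⟨_, hphi H hH H0 hH0H hne⟩
      · exfalso
        push Not at h
        -- only one hyperplane: it is invariant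
        obtain ⟨b, hb⟩ := F.HH_off hH0H
        obtain ⟨g, hg⟩ := htr a0 b
        have h1 := h _ (F.HH_smul g hH0H)
        apply hb
        rw [← h1, ← hg]
        exact Set.smul_mem_smul_set (by rw [hH0]; exact F.fx a0 x0 hx0)
    obtain ⟨φ, hφ⟩ := hex
    have e2 : r * (ρ - 1) = (N - 1) * φ := by
      have h1 := dbl H0 (HH A \ {H0}) (fun c H => c ∈ H) (ρ - 1) φ (by
        intro c hc
        have h2 : {y | y ∈ HH A \ {H0} ∧ c ∈ y} = {H | H ∈ HH A ∧ c ∈ H} \ {H0} := by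
          ext y
          constructor
          · rintro ⟨⟨h3, h4⟩, h5⟩
            exact ⟨⟨h3, h5⟩, h4⟩
          · rintro ⟨⟨h3, h5⟩, h4⟩
            exact ⟨⟨h3, h4⟩, h5⟩
        rw [h2, Set.ncard_sdiff_singleton_of_mem
          (show H0 ∈ {H | H ∈ HH A ∧ c ∈ H} from ⟨hH0H, hc⟩), hρc c]) (by
        rintro H ⟨hH, hne⟩
        have h3 := hphi H0 hH0H H hH (Ne.symm hne)
        have h4 : {x | x ∈ H0 ∧ x ∈ H} = H0 ∩ H := rfl
        rw [h4]
        exact Nat.eq_of_mul_eq_mul_right (by omega) (h3.trans hφ.symm))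
      rwa [← hr, Set.ncard_sdiff_singleton_of_mem hH0H, ← hN] at h1
    have hr1 : (r : ℤ) = 1 + q * φ := by
      have : r = 1 + φ * q := by omega
      rw [this]; push_cast; ring
    have e1' : (1 + (q : ℤ) * r) * ρ = N * r := by
      rw [hnr] at e1
      exact_mod_cast e1
    have e2' : (r : ℤ) * (ρ - 1) = (N - 1) * φ := by
      have h1 : ((ρ - 1 : ℕ) : ℤ) = ρ - 1 := by
        rw [Nat.cast_sub (by omega)]; rfl
      have h2 : ((N - 1 : ℕ) : ℤ) = N - 1 := by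
        rw [Nat.cast_sub (by omega)]; rfl
      rw [← h1, ← h2]
      exact_mod_cast e2
    have e3 : ((r : ℤ) - ρ) * (r - φ) = 0 := by
      have h1 : ((N : ℤ) - 1) * φ * r = r * r * (ρ - 1) := by rw [← e2']; ring
      have h2 : ((N : ℤ) - 1) * φ * r = (N * r) * φ - r * φ := by ring
      rw [h2, ← e1'] at h1
      have h3 : (q : ℤ) * φ = r - 1 := by rw [hr1]; ring
      have h4 : (1 + (q : ℤ) * r) * ρ * φ = ρ * φ + r * ρ * (q * φ) := by ring
      rw [h4, h3] at h1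
      linear_combination h1
    have h5 : (r : ℤ) - φ ≠ 0 := by
      have : (2 : ℤ) ≤ q := by exact_mod_cast hq2
      have h6 : (0 : ℤ) ≤ φ := by positivity
      nlinarith
    have h6 : (r : ℤ) = ρ := by
      rcases mul_eq_zero.mp e3 with h | h
      · linarith
      · exact absurd h h5
    have h7 : r = ρ := by exact_mod_cast h6
    rw [← h7] at e1
    exact (Nat.eq_of_mul_eq_mul_right (by omega) e1).symm
  -- the design
  let Q : SubMulAction G (Set Ω) := ⟨HH A, fun g {_} h => F.HH_smul g h⟩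
  have D : Ito.Des G Ω Q (fun c H => c ∈ (H : Set Ω)) (Nat.card Ω) r
      (Set.ncard {B : Q | a0 ∈ (B : Set Ω) ∧ b0 ∈ (B : Set Ω)}) := by
    apply Ito.Des.of
    · intro g x B
      exact Set.smul_mem_smul_set_iff
    · rfl
    · rw [← hNn, hN]; rfl
    · intro B
      exact hrH B B.2
    · intro x y hxy
      obtain ⟨g, hg1, hg2⟩ := F.tr a0 b0 x y h0 hxy
      rw [← Set.ncard_image_of_injective {B : Q | a0 ∈ (B : Set Ω) ∧ b0 ∈ (B : Set Ω)} (MulAction.injective g)]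
      congr 1
      ext B
      constructor
      · rintro ⟨h1, h2⟩
        refine ⟨g⁻¹ • B, ⟨?_, ?_⟩, smul_inv_smul g B⟩
        · change a0 ∈ g⁻¹ • (B : Set Ω)
          rw [Set.mem_smul_set_iff_inv_smul_mem, inv_inv, hg1]
          exact h1
        · change b0 ∈ g⁻¹ • (B : Set Ω)
          rw [Set.mem_smul_set_iff_inv_smul_mem, inv_inv, hg2]
          exact h2
      · rintro ⟨B', ⟨h1, h2⟩, rfl⟩
        refine ⟨?_, ?_⟩
        · change x ∈ g • (B' : Set Ω)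
          rw [← hg1]
          exact Set.smul_mem_smul_set h1
        · change y ∈ g • (B' : Set Ω)
          rw [← hg2]
          exact Set.smul_mem_smul_set h2
    · exact F.tr
    · exact hr2
    · rw [hnr]
      nlinarith
  exact D.main (B0 := ⟨H0, hH0H⟩) (h0 := x0) (fun x hx => by
    have h1 : x ∈ H0 := hx
    rw [hH0] at h1
    exact h1) hx01

end Fm

end Cfsg.Agent.H69.ON
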