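import Cfsg.Agent.H69.ON5
import Cfsg.Agent.FStar.Layer
import Cfsg.Agent.ClassBase.PSL

/-!
O'Nan's theorem, part 6: from an abelian normal subgroup of the stabilizer to a family; F*(G).
-/

set_option autoImplicit false

namespace Cfsg.Agent.H69.ON

open MulAction

theorem isQuasisimple_of_simple' {K : Type*} [Group K] [IsSimpleGroup K] (h : Subgroup.center K ≠ ⊤) :
    Cfsg.IsQuasisimple K := by
  have hZ : Subgroup.center K = ⊥ := by
    rcases (inferInstance : (Subgroup.center K).Normal).eq_bot_or_eq_top with h2 | h2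
    · exact h2
    · exact absurd h2 h
  refine ⟨⟨?_⟩, ?_⟩
  · rcases (inferInstance : (commutator K).Normal).eq_bot_or_eq_top with h2 | h2
    · exfalso
      apply h
      rw [commutator_def, FStar.commutator_eq_bot_iff_forall] at h2
      rw [eq_top_iff]
      intro x _
      rw [Subgroup.mem_center_iff]
      intro y
      exact h2 y (Subgroup.mem_top _) x (Subgroup.mem_top _)
    · exact h2
  · have e : K ⧸ Subgroup.center K ≃* K :=
      (QuotientGroup.quotientMulEquivOfEq hZ).trans QuotientGroup.quotientBot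
    exact e.isSimpleGroup

/-- a normal simple subgroup with trivial centralizer is the generalized Fitting subgroup -/
theorem fstar_simple {Γ : Type*} [Group Γ] [Finite Γ] {N : Subgroup Γ} (hn : N.Normal) (hs : IsSimpleGroup N)
    (hC : Subgroup.centralizer (N : Set Γ) = ⊥) : Cfsg.generalizedFittingSubgroup Γ = N := by
  have hq : Cfsg.IsQuasisimple N := by
    apply isQuasisimple_of_simple'
    intro h
    have h1 : N ≤ Subgroup.centralizer (N : Set Γ) := by
      intro x hx
      rw [Subgroup.mem_centralizer_iff]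
      intro y hy
      have h2 : (⟨x, hx⟩ : N) ∈ Subgroup.center N := by rw [h]; exact Subgroup.mem_top _
      have h3 := Subgroup.mem_center_iff.mp h2 ⟨y, hy⟩
      exact congrArg Subtype.val h3
    rw [hC, le_bot_iff] at h1
    have := hs.toNontrivial
    rw [h1] at this
    exact not_nontrivial (⊥ : Subgroup Γ) this
  have hcomp : Cfsg.IsComponent N := ⟨hn.isSubnormal, hq⟩
  apply le_antisymm
  · have h1 : Cfsg.layer Γ ≤ N := (FStar.layer_le_component_sup_centralizer hcomp).trans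
      (sup_le le_rfl (by rw [hC]; exact bot_le))
    have h2 : Cfsg.fittingSubgroup Γ ≤ N := by
      have h3 := FStar.component_commute_fitting hcomp
      rw [Subgroup.commutator_comm, Subgroup.commutator_eq_bot_iff_le_centralizer] at h3
      exact h3.trans (by rw [hC]; exact bot_le)
    exact sup_le h1 h2
  · exact (FStar.component_le_layer hcomp).trans FStar.layer_le_generalizedFitting

variable {G X : Type*} [Group G] [MulAction G X]

/-- the family of conjugates -/
theorem exists_fam (tr : ∀ x y x' y' : X, x ≠ y → x' ≠ y' → ∃ g : G, g • x = x' ∧ g • y = y')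
    {x y : X} (hxy : x ≠ y) (N : Subgroup G) (hNle : N ≤ stabilizer G x)
    (hNn : ∀ g ∈ stabilizer G x, ∀ n ∈ N, g * n * g⁻¹ ∈ N) :
    ∃ A : X → Subgroup G, A x = N ∧ (∀ a, ∀ z ∈ A a, z • a = a) ∧
      (∀ (g : G) (a : X) (z : G), z ∈ A a → g * z * g⁻¹ ∈ A (g • a)) := by
  have ht : ∀ a : X, ∃ g : G, g • x = a := by
    intro a
    by_cases h : a = x
    · exact ⟨1, by rw [one_smul, h]⟩
    · obtain ⟨g, h1, -⟩ := tr x y a x hxy h
      exact ⟨g, h1⟩
  choose g hg using ht
  have hmem : ∀ (a : X) (z : G), z ∈ N.map (MulAut.conj (g a)).toMonoidHom ↔ (g a)⁻¹ * z * g a ∈ N := by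
    intro a z
    rw [Subgroup.mem_map]
    constructor
    · rintro ⟨n, hn, rfl⟩
      have e : (g a)⁻¹ * ((MulAut.conj (g a)).toMonoidHom n) * g a = n := by
        change (g a)⁻¹ * (g a * n * (g a)⁻¹) * g a = n
        group
      rw [e]; exact hn
    · intro hz
      refine ⟨_, hz, ?_⟩
      change g a * ((g a)⁻¹ * z * g a) * (g a)⁻¹ = z
      group
  have hcj : ∀ (h : G) (a : X) (z : G), (g a)⁻¹ * z * g a ∈ N →
      (g (h • a))⁻¹ * (h * z * h⁻¹) * g (h • a) ∈ N := by
    intro h a z hz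
    have h1 : (g (h • a))⁻¹ * h * g a ∈ stabilizer G x := by
      rw [mem_stabilizer_iff, mul_smul, mul_smul, hg a, inv_smul_eq_iff, hg]
    have h2 := hNn _ h1 _ hz
    have e : (g (h • a))⁻¹ * h * g a * ((g a)⁻¹ * z * g a) * ((g (h • a))⁻¹ * h * g a)⁻¹ =
        (g (h • a))⁻¹ * (h * z * h⁻¹) * g (h • a) := by group
    rwa [e] at h2
  refine ⟨fun a => N.map (MulAut.conj (g a)).toMonoidHom, ?_, ?_, ?_⟩
  · ext z
    simp only []
    rw [hmem]
    constructor
    · intro hz
      have h2 := hNn _ (show g x ∈ stabilizer G x from hg x) _ hz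
      have e : g x * ((g x)⁻¹ * z * g x) * (g x)⁻¹ = z := by group
      rwa [e] at h2
    · intro hz
      have h2 := hNn _ (inv_mem (show g x ∈ stabilizer G x from hg x)) _ hz
      rwa [inv_inv] at h2
  · intro a z hz
    have h1 := hNle ((hmem a z).mp hz)
    rw [mem_stabilizer_iff, mul_smul, mul_smul, hg a, inv_smul_eq_iff, hg a] at h1
    exact h1
  · intro h a z hz
    exact (hmem _ _).mpr (hcj h a z ((hmem a z).mp hz))

/-- O'Nan: abelian normal subgroup of the stabilizer, not semiregular. -/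
theorem main [Finite G] [Finite X] [FaithfulSMul G X]
    (tr : ∀ x y x' y' : X, x ≠ y → x' ≠ y' → ∃ g : G, g • x = x' ∧ g • y = y')
    (x : X) (N : Subgroup G) (hNle : N ≤ stabilizer G x)
    (hNn : ∀ g ∈ stabilizer G x, ∀ n ∈ N, g * n * g⁻¹ ∈ N) (hab : ∀ a ∈ N, ∀ b ∈ N, a * b = b * a)
    (hns : ∃ n ∈ N, n ≠ 1 ∧ ∃ y : X, y ≠ x ∧ n • y = y) :
    ∃ (m : ℕ) (K : Type) (_ : Field K) (_ : Fintype K), 2 ≤ m ∧
      Nat.card X = (Fintype.card K ^ (m + 1) - 1) / (Fintype.card K - 1) ∧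
      ∃ N : Subgroup G, N.Normal ∧
        Nonempty (N ≃* Matrix.ProjectiveSpecialLinearGroup (Fin (m + 1)) K) ∧
        Subgroup.centralizer (N : Set G) = ⊥ := by
  obtain ⟨n, hnN, hn1, y, hyx, hny⟩ := hns
  have ho : orderOf n ≠ 1 := fun h => hn1 (orderOf_eq_one_iff.mp h)
  obtain ⟨p, hp, hpd⟩ := Nat.exists_prime_and_dvd ho
  obtain ⟨k, hk⟩ := hpd
  have hk0 : k ≠ 0 := by
    rintro rfl
    rw [mul_zero] at hk
    exact absurd hk (orderOf_pos n).ne'
  obtain ⟨z, hz⟩ : ∃ z, z = n ^ k := ⟨_, rfl⟩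
  have hzp : z ^ p = 1 := by
    rw [hz, ← pow_mul, mul_comm, ← hk, pow_orderOf_eq_one]
  have hz1 : z ≠ 1 := by
    rw [hz]
    intro h
    have h1 := orderOf_dvd_of_pow_eq_one h
    rw [hk] at h1
    have h2 := Nat.le_of_dvd (Nat.pos_of_ne_zero hk0) h1
    have h3 := hp.two_le
    have h4 : 2 * k ≤ p * k := Nat.mul_le_mul_right _ h3
    omega
  have hzN : z ∈ N := by rw [hz]; exact pow_mem hnN k
  have hzy : z • y = y := by
    have h1 : n ∈ stabilizer G y := hny
    have h2 : z ∈ stabilizer G y := by rw [hz]; exact pow_mem h1 k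
    exact h2
  let N1 : Subgroup G :=
    { carrier := {g | g ∈ N ∧ g ^ p = 1}
      mul_mem' := by
        rintro a b ⟨ha, ha'⟩ ⟨hb, hb'⟩
        refine ⟨mul_mem ha hb, ?_⟩
        have hc : Commute a b := hab a ha b hb
        rw [hc.mul_pow, ha', hb', one_mul]
      one_mem' := ⟨one_mem _, one_pow _⟩
      inv_mem' := by
        rintro a ⟨ha, ha'⟩
        exact ⟨inv_mem ha, by rw [inv_pow, ha', inv_one]⟩ }
  have hN1 : ∀ g, g ∈ N1 ↔ g ∈ N ∧ g ^ p = 1 := fun g => Iff.rfl
  obtain ⟨A, hAx, hfx, hcj⟩ := exists_fam tr hyx.symm N1 (fun g hg => hNle hg.1) (by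
    intro g hg n hn
    refine ⟨hNn g hg n hn.1, ?_⟩
    rw [conj_pow, hn.2, mul_one, mul_inv_cancel])
  have key : ∀ a : X, ∃ g : G, ∀ z, z ∈ A a ↔ g * z * g⁻¹ ∈ N1 := by
    intro a
    obtain ⟨g, hg⟩ : ∃ g : G, g • a = x := by
      by_cases h : a = x
      · exact ⟨1, by rw [one_smul, h]⟩
      · obtain ⟨g, h1, -⟩ := tr a x x a h (Ne.symm h)
        exact ⟨g, h1⟩
    refine ⟨g, fun z => ⟨fun hz => ?_, fun hz => ?_⟩⟩
    · have := hcj g a z hz
      rwa [hg, hAx] at this
    · rw [← hAx] at hz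
      have h1 := hcj g⁻¹ x _ hz
      have e : g⁻¹ * (g * z * g⁻¹) * g⁻¹⁻¹ = z := by group
      rwa [e, ← hg, inv_smul_smul] at h1
  have F : Fm A p :=
    { pr := hp
      fx := hfx
      cj := hcj
      ab := by
        intro a u hu v hv
        obtain ⟨g, hg⟩ := key a
        have h1 := hab _ ((hN1 _).mp ((hg u).mp hu)).1 _ ((hN1 _).mp ((hg v).mp hv)).1
        have e1 : g * u * g⁻¹ * (g * v * g⁻¹) = g * (u * v) * g⁻¹ := by group
        have e2 : g * v * g⁻¹ * (g * u * g⁻¹) = g * (v * u) * g⁻¹ := by group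
        rw [e1, e2] at h1
        exact mul_left_cancel (mul_right_cancel h1)
      pw := by
        intro a u hu
        obtain ⟨g, hg⟩ := key a
        have h1 := ((hN1 _).mp ((hg u).mp hu)).2
        rw [conj_pow, mul_inv_eq_one] at h1
        simpa using h1
      nt := by
        intro a b hab'
        obtain ⟨g, h1, h2⟩ := tr x y a b hyx.symm hab'
        refine ⟨g * z * g⁻¹, ?_, ?_, ?_⟩
        · have h3 := hcj g x z (by rw [hAx]; exact ⟨hzN, hzp⟩)
          rwa [h1] at h3
        · intro h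
          apply hz1
          rw [mul_inv_eq_one] at h
          simpa using h
        · rw [mul_smul, mul_smul, ← h2, inv_smul_smul, hzy]
      tr := tr }
  exact F.final hyx

/-- O'Nan with `F*(G)` -/
theorem main_fstar [Finite G] [Finite X] [FaithfulSMul G X]
    (tr : ∀ x y x' y' : X, x ≠ y → x' ≠ y' → ∃ g : G, g • x = x' ∧ g • y = y')
    (x : X) (N : Subgroup G) (hNle : N ≤ stabilizer G x)
    (hNn : ∀ g ∈ stabilizer G x, ∀ n ∈ N, g * n * g⁻¹ ∈ N) (hab : ∀ a ∈ N, ∀ b ∈ N, a * b = b * a)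
    (hns : ∃ n ∈ N, n ≠ 1 ∧ ∃ y : X, y ≠ x ∧ n • y = y) :
    ∃ (F : Type) (_ : Field F) (_ : Fintype F) (n : ℕ), 3 ≤ n ∧
      Nonempty (↥(Cfsg.generalizedFittingSubgroup G) ≃* Matrix.ProjectiveSpecialLinearGroup (Fin n) F) := by
  obtain ⟨m, K, _, _, hm, -, L, hL, ⟨e⟩, hC⟩ := main tr x N hNle hNn hab hns
  refine ⟨K, inferInstance, inferInstance, m + 1, by omega, ?_⟩
  have hs : IsSimpleGroup (Matrix.ProjectiveSpecialLinearGroup (Fin (m + 1)) K) :=
    ClassBase.psl_fin_simple (m + 1) (by omega)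
  have hs' : IsSimpleGroup L := e.isSimpleGroup
  rw [fstar_simple hL hs' hC]
  exact ⟨e⟩

end Cfsg.Agent.H69.ON
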