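import Mathlib.GroupTheory.Index
import Mathlib.Algebra.Group.Subgroup.Finite
import Mathlib.Tactic
import Mathlib.Data.Nat.Prime.Basic

set_option autoImplicit false

namespace Cfsg.Agent.H69.QO

section Lim
variable {M : Type*} [AddCommGroup M]

/-- The limit at infinity of the translates of `X` under `1 + t u + t² v`. -/
def Lim (X : AddSubgroup M) (u v : M →+ M) : AddSubgroup M where
  carrier := {m | ∃ x ∈ X, ∃ a ∈ X, ∃ b ∈ X, v x ∈ X ∧ u x + v a ∈ X ∧ m = x + u a + v b}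
  zero_mem' := ⟨0, X.zero_mem, 0, X.zero_mem, 0, X.zero_mem, by simp, by simp, by simp⟩
  add_mem' := by
    rintro m m' ⟨x, hx, a, ha, b, hb, h1, h2, rfl⟩ ⟨x', hx', a', ha', b', hb', h1', h2', rfl⟩
    refine ⟨x + x', X.add_mem hx hx', a + a', X.add_mem ha ha', b + b', X.add_mem hb hb',
      ?_, ?_, ?_⟩
    · rw [map_add]; exact X.add_mem h1 h1'
    · rw [map_add, map_add]
      have := X.add_mem h2 h2'
      convert this using 1
      abel
    · simp only [map_add]; abel
  neg_mem' := by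
    rintro m ⟨x, hx, a, ha, b, hb, h1, h2, rfl⟩
    refine ⟨-x, X.neg_mem hx, -a, X.neg_mem ha, -b, X.neg_mem hb, ?_, ?_, ?_⟩
    · rw [map_neg]; exact X.neg_mem h1
    · rw [map_neg, map_neg]
      have := X.neg_mem h2
      convert this using 1
      abel
    · simp only [map_neg]; abel

theorem mem_Lim {X : AddSubgroup M} {u v : M →+ M} {m : M} :
    m ∈ Lim X u v ↔
      ∃ x ∈ X, ∃ a ∈ X, ∃ b ∈ X, v x ∈ X ∧ u x + v a ∈ X ∧ m = x + u a + v b := Iff.rfl

theorem Lim_mono {X Y : AddSubgroup M} (h : X ≤ Y) (u v : M →+ M) : Lim X u v ≤ Lim Y u v := by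
  rintro m ⟨x, hx, a, ha, b, hb, h1, h2, rfl⟩
  exact ⟨x, h hx, a, h ha, b, h hb, h h1, h h2, rfl⟩

/-- Auxiliary pairs. -/
def LQ (X : AddSubgroup M) (u v : M →+ M) : AddSubgroup (M × M) where
  carrier := {q | q.1 ∈ X ∧ q.2 ∈ X ∧ v q.1 ∈ X ∧ u q.1 + v q.2 ∈ X}
  zero_mem' := by simp
  add_mem' := by
    rintro ⟨x, a⟩ ⟨x', a'⟩ ⟨h1, h2, h3, h4⟩ ⟨h1', h2', h3', h4'⟩
    refine ⟨X.add_mem h1 h1', X.add_mem h2 h2', ?_, ?_⟩
    · show v (x + x') ∈ X
      rw [map_add]; exact X.add_mem h3 h3'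
    · show u (x + x') + v (a + a') ∈ X
      rw [map_add, map_add]
      have := X.add_mem h4 h4'
      convert this using 1
      simp only
      abel
  neg_mem' := by
    rintro ⟨x, a⟩ ⟨h1, h2, h3, h4⟩
    refine ⟨X.neg_mem h1, X.neg_mem h2, ?_, ?_⟩
    · show v (-x) ∈ X
      rw [map_neg]; exact X.neg_mem h3
    · show u (-x) + v (-a) ∈ X
      rw [map_neg, map_neg]
      have := X.neg_mem h4
      convert this using 1
      simp only
      abel

/-- The summation map. -/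
def limMap (X : AddSubgroup M) (u v : M →+ M) : (LQ X u v) × X →+ M where
  toFun q := q.1.1.1 + u q.1.1.2 + v q.2.1
  map_zero' := by simp
  map_add' := by
    intro q r
    simp only [Prod.fst_add, Prod.snd_add, AddSubgroup.coe_add, map_add]
    abel

theorem range_limMap (X : AddSubgroup M) (u v : M →+ M) : (limMap X u v).range = Lim X u v := by
  ext m
  constructor
  · rintro ⟨⟨⟨⟨x, a⟩, h1, h2, h3, h4⟩, ⟨b, hb⟩⟩, rfl⟩
    exact ⟨x, h1, a, h2, b, hb, h3, h4, rfl⟩
  · rintro ⟨x, hx, a, ha, b, hb, h1, h2, rfl⟩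
    exact ⟨⟨⟨⟨x, a⟩, hx, ha, h1, h2⟩, ⟨b, hb⟩⟩, rfl⟩

theorem card_Lim [Finite M] (X : AddSubgroup M) (u v : M →+ M)
    (huu : ∀ m, u (u m) = v m + v m) (huv : ∀ m, u (v m) = 0) (hvu : ∀ m, v (u m) = 0)
    (hvv : ∀ m, v (v m) = 0) : Nat.card (Lim X u v) = Nat.card X := by
  have hker : Nat.card (limMap X u v).ker = Nat.card (LQ X u v) := by
    refine Nat.card_congr ?_
    refine
      { toFun := fun k => ⟨(k.1.1.1.2, k.1.2.1), ?_⟩
        invFun := fun q => ⟨(⟨(-(u q.1.1) - v q.1.2, q.1.1), ?_⟩, ⟨q.1.2, q.2.2.1⟩), ?_⟩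
        left_inv := ?_
        right_inv := ?_ }
    · obtain ⟨⟨⟨⟨x, a⟩, h1, h2, h3, h4⟩, ⟨b, hb⟩⟩, hk⟩ := k
      have hk' : x + u a + v b = 0 := hk
      have hx : x = -(u a) - v b := by
        have : x = (x + u a + v b) - u a - v b := by abel
        rw [this, hk']; abel
      have h4' : u x + v a ∈ X := h4
      have e1 : u x + v a = -(v a) := by
        rw [hx, map_sub, map_neg, huu, huv]; abel
      refine ⟨h2, hb, ?_, ?_⟩
      · show v a ∈ X
        rw [e1] at h4'
        simpa using X.neg_mem h4'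
      · show u a + v b ∈ X
        have : u a + v b = -x := by rw [hx]; abel
        rw [this]; exact X.neg_mem h1
    · obtain ⟨⟨a, b⟩, h1, h2, h3, h4⟩ := q
      have h3' : v a ∈ X := h3
      have h4' : u a + v b ∈ X := h4
      refine ⟨?_, h1, ?_, ?_⟩
      · show -(u a) - v b ∈ X
        have : -(u a) - v b = -(u a + v b) := by abel
        rw [this]; exact X.neg_mem h4'
      · show v (-(u a) - v b) ∈ X
        rw [map_sub, map_neg, hvu, hvv]
        simp
      · show u (-(u a) - v b) + v a ∈ X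
        have : u (-(u a) - v b) + v a = -(v a) := by
          rw [map_sub, map_neg, huu, huv]; abel
        rw [this]; exact X.neg_mem h3'
    · show -(u q.1.1) - v q.1.2 + u q.1.1 + v q.1.2 = 0
      abel
    · rintro ⟨⟨⟨⟨x, a⟩, h1, h2, h3, h4⟩, ⟨b, hb⟩⟩, hk⟩
      have hk' : x + u a + v b = 0 := hk
      have hx : x = -(u a) - v b := by
        have : x = (x + u a + v b) - u a - v b := by abel
        rw [this, hk']; abel
      subst hx
      rfl
    · rintro ⟨⟨a, b⟩, h1, h2, h3, h4⟩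
      rfl
  have h1 := AddSubgroup.card_mul_index (limMap X u v).ker
  rw [AddSubgroup.index_ker, hker, range_limMap, Nat.card_prod] at h1
  have hpos : 0 < Nat.card (LQ X u v) := Nat.card_pos
  exact Nat.eq_of_mul_eq_mul_left hpos h1

end Lim

section coeff
variable {E : Type*} [Ring E]

theorem mem_of_zsmul {p : ℕ} (hE : ∀ e : E, p • e = 0) (X : AddSubgroup E) (z : E) (k : ℕ)
    (hk : Nat.Coprime k p) (h : k • z ∈ X) : z ∈ X := by
  have hb : (1 : ℤ) = k * Nat.gcdA k p + p * Nat.gcdB k p := by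
    have := Nat.gcd_eq_gcd_ab k p
    rw [hk] at this
    exact_mod_cast this
  have : z = (Nat.gcdA k p) • (k • z) + (Nat.gcdB k p) • (p • z) := by
    rw [← natCast_zsmul z k, ← natCast_zsmul z p, smul_smul, smul_smul, ← add_smul]
    conv_lhs => rw [← one_smul ℤ z, hb]
    congr 1
    ring
  rw [this, hE, smul_zero, add_zero]
  exact X.zsmul_mem h _

theorem coeff_extract {p : ℕ} (hp : p.Prime) (hp5 : 5 ≤ p) (hE : ∀ e : E, p • e = 0)
    (X : AddSubgroup E) (c0 c1 c2 c3 c4 : E)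
    (h : ∀ t : ℤ, c0 + t • c1 + (t ^ 2) • c2 + (t ^ 3) • c3 + (t ^ 4) • c4 ∈ X) :
    c0 ∈ X ∧ c1 ∈ X ∧ c2 ∈ X ∧ c3 ∈ X ∧ c4 ∈ X := by
  have cop : ∀ k : ℕ, 0 < k → k < 5 → Nat.Coprime k p := by
    intro k hk hk5
    rw [Nat.coprime_comm]
    exact (Nat.Prime.coprime_iff_not_dvd hp).2 (fun hd => by
      have := Nat.le_of_dvd hk hd
      omega)
  have c2p : Nat.Coprime 2 p := cop 2 (by norm_num) (by norm_num)
  have c3p : Nat.Coprime 3 p := cop 3 (by norm_num) (by norm_num)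
  have c12 : Nat.Coprime 12 p := by
    have : (12 : ℕ) = 2 * 2 * 3 := by norm_num
    rw [this]
    exact (c2p.mul_left c2p).mul_left c3p
  have c24 : Nat.Coprime 24 p := by
    have : (24 : ℕ) = 2 * 12 := by norm_num
    rw [this]
    exact c2p.mul_left c12
  have m0 : c0 ∈ X := by
    convert h 0 using 1
    module
  have h1 : c0 + c1 + c2 + c3 + c4 ∈ X := by
    convert h 1 using 1
    module
  have h1' : c0 - c1 + c2 - c3 + c4 ∈ X := by
    convert h (-1) using 1
    module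
  have h2 : c0 + 2 • c1 + 4 • c2 + 8 • c3 + 16 • c4 ∈ X := by
    convert h 2 using 1
    module
  have h2' : c0 - 2 • c1 + 4 • c2 - 8 • c3 + 16 • c4 ∈ X := by
    convert h (-2) using 1
    module
  have e1 := X.add_mem h1 h1'
  have e2 := X.add_mem h2 h2'
  have d1 := X.sub_mem h1 h1'
  have d2 := X.sub_mem h2 h2'
  have m4 : c4 ∈ X := by
    apply mem_of_zsmul hE X c4 24 c24
    have := X.add_mem (X.sub_mem e2 (X.nsmul_mem e1 4)) (X.nsmul_mem m0 6)
    convert this using 1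
    module
  have m2 : c2 ∈ X := by
    apply mem_of_zsmul hE X c2 2 c2p
    have := X.sub_mem (X.sub_mem e1 (X.nsmul_mem m4 2)) (X.nsmul_mem m0 2)
    convert this using 1
    module
  have m3 : c3 ∈ X := by
    apply mem_of_zsmul hE X c3 12 c12
    have := X.sub_mem d2 (X.nsmul_mem d1 2)
    convert this using 1
    module
  have m1 : c1 ∈ X := by
    apply mem_of_zsmul hE X c1 2 c2p
    have := X.sub_mem d1 (X.nsmul_mem m3 2)
    convert this using 1
    module
  exact ⟨m0, m1, m2, m3, m4⟩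

end coeff

end Cfsg.Agent.H69.QO
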