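import Cfsg.Agent.H69.QO1

set_option autoImplicit false
set_option linter.unusedSimpArgs false

namespace Cfsg.Agent.H69.QO

section ringid
variable {E : Type*} [Ring E]

/-- `x ↦ x y - y x`. -/
def U (y : E) : E →+ E where
  toFun x := x * y - y * x
  map_zero' := by simp
  map_add' a b := by noncomm_ring

/-- `x ↦ - y x y`. -/
def Vv (y : E) : E →+ E where
  toFun x := -(y * x * y)
  map_zero' := by simp
  map_add' a b := by noncomm_ring

theorem U_apply (y x : E) : U y x = x * y - y * x := rfl
theorem V_apply (y x : E) : Vv y x = -(y * x * y) := rfl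

theorem left0 {y z : E} (h : y * z = 0) (c : E) : c * y * z = 0 := by
  rw [mul_assoc, h, mul_zero]

theorem U_U {y : E} (hy : y * y = 0) (x : E) : U y (U y x) = Vv y x + Vv y x := by
  have hy' := left0 hy
  simp only [U_apply, V_apply, mul_add, add_mul, mul_sub, sub_mul, neg_mul, mul_neg, ← mul_assoc,
    hy, hy', zero_mul, mul_zero]
  abel

theorem U_V {y : E} (hy : y * y = 0) (x : E) : U y (Vv y x) = 0 := by
  have hy' := left0 hy
  simp only [U_apply, V_apply, mul_add, add_mul, mul_sub, sub_mul, neg_mul, mul_neg, ← mul_assoc,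
    hy, hy', zero_mul, mul_zero]
  abel

theorem V_U {y : E} (hy : y * y = 0) (x : E) : Vv y (U y x) = 0 := by
  have hy' := left0 hy
  simp only [U_apply, V_apply, mul_add, add_mul, mul_sub, sub_mul, neg_mul, mul_neg, ← mul_assoc,
    hy, hy', zero_mul, mul_zero]
  abel

theorem V_V {y : E} (hy : y * y = 0) (x : E) : Vv y (Vv y x) = 0 := by
  have hy' := left0 hy
  simp only [U_apply, V_apply, mul_add, add_mul, mul_sub, sub_mul, neg_mul, mul_neg, ← mul_assoc,
    hy, hy', zero_mul, mul_zero]
  abel

theorem card_LimE [Finite E] {y : E} (hy : y * y = 0) (X : AddSubgroup E) :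
    Nat.card (Lim X (U y) (Vv y)) = Nat.card X :=
  card_Lim X _ _ (U_U hy) (U_V hy) (V_U hy) (V_V hy)

/-- conjugation coefficient maps -/
def al0 (y n m x : E) : E := n * x * m
def al1 (y n m x : E) : E := (y * n - n * y) * x * m + n * x * (y * m - m * y)
def al2 (y n m x : E) : E := (-(y * n * y)) * x * m + (y * n - n * y) * x * (y * m - m * y)
  + n * x * (-(y * m * y))
def al3 (y n m x : E) : E := (-(y * n * y)) * x * (y * m - m * y)
  + (y * n - n * y) * x * (-(y * m * y))
def al4 (y n m x : E) : E := (-(y * n * y)) * x * (-(y * m * y))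

theorem conj_poly {y : E} (hy : y * y = 0) (n m x : E) (t : ℤ) :
    ((1 + t • y) * n * (1 - t • y)) * x * ((1 + t • y) * m * (1 - t • y)) =
      al0 y n m x + t • al1 y n m x + (t ^ 2) • al2 y n m x + (t ^ 3) • al3 y n m x
        + (t ^ 4) • al4 y n m x := by
  have hy' := left0 hy
  have h1 : (1 + t • y) * n * (1 - t • y) = n + t • (y * n - n * y) + t ^ 2 • (-(y * n * y)) := by
    simp only [mul_add, add_mul, mul_sub, sub_mul, neg_mul, mul_neg, ← mul_assoc, one_mul, mul_one,
      smul_mul_assoc, mul_smul_comm, smul_smul]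
    module
  have h2 : (1 + t • y) * m * (1 - t • y) = m + t • (y * m - m * y) + t ^ 2 • (-(y * m * y)) := by
    simp only [mul_add, add_mul, mul_sub, sub_mul, neg_mul, mul_neg, ← mul_assoc, one_mul, mul_one,
      smul_mul_assoc, mul_smul_comm, smul_smul]
    module
  rw [h1, h2]
  unfold al0 al1 al2 al3 al4
  generalize (y * n - n * y) = n1
  generalize (-(y * n * y)) = n2
  generalize (y * m - m * y) = m1
  generalize (-(y * m * y)) = m2
  simp only [mul_add, add_mul, mul_sub, sub_mul, neg_mul, mul_neg, ← mul_assoc,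
      smul_mul_assoc, mul_smul_comm, smul_smul]
  module

theorem conj_Lim {y : E} (hy : y * y = 0) (X : AddSubgroup E) (n m : E)
    (h0 : ∀ x ∈ X, al0 y n m x ∈ X) (h1 : ∀ x ∈ X, al1 y n m x ∈ X)
    (h2 : ∀ x ∈ X, al2 y n m x ∈ X) (h3 : ∀ x ∈ X, al3 y n m x ∈ X)
    (h4 : ∀ x ∈ X, al4 y n m x ∈ X) {e : E} (he : e ∈ Lim X (U y) (Vv y)) :
    n * e * m ∈ Lim X (U y) (Vv y) := by
  have hy' := left0 hy
  obtain ⟨x, hx, a, ha, b, hb, hvx, hxi, rfl⟩ := he
  refine ⟨al0 y n m x + al1 y n m a + al2 y n m b,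
    X.add_mem (X.add_mem (h0 _ hx) (h1 _ ha)) (h2 _ hb),
    al0 y n m a + al1 y n m b, X.add_mem (h0 _ ha) (h1 _ hb), al0 y n m b, h0 _ hb, ?_, ?_, ?_⟩
  · have : Vv y (al0 y n m x + al1 y n m a + al2 y n m b) =
        al0 y n m (Vv y x) + al1 y n m (-(U y x + Vv y a)) + al2 y n m x + al3 y n m a
          + al4 y n m b := by
      simp only [al0, al1, al2, al3, al4, U_apply, V_apply, mul_add, add_mul, mul_sub, sub_mul,
        neg_mul, mul_neg, neg_add, neg_sub, neg_neg, ← mul_assoc, hy, hy', zero_mul, mul_zero]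
      abel
    rw [this]
    exact X.add_mem (X.add_mem (X.add_mem (X.add_mem (h0 _ hvx) (h1 _ (X.neg_mem hxi))) (h2 _ hx))
      (h3 _ ha)) (h4 _ hb)
  · have : U y (al0 y n m x + al1 y n m a + al2 y n m b) + Vv y (al0 y n m a + al1 y n m b) =
        al0 y n m (U y x + Vv y a) - al1 y n m x - al2 y n m a - al3 y n m b := by
      simp only [al0, al1, al2, al3, al4, U_apply, V_apply, mul_add, add_mul, mul_sub, sub_mul,
        neg_mul, mul_neg, neg_add, neg_sub, neg_neg, ← mul_assoc, hy, hy', zero_mul, mul_zero]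
      abel
    rw [this]
    exact X.sub_mem (X.sub_mem (X.sub_mem (h0 _ hxi) (h1 _ hx)) (h2 _ ha)) (h3 _ hb)
  · simp only [al0, al1, al2, al3, al4, U_apply, V_apply, mul_add, add_mul, mul_sub, sub_mul,
        neg_mul, mul_neg, neg_add, neg_sub, neg_neg, ← mul_assoc, hy, hy', zero_mul, mul_zero]
    abel

theorem Lim_mul {y : E} (hy : y * y = 0) (X : AddSubgroup E)
    (hX : ∀ x ∈ X, ∀ x' ∈ X, x * x' = 0) {e e' : E} (he : e ∈ Lim X (U y) (Vv y))
    (he' : e' ∈ Lim X (U y) (Vv y)) : e * e' = 0 := by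
  obtain ⟨x, hx, a, ha, b, hb, hvx, hxi, rfl⟩ := he
  obtain ⟨x', hx', a', ha', b', hb', hvx', hxi', rfl⟩ := he'
  have hy' := left0 hy
  have z1 := hX _ hx _ hx'
  have z2 := hX _ hx _ ha'
  have z3 := hX _ hx _ hb'
  have z4 := hX _ ha _ hx'
  have z5 := hX _ ha _ ha'
  have z6 := hX _ ha _ hb'
  have z7 := hX _ hb _ hx'
  have z8 := hX _ hb _ ha'
  have z9 := hX _ hb _ hb'
  have z1' := left0 z1
  have z2' := left0 z2
  have z3' := left0 z3
  have z4' := left0 z4
  have z5' := left0 z5
  have z6' := left0 z6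
  have z7' := left0 z7
  have z8' := left0 z8
  have z9' := left0 z9
  have r1 : x * y * a' = y * a * y * a' := by
    have := hX _ hxi _ ha'
    simp only [U_apply, V_apply, mul_add, add_mul, mul_sub, sub_mul,
        neg_mul, mul_neg, ← mul_assoc, z2, z2', zero_mul, mul_zero, sub_zero] at this
    rw [← sub_eq_add_neg, sub_eq_zero] at this
    exact this
  have r2 : x * y * b' = y * a * y * b' := by
    have := hX _ hxi _ hb'
    simp only [U_apply, V_apply, mul_add, add_mul, mul_sub, sub_mul,
        neg_mul, mul_neg, ← mul_assoc, z3, z3', zero_mul, mul_zero, sub_zero] at this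
    rw [← sub_eq_add_neg, sub_eq_zero] at this
    exact this
  have r3 : a * y * x' = -(a * y * a' * y) := by
    have := hX _ ha _ hxi'
    simp only [U_apply, V_apply, mul_add, add_mul, mul_sub, sub_mul,
        neg_mul, mul_neg, ← mul_assoc, z4, z4', zero_mul, mul_zero, zero_sub] at this
    rw [← neg_add, neg_eq_zero, add_eq_zero_iff_eq_neg] at this
    exact this
  have r4 : b * y * x' = -(b * y * a' * y) := by
    have := hX _ hb _ hxi'
    simp only [U_apply, V_apply, mul_add, add_mul, mul_sub, sub_mul,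
        neg_mul, mul_neg, ← mul_assoc, z7, z7', zero_mul, mul_zero, zero_sub] at this
    rw [← neg_add, neg_eq_zero, add_eq_zero_iff_eq_neg] at this
    exact this
  have r4' : y * b * y * x' = -(y * b * y * a' * y) := by
    have := congrArg (fun z => y * z) r4
    simpa only [mul_neg, ← mul_assoc] using this
  simp only [U_apply, V_apply, mul_add, add_mul, mul_sub, sub_mul,
        neg_mul, mul_neg, ← mul_assoc, z1, z2, z3, z4, z5, z6, z7, z8, z9, z1', z2', z3', z4', z5',
        z6', z7', z8', z9', hy, hy', r1, r2, r3, r4', zero_mul, mul_zero]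
  abel

end ringid

section words
variable {E : Type*} [Ring E]

theorem w_z {x y : E} (hy : y * y = 0) (hx : x * x = 0) (hq : x * y * x * y * x = 0) :
    (1 + x * y * x + U y (x * y * x) + Vv y (x * y * x)) *
      (1 + x * y * x - U y (x * y * x) + Vv y (x * y * x)) * (1 - x * y * x) * (1 - x * y * x) =
      1 + (Vv y (x * y * x) + Vv y (x * y * x)) := by
  have hy' := left0 hy
  have hx' := left0 hx
  have hq' : ∀ c, c * x * y * x * y * x = 0 := fun c => by
    have : c * x * y * x * y * x = c * (x * y * x * y * x) := by noncomm_ring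
    rw [this, hq, mul_zero]
  simp only [U_apply, V_apply, mul_add, add_mul, mul_sub, sub_mul, one_mul, mul_one,
        neg_mul, mul_neg, ← mul_assoc, hy, hy', hx, hx', hq, hq', zero_mul, mul_zero]
  abel

theorem w_V {x y : E} (hy : y * y = 0) (hx : x * x = 0) (hq : x * y * x * y * x = 0) :
    ((1 + x + U y x + Vv y x) * (1 + x - U y x + Vv y x) * (1 - x) * (1 - x)) *
      (1 + (-(x * y * x + x * y * x) + (x * y * x * y - y * x * y * x)
        + (x * y * x * y - y * x * y * x))) *
      (1 + (Vv y (x * y * x) + Vv y (x * y * x))) = 1 + (Vv y x + Vv y x) := by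
  have hy' := left0 hy
  have hx' := left0 hx
  have hq' : ∀ c, c * x * y * x * y * x = 0 := fun c => by
    have : c * x * y * x * y * x = c * (x * y * x * y * x) := by noncomm_ring
    rw [this, hq, mul_zero]
  simp only [U_apply, V_apply, mul_add, add_mul, mul_sub, sub_mul, one_mul, mul_one,
        neg_mul, mul_neg, ← mul_assoc, hy, hy', hx, hx', hq, hq', zero_mul, mul_zero]
  abel

theorem w_U {x y : E} (hy : y * y = 0) (hx : x * x = 0) (hq : x * y * x * y * x = 0) :
    (1 - x) * (1 + x + U y x + Vv y x) * (1 - Vv y x) * (1 - x * y * x) *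
      (1 - Vv y (x * y * x)) = 1 + (U y x + x * y * x * y) := by
  have hy' := left0 hy
  have hx' := left0 hx
  have hq' : ∀ c, c * x * y * x * y * x = 0 := fun c => by
    have : c * x * y * x * y * x = c * (x * y * x * y * x) := by noncomm_ring
    rw [this, hq, mul_zero]
  simp only [U_apply, V_apply, mul_add, add_mul, mul_sub, sub_mul, one_mul, mul_one,
        neg_mul, mul_neg, ← mul_assoc, hy, hy', hx, hx', hq, hq', zero_mul, mul_zero]
  abel

theorem w_L {x y a b : E} (hy : y * y = 0) (haa : a * a = 0) (hxa : x * a = 0)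
    (hxb : x * b = 0) (hq : a * y * a * y * a = 0)
    (r1 : x * y * a = y * a * y * a) (r2 : x * y * b = y * a * y * b) :
    (1 + x) * (1 + (U y a + a * y * a * y)) * (1 - (a * y * a * y - y * a * y * a)) *
      (1 + Vv y b) = 1 + (x + U y a + Vv y b) := by
  have hy' := left0 hy
  have haa' := left0 haa
  have hxa' := left0 hxa
  have hxb' := left0 hxb
  have hq' : ∀ c, c * a * y * a * y * a = 0 := fun c => by
    have : c * a * y * a * y * a = c * (a * y * a * y * a) := by noncomm_ring
    rw [this, hq, mul_zero]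
  simp only [U_apply, V_apply, mul_add, add_mul, mul_sub, sub_mul, one_mul, mul_one,
        neg_mul, mul_neg, ← mul_assoc, hy, hy', haa, haa', hxa, hxa', hxb, hxb', hq, hq', r1, r2,
        zero_mul, mul_zero]
  abel

end words

end Cfsg.Agent.H69.QO
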