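import Cfsg.Agent.H69.QO2
import Mathlib.GroupTheory.Nilpotent

set_option autoImplicit false
set_option linter.unusedSimpArgs false

namespace Cfsg.Agent.H69.QO

section grp
variable {G : Type*} [Group G] {E : Type*} [Ring E]

/-- `A` acts quadratically. -/
def Quad (ρ : G →* E) (A : Subgroup G) : Prop := ∀ a ∈ A, ∀ a' ∈ A, (ρ a - 1) * (ρ a' - 1) = 0

theorem Quad.mono {ρ : G →* E} {A B : Subgroup G} (h : Quad ρ A) (hB : B ≤ A) : Quad ρ B :=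
  fun a ha a' ha' => h a (hB ha) a' (hB ha')

theorem rho_inv {ρ : G →* E} {a : G} {x : E} (ha : ρ a = 1 + x) (hx : x * x = 0) :
    ρ a⁻¹ = 1 - x := by
  have h1 : (1 + x) * (1 - x) = 1 := by
    simp only [mul_sub, add_mul, mul_one, one_mul, hx]; abel
  calc ρ a⁻¹ = ρ a⁻¹ * ((1 + x) * (1 - x)) := by rw [h1, mul_one]
    _ = (ρ a⁻¹ * ρ a) * (1 - x) := by rw [← ha, mul_assoc]
    _ = 1 - x := by rw [← map_mul, inv_mul_cancel, map_one, one_mul]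

theorem rho_mul {ρ : G →* E} {a a' : G} {x x' : E} (ha : ρ a = 1 + x) (ha' : ρ a' = 1 + x')
    (h : x * x' = 0) : ρ (a * a') = 1 + (x + x') := by
  rw [map_mul, ha, ha']
  simp only [mul_add, add_mul, mul_one, one_mul, h]; abel

/-- The logarithm set of `A`. -/
def Lg (ρ : G →* E) (A : Subgroup G) (h : Quad ρ A) : AddSubgroup E where
  carrier := {x | ∃ a ∈ A, ρ a = 1 + x}
  zero_mem' := ⟨1, A.one_mem, by simp⟩
  add_mem' := by
    rintro x x' ⟨a, ha, hx⟩ ⟨a', ha', hx'⟩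
    refine ⟨a * a', A.mul_mem ha ha', rho_mul hx hx' ?_⟩
    have := h a ha a' ha'
    rw [hx, hx'] at this
    simpa using this
  neg_mem' := by
    rintro x ⟨a, ha, hx⟩
    refine ⟨a⁻¹, A.inv_mem ha, ?_⟩
    have := h a ha a ha
    rw [hx] at this
    rw [rho_inv hx (by simpa using this), sub_eq_add_neg]

theorem mem_Lg {ρ : G →* E} {A : Subgroup G} {h : Quad ρ A} {x : E} :
    x ∈ Lg ρ A h ↔ ∃ a ∈ A, ρ a = 1 + x := Iff.rfl

theorem Lg_mul {ρ : G →* E} {A : Subgroup G} (h : Quad ρ A) :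
    ∀ x ∈ Lg ρ A h, ∀ x' ∈ Lg ρ A h, x * x' = 0 := by
  rintro x ⟨a, ha, hx⟩ x' ⟨a', ha', hx'⟩
  have := h a ha a' ha'
  rw [hx, hx'] at this
  simpa using this

theorem Lg_mono {ρ : G →* E} {A B : Subgroup G} (h : Quad ρ A) (hB : B ≤ A) :
    Lg ρ B (h.mono hB) ≤ Lg ρ A h := by
  rintro x ⟨a, ha, hx⟩
  exact ⟨a, hB ha, hx⟩

theorem rho_pow {ρ : G →* E} {b : G} {y : E} (hb : ρ b = 1 + y) (hy : y * y = 0) (n : ℕ) :
    ρ (b ^ n) = 1 + n • y := by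
  induction n with
  | zero => simp
  | succ n ih =>
    rw [pow_succ, map_mul, ih, hb]
    simp only [mul_add, add_mul, mul_one, one_mul, smul_mul_assoc, hy, smul_zero, add_smul,
      one_smul]
    abel

theorem rho_zpow {ρ : G →* E} {b : G} {y : E} (hb : ρ b = 1 + y) (hy : y * y = 0) (t : ℤ) :
    ρ (b ^ t) = 1 + t • y := by
  obtain ⟨n, rfl | rfl⟩ := t.eq_nat_or_neg
  · rw [zpow_natCast, rho_pow hb hy, natCast_zsmul]
  · have hb' : ρ b⁻¹ = 1 + (-y) := by rw [rho_inv hb hy, sub_eq_add_neg]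
    rw [zpow_neg, zpow_natCast, ← inv_pow, rho_pow hb' (by simp [hy]), neg_smul, natCast_zsmul,
      smul_neg]

/-- images of elements of a subgroup -/
def Im (ρ : G →* E) (R : Subgroup G) : Submonoid E := R.toSubmonoid.map ρ

theorem mem_Im {ρ : G →* E} {R : Subgroup G} {e : E} : e ∈ Im ρ R ↔ ∃ r ∈ R, ρ r = e := Iff.rfl

theorem Im_inv {ρ : G →* E} {R : Subgroup G} {z : E} (h : 1 + z ∈ Im ρ R) (hz : z * z = 0) :
    1 - z ∈ Im ρ R := by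
  obtain ⟨r, hr, h1⟩ := h
  exact ⟨r⁻¹, R.inv_mem hr, rho_inv h1 hz⟩

theorem Im_half {p : ℕ} (hp : p.Prime) (hp5 : 5 ≤ p) (hE : ∀ e : E, p • e = 0)
    {ρ : G →* E} {R : Subgroup G} {v : E} (h : 1 + (v + v) ∈ Im ρ R) (hv : v * v = 0) :
    1 + v ∈ Im ρ R := by
  obtain ⟨r, hr, h1⟩ := h
  have hodd : p % 2 = 1 := by
    rcases hp.eq_two_or_odd with h | h
    · omega
    · exact h
  have hvv : (v + v) * (v + v) = 0 := by
    simp only [mul_add, add_mul, hv]; abel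
  refine ⟨r ^ ((p + 1) / 2), R.pow_mem hr _, ?_⟩
  rw [rho_pow h1 hvv]
  congr 1
  have h2 : v + v = 2 • v := by rw [two_smul]
  rw [h2, smul_smul]
  have h3 : (p + 1) / 2 * 2 = p + 1 := by omega
  rw [h3, add_smul, hE, one_smul, zero_add]

end grp

section main
variable {G : Type*} [Group G] {E : Type*} [Ring E] {p : ℕ}

theorem conj_expand {y : E} (hy : y * y = 0) (x : E) :
    (1 - y) * (1 + x) * (1 + y) = 1 + x + U y x + Vv y x := by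
  simp only [U_apply, V_apply, mul_add, add_mul, mul_sub, sub_mul, one_mul, mul_one,
        neg_mul, mul_neg, ← mul_assoc, hy]
  abel

theorem conj_expand' {y : E} (hy : y * y = 0) (x : E) :
    (1 + y) * (1 + x) * (1 - y) = 1 + x - U y x + Vv y x := by
  simp only [U_apply, V_apply, mul_add, add_mul, mul_sub, sub_mul, one_mul, mul_one,
        neg_mul, mul_neg, ← mul_assoc, hy]
  abel

theorem al_mem (hp : p.Prime) (hp5 : 5 ≤ p) (hE : ∀ e : E, p • e = 0) (ρ : G →* E)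
    {A N : Subgroup G} [hN : N.Normal] (hQ : Quad ρ A)
    (hnorm : ∀ n ∈ N, ∀ a ∈ A, n * a * n⁻¹ ∈ A) {b : G} {y : E} (hb : ρ b = 1 + y)
    (hy : y * y = 0) {n : G} (hn : n ∈ N) {x : E} (hx : x ∈ Lg ρ A hQ) :
    al0 y (ρ n) (ρ n⁻¹) x ∈ Lg ρ A hQ ∧ al1 y (ρ n) (ρ n⁻¹) x ∈ Lg ρ A hQ ∧
    al2 y (ρ n) (ρ n⁻¹) x ∈ Lg ρ A hQ ∧ al3 y (ρ n) (ρ n⁻¹) x ∈ Lg ρ A hQ ∧
    al4 y (ρ n) (ρ n⁻¹) x ∈ Lg ρ A hQ := by
  apply coeff_extract hp hp5 hE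
  intro t
  rw [← conj_poly hy]
  obtain ⟨a, ha, hax⟩ := hx
  have hg : b ^ t * n * (b ^ t)⁻¹ ∈ N := hN.conj_mem n hn _
  refine ⟨(b ^ t * n * (b ^ t)⁻¹) * a * (b ^ t * n * (b ^ t)⁻¹)⁻¹, hnorm _ hg _ ha, ?_⟩
  have h1 : ρ (b ^ t * n * (b ^ t)⁻¹) = (1 + t • y) * ρ n * (1 - t • y) := by
    rw [map_mul, map_mul, rho_zpow hb hy, ← zpow_neg, rho_zpow hb hy, neg_smul, ← sub_eq_add_neg]
  have h2 : ρ (b ^ t * n * (b ^ t)⁻¹)⁻¹ = (1 + t • y) * ρ n⁻¹ * (1 - t • y) := by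
    have : (b ^ t * n * (b ^ t)⁻¹)⁻¹ = b ^ t * n⁻¹ * (b ^ t)⁻¹ := by group
    rw [this, map_mul, map_mul, rho_zpow hb hy, ← zpow_neg, rho_zpow hb hy, neg_smul,
      ← sub_eq_add_neg]
  have h3 : ρ (b ^ t * n * (b ^ t)⁻¹) * ρ (b ^ t * n * (b ^ t)⁻¹)⁻¹ = 1 := by
    rw [← map_mul, mul_inv_cancel, map_one]
  rw [map_mul, map_mul, hax, mul_add, mul_one, add_mul, h3, h1, h2]

theorem comm_mem (hp : p.Prime) (hp5 : 5 ≤ p) (hE : ∀ e : E, p • e = 0) (ρ : G →* E)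
    {A N : Subgroup G} [hN : N.Normal] (hAN : A ≤ N) (hQ : Quad ρ A)
    (hnorm : ∀ n ∈ N, ∀ a ∈ A, n * a * n⁻¹ ∈ A) {b : G} {y : E} (hb : ρ b = 1 + y)
    (hy : y * y = 0) {R R' : Subgroup G}
    (hRR : ∀ r ∈ R, ∀ g : G, g * r * g⁻¹ * r⁻¹ ∈ R')
    {x x' : E} (hx : x ∈ Lg ρ (A ⊓ R) (hQ.mono inf_le_left)) (hx' : x' ∈ Lg ρ A hQ) :
    x' * y * x + x * y * x' ∈ Lg ρ (A ⊓ R') (hQ.mono inf_le_left) ∧
    x * y * x' * y - y * x' * y * x + x' * y * x * y * x' ∈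
      Lg ρ (A ⊓ R') (hQ.mono inf_le_left) := by
  have hxA : x ∈ Lg ρ A hQ := Lg_mono hQ inf_le_left hx
  have hxx := Lg_mul hQ x hxA x hxA
  have hxx' := Lg_mul hQ x hxA x' hx'
  have hx'x := Lg_mul hQ x' hx' x hxA
  have hx'x' := Lg_mul hQ x' hx' x' hx'
  obtain ⟨a', ha', hax'⟩ := hx'
  obtain ⟨a, ⟨ha, haR⟩, hax⟩ := hx
  have hain : ρ a'⁻¹ = 1 - x' := rho_inv hax' hx'x'
  have hax_inv : ρ a⁻¹ = 1 - x := rho_inv hax hxx
  have key := coeff_extract hp hp5 hE (Lg ρ (A ⊓ R') (hQ.mono inf_le_left)) 0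
    (al1 y (ρ a') (ρ a'⁻¹) x) (al2 y (ρ a') (ρ a'⁻¹) x) (al3 y (ρ a') (ρ a'⁻¹) x)
    (al4 y (ρ a') (ρ a'⁻¹) x) (by
      intro t
      have hg : b ^ t * a' * (b ^ t)⁻¹ ∈ N := hN.conj_mem a' (hAN ha') _
      have h1 : ρ (b ^ t * a' * (b ^ t)⁻¹) = (1 + t • y) * ρ a' * (1 - t • y) := by
        rw [map_mul, map_mul, rho_zpow hb hy, ← zpow_neg, rho_zpow hb hy, neg_smul,
          ← sub_eq_add_neg]
      have h2 : ρ (b ^ t * a' * (b ^ t)⁻¹)⁻¹ = (1 + t • y) * ρ a'⁻¹ * (1 - t • y) := by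
        have : (b ^ t * a' * (b ^ t)⁻¹)⁻¹ = b ^ t * a'⁻¹ * (b ^ t)⁻¹ := by group
        rw [this, map_mul, map_mul, rho_zpow hb hy, ← zpow_neg, rho_zpow hb hy, neg_smul,
          ← sub_eq_add_neg]
      have h3 : ρ (b ^ t * a' * (b ^ t)⁻¹) * ρ (b ^ t * a' * (b ^ t)⁻¹)⁻¹ = 1 := by
        rw [← map_mul, mul_inv_cancel, map_one]
      have hin : (b ^ t * a' * (b ^ t)⁻¹) * a * (b ^ t * a' * (b ^ t)⁻¹)⁻¹ ∈ A := hnorm _ hg _ ha
      have h4 : ρ ((b ^ t * a' * (b ^ t)⁻¹) * a * (b ^ t * a' * (b ^ t)⁻¹)⁻¹) =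
          1 + ((1 + t • y) * ρ a' * (1 - t • y)) * x * ((1 + t • y) * ρ a'⁻¹ * (1 - t • y)) := by
        rw [map_mul, map_mul, hax, mul_add, mul_one, add_mul, h3, h1, h2]
      rw [conj_poly hy] at h4
      have hal0 : al0 y (ρ a') (ρ a'⁻¹) x = x := by
        rw [al0, hain, hax']
        simp only [mul_add, add_mul, mul_sub, sub_mul, one_mul, mul_one, ← mul_assoc, hxx', hx'x,
          zero_mul]
        abel
      rw [hal0] at h4
      have hF : x + t • al1 y (ρ a') (ρ a'⁻¹) x + t ^ 2 • al2 y (ρ a') (ρ a'⁻¹) x +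
          t ^ 3 • al3 y (ρ a') (ρ a'⁻¹) x + t ^ 4 • al4 y (ρ a') (ρ a'⁻¹) x ∈ Lg ρ A hQ :=
        ⟨_, hin, h4⟩
      have hFx := Lg_mul hQ _ hF x hxA
      refine ⟨(b ^ t * a' * (b ^ t)⁻¹) * a * (b ^ t * a' * (b ^ t)⁻¹)⁻¹ * a⁻¹,
        ⟨A.mul_mem hin (A.inv_mem ha), hRR a haR _⟩, ?_⟩
      rw [map_mul, h4, hax_inv, mul_sub, mul_one, add_mul, hFx, one_mul, add_zero]
      module)
  obtain ⟨-, k1, k2, -, -⟩ := key
  constructor
  · have : x' * y * x + x * y * x' = -(al1 y (ρ a') (ρ a'⁻¹) x) := by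
      rw [al1, hain, hax']
      have e1 := left0 hxx'
      have e2 := left0 hx'x
      simp only [mul_add, add_mul, mul_sub, sub_mul, one_mul, mul_one, ← mul_assoc, hxx', hx'x,
          e1, e2, zero_mul, mul_zero]
      abel
    rw [this]
    exact AddSubgroup.neg_mem _ k1
  · have : x * y * x' * y - y * x' * y * x + x' * y * x * y * x' = al2 y (ρ a') (ρ a'⁻¹) x := by
      rw [al2, hain, hax']
      have e1 := left0 hxx'
      have e2 := left0 hx'x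
      have e3 := left0 hy
      simp only [mul_add, add_mul, mul_sub, sub_mul, one_mul, mul_one, ← mul_assoc, hxx', hx'x,
          e1, e2, e3, hy, zero_mul, mul_zero, neg_mul, mul_neg]
      abel
    rw [this]
    exact k2

theorem cubic (hp : p.Prime) (hp5 : 5 ≤ p) (hE : ∀ e : E, p • e = 0) (ρ : G →* E)
    {A N : Subgroup G} [hN : N.Normal] (hAN : A ≤ N) (hQ : Quad ρ A)
    (hnorm : ∀ n ∈ N, ∀ a ∈ A, n * a * n⁻¹ ∈ A) {b : G} {y : E} (hb : ρ b = 1 + y)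
    (hy : y * y = 0) {x : E} (hx : x ∈ Lg ρ A hQ) : x * y * x * y * x = 0 := by
  have hx1 : x ∈ Lg ρ (A ⊓ ⊤) (hQ.mono inf_le_left) := by
    obtain ⟨a, ha, hax⟩ := hx
    exact ⟨a, ⟨ha, trivial⟩, hax⟩
  have h := (comm_mem hp hp5 hE ρ hAN hQ hnorm hb hy (R := ⊤) (R' := ⊤)
    (fun _ _ _ => trivial) hx1 hx).2
  have h2 := Lg_mul hQ x hx _ (Lg_mono hQ inf_le_left h)
  have hxx := Lg_mul hQ x hx x hx
  have e1 := left0 hxx
  simp only [mul_add, add_mul, mul_sub, sub_mul, one_mul, mul_one, ← mul_assoc, hxx,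
          e1, zero_mul, mul_zero, zero_sub, add_zero, neg_eq_zero] at h2
  exact h2

end main

end Cfsg.Agent.H69.QO
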