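import Cfsg.Agent.H69.QO3

set_option autoImplicit false
set_option linter.unusedSimpArgs false

namespace Cfsg.Agent.H69.QO

section closure
variable {G : Type*} [Group G] {E : Type*} [Ring E] {p : ℕ}

theorem K1 (hp : p.Prime) (hp5 : 5 ≤ p) (hE : ∀ e : E, p • e = 0) (ρ : G →* E)
    {R' : Subgroup G} [hR' : R'.Normal] {b : G} {y : E} (hb : ρ b = 1 + y) (hy : y * y = 0)
    {x : E} (hx : x * x = 0) (hq : x * y * x * y * x = 0) (hz : 1 + x * y * x ∈ Im ρ R') :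
    1 + Vv y (x * y * x) ∈ Im ρ R' := by
  obtain ⟨r, hr, hrz⟩ := hz
  have hbi : ρ b⁻¹ = 1 - y := rho_inv hb hy
  have hzz : x * y * x * (x * y * x) = 0 := by
    have e1 := left0 hx
    simp only [← mul_assoc, hx, e1, zero_mul]
  have hri : ρ r⁻¹ = 1 - x * y * x := rho_inv hrz hzz
  have hVV : Vv y (x * y * x) * Vv y (x * y * x) = 0 := by
    have e1 := left0 hy
    simp only [V_apply, neg_mul, mul_neg, ← mul_assoc, e1, zero_mul, neg_zero]
  refine Im_half hp hp5 hE ?_ hVV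
  rw [← w_z hy hx hq]
  refine ⟨(b⁻¹ * r * b) * (b * r * b⁻¹) * r⁻¹ * r⁻¹, ?_, ?_⟩
  · refine R'.mul_mem (R'.mul_mem (R'.mul_mem ?_ (hR'.conj_mem r hr b)) (R'.inv_mem hr))
      (R'.inv_mem hr)
    have := hR'.conj_mem r hr b⁻¹
    simpa using this
  · rw [map_mul, map_mul, map_mul, map_mul, map_mul, map_mul, map_mul, hri, hrz, hb, hbi,
      conj_expand hy, conj_expand' hy]

theorem clos (hp : p.Prime) (hp5 : 5 ≤ p) (hE : ∀ e : E, p • e = 0) (ρ : G →* E)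
    {A N : Subgroup G} [hN : N.Normal] (hAN : A ≤ N) (hQ : Quad ρ A)
    (hnorm : ∀ n ∈ N, ∀ a ∈ A, n * a * n⁻¹ ∈ A) {b : G} {y : E} (hb : ρ b = 1 + y)
    (hy : y * y = 0) {R R' : Subgroup G} [hR' : R'.Normal]
    (hRR : ∀ r ∈ R, ∀ g : G, g * r * g⁻¹ * r⁻¹ ∈ R')
    {x : E} (hx : x ∈ Lg ρ (A ⊓ R) (hQ.mono inf_le_left)) :
    1 + Vv y x ∈ Im ρ R' ∧ 1 + (U y x + x * y * x * y) ∈ Im ρ R' ∧
      x * y * x * y - y * x * y * x ∈ Lg ρ (A ⊓ R') (hQ.mono inf_le_left) := by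
  have hxA : x ∈ Lg ρ A hQ := Lg_mono hQ inf_le_left hx
  have hxx := Lg_mul hQ x hxA x hxA
  have hq := cubic hp hp5 hE ρ hAN hQ hnorm hb hy hxA
  obtain ⟨k1, k2⟩ := comm_mem hp hp5 hE ρ hAN hQ hnorm hb hy hRR hx hxA
  rw [hq, add_zero] at k2
  have c2p : Nat.Coprime 2 p := by
    rw [Nat.coprime_comm]
    exact (Nat.Prime.coprime_iff_not_dvd hp).2 (fun hd => by
      have := Nat.le_of_dvd (by norm_num) hd
      omega)
  have k3 : x * y * x ∈ Lg ρ (A ⊓ R') (hQ.mono inf_le_left) := by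
    apply mem_of_zsmul hE _ _ 2 c2p
    rw [two_smul]; exact k1
  have hsub : ∀ z ∈ Lg ρ (A ⊓ R') (hQ.mono inf_le_left), 1 + z ∈ Im ρ R' := by
    rintro z ⟨a, ⟨-, ha⟩, haz⟩
    exact ⟨a, ha, haz⟩
  have hz := hsub _ k3
  have hVz := K1 hp hp5 hE ρ hb hy hxx hq hz
  have hVzm : 1 + (Vv y (x * y * x) + Vv y (x * y * x)) ∈ Im ρ R' := by
    have h2 : Vv y (x * y * x) * Vv y (x * y * x) = 0 := by
      have e1 := left0 hy
      simp only [V_apply, neg_mul, mul_neg, ← mul_assoc, e1, zero_mul, neg_zero]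
    have := (Im ρ R').mul_mem hVz hVz
    have e : (1 + Vv y (x * y * x)) * (1 + Vv y (x * y * x)) =
        1 + (Vv y (x * y * x) + Vv y (x * y * x)) := by
      simp only [mul_add, add_mul, mul_one, one_mul, h2]; abel
    rwa [e] at this
  have hVzi : 1 - Vv y (x * y * x) ∈ Im ρ R' := by
    refine Im_inv hVz ?_
    have e1 := left0 hy
    simp only [V_apply, neg_mul, mul_neg, ← mul_assoc, e1, zero_mul, neg_zero]
  have hw2 : 1 + (-(x * y * x + x * y * x) + (x * y * x * y - y * x * y * x)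
        + (x * y * x * y - y * x * y * x)) ∈ Im ρ R' := by
    apply hsub
    exact AddSubgroup.add_mem _ (AddSubgroup.add_mem _ (AddSubgroup.neg_mem _ k1) k2) k2
  obtain ⟨a, ⟨haA, haR⟩, hax⟩ := hx
  have hbi : ρ b⁻¹ = 1 - y := rho_inv hb hy
  have hai : ρ a⁻¹ = 1 - x := rho_inv hax hxx
  have hcb : b⁻¹ * a * b * a⁻¹ ∈ R' := by simpa using hRR a haR b⁻¹
  have hcb' : b * a * b⁻¹ * a⁻¹ ∈ R' := hRR a haR b
  have m1 : (1 + x + U y x + Vv y x) * (1 + x - U y x + Vv y x) * (1 - x) * (1 - x) ∈ Im ρ R' := by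
    refine ⟨(b⁻¹ * a * b) * (b * a * b⁻¹) * a⁻¹ * a⁻¹, ?_, ?_⟩
    · have : (b⁻¹ * a * b) * (b * a * b⁻¹) * a⁻¹ * a⁻¹ =
          (b⁻¹ * a * b * a⁻¹) * (a * (b * a * b⁻¹ * a⁻¹) * a⁻¹) := by group
      rw [this]
      exact R'.mul_mem hcb (hR'.conj_mem _ hcb' a)
    · rw [map_mul, map_mul, map_mul, map_mul, map_mul, map_mul, map_mul, hai, hax, hb, hbi,
        conj_expand hy, conj_expand' hy]
  have hVx2 : 1 + (Vv y x + Vv y x) ∈ Im ρ R' := by
    rw [← w_V hy hxx hq]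
    exact (Im ρ R').mul_mem ((Im ρ R').mul_mem m1 hw2) hVzm
  have hVV : Vv y x * Vv y x = 0 := by
    have e1 := left0 hy
    simp only [V_apply, neg_mul, mul_neg, ← mul_assoc, e1, zero_mul, neg_zero]
  have hVx : 1 + Vv y x ∈ Im ρ R' := Im_half hp hp5 hE hVx2 hVV
  refine ⟨hVx, ?_, k2⟩
  rw [← w_U hy hxx hq]
  have m2 : (1 - x) * (1 + x + U y x + Vv y x) ∈ Im ρ R' := by
    refine ⟨a⁻¹ * (b⁻¹ * a * b), ?_, ?_⟩
    · have : a⁻¹ * (b⁻¹ * a * b) = a⁻¹ * (b⁻¹ * a * b * a⁻¹) * a⁻¹⁻¹ := by group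
      rw [this]
      exact hR'.conj_mem _ hcb a⁻¹
    · rw [map_mul, map_mul, map_mul, hai, hax, hb, hbi, conj_expand hy]
  have m3 : 1 - x * y * x ∈ Im ρ R' := by
    rw [sub_eq_add_neg]
    exact hsub _ (AddSubgroup.neg_mem _ k3)
  exact (Im ρ R').mul_mem ((Im ρ R').mul_mem ((Im ρ R').mul_mem m2 (Im_inv hVx hVV)) m3) hVzi

theorem closLim (hp : p.Prime) (hp5 : 5 ≤ p) (hE : ∀ e : E, p • e = 0) (ρ : G →* E)
    {A N : Subgroup G} [hN : N.Normal] (hAN : A ≤ N) (hQ : Quad ρ A)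
    (hnorm : ∀ n ∈ N, ∀ a ∈ A, n * a * n⁻¹ ∈ A) {b : G} {y : E} (hb : ρ b = 1 + y)
    (hy : y * y = 0) {R R' : Subgroup G} [hR' : R'.Normal] (hle : R' ≤ R)
    (hRR : ∀ r ∈ R, ∀ g : G, g * r * g⁻¹ * r⁻¹ ∈ R')
    {e : E} (he : e ∈ Lim (Lg ρ (A ⊓ R) (hQ.mono inf_le_left)) (U y) (Vv y)) :
    1 + e ∈ Im ρ R := by
  obtain ⟨x, hx, a, ha, c, hc, hvx, hxi, rfl⟩ := he
  have hxA : x ∈ Lg ρ A hQ := Lg_mono hQ inf_le_left hx
  have haA : a ∈ Lg ρ A hQ := Lg_mono hQ inf_le_left ha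
  have hcA : c ∈ Lg ρ A hQ := Lg_mono hQ inf_le_left hc
  have hxiA := Lg_mono hQ inf_le_left hxi
  have haa := Lg_mul hQ a haA a haA
  have hxa := Lg_mul hQ x hxA a haA
  have hxc := Lg_mul hQ x hxA c hcA
  have hq := cubic hp hp5 hE ρ hAN hQ hnorm hb hy haA
  have r1 : x * y * a = y * a * y * a := by
    have := Lg_mul hQ _ hxiA a haA
    have z2' := left0 hxa
    simp only [U_apply, V_apply, mul_add, add_mul, mul_sub, sub_mul,
        neg_mul, mul_neg, ← mul_assoc, hxa, z2', zero_mul, mul_zero, sub_zero] at this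
    rw [← sub_eq_add_neg, sub_eq_zero] at this
    exact this
  have r2 : x * y * c = y * a * y * c := by
    have := Lg_mul hQ _ hxiA c hcA
    have z2' := left0 hxc
    simp only [U_apply, V_apply, mul_add, add_mul, mul_sub, sub_mul,
        neg_mul, mul_neg, ← mul_assoc, hxc, z2', zero_mul, mul_zero, sub_zero] at this
    rw [← sub_eq_add_neg, sub_eq_zero] at this
    exact this
  obtain ⟨ca1, ca2, ca3⟩ := clos hp hp5 hE ρ hAN hQ hnorm hb hy hRR ha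
  obtain ⟨cc1, cc2, cc3⟩ := clos hp hp5 hE ρ hAN hQ hnorm hb hy hRR hc
  have hle' : Im ρ R' ≤ Im ρ R := by
    rintro e ⟨r, hr, h⟩
    exact ⟨r, hle hr, h⟩
  rw [← w_L hy haa hxa hxc hq r1 r2]
  refine (Im ρ R).mul_mem ((Im ρ R).mul_mem ((Im ρ R).mul_mem ?_ (hle' ca2)) ?_) (hle' cc1)
  · obtain ⟨g, ⟨-, hg⟩, hgx⟩ := hx
    exact ⟨g, hg, hgx⟩
  · have := AddSubgroup.neg_mem _ ca3
    obtain ⟨g, ⟨-, hg⟩, hgx⟩ := this
    rw [sub_eq_add_neg]
    exact hle' ⟨g, hg, hgx⟩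

/-- The limit subgroup. -/
def LimG (ρ : G →* E) (A : Subgroup G) (hQ : Quad ρ A) (y : E) (hy : y * y = 0) :
    Subgroup G where
  carrier := {g | ∃ e ∈ Lim (Lg ρ A hQ) (U y) (Vv y), ρ g = 1 + e}
  one_mem' := ⟨0, AddSubgroup.zero_mem _, by simp⟩
  mul_mem' := by
    rintro g g' ⟨e, he, hg⟩ ⟨e', he', hg'⟩
    exact ⟨e + e', AddSubgroup.add_mem _ he he',
      rho_mul hg hg' (Lim_mul hy _ (Lg_mul hQ) he he')⟩
  inv_mem' := by
    rintro g ⟨e, he, hg⟩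
    refine ⟨-e, AddSubgroup.neg_mem _ he, ?_⟩
    rw [rho_inv hg (Lim_mul hy _ (Lg_mul hQ) he he), sub_eq_add_neg]

theorem quad_LimG (ρ : G →* E) (A : Subgroup G) (hQ : Quad ρ A) (y : E) (hy : y * y = 0) :
    Quad ρ (LimG ρ A hQ y hy) := by
  rintro g ⟨e, he, hg⟩ g' ⟨e', he', hg'⟩
  rw [hg, hg', add_sub_cancel_left, add_sub_cancel_left]
  exact Lim_mul hy _ (Lg_mul hQ) he he'

theorem card_le_of_log [Finite G] (ρ : G →* E) (S : Set G) (T : Set E)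
    (h : ∀ e ∈ T, ∃ g ∈ S, ρ g = 1 + e) : Nat.card T ≤ Nat.card S := by
  choose! f hf1 hf2 using h
  have : Function.Injective (fun e : T => (⟨f e.1, hf1 e.1 e.2⟩ : S)) := by
    intro e e' hee
    have h1 : f e.1 = f e'.1 := congrArg Subtype.val hee
    have h2 := hf2 e.1 e.2
    rw [h1, hf2 e'.1 e'.2] at h2
    exact Subtype.ext (add_left_cancel h2).symm
  exact Nat.card_le_card_of_injective _ this

theorem card_Lg [Finite G] (ρ : G →* E) (hρ : Function.Injective ρ) (A : Subgroup G)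
    (hQ : Quad ρ A) : Nat.card (Lg ρ A hQ) = Nat.card A := by
  apply le_antisymm
  · exact card_le_of_log ρ (A : Set G) (Lg ρ A hQ : Set E) (fun e he => he)
  · have hfin : Finite (Lg ρ A hQ) := by
      have : ((Lg ρ A hQ : AddSubgroup E) : Set E) ⊆ (fun g : G => ρ g - 1) '' Set.univ := by
        rintro x ⟨a, -, hax⟩
        exact ⟨a, trivial, by simp [hax]⟩
      exact ((Set.toFinite _).subset this).to_subtype
    have hinj : Function.Injective (fun a : A => (⟨ρ a.1 - 1, a.1, a.2, by abel⟩ : Lg ρ A hQ)) := by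
      intro a a' h
      have h1 : ρ a.1 - 1 = ρ a'.1 - 1 := congrArg Subtype.val h
      exact Subtype.ext (hρ (sub_left_injective h1))
    exact Nat.card_le_card_of_injective _ hinj

end closure

end Cfsg.Agent.H69.QO
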