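import Cfsg.Agent.H69.QO4

set_option autoImplicit false
set_option linter.unusedSimpArgs false

open scoped commutatorElement

namespace Cfsg.Agent.H69.QO

section fix
variable {G : Type*} [Group G] {W : Type*} [AddCommGroup W] {p : ℕ}

/-- Fixed points. -/
def Fix (ρ : G →* AddMonoid.End W) (A : Subgroup G) : AddSubgroup W where
  carrier := {w | ∀ a ∈ A, ρ a w = w}
  zero_mem' := by intro a _; simp
  add_mem' := by
    intro w w' h h' a ha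
    rw [map_add, h a ha, h' a ha]
  neg_mem' := by
    intro w h a ha
    rw [map_neg, h a ha]

theorem mem_Fix {ρ : G →* AddMonoid.End W} {A : Subgroup G} {w : W} :
    w ∈ Fix ρ A ↔ ∀ a ∈ A, ρ a w = w := Iff.rfl

theorem Lg_kill {ρ : G →* AddMonoid.End W} {A : Subgroup G} {h : Quad ρ A}
    {x : AddMonoid.End W} (hx : x ∈ Lg ρ A h) {w : W} (hw : w ∈ Fix ρ A) : x w = 0 := by
  obtain ⟨a, ha, hax⟩ := hx
  have h1 := hw a ha
  rw [hax] at h1
  have h2 : w + x w = w := h1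
  simpa using h2

theorem kill_Lim {ρ : G →* AddMonoid.End W} {A : Subgroup G} (hQ : Quad ρ A)
    {y : AddMonoid.End W} (hy : y * y = 0) {w : W}
    (hw : w ∈ Lim (Fix ρ A) (-(y : W →+ W)) 0) : w ∈ Fix ρ (LimG ρ A hQ y hy) := by
  rintro g ⟨e, ⟨x, hx, a, ha, b, hb, hvx, hxi, rfl⟩, hg⟩
  obtain ⟨w0, hw0, c, hc, d, hd, -, hyw, rfl⟩ := hw
  rw [hg]
  have hyy : ∀ m, y (y m) = 0 := fun m => by
    have := DFunLike.congr_fun hy m
    exact this
  have hyw0 : y w0 ∈ Fix ρ A := by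
    have : -(y w0) + 0 ∈ Fix ρ A := hyw
    simpa using (Fix ρ A).neg_mem this
  have x1 := Lg_kill hx hw0
  have x2 := Lg_kill hx hc
  have a1 := Lg_kill ha hw0
  have a2 := Lg_kill ha hc
  have a3 := Lg_kill ha hyw0
  have b1 := Lg_kill hb hyw0
  have xi := Lg_kill hxi hc
  have xi' : x (y c) - y (x c) + -(y (a (y c))) = 0 := xi
  rw [x2, map_zero, sub_zero, ← sub_eq_add_neg, sub_eq_zero] at xi'
  have key : (x + U y a + Vv y b) (w0 + (-(y : W →+ W)) c + (0 : W →+ W) d) = 0 := by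
    have e0 : w0 + (-(y : W →+ W)) c + (0 : W →+ W) d = w0 - y c := by
      show w0 + -(y c) + 0 = w0 - y c
      abel
    rw [e0]
    show x (w0 - y c) + (a (y (w0 - y c)) - y (a (w0 - y c))) + -(y (b (y (w0 - y c)))) = 0
    simp only [map_sub, map_neg, hyy, x1, a1, a3, b1, xi', map_zero, sub_zero, zero_sub, neg_neg,
      neg_zero]
    abel
  show (w0 + (-(y : W →+ W)) c + (0 : W →+ W) d) +
    (x + U y a + Vv y b) (w0 + (-(y : W →+ W)) c + (0 : W →+ W) d) = _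
  rw [key, add_zero]
  rfl

theorem card_Fix_Lim [Finite W] (ρ : G →* AddMonoid.End W) {A : Subgroup G} (hQ : Quad ρ A)
    {y : AddMonoid.End W} (hy : y * y = 0) :
    Nat.card (Fix ρ A) ≤ Nat.card (Fix ρ (LimG ρ A hQ y hy)) := by
  have hyy : ∀ m, y (y m) = 0 := fun m => DFunLike.congr_fun hy m
  have h1 : Nat.card (Lim (Fix ρ A) (-(y : W →+ W)) 0) = Nat.card (Fix ρ A) := by
    apply card_Lim
    · intro m
      show -(y (-(y m))) = 0 + 0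
      rw [map_neg, hyy]; simp
    · intro m
      show (-(y : W →+ W)) 0 = 0
      exact map_zero _
    · intro m; rfl
    · intro m; rfl
  rw [← h1]
  have hle : Lim (Fix ρ A) (-(y : W →+ W)) 0 ≤ Fix ρ (LimG ρ A hQ y hy) :=
    fun w hw => kill_Lim hQ hy hw
  exact Nat.card_le_card_of_injective _ (AddSubgroup.inclusion_injective hle)

/-- Good subgroups. -/
def Good (ρ : G →* AddMonoid.End W) (N A : Subgroup G) : Prop :=
  A ≤ N ∧ A ≠ ⊥ ∧ Quad ρ A ∧ (∀ n ∈ N, ∀ a ∈ A, n * a * n⁻¹ ∈ A) ∧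
    Nat.card W ≤ Nat.card A * Nat.card (Fix ρ A)

theorem hE_of_hW (hW : ∀ w : W, p • w = 0) : ∀ e : AddMonoid.End W, p • e = 0 := by
  intro e
  ext w
  show p • (e w) = 0
  exact hW _

instance finiteEnd [Finite W] : Finite (AddMonoid.End W) :=
  Finite.of_injective (fun f => (f : W → W)) DFunLike.coe_injective

theorem LimG_le [Finite G] (hp : p.Prime) (hp5 : 5 ≤ p) (hW : ∀ w : W, p • w = 0)
    (ρ : G →* AddMonoid.End W) (hρ : Function.Injective ρ) {A N : Subgroup G} [hN : N.Normal]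
    (hAN : A ≤ N) (hQ : Quad ρ A) (hnorm : ∀ n ∈ N, ∀ a ∈ A, n * a * n⁻¹ ∈ A)
    {b : G} {y : AddMonoid.End W} (hb : ρ b = 1 + y) (hy : y * y = 0)
    {e : AddMonoid.End W} (he : e ∈ Lim (Lg ρ A hQ) (U y) (Vv y)) : 1 + e ∈ Im ρ N := by
  apply closLim hp hp5 (hE_of_hW hW) ρ hAN hQ hnorm hb hy (R := N) (R' := N) le_rfl
  · intro r hr g
    exact N.mul_mem (hN.conj_mem r hr g) (N.inv_mem hr)
  · refine Lim_mono ?_ _ _ he
    rintro x ⟨a, ha, hax⟩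
    exact ⟨a, ⟨ha, hAN ha⟩, hax⟩

theorem good_LimG [Finite G] [Finite W] (hp : p.Prime) (hp5 : 5 ≤ p) (hW : ∀ w : W, p • w = 0)
    (ρ : G →* AddMonoid.End W) (hρ : Function.Injective ρ) {A N : Subgroup G} [hN : N.Normal]
    (hA : Good ρ N A) {b : G} {y : AddMonoid.End W} (hb : ρ b = 1 + y) (hy : y * y = 0) :
    Good ρ N (LimG ρ A hA.2.2.1 y hy) := by
  obtain ⟨hAN, hA1, hQ, hnorm, hoff⟩ := hA
  have hE := hE_of_hW hW
  have hcard : Nat.card A ≤ Nat.card (LimG ρ A hQ y hy) := by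
    rw [← card_Lg ρ hρ A hQ, ← card_LimE hy (Lg ρ A hQ)]
    refine card_le_of_log ρ (LimG ρ A hQ y hy : Set G)
      (Lim (Lg ρ A hQ) (U y) (Vv y) : Set (AddMonoid.End W)) ?_
    intro e he
    obtain ⟨g, -, hg⟩ := LimG_le hp hp5 hW ρ hρ hAN hQ hnorm hb hy he
    exact ⟨g, ⟨e, he, hg⟩, hg⟩
  refine ⟨?_, ?_, quad_LimG ρ A hQ y hy, ?_, ?_⟩
  · rintro g ⟨e, he, hg⟩
    obtain ⟨n, hn, hne⟩ := LimG_le hp hp5 hW ρ hρ hAN hQ hnorm hb hy he
    have : g = n := hρ (hg.trans hne.symm)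
    rw [this]; exact hn
  · intro hbot
    rw [hbot, Subgroup.card_bot] at hcard
    exact hA1 (Subgroup.card_le_one_iff_eq_bot A |>.1 hcard)
  · rintro n hn g ⟨e, he, hg⟩
    have h := fun {x} (hx : x ∈ Lg ρ A hQ) => al_mem hp hp5 hE ρ hQ hnorm hb hy hn hx
    refine ⟨ρ n * e * ρ n⁻¹, conj_Lim hy _ _ _ (fun x hx => (h hx).1) (fun x hx => (h hx).2.1)
      (fun x hx => (h hx).2.2.1) (fun x hx => (h hx).2.2.2.1) (fun x hx => (h hx).2.2.2.2) he, ?_⟩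
    have h3 : ρ n * ρ n⁻¹ = 1 := by rw [← map_mul, mul_inv_cancel, map_one]
    rw [map_mul, map_mul, hg, mul_add, mul_one, add_mul, h3]
  · calc Nat.card W ≤ Nat.card A * Nat.card (Fix ρ A) := hoff
      _ ≤ _ := Nat.mul_le_mul hcard (card_Fix_Lim ρ hQ hy)

theorem meas_le [Finite G] [Finite W] (hp : p.Prime) (hp5 : 5 ≤ p) (hW : ∀ w : W, p • w = 0)
    (ρ : G →* AddMonoid.End W) (hρ : Function.Injective ρ) {A N : Subgroup G} [hN : N.Normal]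
    (hAN : A ≤ N) (hQ : Quad ρ A) (hnorm : ∀ n ∈ N, ∀ a ∈ A, n * a * n⁻¹ ∈ A)
    {b : G} {y : AddMonoid.End W} (hb : ρ b = 1 + y) (hy : y * y = 0)
    (Z : Subgroup G) [hZ : Z.Normal] :
    ∀ e ∈ Lim (Lg ρ (A ⊓ Z) (hQ.mono inf_le_left)) (U y) (Vv y),
      ∃ g ∈ LimG ρ A hQ y hy ⊓ Z, ρ g = 1 + e := by
  intro e he
  have hmem : 1 + e ∈ Im ρ Z := by
    apply closLim hp hp5 (hE_of_hW hW) ρ hAN hQ hnorm hb hy (R := Z) (R' := Z) le_rfl
    · intro r hr g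
      exact Z.mul_mem (hZ.conj_mem r hr g) (Z.inv_mem hr)
    · exact he
  obtain ⟨g, hg, hge⟩ := hmem
  exact ⟨g, ⟨⟨e, Lim_mono (Lg_mono hQ inf_le_left) _ _ he, hge⟩, hg⟩, hge⟩

theorem meas_card_le [Finite G] [Finite W] (hp : p.Prime) (hp5 : 5 ≤ p)
    (hW : ∀ w : W, p • w = 0)
    (ρ : G →* AddMonoid.End W) (hρ : Function.Injective ρ) {A N : Subgroup G} [hN : N.Normal]
    (hAN : A ≤ N) (hQ : Quad ρ A) (hnorm : ∀ n ∈ N, ∀ a ∈ A, n * a * n⁻¹ ∈ A)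
    {b : G} {y : AddMonoid.End W} (hb : ρ b = 1 + y) (hy : y * y = 0)
    (Z : Subgroup G) [hZ : Z.Normal] :
    Nat.card ↥(A ⊓ Z) ≤ Nat.card ↥(LimG ρ A hQ y hy ⊓ Z) := by
  rw [← card_Lg ρ hρ (A ⊓ Z) (hQ.mono inf_le_left),
    ← card_LimE hy (Lg ρ (A ⊓ Z) (hQ.mono inf_le_left))]
  exact card_le_of_log ρ ((LimG ρ A hQ y hy ⊓ Z : Subgroup G) : Set G)
    (Lim (Lg ρ (A ⊓ Z) (hQ.mono inf_le_left)) (U y) (Vv y) : Set (AddMonoid.End W))
    (meas_le hp hp5 hW ρ hρ hAN hQ hnorm hb hy Z)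

theorem meas_eq [Finite G] [Finite W] (hp : p.Prime) (hp5 : 5 ≤ p)
    (hW : ∀ w : W, p • w = 0)
    (ρ : G →* AddMonoid.End W) (hρ : Function.Injective ρ) {A N : Subgroup G} [hN : N.Normal]
    (hAN : A ≤ N) (hQ : Quad ρ A) (hnorm : ∀ n ∈ N, ∀ a ∈ A, n * a * n⁻¹ ∈ A)
    {b : G} {y : AddMonoid.End W} (hb : ρ b = 1 + y) (hy : y * y = 0)
    (Z : Subgroup G) [hZ : Z.Normal]
    (heq : Nat.card ↥(A ⊓ Z) = Nat.card ↥(LimG ρ A hQ y hy ⊓ Z)) {g : G}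
    (hg : g ∈ LimG ρ A hQ y hy ⊓ Z) :
    ∃ e ∈ Lim (Lg ρ (A ⊓ Z) (hQ.mono inf_le_left)) (U y) (Vv y), ρ g = 1 + e := by
  classical
  have hm := meas_le hp hp5 hW ρ hρ hAN hQ hnorm hb hy Z
  choose! f hf1 hf2 using hm
  set T := Lim (Lg ρ (A ⊓ Z) (hQ.mono inf_le_left)) (U y) (Vv y) with hT
  have hinj : Function.Injective
      (fun e : T => (⟨f e.1, hf1 e.1 e.2⟩ : ↥(LimG ρ A hQ y hy ⊓ Z))) := by
    intro e e' hee
    have h1 : f e.1 = f e'.1 := congrArg Subtype.val hee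
    have h2 := hf2 e.1 e.2
    rw [h1, hf2 e'.1 e'.2] at h2
    exact Subtype.ext (add_left_cancel h2).symm
  have hc : Nat.card T = Nat.card ↥(LimG ρ A hQ y hy ⊓ Z) := by
    rw [← heq, ← card_Lg ρ hρ (A ⊓ Z) (hQ.mono inf_le_left), hT, card_LimE hy]
  have hbij := (Nat.bijective_iff_injective_and_card _).2 ⟨hinj, hc⟩
  obtain ⟨e, he⟩ := hbij.2 ⟨g, hg⟩
  refine ⟨e.1, e.2, ?_⟩
  have h1 : f e.1 = g := congrArg Subtype.val he
  rw [← h1]
  exact hf2 e.1 e.2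

theorem claim [Finite G] [Finite W] [Group.IsNilpotent G] (hp : p.Prime) (hp5 : 5 ≤ p)
    (hW : ∀ w : W, p • w = 0)
    (ρ : G →* AddMonoid.End W) (hρ : Function.Injective ρ) {N : Subgroup G} [hN : N.Normal]
    (hex : ∃ A, Good ρ N A) :
    ∃ A, Good ρ N A ∧ ∀ b : G, (ρ b - 1) * (ρ b - 1) = 0 → ∀ a ∈ A, b * a * b⁻¹ ∈ A := by
  classical
  have hE := hE_of_hW hW
  set c := Group.nilpotencyClass G
  let Z : ℕ → Subgroup G := fun k => Subgroup.upperCentralSeries G k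
  have hZtop : Z c = ⊤ := Subgroup.upperCentralSeries_nilpotencyClass
  have hZ0 : Z 0 = ⊥ := Subgroup.upperCentralSeries_zero G
  have hZn : ∀ k, (Z k).Normal := fun k => inferInstance
  have hZs : ∀ k, ∀ r ∈ Z (k + 1), ∀ g : G, g * r * g⁻¹ * r⁻¹ ∈ Z k := by
    intro k r hr g
    have h1 := (Subgroup.mem_upperCentralSeries_succ_iff.1 hr) g
    have h2 := (Z k).inv_mem h1
    have : (⁅r, g⁆)⁻¹ = g * r * g⁻¹ * r⁻¹ := by
      rw [commutatorElement_def]; group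
    rwa [this] at h2
  let μ : Subgroup G → ℕ := fun A => ∑ k ∈ Finset.range (c + 1), Nat.card ↥(A ⊓ Z k)
  obtain ⟨A, hA, hmax⟩ := Set.exists_max_image {A | Good ρ N A} μ (Set.toFinite _) hex
  refine ⟨A, hA, ?_⟩
  intro b hbq
  obtain ⟨y, hb⟩ : ∃ y, ρ b = 1 + y := ⟨ρ b - 1, by abel⟩
  have hy : y * y = 0 := by
    rw [hb] at hbq
    simpa using hbq
  obtain ⟨hAN, hA1, hQ, hnorm, hoff⟩ := hA
  have hG := good_LimG hp hp5 hW ρ hρ ⟨hAN, hA1, hQ, hnorm, hoff⟩ hb hy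
  have hle : ∀ k ∈ Finset.range (c + 1),
      Nat.card ↥(A ⊓ Z k) ≤ Nat.card ↥(LimG ρ A hQ y hy ⊓ Z k) := by
    intro k _
    have := hZn k
    exact meas_card_le hp hp5 hW ρ hρ hAN hQ hnorm hb hy (Z k)
  have hsum := hmax _ hG
  have heq := (Finset.sum_eq_sum_iff_of_le hle).1 (le_antisymm (Finset.sum_le_sum hle) hsum)
  -- induction
  have hind : ∀ k, k ≤ c → ∀ x ∈ Lg ρ (A ⊓ Z k) (hQ.mono inf_le_left),
      U y x ∈ Lg ρ (A ⊓ Z k) (hQ.mono inf_le_left) ∧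
      Vv y x ∈ Lg ρ (A ⊓ Z k) (hQ.mono inf_le_left) := by
    intro k
    induction k with
    | zero =>
      rintro - x ⟨a, ⟨-, ha⟩, hax⟩
      have ha' : a ∈ Z 0 := ha
      rw [hZ0, Subgroup.mem_bot] at ha'
      rw [ha', map_one] at hax
      have hx0 : x = 0 := by simpa using hax.symm
      rw [hx0, map_zero, map_zero]
      exact ⟨AddSubgroup.zero_mem _, AddSubgroup.zero_mem _⟩
    | succ k ih =>
      intro hk x hx
      have ih' := ih (by omega)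
      have hnk := hZn k
      have hk_eq := heq k (Finset.mem_range.2 (by omega))
      have hdown : ∀ g ∈ LimG ρ A hQ y hy ⊓ Z k, ∀ e, ρ g = 1 + e →
          e ∈ Lg ρ (A ⊓ Z k) (hQ.mono inf_le_left) := by
        intro g hg e hge
        obtain ⟨e', ⟨x1, hx1, a1, ha1, b1, hb1, -, -, rfl⟩, hge'⟩ :=
          meas_eq hp hp5 hW ρ hρ hAN hQ hnorm hb hy (Z k) hk_eq hg
        have : e = x1 + U y a1 + Vv y b1 := add_left_cancel (hge.symm.trans hge')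
        rw [this]
        exact AddSubgroup.add_mem _ (AddSubgroup.add_mem _ hx1 (ih' a1 ha1).1) (ih' b1 hb1).2
      obtain ⟨c1, c2, c3⟩ := clos hp hp5 hE ρ hAN hQ hnorm hb hy (R := Z (k + 1)) (R' := Z k)
        (hZs k) hx
      have hxA : x ∈ Lg ρ A hQ := Lg_mono hQ inf_le_left hx
      have hmono : ∀ z ∈ Lg ρ (A ⊓ Z k) (hQ.mono inf_le_left),
          z ∈ Lg ρ (A ⊓ Z (k + 1)) (hQ.mono inf_le_left) := by
        rintro z ⟨a, ⟨ha1, ha2⟩, haz⟩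
        exact ⟨a, ⟨ha1, Subgroup.upperCentralSeries_mono G (Nat.le_succ k) ha2⟩, haz⟩
      have hV : Vv y x ∈ Lg ρ (A ⊓ Z k) (hQ.mono inf_le_left) := by
        obtain ⟨r, hr, hrv⟩ := c1
        refine hdown r ⟨⟨Vv y x, ⟨0, AddSubgroup.zero_mem _, 0, AddSubgroup.zero_mem _, x, hxA,
          ?_, ?_, ?_⟩, hrv⟩, hr⟩ _ hrv
        · simp
        · simp
        · simp
      have hVA : Vv y x ∈ Lg ρ A hQ := Lg_mono hQ inf_le_left hV
      have hxyxy : x * y * x * y = 0 := by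
        have := Lg_mul hQ x hxA _ hVA
        rw [V_apply, mul_neg, neg_eq_zero] at this
        rw [← this]; noncomm_ring
      rw [hxyxy, add_zero] at c2
      have hU : U y x ∈ Lg ρ (A ⊓ Z k) (hQ.mono inf_le_left) := by
        obtain ⟨r, hr, hrv⟩ := c2
        refine hdown r ⟨⟨U y x, ⟨0, AddSubgroup.zero_mem _, x, hxA, 0, AddSubgroup.zero_mem _,
          ?_, ?_, ?_⟩, hrv⟩, hr⟩ _ hrv
        · simp
        · simpa using hVA
        · simp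
      exact ⟨hmono _ hU, hmono _ hV⟩
  intro a ha
  obtain ⟨x, hax⟩ : ∃ x, ρ a = 1 + x := ⟨ρ a - 1, by abel⟩
  have hxc : x ∈ Lg ρ (A ⊓ Z c) (hQ.mono inf_le_left) :=
    ⟨a, ⟨ha, by rw [hZtop]; trivial⟩, hax⟩
  obtain ⟨h1, h2⟩ := hind c le_rfl x hxc
  have h3 : x - U y x + Vv y x ∈ Lg ρ A hQ :=
    Lg_mono hQ inf_le_left (AddSubgroup.add_mem _ (AddSubgroup.sub_mem _ hxc h1) h2)
  obtain ⟨a', ha', hax'⟩ := h3
  have : b * a * b⁻¹ = a' := by
    apply hρ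
    rw [map_mul, map_mul, hax, hb, rho_inv hb hy, conj_expand' hy, hax']
    abel
  rw [this]
  exact ha'

end fix

end Cfsg.Agent.H69.QO
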