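import Cfsg.Agent.H69.QO5
import Mathlib.GroupTheory.PGroup

set_option autoImplicit false
set_option linter.unusedSimpArgs false

namespace Cfsg.Agent.H69.QO

section ind
variable {G : Type*} [Group G] {W : Type*} [AddCommGroup W] {p : ℕ}

/-- Quadratic offender with two-subnormality relative to `H`. -/
def TwoSub (ρ : G →* AddMonoid.End W) (H A : Subgroup G) : Prop :=
  A ≤ H ∧ A ≠ ⊥ ∧ Quad ρ A ∧ Nat.card W ≤ Nat.card A * Nat.card (Fix ρ A) ∧
    ∀ h ∈ H, ∀ a ∈ A, ∀ a' ∈ A, (h * a * h⁻¹) * a' * (h * a * h⁻¹)⁻¹ ∈ A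

theorem step [Finite G] [Finite W] (hG : IsPGroup p G) (hp : p.Prime) (hp5 : 5 ≤ p)
    (hW : ∀ w : W, p • w = 0) (ρ : G →* AddMonoid.End W) (hρ : Function.Injective ρ)
    (H : Subgroup G) (hH : ∃ A, TwoSub ρ H A) :
    ∃ A, TwoSub ρ (Subgroup.normalizer (H : Set G)) A := by
  haveI : Fact p.Prime := ⟨hp⟩
  obtain ⟨A, hAH, hA1, hQ, hoff, h2⟩ := hH
  have hHp : IsPGroup p H := hG.to_subgroup H
  haveI : Group.IsNilpotent H := hHp.isNilpotent
  let ρH : H →* AddMonoid.End W := ρ.comp H.subtype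
  have hρH : Function.Injective ρH := hρ.comp Subtype.val_injective
  let AH := A.subgroupOf H
  have hmap : AH.map H.subtype = A := by
    rw [Subgroup.subgroupOf_map_subtype, inf_eq_left.2 hAH]
  have hcard : Nat.card AH = Nat.card A := by
    conv_rhs => rw [← hmap]
    exact (Subgroup.card_map_of_injective Subtype.val_injective).symm
  let N := Subgroup.normalClosure (AH : Set H)
  have hNA : N ≤ Subgroup.normalizer (AH : Set H) := by
    rw [show N = Subgroup.normalClosure (AH : Set H) from rfl, Subgroup.normalClosure,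
      Subgroup.closure_le]
    intro c hc
    obtain ⟨a, ha, hc⟩ := Group.mem_conjugatesOfSet_iff.1 hc
    obtain ⟨h, hh⟩ := isConj_iff.1 hc
    apply Subgroup.mem_normalizer_fintype
    intro a' ha'
    rw [← hh]
    exact h2 h.1 h.2 a.1 ha a'.1 ha'
  have hgood : Good ρH N AH := by
    refine ⟨Subgroup.subset_normalClosure, ?_, ?_, ?_, ?_⟩
    · intro hbot
      apply hA1
      rw [← hmap, hbot, Subgroup.map_bot]
    · intro a ha a' ha'
      exact hQ a.1 ha a'.1 ha'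
    · intro n hn a ha
      exact (Subgroup.mem_normalizer_iff.1 (hNA hn) a).1 ha
    · rw [hcard]
      have : Fix ρH AH = Fix ρ A := by
        ext w
        constructor
        · intro hw a ha
          exact hw ⟨a, hAH ha⟩ ha
        · intro hw a ha
          exact hw a.1 ha
      rw [this]
      exact hoff
  obtain ⟨B, ⟨hBN, hB1, hBQ, hBn, hBoff⟩, hBb⟩ := claim hp hp5 hW ρH hρH ⟨AH, hgood⟩
  refine ⟨B.map H.subtype, ?_, ?_, ?_, ?_, ?_⟩
  · exact (Subgroup.map_subtype_le B).trans Subgroup.le_normalizer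
  · intro hbot
    apply hB1
    rwa [Subgroup.map_eq_bot_iff_of_injective _ Subtype.val_injective] at hbot
  · rintro _ ⟨a, ha, rfl⟩ _ ⟨a', ha', rfl⟩
    exact hBQ a ha a' ha'
  · rw [Subgroup.card_map_of_injective Subtype.val_injective]
    have : Fix ρ (B.map H.subtype) = Fix ρH B := by
      ext w
      constructor
      · intro hw a ha
        exact hw a.1 ⟨a, ha, rfl⟩
      · rintro hw _ ⟨a, ha, rfl⟩
        exact hw a ha
    rw [this]
    exact hBoff
  · rintro g hg _ ⟨a, ha, rfl⟩ _ ⟨a', ha', rfl⟩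
    have hmem : g * a.1 * g⁻¹ ∈ H := (Subgroup.mem_normalizer_iff.1 hg a.1).1 a.2
    have hq : (ρH ⟨g * a.1 * g⁻¹, hmem⟩ - 1) * (ρH ⟨g * a.1 * g⁻¹, hmem⟩ - 1) = 0 := by
      have e1 : ρH ⟨g * a.1 * g⁻¹, hmem⟩ - 1 = ρ g * (ρ a.1 - 1) * ρ g⁻¹ := by
        show ρ (g * a.1 * g⁻¹) - 1 = _
        rw [mul_sub, mul_one, sub_mul, ← map_mul, ← map_mul, ← map_mul, mul_inv_cancel, map_one]
      have h1 : ρ g⁻¹ * ρ g = 1 := by rw [← map_mul, inv_mul_cancel, map_one]
      rw [e1]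
      calc ρ g * (ρ a.1 - 1) * ρ g⁻¹ * (ρ g * (ρ a.1 - 1) * ρ g⁻¹)
          = ρ g * (ρ a.1 - 1) * (ρ g⁻¹ * ρ g) * (ρ a.1 - 1) * ρ g⁻¹ := by noncomm_ring
        _ = ρ g * ((ρ a.1 - 1) * (ρ a.1 - 1)) * ρ g⁻¹ := by rw [h1]; noncomm_ring
        _ = 0 := by
          have : (ρ a.1 - 1) * (ρ a.1 - 1) = 0 := hBQ a ha a ha
          rw [this]; simp
    have := hBb ⟨g * a.1 * g⁻¹, hmem⟩ hq a' ha'
    exact ⟨_, this, rfl⟩

theorem main [Finite G] [Finite W] (hG : IsPGroup p G) (hp : p.Prime) (hp5 : 5 ≤ p)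
    (hW : ∀ w : W, p • w = 0) (ρ : G →* AddMonoid.End W) (hρ : Function.Injective ρ)
    (h : ∃ A : Subgroup G, A ≠ ⊥ ∧ Quad ρ A ∧ Nat.card W ≤ Nat.card A * Nat.card (Fix ρ A)) :
    ∃ A, TwoSub ρ ⊤ A := by
  classical
  haveI : Fact p.Prime := ⟨hp⟩
  haveI : Group.IsNilpotent G := hG.isNilpotent
  obtain ⟨A, hA1, hQ, hoff⟩ := h
  have hne : {H : Subgroup G | ∃ A, TwoSub ρ H A}.Nonempty := by
    refine ⟨A, A, le_rfl, hA1, hQ, hoff, ?_⟩
    intro h hh a ha a' ha'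
    exact A.mul_mem (A.mul_mem (A.mul_mem (A.mul_mem hh ha) (A.inv_mem hh)) ha')
      (A.inv_mem (A.mul_mem (A.mul_mem hh ha) (A.inv_mem hh)))
  obtain ⟨H, hH, hmax⟩ := Set.exists_max_image {H : Subgroup G | ∃ A, TwoSub ρ H A}
    (fun H => Nat.card H) (Set.toFinite _) hne
  have h1 := step hG hp hp5 hW ρ hρ H hH
  have h2 := hmax _ h1
  have h3 : Subgroup.normalizer (H : Set G) = H :=
    (Subgroup.eq_of_le_of_card_ge Subgroup.le_normalizer h2).symm
  have h4 : H = ⊤ := by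
    by_contra hne
    have := Group.normalizerCondition_of_isNilpotent (G := G) H (lt_top_iff_ne_top.2 hne)
    rw [h3] at this
    exact lt_irrefl _ this
  rw [← h4]
  exact hH

end ind

end Cfsg.Agent.H69.QO
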