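import Cfsg.Agent.H14.SL2Four

/-!
# Elements of order four in `SL₂(q)`, `q` odd: abstract form for subgroups isomorphic to `SL₂(q)` (helper69)
-/

set_option autoImplicit false
set_option linter.style.haveILetI false

namespace Cfsg.Agent.H69

open Subgroup Cfsg.Agent.H41 Cfsg.Agent.H14.SL2Four

theorem two_ne_zero_of_odd_card {F : Type*} [Field F] [Fintype F] (hFo : Odd (Fintype.card F)) :
    (2 : F) ≠ 0 := by
  intro h0
  obtain ⟨k, hk⟩ := hFo
  have h3 : ((Fintype.card F : ℕ) : F) = 0 := FiniteField.cast_card_eq_zero F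
  rw [hk] at h3
  push_cast at h3
  rw [h0, zero_mul, zero_add] at h3
  exact one_ne_zero h3

/-- The facts about a subgroup `L ≅ SL₂(q)`, `q` odd, with involution `j` used in fusion arguments. -/
structure SL2Like {G : Type*} [Group G] (L : Subgroup G) (j : G) : Prop where
  mem : j ∈ L
  one_or : ∀ x ∈ L, x * x = 1 → x = 1 ∨ x = j
  conj : ∀ x ∈ L, ∀ y ∈ L, x * x = j → y * y = j → ∃ g ∈ L, g * x * g⁻¹ = y
  inverts : ∀ x ∈ L, ∀ y ∈ L, x * x = j → y * x * y⁻¹ = x⁻¹ → y * y = j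
  comm : ∀ x ∈ L, ∀ y ∈ L, ∀ z ∈ L, x * x = j → y * x = x * y → z * x = x * z → y * z = z * y
  exists_sq : ∃ x ∈ L, x * x = j
  exists_inverts : ∀ x ∈ L, x * x = j → ∃ y ∈ L, y * x * y⁻¹ = x⁻¹

theorem sl2_inv_eq_neg {F : Type*} [Field F] {x : Matrix.SpecialLinearGroup (Fin 2) F}
    (h : x * x = -1) : x⁻¹ = -x := by
  rw [inv_eq_iff_mul_eq_one, mul_neg, h, neg_neg]

theorem sl2_neg_mul {F : Type*} [Field F] (x : Matrix.SpecialLinearGroup (Fin 2) F) :
    (-1 : Matrix.SpecialLinearGroup (Fin 2) F) * x = -x := by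
  rw [neg_mul, one_mul]

theorem sl2Like_sl2 {F : Type*} [Field F] [Fintype F] (h2 : (2 : F) ≠ 0) :
    SL2Like (⊤ : Subgroup (Matrix.SpecialLinearGroup (Fin 2) F)) (-1) where
  mem := mem_top _
  one_or := fun x _ hx => eq_one_or_neg_one h2 hx
  conj := fun x _ y _ hx hy => by
    obtain ⟨P, hP⟩ := isConj_of_tr h2 (sq_eq_neg_one_iff.mp hx) (sq_eq_neg_one_iff.mp hy)
    exact ⟨P, mem_top _, hP.symm⟩
  inverts := fun x _ y _ hx hyx => by
    rw [sq_eq_neg_one_iff]
    have h1 : y * x = -(x * y) := by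
      rw [mul_inv_eq_iff_eq_mul, sl2_inv_eq_neg hx] at hyx
      rw [hyx, neg_mul]
    have h3 : y = -(x * y * x⁻¹) := by
      calc y = (y * x) * x⁻¹ := by group
        _ = -(x * y * x⁻¹) := by rw [h1, neg_mul]
    have h4 : tr y = -tr y := by
      have := congrArg tr h3
      rwa [tr_neg, tr_conj] at this
    have h5 : (2 : F) * tr y = 0 := by linear_combination h4
    exact (mul_eq_zero.mp h5).resolve_left h2
  comm := fun x _ y _ z _ hx hy hz => by
    have h4 := sq_ne_four h2 (sq_eq_neg_one_iff.mp hx)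
    obtain ⟨a, b, hab⟩ := exists_span_of_commute h4 hy
    obtain ⟨c, d, hcd⟩ := exists_span_of_commute h4 hz
    have key : (y : Matrix (Fin 2) (Fin 2) F) * (z : Matrix (Fin 2) (Fin 2) F) =
        (z : Matrix (Fin 2) (Fin 2) F) * (y : Matrix (Fin 2) (Fin 2) F) := by
      rw [hab, hcd]
      simp only [add_mul, mul_add, smul_mul_assoc, mul_smul_comm, one_mul, mul_one]
      module
    apply Subtype.ext
    exact key
  exists_sq := by
    refine ⟨mk4 0 1 (-1) 0 (by ring), mem_top _, ?_⟩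
    rw [sq_eq_neg_one_iff]
    simp [tr]
  exists_inverts := fun x _ hx => by
    have hx' : x⁻¹ * x⁻¹ = -1 := by
      rw [← mul_inv_rev, hx]
      exact inv_eq_of_mul_eq_one_left (by simp)
    obtain ⟨P, hP⟩ := isConj_of_tr h2 (sq_eq_neg_one_iff.mp hx) (sq_eq_neg_one_iff.mp hx')
    exact ⟨P, mem_top _, hP.symm⟩

theorem SL2Like.of_mulEquiv {X : Type*} [Group X] {z : X} (h : SL2Like (⊤ : Subgroup X) z)
    {G : Type*} [Group G] (L : Subgroup G) (e : L ≃* X) {j : G} (hj : j ∈ L)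
    (hjz : e ⟨j, hj⟩ = z) : SL2Like L j := by
  have key : ∀ x (hx : x ∈ L), ∀ y (hy : y ∈ L), x = y ↔ e ⟨x, hx⟩ = e ⟨y, hy⟩ := by
    intro x hx y hy
    rw [EmbeddingLike.apply_eq_iff_eq]
    exact ⟨fun h => Subtype.ext h, fun h => congrArg Subtype.val h⟩
  have hsq : ∀ x (hx : x ∈ L), x * x = j → e ⟨x, hx⟩ * e ⟨x, hx⟩ = z := by
    intro x hx h
    rw [← hjz, ← map_mul]
    exact congrArg e (Subtype.ext h)
  have hsq' : ∀ x (hx : x ∈ L), e ⟨x, hx⟩ * e ⟨x, hx⟩ = z → x * x = j := by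
    intro x hx h
    rw [← hjz, ← map_mul, EmbeddingLike.apply_eq_iff_eq] at h
    exact congrArg Subtype.val h
  refine ⟨hj, ?_, ?_, ?_, ?_, ?_, ?_⟩
  · intro x hx hxx
    have h1 : e ⟨x, hx⟩ * e ⟨x, hx⟩ = 1 := by
      rw [← map_mul, ← map_one e]
      exact congrArg e (Subtype.ext hxx)
    rcases h.one_or _ (mem_top _) h1 with h2 | h2
    · left
      exact congrArg Subtype.val ((MulEquiv.map_eq_one_iff e).mp h2)
    · right
      exact (key x hx j hj).mpr (h2.trans hjz.symm)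
  · intro x hx y hy h1 h2
    obtain ⟨g, -, hg⟩ := h.conj _ (mem_top _) _ (mem_top _) (hsq x hx h1) (hsq y hy h2)
    refine ⟨e.symm g, (e.symm g).2, ?_⟩
    have h3 : e (e.symm g * ⟨x, hx⟩ * (e.symm g)⁻¹) = e ⟨y, hy⟩ := by
      rw [map_mul, map_mul, map_inv, e.apply_symm_apply, hg]
    exact congrArg Subtype.val (e.injective h3)
  · intro x hx y hy h1 h2
    apply hsq' y hy
    apply h.inverts _ (mem_top _) _ (mem_top _) (hsq x hx h1)
    rw [← map_mul, ← map_inv, ← map_mul, ← map_inv]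
    exact congrArg e (Subtype.ext h2)
  · intro x hx y hy w hw h1 h2 h3
    have h4 := h.comm _ (mem_top _) (e ⟨y, hy⟩) (mem_top _) (e ⟨w, hw⟩) (mem_top _) (hsq x hx h1)
      (by rw [← map_mul, ← map_mul]; exact congrArg e (Subtype.ext h2))
      (by rw [← map_mul, ← map_mul]; exact congrArg e (Subtype.ext h3))
    rw [← map_mul, ← map_mul] at h4
    exact congrArg Subtype.val (e.injective h4)
  · obtain ⟨x, -, hx⟩ := h.exists_sq
    refine ⟨e.symm x, (e.symm x).2, hsq' _ (e.symm x).2 ?_⟩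
    simpa using hx
  · intro x hx h1
    obtain ⟨y, -, hy⟩ := h.exists_inverts _ (mem_top _) (hsq x hx h1)
    refine ⟨e.symm y, (e.symm y).2, ?_⟩
    have h3 : e (e.symm y * ⟨x, hx⟩ * (e.symm y)⁻¹) = e (⟨x, hx⟩⁻¹) := by
      rw [map_mul, map_mul, map_inv, e.apply_symm_apply, hy, map_inv]
    exact congrArg Subtype.val (e.injective h3)

theorem sl2Like_of_equiv {G : Type*} [Group G] {F : Type*} [Field F] [Fintype F]
    (hF : Odd (Fintype.card F)) (L : Subgroup G) (e : L ≃* Matrix.SpecialLinearGroup (Fin 2) F)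
    {j : G} (hj : j ∈ L) (hjo : orderOf j = 2) : SL2Like L j := by
  have h2 := two_ne_zero_of_odd_card hF
  refine (sl2Like_sl2 h2).of_mulEquiv L e hj ?_
  have h1 : e ⟨j, hj⟩ * e ⟨j, hj⟩ = 1 := by
    rw [← map_mul, ← map_one e]
    refine congrArg e (Subtype.ext ?_)
    show j * j = 1
    rw [← pow_two, ← hjo, pow_orderOf_eq_one]
  rcases eq_one_or_neg_one h2 h1 with h3 | h3
  · exfalso
    have h4 := (MulEquiv.map_eq_one_iff e).mp h3
    have h5 : j = 1 := congrArg Subtype.val h4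
    rw [h5, orderOf_one] at hjo
    omega
  · exact h3

end Cfsg.Agent.H69
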