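import Cfsg.Agent.H69.Basic

/-!
# Self-centralizing abelian normal subgroups of `p`-groups (helper69)
-/

set_option autoImplicit false

namespace Cfsg.Agent.H69

open Subgroup

/-- A finite `p`-group has a self-centralizing abelian normal subgroup. -/
theorem exists_selfcentralizing_normal {P : Type*} [Group P] [Finite P] {p : ℕ} [Fact p.Prime]
    (hP : IsPGroup p P) : ∃ A : Subgroup P, A.Normal ∧ IsMulCommutative A ∧
      centralizer (A : Set P) = A := by
  classical
  -- take A of maximal order among abelian normal subgroups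
  have hfin : {A : Subgroup P | A.Normal ∧ IsMulCommutative A}.Finite := Set.toFinite _
  have hne : {A : Subgroup P | A.Normal ∧ IsMulCommutative A}.Nonempty :=
    ⟨⊥, inferInstance, inferInstance⟩
  obtain ⟨A, ⟨hAn, hAc⟩, hAmax⟩ := hfin.exists_maximalFor (fun A : Subgroup P => A) _ hne
  refine ⟨A, hAn, hAc, ?_⟩
  have hle : A ≤ centralizer (A : Set P) := le_centralizer_iff_isMulCommutative.mpr hAc
  by_contra hneq
  have hlt : A < centralizer (A : Set P) := lt_of_le_of_ne hle (Ne.symm hneq)
  -- work in P ⧸ A
  have hCn : (centralizer (A : Set P)).Normal := inferInstance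
  set D : Subgroup (P ⧸ A) := (centralizer (A : Set P)).map (QuotientGroup.mk' A) with hD
  have hDn : D.Normal := hCn.map _ (QuotientGroup.mk'_surjective A)
  have hDne : D ≠ ⊥ := by
    intro h
    rw [hD, Subgroup.map_eq_bot_iff, QuotientGroup.ker_mk'] at h
    exact hlt.not_ge h
  -- D meets the centre of P ⧸ A
  have hPA : IsPGroup p (P ⧸ A) := hP.to_quotient A
  obtain ⟨d, hdD, hd1, hdc⟩ := exists_mem_center_of_normal hPA D hDne
  obtain ⟨x, hx, rfl⟩ := Subgroup.mem_map.mp hdD
  have hxA : x ∉ A := by
    intro h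
    exact hd1 ((QuotientGroup.eq_one_iff x).mpr h)
  have hxc : ∀ a ∈ A, a * x = x * a := fun a ha => (mem_centralizer_iff.mp hx) a ha
  -- B = A ⟨x⟩
  set B : Subgroup P := A ⊔ zpowers x with hB
  have hconj : ∀ g : P, g * x * g⁻¹ ∈ B := by
    intro g
    have h1 := Subgroup.mem_center_iff.mp hdc (QuotientGroup.mk' A g)
    have h2 : (QuotientGroup.mk' A) (g * x * g⁻¹ * x⁻¹) = 1 := by
      rw [map_mul, map_mul, map_mul, h1, map_inv, map_inv]; group
    rw [QuotientGroup.mk'_apply, QuotientGroup.eq_one_iff] at h2
    have : g * x * g⁻¹ = (g * x * g⁻¹ * x⁻¹) * x := by group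
    rw [this]
    exact B.mul_mem ((le_sup_left : A ≤ B) h2) ((le_sup_right : zpowers x ≤ B) (mem_zpowers x))
  have hBn : B.Normal := by
    constructor
    intro b hb g
    have : B ≤ B.comap (MulAut.conj g).toMonoidHom := by
      refine sup_le ?_ ?_
      · intro a ha
        exact (le_sup_left : A ≤ B) (hAn.conj_mem a ha g)
      · rw [zpowers_le]
        exact hconj g
    exact this hb
  have hBc : IsMulCommutative B := by
    rw [← le_centralizer_iff_isMulCommutative]
    refine sup_le ?_ ?_
    · intro a ha
      rw [mem_centralizer_iff]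
      intro b hb
      obtain ⟨a', ha', y, hy, rfl⟩ := Subgroup.mem_sup_of_normal_left.mp hb
      obtain ⟨k, rfl⟩ := hy
      have h1 : a' * a = a * a' := (mem_centralizer_iff.mp (hle ha)) a' ha'
      have h2 : Commute a (x ^ k) := (show Commute a x from hxc a ha).zpow_right k
      calc a' * x ^ k * a = a' * (x ^ k * a) := by group
        _ = a' * (a * x ^ k) := by rw [h2.eq]
        _ = a' * a * x ^ k := by group
        _ = a * a' * x ^ k := by rw [h1]
        _ = a * (a' * x ^ k) := by group
    · rw [zpowers_le, mem_centralizer_iff]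
      intro b hb
      obtain ⟨a', ha', y, hy, rfl⟩ := Subgroup.mem_sup_of_normal_left.mp hb
      obtain ⟨k, rfl⟩ := hy
      have h2 : Commute x (x ^ k) := (Commute.refl x).zpow_right k
      show a' * x ^ k * x = x * (a' * x ^ k)
      calc a' * x ^ k * x = a' * (x ^ k * x) := by group
        _ = a' * (x * x ^ k) := by rw [h2.eq]
        _ = a' * x * x ^ k := by group
        _ = x * a' * x ^ k := by rw [hxc a' ha']
        _ = x * (a' * x ^ k) := by group
  have := hAmax ⟨hBn, hBc⟩ (show A ≤ B from le_sup_left)
  exact hxA (this ((le_sup_right : zpowers x ≤ B) (mem_zpowers x)))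

end Cfsg.Agent.H69
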