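import Mathlib
import Cfsg.Agent.Hall.Hall

/-!
Groups with at most two conjugacy classes of maximal subgroups are solvable (elementary).
-/

set_option autoImplicit false
set_option linter.unusedSimpArgs false
set_option linter.unusedVariables false
set_option linter.style.haveILetI false
open Pointwise

namespace Cfsg.Agent.H69.TwoMax

universe u

theorem index_conj {G : Type*} [Group G] (M : Subgroup G) (g : G) :
    (MulAut.conj g • M).index = M.index := by
  rw [Subgroup.pointwise_smul_def]
  exact Subgroup.index_map_equiv M (MulAut.conj g)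

theorem coatom_conj {G : Type*} [Group G] {M : Subgroup G} (h : IsCoatom M) (g : G) :
    IsCoatom (MulAut.conj g • M) :=
  (OrderIso.isCoatom_iff ((MulAut.conj g).mapSubgroup) M).2 h

theorem conj_conj {G : Type*} [Group G] (M : Subgroup G) (g h : G) :
    MulAut.conj g • (MulAut.conj h • M) = MulAut.conj (g * h) • M := by
  rw [map_mul, mul_smul]

theorem mem_normalizer_of_conj {G : Type*} [Group G] {D : Subgroup G} {g : G}
    (h : MulAut.conj g • D = D) : g ∈ Subgroup.normalizer (D : Set G) := by
  rw [← Subgroup.conjAct_pointwise_smul_iff]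
  exact h

/-- Sylow subgroups of `G` inside a subgroup of `p'`-index. -/
theorem exists_sylow_le {G : Type*} [Group G] [Finite G] {p : ℕ} [Fact p.Prime] (C D : Subgroup G)
    (hC : ¬ p ∣ C.index) (hDC : D ≤ C) (hD : IsPGroup p D) :
    ∃ S : Sylow p G, D ≤ (S : Subgroup G) ∧ (S : Subgroup G) ≤ C := by
  have h1 : IsPGroup p (D.subgroupOf C) :=
    IsPGroup.of_injective (p := p) hD (Subgroup.subgroupOfEquivOfLe hDC).toMonoidHom
      (Subgroup.subgroupOfEquivOfLe hDC).injective
  obtain ⟨Q, hQ⟩ := h1.exists_le_sylow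
  have h2 : IsPGroup p ((Q : Subgroup C).map C.subtype) := Q.isPGroup'.map _
  have h3 : ¬ p ∣ ((Q : Subgroup C).map C.subtype).index := by
    rw [Subgroup.index_map_subtype]
    intro h
    rcases (Fact.out : p.Prime).dvd_mul.1 h with h | h
    · exact Q.not_dvd_index h
    · exact hC h
  refine ⟨h2.toSylow h3, ?_, ?_⟩
  · rw [IsPGroup.toSylow_coe]
    intro x hx
    exact ⟨⟨x, hDC hx⟩, hQ (Subgroup.mem_subgroupOf.2 hx), rfl⟩
  · rw [IsPGroup.toSylow_coe]
    exact Subgroup.map_subtype_le _

theorem conj_in {G : Type*} [Group G] [Finite G] {p : ℕ} [Fact p.Prime] (C : Subgroup G)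
    (S T : Sylow p G) (hS : (S : Subgroup G) ≤ C) (hT : (T : Subgroup G) ≤ C) :
    ∃ y ∈ C, MulAut.conj y • (S : Subgroup G) = (T : Subgroup G) := by
  obtain ⟨y, hy⟩ := MulAction.exists_smul_eq C (S.subtype hS) (T.subtype hT)
  refine ⟨(y : G), y.2, ?_⟩
  have h1 : MulAut.conj y • ((S : Subgroup G).subgroupOf C) = (T : Subgroup G).subgroupOf C := by
    have := congrArg (fun X : Sylow p C => (X : Subgroup C)) hy
    exact this
  rw [Subgroup.conj_smul_subgroupOf hS] at h1
  have h2 : MulAut.conj (y : G) • (S : Subgroup G) ≤ C := Subgroup.conj_smul_le_of_le hS y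
  have h3 := congrArg (Subgroup.map C.subtype) h1
  rwa [Subgroup.subgroupOf_map_subtype, Subgroup.subgroupOf_map_subtype, inf_of_le_left h2,
    inf_of_le_left hT] at h3

theorem card_mod {P X : Type*} [Group P] [Finite P] [MulAction P X] [Finite X] (x0 : X)
    (h0 : ∀ p : P, p • x0 = x0) (k : ℕ)
    (h : ∀ x : X, x ≠ x0 → k ∣ (MulAction.stabilizer P x).index) : k ∣ Nat.card X - 1 := by
  classical
  haveI := Fintype.ofFinite X
  haveI : Fintype (MulAction.orbitRel.Quotient P X) := Fintype.ofFinite _
  have e := MulAction.selfEquivSigmaOrbitsQuotientStabilizer P X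
  have h1 : Nat.card X = ∑ ω : MulAction.orbitRel.Quotient P X,
      (MulAction.stabilizer P (Quotient.out ω)).index := by
    rw [Nat.card_congr e, Nat.card_sigma]
    rfl
  let ω0 : MulAction.orbitRel.Quotient P X := Quotient.mk'' x0
  have hω0 : Quotient.out ω0 = x0 := by
    have h2 : (MulAction.orbitRel P X) (Quotient.out ω0) x0 := Quotient.mk_out (s := MulAction.orbitRel P X) x0
    rw [MulAction.orbitRel_apply] at h2
    obtain ⟨q, hq⟩ := h2
    rw [← hq]
    exact h0 q
  rw [h1, ← Finset.add_sum_erase Finset.univ _ (Finset.mem_univ ω0)]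
  have h3 : (MulAction.stabilizer P (Quotient.out ω0)).index = 1 := by
    rw [hω0, Subgroup.index_eq_one]
    exact eq_top_iff.2 fun q _ => h0 q
  rw [h3, Nat.add_sub_cancel_left]
  refine Finset.dvd_sum fun ω hω => h _ fun h4 => ?_
  apply (Finset.mem_erase.1 hω).1
  rw [← Quotient.out_eq' ω, h4]

/-- The key congruence. -/
theorem core {G : Type*} [Group G] [Finite G] [IsSimpleGroup G] (hns : ¬ Group.IsSolvable G)
    (M₁ K : Subgroup G) (h1 : IsCoatom M₁) (h2 : IsCoatom K)
    (hall : ∀ M : Subgroup G, IsCoatom M → ∃ g : G, M = MulAut.conj g • M₁ ∨ M = MulAut.conj g • K)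
    {p : ℕ} [Fact p.Prime] (hp1 : p ∣ M₁.index) (P : Sylow p G) (hPK : (P : Subgroup G) ≤ K)
    (k : ℕ) (hk : p ^ k ∣ M₁.index) : p ^ k ∣ K.index - 1 := by
  classical
  have hp : p.Prime := Fact.out
  have hKi : ¬ p ∣ K.index := fun h => P.not_dvd_index (h.trans (Subgroup.index_dvd_of_le hPK))
  have hKn : ¬ K.Normal := by
    intro hn
    rcases hn.eq_bot_or_eq_top with h | h
    · have hP : (P : Subgroup G) = ⊥ := by rw [h] at hPK; exact le_bot_iff.1 hPK
      have h3 := P.not_dvd_index
      rw [hP, Subgroup.index_bot] at h3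
      exact h3 (hp1.trans (Subgroup.index_dvd_card _))
    · exact h2.1 h
  have hnK : ∀ g : G, MulAut.conj g • K = K → g ∈ K := by
    intro g hg
    have hg' := mem_normalizer_of_conj hg
    rcases h2.le_iff.1 (Subgroup.le_normalizer (H := K)) with h | h
    · exact absurd (Subgroup.normalizer_eq_top_iff.1 h) hKn
    · rwa [h] at hg'
  -- the set of `p`-subgroups in two different conjugates
  let 𝒟 : Set (Subgroup G) := {D | IsPGroup p D ∧ ∃ a b : G, MulAut.conj a • K ≠ MulAut.conj b • K ∧
    D ≤ MulAut.conj a • K ∧ D ≤ MulAut.conj b • K}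
  have hcard : ∀ D ∈ 𝒟, Nat.card D * p ^ k ∣ Nat.card (P : Subgroup G) := by
    by_cases hne : 𝒟.Nonempty
    · obtain ⟨D, hD, hmax⟩ := Set.exists_max_image 𝒟 (fun D => Nat.card D) (Set.toFinite _) hne
      obtain ⟨hDp, a, b, hab, hDa, hDb⟩ := hD
      have key : Nat.card D * p ^ k ∣ Nat.card (P : Subgroup G) := by
        by_cases hbot : D = ⊥
        · rw [hbot, Subgroup.card_bot, one_mul]
          exact P.pow_dvd_card_of_pow_dvd_card (hk.trans (Subgroup.index_dvd_card _))
        · have hDtop : D ≠ ⊤ := by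
            intro h
            rw [h, top_le_iff] at hDa
            exact (coatom_conj h2 a).1 hDa
          have hN : Subgroup.normalizer (D : Set G) ≠ ⊤ := by
            intro h
            rcases (Subgroup.normalizer_eq_top_iff.1 h).eq_bot_or_eq_top with h | h
            · exact hbot h
            · exact hDtop h
          obtain ⟨H, hH, hNH⟩ := (eq_top_or_exists_le_coatom (Subgroup.normalizer (D : Set G))).resolve_left hN
          have hDH : D ≤ H := Subgroup.le_normalizer.trans hNH
          obtain ⟨h, hh⟩ := hall H hH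
          rcases hh with hh | hh
          · have h5 : Nat.card D ∣ Nat.card H := Subgroup.card_dvd_of_le hDH
            have h6 : Nat.card H * M₁.index = Nat.card G := by
              rw [← index_conj M₁ h, ← hh, Subgroup.card_mul_index]
            have h7 : Nat.card D * p ^ k ∣ Nat.card G := by
              rw [← h6]; exact mul_dvd_mul h5 hk
            obtain ⟨j, hj⟩ := IsPGroup.iff_card.1 hDp
            rw [hj, ← pow_add] at h7 ⊢
            exact P.pow_dvd_card_of_pow_dvd_card h7
          · exfalso
            have claim : ∀ c : G, D ≤ MulAut.conj c • K → MulAut.conj c • K = H := by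
              intro c hc
              by_contra hcH
              have hCi : ¬ p ∣ (MulAut.conj c • K).index := by rwa [index_conj]
              obtain ⟨S, hDS, hSC⟩ := exists_sylow_le _ D hCi hc hDp
              -- the normalizer of `D` in `S`
              have h8 : (Subgroup.normalizer (D : Set G) ⊓ (S : Subgroup G)) ∈ 𝒟 := by
                refine ⟨IsPGroup.to_le (S.isPGroup') inf_le_right, c, h, ?_, ?_, ?_⟩
                · rw [← hh]; exact hcH
                · exact inf_le_right.trans hSC
                · rw [← hh]; exact inf_le_left.trans hNH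
              have h9 := hmax _ h8
              have h10 : D ≤ Subgroup.normalizer (D : Set G) ⊓ (S : Subgroup G) :=
                le_inf Subgroup.le_normalizer hDS
              have h11 : D = Subgroup.normalizer (D : Set G) ⊓ (S : Subgroup G) :=
                Subgroup.eq_of_le_of_card_ge h10 h9
              -- hence `D = S`
              have h12 : D = (S : Subgroup G) := by
                by_contra hDSne
                have hlt : D.subgroupOf (S : Subgroup G) < ⊤ := by
                  refine lt_top_iff_ne_top.2 fun h => hDSne (le_antisymm hDS ?_)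
                  exact Subgroup.subgroupOf_eq_top.1 h
                haveI : Group.IsNilpotent (S : Subgroup G) := IsPGroup.isNilpotent S.isPGroup'
                have h13 := Group.normalizerCondition_of_isNilpotent (G := (S : Subgroup G)) _ hlt
                obtain ⟨x, hx, hx'⟩ := SetLike.exists_of_lt h13
                apply hx'
                rw [Subgroup.mem_subgroupOf, h11]
                refine Subgroup.mem_inf.2 ⟨?_, x.2⟩
                rw [Subgroup.mem_normalizer_iff] at hx ⊢
                intro y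
                constructor
                · intro hy
                  have := (hx ⟨y, hDS hy⟩).1 (Subgroup.mem_subgroupOf.2 hy)
                  exact Subgroup.mem_subgroupOf.1 this
                · intro hy
                  have hy2 : y ∈ (S : Subgroup G) := by
                    have h14 := hDS hy
                    have h15 : y = (x : G)⁻¹ * ((x : G) * y * (x : G)⁻¹) * (x : G) := by group
                    rw [h15]
                    exact (S : Subgroup G).mul_mem ((S : Subgroup G).mul_mem
                      ((S : Subgroup G).inv_mem x.2) h14) x.2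
                  have := (hx ⟨y, hy2⟩).2 (Subgroup.mem_subgroupOf.2 hy)
                  exact Subgroup.mem_subgroupOf.1 this
              -- conj `c K = conj x H`
              have h16 : MulAut.conj (c * h⁻¹) • H = MulAut.conj c • K := by
                rw [hh, conj_conj, inv_mul_cancel_right]
              have h17a : ((MulAut.conj (c * h⁻¹) • S : Sylow p G) : Subgroup G)
                  = MulAut.conj (c * h⁻¹) • (S : Subgroup G) := rfl
              have h17 : ((MulAut.conj (c * h⁻¹) • S : Sylow p G) : Subgroup G) ≤ MulAut.conj c • K := by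
                rw [← h16, h17a, ← h12]
                exact Subgroup.pointwise_smul_le_pointwise_smul_iff.2 hDH
              obtain ⟨y, hyC, hy⟩ := conj_in _ S _ hSC h17
              rw [h17a, ← h12] at hy
              have h18 : MulAut.conj (y⁻¹ * (c * h⁻¹)) • D = D := by
                rw [← conj_conj, ← hy, conj_conj, inv_mul_cancel, map_one, one_smul]
              have h19 := hNH (mem_normalizer_of_conj h18)
              have h20 : MulAut.conj (y⁻¹ * (c * h⁻¹)) • H = H := Subgroup.conj_smul_eq_self_of_mem h19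
              rw [← conj_conj, h16, Subgroup.conj_smul_eq_self_of_mem (Subgroup.inv_mem _ hyC)] at h20
              exact hcH h20
            exact hab ((claim a hDa).trans (claim b hDb).symm)
      intro E hE
      have h3 := hmax E hE
      obtain ⟨i, hi⟩ := IsPGroup.iff_card.1 hE.1
      obtain ⟨j, hj⟩ := IsPGroup.iff_card.1 hDp
      have h4 : Nat.card E ∣ Nat.card D := by
        rw [hi, hj] at h3 ⊢
        exact pow_dvd_pow p ((Nat.pow_le_pow_iff_right hp.one_lt).1 h3)
      exact (mul_dvd_mul_right h4 _).trans key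
    · intro E hE
      exact absurd ⟨E, hE⟩ hne
  have hmod := card_mod (P := (P : Subgroup G)) (X := G ⧸ K) ((1 : G) : G ⧸ K) (by
    intro q
    change (((q : G) * (1 : G) : G) : G ⧸ K) = _
    rw [QuotientGroup.eq]
    simp only [mul_one]
    exact K.inv_mem (hPK q.2)) (p ^ k) (by
    intro x hx
    induction x using QuotientGroup.induction_on with
    | H g =>
      have hg : g ∉ K := by
        intro h
        apply hx
        rw [QuotientGroup.eq]
        simpa using K.inv_mem h
      set T := MulAction.stabilizer (P : Subgroup G) ((g : G) : G ⧸ K) with hT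
      have hTE : T.map (P : Subgroup G).subtype ∈ 𝒟 := by
        refine ⟨?_, 1, g, ?_, ?_, ?_⟩
        · exact IsPGroup.to_le (P.isPGroup') (Subgroup.map_subtype_le _)
        · rw [map_one, one_smul]
          exact fun h => hg (hnK g h.symm)
        · rw [map_one, one_smul]
          exact (Subgroup.map_subtype_le _).trans hPK
        · rintro _ ⟨x, hx, rfl⟩
          have hx2 : (((x : G) * g : G) : G ⧸ K) = ((g : G) : G ⧸ K) := hx
          rw [QuotientGroup.eq] at hx2
          rw [Subgroup.mem_pointwise_smul_iff_inv_smul_mem]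
          have hx3 := K.inv_mem hx2
          simp only [Subgroup.coe_subtype, ← map_inv, MulAut.smul_def, MulAut.conj_apply, inv_inv]
          convert hx3 using 1
          group
      have h3 := hcard _ hTE
      have h4 : Nat.card (T.map (P : Subgroup G).subtype) = Nat.card T :=
        Nat.card_congr (T.equivMapOfInjective _ (Subgroup.subtype_injective _)).symm.toEquiv
      rw [h4, ← Subgroup.card_mul_index T] at h3
      exact Nat.dvd_of_mul_dvd_mul_left Nat.card_pos h3)
  rwa [← Subgroup.index_eq_card] at hmod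

theorem simple_dvd {G : Type*} [Group G] [Finite G] [IsSimpleGroup G] (hns : ¬ Group.IsSolvable G)
    (M₁ M₂ : Subgroup G) (h1 : IsCoatom M₁) (h2 : IsCoatom M₂)
    (hall : ∀ M : Subgroup G, IsCoatom M → ∃ g : G, M = MulAut.conj g • M₁ ∨ M = MulAut.conj g • M₂) :
    M₁.index ∣ M₂.index - 1 := by
  rw [Nat.dvd_iff_prime_pow_dvd_dvd]
  intro p k hp hk
  haveI : Fact p.Prime := ⟨hp⟩
  rcases Nat.eq_zero_or_pos k with h0 | h0
  · simp [h0]
  have hp1 : p ∣ M₁.index := (dvd_pow_self p h0.ne').trans hk
  obtain ⟨P⟩ : Nonempty (Sylow p G) := inferInstance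
  have hPtop : (P : Subgroup G) ≠ ⊤ := by
    intro h
    apply hns
    haveI : Group.IsNilpotent (P : Subgroup G) := IsPGroup.isNilpotent P.isPGroup'
    haveI : Group.IsSolvable (P : Subgroup G) := inferInstance
    have e : (P : Subgroup G) ≃* G := (MulEquiv.subgroupCongr h).trans Subgroup.topEquiv
    exact Group.isSolvable_of_surjective (f := e.toMonoidHom) e.surjective
  obtain ⟨H, hH, hPH⟩ := (eq_top_or_exists_le_coatom (P : Subgroup G)).resolve_left hPtop
  obtain ⟨g, hg | hg⟩ := hall H hH
  · exfalso
    apply P.not_dvd_index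
    refine dvd_trans ?_ (Subgroup.index_dvd_of_le hPH)
    rwa [hg, index_conj]
  · have := core hns M₁ (MulAut.conj g • M₂) h1 (coatom_conj h2 g) (by
      intro M hM
      obtain ⟨x, hx | hx⟩ := hall M hM
      · exact ⟨x, Or.inl hx⟩
      · refine ⟨x * g⁻¹, Or.inr ?_⟩
        rw [conj_conj, inv_mul_cancel_right, hx]) hp1 P (hg ▸ hPH) k hk
    rwa [index_conj] at this

theorem simple_false {G : Type*} [Group G] [Finite G] [IsSimpleGroup G] (hns : ¬ Group.IsSolvable G)
    (M₁ M₂ : Subgroup G) (h1 : IsCoatom M₁) (h2 : IsCoatom M₂)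
    (hall : ∀ M : Subgroup G, IsCoatom M → ∃ g : G, M = MulAut.conj g • M₁ ∨ M = MulAut.conj g • M₂) :
    False := by
  have a := simple_dvd hns M₁ M₂ h1 h2 hall
  have b := simple_dvd hns M₂ M₁ h2 h1 (fun M hM => by
    obtain ⟨g, hg⟩ := hall M hM
    exact ⟨g, hg.symm⟩)
  have c := Subgroup.one_lt_index_of_ne_top h1.1
  have d := Subgroup.one_lt_index_of_ne_top h2.1
  have e := Nat.le_of_dvd (by omega) a
  have f := Nat.le_of_dvd (by omega) b
  omega

/-- At most two conjugacy classes of maximal subgroups. -/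
def Two (G : Type u) [Group G] : Prop :=
  ∃ M₁ M₂ : Subgroup G, ∀ M : Subgroup G, IsCoatom M →
    ∃ g : G, M = MulAut.conj g • M₁ ∨ M = MulAut.conj g • M₂

theorem simple_two {G : Type u} [Group G] [Finite G] [IsSimpleGroup G] (h : Two G) :
    Group.IsSolvable G := by
  by_contra hns
  obtain ⟨M₁, M₂, hall⟩ := h
  have hne : (⊥ : Subgroup G) ≠ ⊤ := bot_ne_top
  obtain ⟨M₀, hM₀, -⟩ := (eq_top_or_exists_le_coatom (⊥ : Subgroup G)).resolve_left hne
  have inv : ∀ (A B : Subgroup G) (g : G), A = MulAut.conj g • B → IsCoatom A → IsCoatom B := by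
    intro A B g hAB hA
    have : B = MulAut.conj g⁻¹ • A := by rw [hAB, conj_conj, inv_mul_cancel, map_one, one_smul]
    rw [this]
    exact coatom_conj hA _
  by_cases h1 : IsCoatom M₁
  · by_cases h2 : IsCoatom M₂
    · exact simple_false hns M₁ M₂ h1 h2 hall
    · refine simple_false hns M₁ M₁ h1 h1 fun M hM => ?_
      obtain ⟨g, hg | hg⟩ := hall M hM
      · exact ⟨g, Or.inl hg⟩
      · exact absurd (inv _ _ _ hg hM) h2
  · by_cases h2 : IsCoatom M₂
    · refine simple_false hns M₂ M₂ h2 h2 fun M hM => ?_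
      obtain ⟨g, hg | hg⟩ := hall M hM
      · exact absurd (inv _ _ _ hg hM) h1
      · exact ⟨g, Or.inl hg⟩
    · obtain ⟨g, hg | hg⟩ := hall M₀ hM₀
      · exact h1 (inv _ _ _ hg hM₀)
      · exact h2 (inv _ _ _ hg hM₀)

theorem two_quot {G : Type u} [Group G] (h : Two G) (N : Subgroup G) [N.Normal] : Two (G ⧸ N) := by
  obtain ⟨M₁, M₂, hall⟩ := h
  refine ⟨M₁.map (QuotientGroup.mk' N), M₂.map (QuotientGroup.mk' N), fun M hM => ?_⟩
  have hs : Function.Surjective (QuotientGroup.mk' N) := QuotientGroup.mk'_surjective N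
  have h1 : IsCoatom (M.comap (QuotientGroup.mk' N)) := by
    constructor
    · intro h
      apply hM.1
      have := congrArg (Subgroup.map (QuotientGroup.mk' N)) h
      rwa [Subgroup.map_comap_eq_self_of_surjective hs, Subgroup.map_top_of_surjective _ hs] at this
    · intro L hL
      have h2 : M < L.map (QuotientGroup.mk' N) := by
        refine lt_of_le_of_ne ?_ ?_
        · rw [← Subgroup.map_comap_eq_self_of_surjective hs M]
          exact Subgroup.map_mono hL.le
        · intro h3
          apply hL.ne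
          have hk : (QuotientGroup.mk' N).ker ≤ L := by
            refine le_trans ?_ hL.le
            exact (Subgroup.ker_le_comap _ _)
          rw [h3, Subgroup.comap_map_eq_self hk]
      have h3 := hM.2 _ h2
      have hk : (QuotientGroup.mk' N).ker ≤ L := by
        refine le_trans ?_ hL.le
        exact (Subgroup.ker_le_comap _ _)
      rw [← Subgroup.comap_map_eq_self hk, h3, Subgroup.comap_top]
  have hmap : ∀ (A : Subgroup G) (g : G), (MulAut.conj g • A).map (QuotientGroup.mk' N) =
      MulAut.conj (g : G ⧸ N) • (A.map (QuotientGroup.mk' N)) := by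
    intro A g
    ext y
    constructor
    · rintro ⟨_, ⟨a, ha, rfl⟩, rfl⟩
      exact ⟨(a : G ⧸ N), ⟨a, ha, rfl⟩, rfl⟩
    · rintro ⟨_, ⟨a, ha, rfl⟩, rfl⟩
      exact ⟨_, ⟨a, ha, rfl⟩, rfl⟩
  obtain ⟨g, hg⟩ := hall _ h1
  refine ⟨(g : G ⧸ N), ?_⟩
  rcases hg with hg | hg
  · left
    rw [← hmap, ← hg, Subgroup.map_comap_eq_self_of_surjective hs]
  · right
    rw [← hmap, ← hg, Subgroup.map_comap_eq_self_of_surjective hs]

theorem index_of_sup {G : Type*} [Group G] [Finite G] (H N : Subgroup G) [N.Normal]
    (h : H ⊔ N = ⊤) : H.relIndex N = H.index := by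
  have h1 : N.relIndex H = N.index := by
    rw [← Subgroup.relIndex_sup_right (H := H) (K := N), h, Subgroup.relIndex_top_right]
  have h2 : Nat.card (H ⊓ N : Subgroup G) * H.relIndex N = Nat.card N := by
    rw [← Subgroup.inf_relIndex_right, ← Subgroup.relIndex_bot_left, ← Subgroup.relIndex_bot_left]
    exact Subgroup.relIndex_mul_relIndex _ _ _ bot_le inf_le_right
  have h3 : Nat.card (H ⊓ N : Subgroup G) * N.relIndex H = Nat.card H := by
    rw [← Subgroup.inf_relIndex_left, ← Subgroup.relIndex_bot_left, ← Subgroup.relIndex_bot_left]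
    exact Subgroup.relIndex_mul_relIndex _ _ _ bot_le inf_le_left
  have h4 := Subgroup.card_mul_index H
  have h5 := Subgroup.card_mul_index N
  have hpos : 0 < Nat.card (H ⊓ N : Subgroup G) := Nat.card_pos
  have hpos2 : 0 < N.index := Nat.pos_of_ne_zero Subgroup.index_ne_zero_of_finite
  apply Nat.eq_of_mul_eq_mul_left (Nat.mul_pos hpos hpos2)
  calc Nat.card (H ⊓ N : Subgroup G) * N.index * H.relIndex N
      = (Nat.card (H ⊓ N : Subgroup G) * H.relIndex N) * N.index := by ring
    _ = Nat.card G := by rw [h2, h5]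
    _ = (Nat.card (H ⊓ N : Subgroup G) * N.relIndex H) * H.index := by rw [h3, h4]
    _ = _ := by rw [h1]

theorem two_solvable_aux (n : ℕ) : ∀ (G : Type u) [Group G] [Finite G], Nat.card G = n → Two G →
    Group.IsSolvable G := by
  induction n using Nat.strong_induction_on with
  | _ n ih =>
    intro G _ _ hn hT
    rcases subsingleton_or_nontrivial G with hss | hnt
    · infer_instance
    by_contra hns
    have hnsimp : ¬ IsSimpleGroup G := fun h => hns (@simple_two G _ _ h hT)
    have hN : ∃ N : Subgroup G, N.Normal ∧ N ≠ ⊥ ∧ N ≠ ⊤ := by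
      by_contra hcon
      push Not at hcon
      exact hnsimp ⟨fun H hH => by
        by_cases h : H = ⊥
        · exact Or.inl h
        · exact Or.inr (hcon H hH h)⟩
    have hquot : ∀ N : Subgroup G, ∀ [N.Normal], N ≠ ⊥ → Group.IsSolvable (G ⧸ N) := by
      intro N _ hN
      refine ih (Nat.card (G ⧸ N)) ?_ (G ⧸ N) rfl (two_quot hT N)
      rw [← hn, ← Subgroup.index_eq_card, ← Subgroup.card_mul_index N]
      have h1 : 1 < Nat.card N := Subgroup.one_lt_card_iff_ne_bot N |>.2 hN
      have h2 : 0 < N.index := Nat.pos_of_ne_zero Subgroup.index_ne_zero_of_finite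
      nlinarith
    have hnosol : ∀ N : Subgroup G, ∀ [N.Normal], N ≠ ⊥ → ¬ Group.IsSolvable N := by
      intro N _ hN hs
      apply hns
      haveI := hquot N hN
      exact Group.isSolvable_of_ker_le_range N.subtype (QuotientGroup.mk' N) (by simp)
    obtain ⟨N, hNn, hNb, hNt⟩ := hN
    -- coatoms not containing `N`, one for each prime dividing `|N|`
    have hr : ∀ r : ℕ, r.Prime → r ∣ Nat.card N → ∃ H : Subgroup G, IsCoatom H ∧ ¬ N ≤ H ∧
        H.index ∣ Nat.card N ∧ ¬ r ∣ H.index := by
      intro r hrp hrN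
      haveI : Fact r.Prime := ⟨hrp⟩
      obtain ⟨R⟩ : Nonempty (Sylow r N) := inferInstance
      set R' := (R : Subgroup N).map N.subtype with hR'
      have hRb : R' ≠ ⊥ := by
        intro h
        have h1 : (R : Subgroup N) = ⊥ := by
          rwa [hR', Subgroup.map_eq_bot_iff_of_injective _ N.subtype_injective] at h
        have h2 := R.not_dvd_index
        rw [h1, Subgroup.index_bot] at h2
        exact h2 hrN
      have hRn : Subgroup.normalizer (R' : Set G) ≠ ⊤ := by
        intro h
        haveI : R'.Normal := Subgroup.normalizer_eq_top_iff.1 h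
        apply hnosol R' hRb
        haveI : Group.IsNilpotent R' := IsPGroup.isNilpotent (R.isPGroup'.map _)
        infer_instance
      obtain ⟨H, hH, hNH⟩ := (eq_top_or_exists_le_coatom _).resolve_left hRn
      have hsup : H ⊔ N = ⊤ := by
        rw [eq_top_iff, ← Sylow.normalizer_sup_eq_top R]
        exact sup_le_sup_right hNH N
      have hidx := index_of_sup H N hsup
      refine ⟨H, hH, ?_, ?_, ?_⟩
      · intro h
        rw [sup_of_le_left h] at hsup
        exact hH.1 hsup
      · rw [← hidx]
        exact Subgroup.relIndex_dvd_card _ _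
      · rw [← hidx]
        intro h
        apply R.not_dvd_index
        refine h.trans ?_
        refine Subgroup.index_dvd_of_le (H := (R : Subgroup N)) (K := H.subgroupOf N) ?_
        intro x hx
        exact Subgroup.mem_subgroupOf.2 (hNH (Subgroup.le_normalizer ⟨x, hx, rfl⟩))
    obtain ⟨M₁, M₂, hall⟩ := hT
    obtain ⟨M, hM, hNM⟩ := (eq_top_or_exists_le_coatom N).resolve_left hNt
    have hK : ∃ K : Subgroup G, ∀ H : Subgroup G, IsCoatom H → ¬ N ≤ H → ∃ g : G, H = MulAut.conj g • K := by
      have hc : ∀ (A H : Subgroup G) (g g' : G), M = MulAut.conj g • A → H = MulAut.conj g' • A → N ≤ H := by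
        intro A H g g' h1 h2
        have h3 : H = MulAut.conj (g' * g⁻¹) • M := by rw [h1, conj_conj, inv_mul_cancel_right, h2]
        rw [h3, ← Subgroup.Normal.conj_smul_eq_self (g' * g⁻¹) N]
        exact Subgroup.pointwise_smul_le_pointwise_smul_iff.2 hNM
      obtain ⟨g, hg | hg⟩ := hall M hM
      · refine ⟨M₂, fun H hH hNH => ?_⟩
        obtain ⟨g', h | h⟩ := hall H hH
        · exact absurd (hc _ _ _ _ hg h) hNH
        · exact ⟨g', h⟩
      · refine ⟨M₁, fun H hH hNH => ?_⟩
        obtain ⟨g', h | h⟩ := hall H hH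
        · exact ⟨g', h⟩
        · exact absurd (hc _ _ _ _ hg h) hNH
    obtain ⟨K, hK⟩ := hK
    have hcN : Nat.card N ≠ 1 := fun h => hNb (Subgroup.card_eq_one.1 h)
    obtain ⟨H₀, hH₀, hNH₀, hd₀, -⟩ := hr _ (Nat.minFac_prime hcN) (Nat.minFac_dvd _)
    obtain ⟨g₀, hg₀⟩ := hK H₀ hH₀ hNH₀
    have hi₀ : H₀.index = K.index := by rw [hg₀, index_conj]
    have hK1 : K.index ≠ 1 := by
      rw [← hi₀]
      exact fun h => hH₀.1 (Subgroup.index_eq_one.1 h)
    obtain ⟨H₁, hH₁, hNH₁, hd₁, hn₁⟩ := hr K.index.minFac (Nat.minFac_prime hK1)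
      ((Nat.minFac_dvd _).trans (hi₀ ▸ hd₀))
    obtain ⟨g₁, hg₁⟩ := hK H₁ hH₁ hNH₁
    apply hn₁
    rw [hg₁, index_conj]
    exact Nat.minFac_dvd _

theorem two_solvable {G : Type u} [Group G] [Finite G] (h : Two G) : Group.IsSolvable G :=
  two_solvable_aux _ G rfl h

/-- In a solvable group each prime divisor gives a maximal subgroup of index a power of it. -/
theorem exists_coatom_prime {G : Type u} [Group G] [Finite G] [Group.IsSolvable G] {p : ℕ}
    (hp : p.Prime) (hpG : p ∣ Nat.card G) : ∃ H : Subgroup G, IsCoatom H ∧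
      ∃ j, j ≠ 0 ∧ H.index = p ^ j := by
  have hG : Nat.card G ≠ 0 := Nat.card_pos.ne'
  have h1 : Nat.card G = (ordCompl[p] (Nat.card G)) * (ordProj[p] (Nat.card G)) := by
    rw [mul_comm, Nat.ordProj_mul_ordCompl_eq_self]
  have h2 : (ordCompl[p] (Nat.card G)).Coprime (ordProj[p] (Nat.card G)) :=
    Nat.Coprime.symm (Nat.Coprime.pow_left _ (Nat.coprime_ordCompl hp hG))
  obtain ⟨L, hL⟩ := Cfsg.Agent.Hall.hall_exists _ _ h1 h2
  have hLi : L.index = ordProj[p] (Nat.card G) := by
    have h3 := Subgroup.card_mul_index L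
    rw [hL] at h3
    exact Nat.eq_of_mul_eq_mul_left (Nat.ordCompl_pos p hG) (h3.trans h1)
  have hLt : L ≠ ⊤ := by
    intro h
    rw [h, Subgroup.index_top] at hLi
    have h3 : 0 < (Nat.card G).factorization p := hp.factorization_pos_of_dvd hG hpG
    have h4 : 1 < p ^ (Nat.card G).factorization p := Nat.one_lt_pow h3.ne' hp.one_lt
    omega
  obtain ⟨H, hH, hLH⟩ := (eq_top_or_exists_le_coatom L).resolve_left hLt
  refine ⟨H, hH, ?_⟩
  have h3 := Subgroup.index_dvd_of_le hLH
  rw [hLi] at h3
  obtain ⟨j, -, hj⟩ := (Nat.dvd_prime_pow hp).1 h3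
  refine ⟨j, ?_, hj⟩
  rintro rfl
  rw [pow_zero] at hj
  exact hH.1 (Subgroup.index_eq_one.1 hj)

/-- A `p`-group whose maximal subgroups are all equal to one of two has only one. -/
theorem pgroup_case {G : Type u} [Group G] [Finite G] {p : ℕ} [Fact p.Prime] (hG : IsPGroup p G)
    (M₁ M₂ : Subgroup G) (h1 : IsCoatom M₁) (h2 : IsCoatom M₂)
    (hall : ∀ M : Subgroup G, IsCoatom M → M = M₁ ∨ M = M₂) : M₁ = M₂ := by
  by_contra hne
  have hp : p.Prime := Fact.out
  have a : ¬ M₁ ≤ M₂ := fun h => hne ((h1.le_iff.1 h).elim (fun h' => absurd h' h2.1) fun h' => h'.symm)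
  have b : ¬ M₂ ≤ M₁ := fun h => hne ((h2.le_iff.1 h).elim (fun h' => absurd h' h1.1) id)
  obtain ⟨x, hx1, hx2⟩ := SetLike.not_le_iff_exists.1 a
  obtain ⟨y, hy2, hy1⟩ := SetLike.not_le_iff_exists.1 b
  have h3 : x * y ∉ M₁ := fun h => hy1 ((M₁.mul_mem_cancel_left hx1).1 h)
  have h4 : x * y ∉ M₂ := fun h => hx2 ((M₂.mul_mem_cancel_right hy2).1 h)
  have htop : Subgroup.zpowers (x * y) = ⊤ := by
    by_contra hcon
    obtain ⟨H, hH, hLH⟩ := (eq_top_or_exists_le_coatom _).resolve_left hcon
    have h5 := hLH (Subgroup.mem_zpowers (x * y))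
    rcases hall H hH with h | h
    · exact h3 (h ▸ h5)
    · exact h4 (h ▸ h5)
  set z := x * y with hz
  have hLt : Subgroup.zpowers (z ^ p) ≠ ⊤ := by
    intro h
    have h5 : Nat.card (Subgroup.zpowers (z ^ p)) = Nat.card (Subgroup.zpowers z) := by rw [h, htop]
    rw [Nat.card_zpowers, Nat.card_zpowers] at h5
    obtain ⟨k, hk⟩ := IsPGroup.iff_orderOf.1 hG z
    have hk0 : k ≠ 0 := by
      rintro rfl
      rw [pow_zero, orderOf_eq_one_iff] at hk
      exact h3 (hk ▸ M₁.one_mem)
    have h6 : p ∣ orderOf z := by rw [hk]; exact dvd_pow_self p hk0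
    rw [orderOf_pow_of_dvd hp.ne_zero h6] at h5
    have h7 : 0 < orderOf z := orderOf_pos z
    have h8 := Nat.div_lt_self h7 hp.one_lt
    omega
  have hM : ∀ M : Subgroup G, IsCoatom M → M = Subgroup.zpowers (z ^ p) := by
    intro M hM
    have h5 : M ≤ Subgroup.zpowers (z ^ p) := by
      intro w hw
      have h6 : w ∈ Subgroup.zpowers z := htop ▸ Subgroup.mem_top w
      obtain ⟨i, rfl⟩ := Subgroup.mem_zpowers_iff.1 h6
      by_cases hpi : (p : ℤ) ∣ i
      · obtain ⟨c, rfl⟩ := hpi
        rw [zpow_mul, zpow_natCast]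
        exact Subgroup.zpow_mem _ (Subgroup.mem_zpowers _) c
      · exfalso
        apply hM.1
        obtain ⟨k, hk⟩ := IsPGroup.iff_orderOf.1 hG z
        have h7 : IsCoprime i ((p ^ k : ℕ) : ℤ) := by
          rw [Nat.cast_pow]
          apply IsCoprime.pow_right
          rw [isCoprime_comm]
          exact (Prime.coprime_iff_not_dvd (Nat.prime_iff_prime_int.1 hp)).2 hpi
        obtain ⟨u, v, huv⟩ := h7
        rw [eq_top_iff, ← htop, Subgroup.zpowers_le]
        have h8 : z = (z ^ i) ^ u := by
          rw [← zpow_mul]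
          conv_lhs => rw [← zpow_one z, ← huv, zpow_add, mul_comm u i, mul_comm v, zpow_mul z _ v,
            zpow_natCast, ← hk, pow_orderOf_eq_one, one_zpow, mul_one]
        rw [h8]
        exact M.zpow_mem hw u
    rcases hM.le_iff.1 h5 with h | h
    · exact absurd h hLt
    · exact h.symm
  exact hne ((hM M₁ h1).trans (hM M₂ h2).symm)

theorem main {G : Type u} [Group G] [Finite G]
    (M₁ M₂ : Subgroup G) (h1 : IsCoatom M₁) (h2 : IsCoatom M₂) (hne : ∀ g : G, M₂ ≠ MulAut.conj g • M₁)
    (hall : ∀ M : Subgroup G, IsCoatom M → ∃ g : G, M = MulAut.conj g • M₁ ∨ M = MulAut.conj g • M₂) :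
    Group.IsSolvable G ∧ (Nat.card G).primeFactors.card = 2 := by
  have hs : Group.IsSolvable G := two_solvable ⟨M₁, M₂, hall⟩
  refine ⟨hs, ?_⟩
  have hG : Nat.card G ≠ 0 := Nat.card_pos.ne'
  have hsub : (Nat.card G).primeFactors ⊆ {M₁.index.minFac, M₂.index.minFac} := by
    intro p hp
    rw [Nat.mem_primeFactors] at hp
    obtain ⟨H, hH, j, hj, hi⟩ := exists_coatom_prime hp.1 hp.2.1
    rw [Finset.mem_insert, Finset.mem_singleton]
    obtain ⟨g, hg | hg⟩ := hall H hH
    · left
      rw [hg, index_conj] at hi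
      rw [hi, hp.1.pow_minFac hj]
    · right
      rw [hg, index_conj] at hi
      rw [hi, hp.1.pow_minFac hj]
  have hle : (Nat.card G).primeFactors.card ≤ 2 := (Finset.card_le_card hsub).trans Finset.card_le_two
  refine le_antisymm hle ?_
  by_contra hlt
  have h12 : M₁ ≠ M₂ := by
    intro h
    apply hne 1
    rw [map_one, one_smul, h]
  have hG1 : Nat.card G ≠ 1 := by
    intro h
    rw [Nat.card_eq_one_iff_unique] at h
    haveI := h.1
    exact h1.1 (Subsingleton.elim _ _)
  have hne' : (Nat.card G).primeFactors.card ≠ 0 := by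
    rw [Ne, Finset.card_eq_zero, Nat.primeFactors_eq_empty]
    omega
  have hone : (Nat.card G).primeFactors.card = 1 := by omega
  obtain ⟨p, hp⟩ := Finset.card_eq_one.1 hone
  have hpp : p.Prime := by
    have : p ∈ (Nat.card G).primeFactors := by rw [hp]; exact Finset.mem_singleton_self p
    exact Nat.prime_of_mem_primeFactors this
  haveI : Fact p.Prime := ⟨hpp⟩
  have hPG : IsPGroup p G := by
    apply IsPGroup.of_card (n := (Nat.card G).factorization p)
    conv_lhs => rw [← Nat.prod_factorization_pow_eq_self hG]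
    rw [Finsupp.prod, Nat.support_factorization, hp, Finset.prod_singleton]
  haveI : Group.IsNilpotent G := hPG.isNilpotent
  have hn : ∀ M : Subgroup G, IsCoatom M → M.Normal := fun M hM =>
    Subgroup.NormalizerCondition.normal_of_coatom M Group.normalizerCondition_of_isNilpotent hM
  haveI := hn M₁ h1
  haveI := hn M₂ h2
  apply h12
  apply pgroup_case hPG M₁ M₂ h1 h2
  intro M hM
  obtain ⟨g, hg | hg⟩ := hall M hM
  · left; rw [hg, Subgroup.Normal.conj_smul_eq_self]
  · right; rw [hg, Subgroup.Normal.conj_smul_eq_self]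

end Cfsg.Agent.H69.TwoMax
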